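import Cfsg.Agent.Lib.R3U.Def

/-! S2196: toolkit for transvections and Eichler transformations (wrappers of Lib/Unitary Center, Simple, Eichler, Transv). -/

set_option autoImplicit false

namespace Cfsg.Lib.R3U

open Cfsg.Lib.Unitary Cfsg.Lib.R3S Module Submodule MulAction

variable {F V : Type*} [Field F] [AddCommGroup V] [Module F V] {σ : F →+* F}
  {B : V →ₛₗ[σ] V →ₗ[F] F} {q n : ℕ} [Finite F] [Finite V] {H : Subgroup (SUG B)}

section basic
omit [Finite F] [Finite V]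

theorem ext' {g h : SUG B} (e : ∀ x, g.1 x = h.1 x) : g = h := Subtype.ext (LinearEquiv.ext e)

theorem mul_app (g h : SUG B) (x : V) : (g * h).1 x = g.1 (h.1 x) := rfl

theorem one_app (x : V) : (1 : SUG B).1 x = x := rfl

theorem app_inv (g : SUG B) (x : V) : g.1 ((g⁻¹).1 x) = x := g.1.apply_symm_apply x

theorem inv_app (g : SUG B) (x : V) : (g⁻¹).1 (g.1 x) = x := g.1.symm_apply_apply x

theorem app_ne (g : SUG B) {x : V} (h : x ≠ 0) : g.1 x ≠ 0 := g.1.map_ne_zero_iff.2 h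

theorem b_app (g : SUG B) (x y : V) : B (g.1 x) (g.1 y) = B x y := g.2.1 x y

theorem b_inv (g : SUG B) (x y : V) : B x ((g⁻¹).1 y) = B (g.1 x) y := by
  rw [← b_app g, app_inv]

theorem mem_ln {g : SUG B} {v : V} : v ∈ ln g ↔ ∃ x, g.1 x - x = v := Iff.rfl

theorem Pt.app {v : V} (h : Pt B v) (g : SUG B) : Pt B (g.1 v) := ⟨app_ne g h.1, (b_app g v v).trans h.2⟩

theorem Pt.smul {v : V} (h : Pt B v) {a : F} (ha : a ≠ 0) : Pt B (a • v) :=
  ⟨smul_ne_zero ha h.1, by simp [h.2]⟩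

theorem Tv.eq {g g' : SUG B} {u : V} {c : F} (a : Tv g u c) (b : Tv g' u c) : g = g' :=
  ext' fun x => (a x).trans (b x).symm

theorem tv_one (u : V) : Tv (1 : SUG B) u 0 := fun x => by simp

theorem Tv.fix {g : SUG B} {u x : V} {c : F} (a : Tv g u c) (h : B u x = 0) : g.1 x = x := by
  simp [a x, h]

theorem Tv.mul {g g' : SUG B} {u : V} {c d : F} (hu : B u u = 0) (a : Tv g u c) (b : Tv g' u d) :
    Tv (g * g') u (c + d) := fun x => by
  rw [mul_app, a, b]; simp only [map_add, map_smul, hu]; module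

theorem Tv.inv {g : SUG B} {u : V} {c : F} (hu : B u u = 0) (a : Tv g u c) : Tv g⁻¹ u (-c) := fun x => by
  apply g.1.injective
  rw [app_inv, a]; simp only [map_add, map_smul, hu]; module

theorem Tv.conj {g : SUG B} {u : V} {c : F} (a : Tv g u c) (k : SUG B) : Tv (k * g * k⁻¹) (k.1 u) c :=
  fun x => by rw [mul_app, mul_app, a, map_add, map_smul, app_inv, b_inv]

theorem tv_smul {g : SUG B} {u : V} {a c : F} : Tv g (a • u) c ↔ Tv g u (c * (a * σ a)) := by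
  refine forall_congr' fun x => ?_
  rw [LinearMap.map_smulₛₗ₂, smul_smul, smul_eq_mul]
  ring_nf

theorem Tv.comm {g g' : SUG B} {u v : V} {c d : F} (a : Tv g u c) (b : Tv g' v d) (h : B v u = 0) :
    g' * g = g * g' := by
  have := (a.conj g').eq (g' := g) (by rw [b.fix h]; exact a)
  rwa [mul_inv_eq_iff_eq_mul] at this

theorem IsT.conj {g : SUG B} (a : IsT g) (k : SUG B) : IsT (k * g * k⁻¹) := by
  obtain ⟨u, c, hu, hc, t⟩ := a
  exact ⟨_, c, hu.app k, hc, t.conj k⟩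

theorem IsT.inv {g : SUG B} (a : IsT g) : IsT g⁻¹ := by
  obtain ⟨u, c, hu, hc, t⟩ := a
  exact ⟨u, -c, hu, neg_ne_zero.2 hc, t.inv hu.2⟩

theorem Ei.eq {g g' : SUG B} {e w : V} {γ : F} (a : Ei g e w γ) (b : Ei g' e w γ) : g = g' :=
  ext' fun x => (a x).trans (b x).symm

theorem ei_tv {g : SUG B} {e : V} {c : F} : Ei g e 0 c ↔ Tv g e c := by simp [Ei, Tv]

theorem Ei.conj {g : SUG B} {e w : V} {γ : F} (a : Ei g e w γ) (k : SUG B) :
    Ei (k * g * k⁻¹) (k.1 e) (k.1 w) γ := fun x => by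
  rw [mul_app, mul_app, a]; simp only [map_add, map_sub, map_smul, app_inv, b_inv]

theorem ei_add {g : SUG B} {e w : V} {a γ : F} : Ei g e (w + a • e) γ ↔ Ei g e w (γ + a - σ a) := by
  refine forall_congr' fun x => ?_
  rw [map_add, LinearMap.add_apply, LinearMap.map_smulₛₗ₂, smul_eq_mul]
  exact Eq.congr_right (by module)

theorem Qz.mul {g g' : SUG B} {z : V} (hz : B z z = 0) (a : Qz g z) (b : Qz g' z) : Qz (g * g') z := by
  refine ⟨by rw [mul_app, b.1, a.1], fun x hx => ?_⟩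
  obtain ⟨c, hc⟩ := a.2 x hx
  obtain ⟨d, hd⟩ := b.2 x hx
  exact ⟨c + d, by rw [mul_app, hd, map_add, map_smul, hc, a.1]; module⟩

theorem Qz.inv {g : SUG B} {z : V} (a : Qz g z) : Qz g⁻¹ z := by
  have e : (g⁻¹).1 z = z := by rw [← a.1, inv_app, a.1]
  refine ⟨e, fun x hx => ?_⟩
  obtain ⟨c, hc⟩ := a.2 x hx
  refine ⟨-c, ?_⟩
  have := inv_app g x
  rw [hc, map_add, map_smul, e] at this
  rw [← eq_sub_iff_add_eq] at this
  rw [this]; module

theorem Qz.conj {g : SUG B} {z : V} (a : Qz g z) (k : SUG B) : Qz (k * g * k⁻¹) (k.1 z) := by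
  refine ⟨by rw [mul_app, mul_app, inv_app, a.1], fun x hx => ?_⟩
  obtain ⟨c, hc⟩ := a.2 ((k⁻¹).1 x) (by rw [b_inv, hx])
  exact ⟨c, by rw [mul_app, mul_app, hc, map_add, map_smul, app_inv]⟩

theorem Ee.conj {g : SUG B} {z e : V} {b : F} (a : Ee g z e b) (k : SUG B) :
    Ee (k * g * k⁻¹) (k.1 z) (k.1 e) b := by
  obtain ⟨h1, h2, h3, h4, h5, h6⟩ := a
  refine ⟨by rw [b_app, h1], by rw [b_app, h2], fun m => h3 ?_, h4, by rw [mul_app, mul_app, inv_app, h5],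
    fun x hx => ?_⟩
  · obtain ⟨c, hc⟩ := mem_span_singleton.1 m
    exact mem_span_singleton.2 ⟨c, k.1.injective (by rw [map_smul, hc])⟩
  · obtain ⟨c, hc⟩ := h6 ((k⁻¹).1 x) (by rw [b_inv, hx])
    exact ⟨c, by rw [mul_app, mul_app, hc, map_add, map_add, map_smul, map_smul, app_inv, b_inv]⟩

theorem Rt.zero (v : V) : Rt H v 0 := ⟨1, H.one_mem, tv_one v⟩

theorem Rt.add {v : V} {c d : F} (hv : B v v = 0) (a : Rt H v c) (b : Rt H v d) : Rt H v (c + d) := by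
  obtain ⟨g, hg, a⟩ := a
  obtain ⟨g', hg', b⟩ := b
  exact ⟨_, H.mul_mem hg hg', a.mul hv b⟩

theorem Rt.neg {v : V} {c : F} (hv : B v v = 0) (a : Rt H v c) : Rt H v (-c) := by
  obtain ⟨g, hg, a⟩ := a
  exact ⟨_, H.inv_mem hg, a.inv hv⟩

theorem Rt.conj {v : V} {c : F} (a : Rt H v c) {k : SUG B} (hk : k ∈ H) : Rt H (k.1 v) c := by
  obtain ⟨g, hg, a⟩ := a
  exact ⟨_, H.mul_mem (H.mul_mem hk hg) (H.inv_mem hk), a.conj k⟩

theorem rt_smul {v : V} {a c : F} : Rt H (a • v) c ↔ Rt H v (c * (a * σ a)) := by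
  simp only [Rt, tv_smul]

theorem Rt.mem {v : V} {c : F} (a : Rt H v c) {g : SUG B} (t : Tv g v c) : g ∈ H := by
  obtain ⟨g', hg, a⟩ := a
  exact a.eq t ▸ hg

theorem Cen.conj {v : V} (a : Cen H v) {k : SUG B} (hk : k ∈ H) : Cen H (k.1 v) :=
  ⟨a.1.app k, a.2.imp fun _ c => ⟨c.1, c.2.conj hk⟩⟩

theorem Cen.smul {v : V} (c : Cen H v) {a : F} (ha : a ≠ 0) : Cen H (a • v) := by
  obtain ⟨h0, b, hb, h⟩ := c
  have : a * σ a ≠ 0 := mul_ne_zero ha ((map_ne_zero σ).2 ha)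
  exact ⟨h0.smul ha, b / (a * σ a), div_ne_zero hb this, by rwa [rt_smul, div_mul_cancel₀ _ this]⟩

theorem NoTv.rt (h : NoTv H) {v : V} {c : F} (hv : Pt B v) (a : Rt H v c) : c = 0 := by
  obtain ⟨g, hg, a⟩ := a
  exact by_contra fun hc => h g hg ⟨v, c, hv, hc, a⟩

theorem Rl.refl (u : V) : Rl H u u := ⟨1, H.one_mem, 1, by simp⟩

theorem Rl.symm {u v : V} (hu : u ≠ 0) (h : Rl H u v) : Rl H v u := by
  obtain ⟨g, hg, c, e⟩ := h
  have hc : c ≠ 0 := fun h0 => app_ne g hu (by simp [e, h0])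
  refine ⟨g⁻¹, H.inv_mem hg, c⁻¹, ?_⟩
  rw [← inv_app g u, e, map_smul, smul_smul, inv_mul_cancel₀ hc, one_smul]

theorem Rl.trans {u v w : V} (a : Rl H u v) (b : Rl H v w) : Rl H u w := by
  obtain ⟨g, hg, c, e⟩ := a
  obtain ⟨g', hg', c', e'⟩ := b
  exact ⟨g' * g, H.mul_mem hg' hg, c * c', by rw [mul_app, e, map_smul, e', smul_smul]⟩

/-- An invariant property of points is constant on orbits. -/
theorem Rl.imp {P : V → Prop} (h1 : ∀ g ∈ H, ∀ v, P v → P (g.1 v))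
    (h2 : ∀ (c : F) v, c ≠ 0 → P v → P (c • v)) {u v : V} (hu : u ≠ 0) (h : Rl H u v) (p : P u) : P v := by
  obtain ⟨g, hg, c, e⟩ := h
  have hc : c ≠ 0 := fun h0 => app_ne g hu (by simp [e, h0])
  simpa [e, smul_smul, inv_mul_cancel₀ hc] using h2 c⁻¹ _ (inv_ne_zero hc) (h1 g hg u p)

theorem Rl.cen {u v : V} (h : Rl H u v) (c : Cen H u) : Cen H v :=
  h.imp (fun _ hg _ a => a.conj hg) (fun _ _ hc a => a.smul hc) c.1.1 c

/-- With a centre and a non-centre there are exactly these two orbits. -/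
theorem N2.two (h : N2 H) {r z : V} (hr : Cen H r) (hz : Pt B z) (hz' : ¬ Cen H z) :
    (∀ u v, Cen H u → Cen H v → Rl H u v) ∧
      ∀ u v, Pt B u → Pt B v → ¬ Cen H u → ¬ Cen H v → Rl H u v := by
  refine ⟨fun u v a b => ?_, fun u v a b c d => ?_⟩
  · rcases h u v z a.1 b.1 hz with e | e | e
    exacts [e, absurd (e.cen a) hz', absurd (e.cen b) hz']
  · rcases h r u v hr.1 a b with e | e | e
    exacts [absurd (e.cen hr) c, absurd (e.cen hr) d, e]

end basic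

theorem finite_sug : Finite (SUG B) :=
  Finite.of_injective (fun g : SUG B => (g.1 : V → V)) fun _ _ e => ext' (congrFun e)

section herm
variable (h : IsHerm σ B)
include h

omit [Finite F] in
theorem ex_tv {u : V} {c : F} (hu : B u u = 0) (hc : c + σ c = 0) : ∃ g : SUG B, Tv g u c :=
  ⟨⟨_, h.transv_mem_SUG u c hu hc⟩, fun _ => rfl⟩

omit [Finite F] in
theorem ex_ei {e w : V} {γ : F} (he : B e e = 0) (hw : B e w = 0) (hγ : γ + σ γ + B w w = 0) :
    ∃ g : SUG B, Ei g e w γ :=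
  ⟨⟨_, h.eichler_mem_SUG he hw (h.eq_zero_comm.1 hw) hγ⟩, eichler_apply e w γ he hw (h.eq_zero_comm.1 hw)⟩

omit [Finite F] [Finite V]

theorem Tv.skew {g : SUG B} {u : V} {c : F} (hu : Pt B u) (a : Tv g u c) : c + σ c = 0 :=
  h.trace_zero_of_mem_UG g.2.1 hu.1 hu.2 a

theorem Tv.ne_one {g : SUG B} {u : V} {c : F} (hu : u ≠ 0) (hc : c ≠ 0) (a : Tv g u c) : g ≠ 1 := by
  rintro rfl
  obtain ⟨v, hv⟩ := h.exists_eq_one hu
  have := a v
  simp [hv, hc, hu] at this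

theorem IsT.ne_one {g : SUG B} (a : IsT g) : g ≠ 1 := by
  obtain ⟨u, c, hu, hc, t⟩ := a
  exact t.ne_one h hu.1 hc

/-- A transvection determines its centre. -/
theorem Tv.uniq {g : SUG B} {u u' : V} {c c' : F} (hu : u ≠ 0) (hc : c ≠ 0) (a : Tv g u c)
    (b : Tv g u' c') : ∃ k : F, k ≠ 0 ∧ u' = k • u ∧ c = c' * (k * σ k) := by
  obtain ⟨v, hv⟩ := h.exists_eq_one hu
  have e := (a v).symm.trans (b v)
  rw [add_right_inj, hv, mul_one] at e
  have n : c' * B u' v ≠ 0 := fun n => by simp [n, hc, hu] at e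
  have e' : u' = (c / (c' * B u' v)) • u := by
    rw [div_eq_inv_mul, ← smul_smul, e, smul_smul, inv_mul_cancel₀ n, one_smul]
  refine ⟨_, div_ne_zero hc n, e', ?_⟩
  rw [e', tv_smul] at b
  have e2 := (a v).symm.trans (b v)
  rw [add_right_inj, hv, mul_one, mul_one] at e2
  exact smul_left_injective F hu e2

theorem Ei.fix {g : SUG B} {e w : V} {γ : F} (he : B e e = 0) (hw : B e w = 0) (a : Ei g e w γ) :
    g.1 e = e := by simp [a e, he, h.eq_zero_comm.1 hw]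

theorem Ei.qz {g : SUG B} {e w : V} {γ : F} (he : B e e = 0) (hw : B e w = 0) (a : Ei g e w γ) :
    Qz g e := ⟨a.fix h he hw, fun x hx => ⟨-B w x, by rw [a, hx]; module⟩⟩

theorem Ei.param {g : SUG B} {e w : V} {γ : F} (he : Pt B e) (hw : B e w = 0) (a : Ei g e w γ) :
    γ + σ γ + B w w = 0 := h.gamma_eq_of_isEich he.2 he.1 hw g.2.1 a

theorem Ei.mul {g g' : SUG B} {e w w' : V} {γ γ' : F} (he : B e e = 0) (hw : B e w = 0) (hw' : B e w' = 0)
    (a : Ei g e w γ) (b : Ei g' e w' γ') : Ei (g * g') e (w + w') (γ + γ' - B w w') := fun x => by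
  rw [mul_app, a, b]
  simp only [map_add, map_sub, map_smul, LinearMap.add_apply, he, hw', h.eq_zero_comm.1 hw]
  module

theorem Ei.inv {g : SUG B} {e w : V} {γ : F} (he : B e e = 0) (hw : B e w = 0) (a : Ei g e w γ) :
    Ei g⁻¹ e (-w) (-γ - B w w) := fun x => by
  apply g.1.injective
  rw [app_inv, a]
  simp only [map_add, map_sub, map_smul, map_neg, LinearMap.neg_apply, he, hw, h.eq_zero_comm.1 hw]
  module

theorem Ei.comm {g g' : SUG B} {e w w' : V} {γ γ' : F} (he : B e e = 0) (hw : B e w = 0)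
    (hw' : B e w' = 0) (a : Ei g e w γ) (b : Ei g' e w' γ') :
    Tv (g * g' * g⁻¹ * g'⁻¹) e (B w' w - B w w') := by
  have n : B e (-w) = 0 := by simp [hw]
  have := (((a.mul h he hw hw' b).mul h he (by simp [hw, hw']) n (a.inv h he hw)).mul h he
    (by simp [hw, hw']) (by simp [hw']) (b.inv h he hw'))
  rw [← ei_tv]
  convert this using 1
  · module
  · simp only [map_add, map_neg, LinearMap.add_apply, LinearMap.neg_apply]; ring

theorem ei_smul {g : SUG B} {e w : V} {a γ : F} :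
    Ei g (a • e) w γ ↔ Ei g e (σ a • w) (a * σ a * γ) := by
  refine forall_congr' fun x => ?_
  simp only [LinearMap.map_smulₛₗ₂, smul_eq_mul, h.invol]
  exact Eq.congr_right (by module)

theorem Ei.uniq {g : SUG B} {e w w' : V} {γ γ' : F} (he : e ≠ 0) (a : Ei g e w γ) (b : Ei g e w' γ') :
    w - w' ∈ span F {e} := by
  obtain ⟨v, hv⟩ := h.exists_eq_one he
  have e1 := (a v).symm.trans (b v)
  rw [hv] at e1
  exact mem_span_singleton.2 ⟨B w v - B w' v + γ' - γ, by linear_combination (norm := module) (-1 : F) • e1⟩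

/-- Elements of `Q_z` are Eichler transformations; the vector may be taken `⊥ s`. -/
theorem Qz.ei' {g : SUG B} {z s : V} (hz : B z z = 0) (hs : B s s = 0) (hzs : B z s = 1) (a : Qz g z) :
    ∃ w γ, B z w = 0 ∧ B s w = 0 ∧ Ei g z w γ := by
  obtain ⟨w, γ, h1, h2, h3, -, e⟩ := h.exists_eichler_of_mem_QE hz hs hzs (mem_QE.2 ⟨g.2.1, a⟩)
  exact ⟨w, γ, h1, h3, fun x => by rw [e, eichler_apply]⟩

theorem Qz.ei {g : SUG B} {z : V} (hz : Pt B z) (a : Qz g z) : ∃ w γ, B z w = 0 ∧ Ei g z w γ := by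
  obtain ⟨s, hs, hzs⟩ := h.exists_hyperbolic hz.1 hz.2
  obtain ⟨w, γ, h1, -, e⟩ := a.ei' h hz.2 hs hzs
  exact ⟨w, γ, h1, e⟩

theorem Ae.smul_self {z : V} (hz : B z z = 0) (a : F) : Ae H z (a • z) :=
  ⟨by simp [hz], 1, H.one_mem, σ a - a, by
    rw [← zero_add (a • z), ei_add, ei_tv]; simpa using tv_one z⟩

theorem Ae.add {z w w' : V} (hz : B z z = 0) (a : Ae H z w) (b : Ae H z w') : Ae H z (w + w') := by
  obtain ⟨h1, g, hg, γ, a⟩ := a
  obtain ⟨h2, g', hg', γ', b⟩ := b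
  exact ⟨by simp [h1, h2], _, H.mul_mem hg hg', _, a.mul h hz h1 h2 b⟩

theorem Ae.neg {z w : V} (hz : B z z = 0) (a : Ae H z w) : Ae H z (-w) := by
  obtain ⟨h1, g, hg, γ, a⟩ := a
  exact ⟨by simp [h1], _, H.inv_mem hg, _, a.inv h hz h1⟩

theorem Ae.sub {z w w' : V} (hz : B z z = 0) (a : Ae H z w) (b : Ae H z w') : Ae H z (w - w') :=
  sub_eq_add_neg w w' ▸ a.add h hz (b.neg h hz)

theorem Ae.conj {z z' w : V} {k : SUG B} (hk : k ∈ H) {c : F} (e : k.1 z = c • z') (a : Ae H z w) :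
    Ae H z' (σ c • k.1 w) := by
  obtain ⟨h1, g, hg, γ, a⟩ := a
  have := a.conj k
  rw [e, ei_smul h] at this
  refine ⟨?_, _, H.mul_mem (H.mul_mem hk hg) (H.inv_mem hk), _, this⟩
  rw [← b_app k, e, LinearMap.map_smulₛₗ₂] at h1
  rwa [map_smul]

theorem Ae.app {z w : V} {k : SUG B} (hk : k ∈ H) (e : k.1 z = z) (a : Ae H z w) : Ae H z (k.1 w) := by
  simpa using a.conj h hk (c := 1) (z' := z) (by simpa using e)

theorem Ae.comm {z w w' : V} (hz : B z z = 0) (a : Ae H z w) (b : Ae H z w') :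
    Rt H z (B w' w - B w w') := by
  obtain ⟨h1, g, hg, γ, a⟩ := a
  obtain ⟨h2, g', hg', γ', b⟩ := b
  exact ⟨_, H.mul_mem (H.mul_mem (H.mul_mem hg hg') (H.inv_mem hg)) (H.inv_mem hg'), a.comm h hz h1 h2 b⟩

/-- `Ae H z` as an additive subgroup. -/
def aeG (H : Subgroup (SUG B)) {z : V} (hz : B z z = 0) : AddSubgroup V where
  carrier := {w | Ae H z w}
  zero_mem' := by simpa using Ae.smul_self h (H := H) hz 0
  add_mem' := Ae.add h hz
  neg_mem' := Ae.neg h hz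

theorem Q1.noTv (a : Q1 H) : NoTv H := fun g hg ⟨u, _, hu, hc, t⟩ =>
  t.ne_one h hu.1 hc (a g hg u hu ((ei_tv.2 t).qz h hu.2 (by simp)))

theorem NoC.noTv (a : NoC H) : NoTv H := fun g hg ⟨u, c, hu, hc, t⟩ =>
  a g hg ⟨t.ne_one h hu.1 hc, u, u, hu.2, hu.2, hu.2, fun x => by
    rw [t x, add_sub_cancel_left]; exact smul_mem _ _ (subset_span (by simp))⟩

end herm

/-- An element of rank one is a transvection. -/
theorem isT_of_rank (h : IsHerm σ B) {g : SUG B} {u : V} (h1 : g ≠ 1) (hg : ∀ x, g.1 x - x ∈ span F {u}) :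
    Pt B u ∧ ∃ c, c ≠ 0 ∧ Tv g u c := by
  obtain ⟨c, hc⟩ := h.exists_eq_of_range_le g.2.1 (u := u) (by rintro _ ⟨x, rfl⟩; exact hg x)
  have c0 : c ≠ 0 := fun e => h1 (ext' fun x => by simp [hc, e])
  have u0 : u ≠ 0 := fun e => h1 (ext' fun x => by simp [hc, e])
  have d := det_of_apply_eq (B := B) (g := (g.1 : V →ₗ[F] V)) hc
  rw [(mem_SUG'.1 g.2).2] at d
  exact ⟨⟨u0, by simpa [c0] using d⟩, c, c0, hc⟩

omit [Finite F] in
/-- `g = t_e(b) · y` with `y ∈ Q_z`; then `g e = e - B w e • z`. -/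
theorem Ee.dec (h : IsHerm σ B) {g : SUG B} {z e : V} {b : F} (hz : Pt B z) (a : Ee g z e b) :
    b + σ b = 0 ∧ ∃ t y : SUG B, ∃ w γ, Tv t e b ∧ B z w = 0 ∧ Ei y z w γ ∧ g = t * y := by
  obtain ⟨h1, h2, h3, h4, h5, h6⟩ := a
  have ez := h.eq_zero_comm.1 h1
  obtain ⟨x, hx⟩ := h.exists_apply_eq (x := ![z, e]) ((LinearIndependent.pair_iff' hz.1).2
    fun a k => h3 (mem_span_singleton.2 ⟨a, k⟩)) ![0, 1]
  have x0 : B z x = 0 := hx 0
  have x1 : B e x = 1 := hx 1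
  have hb : b + σ b = 0 := by
    obtain ⟨a, ha⟩ := h6 x x0
    have := b_app g x x
    have e1 : B x e = 1 := by rw [← h.symm, x1, map_one]
    rw [ha] at this
    simp [x0, x1, e1, h1, h2, ez, hz.2, h.eq_zero_comm.1 x0, add_assoc] at this
    exact this
  obtain ⟨t, ht⟩ := ex_tv h h2 hb
  have q : Qz (t⁻¹ * g) z := ⟨by rw [mul_app, h5, (ht.inv h2).fix ez], fun x hx => by
    obtain ⟨a, ha⟩ := h6 x hx
    exact ⟨a, by rw [mul_app, ha, map_add, ← ht x, inv_app, map_smul, (ht.inv h2).fix ez]⟩⟩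
  obtain ⟨w, γ, hw, e1⟩ := q.ei h hz
  exact ⟨hb, t, _, w, γ, ht, hw, e1, by group⟩

end Cfsg.Lib.R3U
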