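import Cfsg.Agent.Lib.R3U.Def

/-! S2196: rank 3 graphs and idempotents (abstract; compare `R3S/Mat`). -/

set_option autoImplicit false

namespace Cfsg.Lib.R3U

open Cfsg.Lib.R3S MulAction Matrix

variable {G X : Type*} [Group G] [MulAction G X] {E : X → X → Prop}

theorem co_r3g (h : R3G G X E) : R3G G X (Co E) := by
  have k : ∀ {x y}, y ≠ x → ¬ Co E x y → E x y := fun a b => by_contra fun c => b ⟨a.symm, c⟩
  obtain ⟨u, v, e⟩ := h.ex1
  exact ⟨fun g x y a => ⟨fun b => a.1 ((smul_left_cancel_iff g).1 b), fun b => a.2 (by simpa using h.inv g⁻¹ _ _ b)⟩,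
    fun x y a => ⟨a.1.symm, fun b => a.2 (h.symm _ _ b)⟩, fun x a => a.1 rfl, h.tr,
    fun x y z a b => h.e2 x y z a.1.symm b.1.symm a.2 b.2, fun x y z a b c d => h.e1 x y z (k a c) (k b d), h.ex2,
    u, v, fun a => h.irr u (a ▸ e), fun a => a.2 e⟩

/-- `E y z := ∃ k, k • x = y ∧ k • g • x = z` is symmetric; `r3g_of_card` (three orbits: `{x}`, the orbit of
`g • x`, and a third one; `oc_eq`). -/
theorem ex_r3g [Finite X] (x : X) (tr : ∀ x y : X, ∃ g : G, g • x = y)
    (h3 : Nat.card (orbitRel.Quotient (stabilizer G x) X) = 3) {g : G} (h1 : g • x ≠ x) (h2 : g • g • x = x) :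
    ∃ E : X → X → Prop, R3G G X E := by
  refine ⟨fun y z => ∃ k : G, k • x = y ∧ k • g • x = z, r3g_of_card x tr h3 ?_ ?_ ?_ ⟨g • x, 1, by simp⟩ ?_⟩
  · rintro g' _ _ ⟨k, rfl, rfl⟩
    exact ⟨g' * k, mul_smul _ _ _, mul_smul _ _ _⟩
  · rintro _ _ ⟨k, rfl, rfl⟩
    exact ⟨k * g, mul_smul _ _ _, by rw [mul_smul, h2]⟩
  · rintro _ ⟨k, rfl, e⟩
    exact h1 ((smul_left_cancel_iff k).1 e)
  by_contra! H
  have : Function.Surjective fun b : Bool => if b then oc G x x else oc G x (g • x) := fun q => by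
    induction q using Quotient.ind with | _ y =>
    by_cases e : y = x
    · exact ⟨true, e ▸ rfl⟩
    · exact ⟨false, oc_eq.2 (H y e)⟩
  have := Nat.card_le_card_of_surjective _ this
  simp [h3] at this

/-- Otherwise `{y | y = x ∨ E x y}` is a block which is neither a point (`ex1`, `tr`) nor everything (`ex2`). -/
theorem cn_of_prim [IsPreprimitive G X] (h : R3G G X E) : Cn E := by
  by_contra H
  have t : ∀ {x y z}, x = y ∨ E x y → y = z ∨ E y z → x = z ∨ E x z := fun {x y z} a b => by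
    rcases a with rfl | a
    · exact b
    rcases b with rfl | b
    · exact .inr a
    exact by_contra fun c => H ⟨x, y, z, a, b, fun d => c (.inl d), fun d => c (.inr d)⟩
  have s : ∀ {x y}, x = y ∨ E x y → y = x ∨ E y x := fun a => a.imp Eq.symm (h.symm _ _)
  have i : ∀ (g : G) {x y}, x = y ∨ E x y → g • x = g • y ∨ E (g • x) (g • y) := fun g _ _ a =>
    a.imp (congrArg _) (h.inv g _ _)
  obtain ⟨x, y, n, e⟩ := h.ex2
  have hb : IsBlock G {z | x = z ∨ E x z} := isBlock_iff_smul_eq_of_mem.2 fun g a h1 h2 => by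
    ext z
    rw [Set.mem_smul_set_iff_inv_smul_mem]
    exact ⟨fun b => t h2 (by simpa using i g (t (s h1) b)), fun b => t h1 (by simpa using i g⁻¹ (t (s h2) b))⟩
  rcases IsPreprimitive.isTrivialBlock_of_isBlock hb with a | a
  · obtain ⟨u, v, k⟩ := h.ex1
    obtain ⟨g, rfl⟩ := h.tr u x
    have := h.inv g _ _ k
    exact h.irr _ (a (.inl rfl) (.inr this) ▸ this)
  · exact (a.ge (Set.mem_univ y)).elim n e

/-- The average of `|O ∩ g⁻¹ O|` over `g` is `|O|² / |s|` (count triples `(g, a, b)`, `a, b ∈ O`, `g • a = b`; each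
pair `(a, b)` has `|G| / |s|` solutions `g`), and the value `|O|` at `g = 1` is larger. -/
theorem avg [Finite G] {Y : Type*} [MulAction G Y] [Finite Y] {s O : Set Y} (hs : ∀ g : G, ∀ a ∈ s, g • a ∈ s)
    (tr : ∀ a ∈ s, ∀ b ∈ s, ∃ g : G, g • a = b) (hO : O ⊆ s) (h0 : O.Nonempty) (h1 : O ≠ s) :
    ∃ g : G, {y ∈ O | g • y ∈ O}.ncard * s.ncard < O.ncard ^ 2 := by
  classical
  have := Fintype.ofFinite G
  have := Fintype.ofFinite Y
  by_contra! H
  have k1 : ∀ a ∈ s, ∀ b ∈ s, (Finset.univ.filter fun g : G => g • a = b).card * s.ncard = Fintype.card G := fun a ha b hb => by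
    obtain ⟨t, rfl⟩ := tr a ha b hb
    have e : orbit G a = s := Set.Subset.antisymm (fun _ ⟨g, e⟩ => e ▸ hs g a ha) fun b hb => tr a ha b hb
    rw [← e, ← index_stabilizer, ← Nat.card_eq_fintype_card, ← (stabilizer G a).card_mul_index, Nat.card_eq_fintype_card,
      Fintype.card_subtype]
    congr 1
    refine (Finset.card_bijective (t * ·) (Group.mulLeft_bijective t) fun g => ?_).symm
    simp [mul_smul]
  have k2 : ∀ g : G, {y ∈ O | g • y ∈ O}.ncard = ∑ a ∈ O.toFinset, ∑ b ∈ O.toFinset, if g • a = b then 1 else 0 := fun g => by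
    simp only [Finset.sum_ite_eq, ← Finset.card_filter, ← Set.ncard_coe_finset]
    congr 1
    ext y
    simp
  have k3 : ∑ g : G, {y ∈ O | g • y ∈ O}.ncard * s.ncard = ∑ _g : G, O.ncard ^ 2 := by
    simp only [k2, ← Finset.sum_mul]
    rw [Finset.sum_comm, Finset.sum_mul, Finset.sum_const, Finset.card_univ, Set.ncard_eq_toFinset_card' O,
      Finset.sum_congr rfl (g := fun _ => O.toFinset.card * Fintype.card G) fun a ha => ?_]
    · simp [sq]; ring
    rw [Finset.sum_comm, Finset.sum_mul, Finset.sum_congr rfl (g := fun _ => Fintype.card G) fun b hb => ?_]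
    · simp
    rw [← Finset.card_filter, k1 a (hO (Set.mem_toFinset.1 ha)) b (hO (Set.mem_toFinset.1 hb))]
  refine (Finset.sum_lt_sum (fun g _ => H g) ⟨1, Finset.mem_univ _, ?_⟩).ne' k3
  simp only [one_smul, Set.sep_mem_eq, Set.inter_self, sq]
  exact Nat.mul_lt_mul_of_pos_left (Set.ncard_lt_ncard (hO.ssubset_of_ne h1)) ((Set.ncard_pos (Set.toFinite O)).2 h0)

variable [Fintype X] [DecidableEq X]

/-- As `R3G.span`. -/
theorem span_c (h : R3G G X E) (M : Matrix X X ℂ) (hM : ∀ (g : G) x y, M (g • x) (g • y) = M x y) :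
    ∃ a b c : ℂ, M = a • (1 : Matrix X X ℂ) + b • rc E + c • jc X X := by
  obtain ⟨u, v, e⟩ := h.ex1
  obtain ⟨u', v', n, e'⟩ := h.ex2
  refine ⟨M u u - M u' v', M u v - M u' v', M u' v', ?_⟩
  ext x y
  by_cases h0 : x = y
  · obtain ⟨g, rfl⟩ := h.tr u x
    simp [← h0, rc, jc, h.irr, hM]
  by_cases h1 : E x y
  · obtain ⟨g, rfl⟩ := h.tr u x
    obtain ⟨k, a, b⟩ := h.e1 _ _ _ (h.inv g _ _ e) h1
    have : M (g • u) y = M u v := by rw [← b, ← hM g u v, ← hM k (g • u) (g • v), a]
    simp [rc, jc, h0, h1, this]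
  · obtain ⟨g, rfl⟩ := h.tr u' x
    obtain ⟨k, a, b⟩ := h.e2 (g • u') (g • v') y (fun k => n ((smul_left_cancel_iff g).1 k).symm) (Ne.symm h0)
      (fun k => e' (by simpa using h.inv g⁻¹ _ _ k)) h1
    have : M (g • u') y = M u' v' := by rw [← b, ← hM g u' v', ← hM k (g • u') (g • v'), a]
    simp [rc, jc, h0, h1, this]

/-- As `R3G.indep`. -/
theorem indep_c (h : R3G G X E) {a b c : ℂ} (e : a • (1 : Matrix X X ℂ) + b • rc E + c • jc X X = 0) :
    a = 0 ∧ b = 0 ∧ c = 0 := by
  obtain ⟨u, v, k⟩ := h.ex1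
  obtain ⟨u', v', n, k'⟩ := h.ex2
  have n' : u ≠ v := fun e => h.irr u (e ▸ k)
  have e1 := congrFun (congrFun e u') v'
  have e2 := congrFun (congrFun e u) v
  have e3 := congrFun (congrFun e u) u
  simp [rc, jc, n, n', k, k', h.irr] at e1 e2 e3
  exact ⟨by linear_combination e3 - e1, by linear_combination e2 - e1, e1⟩

/-- Invariant matrices are symmetric. -/
theorem inv_symm (h : R3G G X E) {M : Matrix X X ℂ} (hM : ∀ (g : G) x y, M (g • x) (g • y) = M x y) : Mᵀ = M := by
  obtain ⟨a, b, c, rfl⟩ := span_c h M hM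
  ext x y
  simp only [rc, jc, transpose_apply, Matrix.add_apply, Matrix.smul_apply, of_apply, Matrix.one_apply, eq_comm (a := y)]
  rw [propext (⟨h.symm y x, h.symm x y⟩ : E y x ↔ E x y)]

/-- All invariant matrices commute (`span_c`; `A J = J A = k J`).  `J, U, U'` are non-zero with pairwise products
zero and non-zero squares, hence independent in the 3-dimensional space of invariant matrices, so
`1 = α J + a U + b U'`; multiplying by `J, U, U'` gives `α N = a y = b y' = 1`; take traces.  (Concretely: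
`U = a + bA + cJ`, `U' = a' + b'A + c'J`; if `(a, b) ∥ (a', b')` a combination of `U, U'` is a multiple of `J`,
multiply by `J`, `U`.) -/
theorem orth (h : R3G G X E) {U U' : Matrix X X ℂ} {f f' : ℤ} (a : Idm G U f) (b : Idm G U' f')
    (e : U * U' = 0) : (Fintype.card X : ℤ) = 1 + f + f' := by
  have e' : U' * U = 0 := by
    rw [← inv_symm h a.inv, ← inv_symm h b.inv, ← transpose_mul, e, transpose_zero]
  obtain ⟨y, y0, y1, y2⟩ := a.sq
  obtain ⟨y', y0', y1', y2'⟩ := b.sq
  obtain ⟨α, β, γ, hU⟩ := span_c h U a.inv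
  obtain ⟨α', β', γ', hU'⟩ := span_c h U' b.inv
  obtain ⟨x, -, -⟩ := h.ex1
  have jj : jc X X * jc X X = (Fintype.card X : ℂ) • jc X X := by ext; simp [mul_apply, jc]
  have j0 : ∀ {c : ℂ}, c • jc X X = 0 → c = 0 := fun k => by simpa [jc] using congrFun (congrFun k x) x
  have tj : (jc X X).trace = Fintype.card X := by simp [Matrix.trace, jc]
  have N0 : (Fintype.card X : ℂ) ≠ 0 := by exact_mod_cast (Fintype.card_pos_iff.2 ⟨x⟩).ne'
  have k1 : β' • U - β • U' = (α * β' - α' * β) • (1 : Matrix X X ℂ) + (β' * γ - β * γ') • jc X X := by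
    rw [hU, hU']; module
  have k2 : α' • U - α • U' = -(α * β' - α' * β) • rc E + (α' * γ - α * γ') • jc X X := by
    rw [hU, hU']; module
  have m1 := congrArg (U * ·) k1
  have m2 := congrArg (U' * ·) k1
  have m3 := congrArg (· * jc X X) k1
  have m4 := congrArg Matrix.trace k1
  simp only [Matrix.mul_sub, Matrix.mul_add, Matrix.mul_smul, Matrix.sub_mul, Matrix.add_mul, Matrix.smul_mul, e, e', y1, y1',
    a.uj, b.uj, jj, Matrix.mul_one, Matrix.one_mul, smul_zero, trace_sub, trace_add, trace_smul, trace_one, y2, y2', tj,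
    smul_eq_mul] at m1 m2 m3 m4
  have n1 : β' * y - (α * β' - α' * β) = 0 :=
    (smul_eq_zero.1 (by linear_combination (norm := module) m1)).resolve_right a.ne
  have n2 : -β * y' - (α * β' - α' * β) = 0 :=
    (smul_eq_zero.1 (by linear_combination (norm := module) m2)).resolve_right b.ne
  have n3 : α * β' - α' * β + (β' * γ - β * γ') * Fintype.card X = 0 := j0 (by linear_combination (norm := module) -m3)
  have d0 : α * β' - α' * β ≠ 0 := fun d => by
    have b0 : β' = 0 := (mul_eq_zero.1 (show β' * y = 0 by linear_combination n1 + d)).resolve_right y0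
    have m5 := congrArg (U * ·) k2
    simp only [d, neg_zero, zero_smul, zero_add, Matrix.mul_sub, Matrix.mul_smul, e, y1, a.uj, smul_zero, sub_zero,
      smul_smul] at m5
    have a0 : α' = 0 := (mul_eq_zero.1 ((smul_eq_zero.1 m5).resolve_right a.ne)).resolve_right y0
    have m6 := b.uj
    rw [hU', a0, b0, zero_smul, zero_smul, zero_add, zero_add, Matrix.smul_mul, jj, smul_smul] at m6
    exact b.ne (by rw [hU', a0, b0, (mul_eq_zero.1 (j0 m6)).resolve_right N0]; simp)
  have : (Fintype.card X : ℂ) = 1 + f + f' := mul_left_cancel₀ d0 (by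
    linear_combination -m4 - n3 + f * n1 + f' * n2)
  exact_mod_cast this

end Cfsg.Lib.R3U
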