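import Cfsg.Agent.Lib.R3U.IReal
import Cfsg.Agent.Lib.R3U.Idm

/-! S2196, case I with full root groups: four double cosets. -/

set_option autoImplicit false

namespace Cfsg.Lib.R3U

open Cfsg.Lib.Unitary Cfsg.Lib.R3S Module Submodule MulAction

variable {F V : Type*} [Field F] [AddCommGroup V] [Module F V] {σ : F →+* F}
  {B : V →ₛₗ[σ] V →ₗ[F] F} {q n : ℕ} [Finite F] [Finite V] {H : Subgroup (SUG B)}

/-- `C ∩ g⁻¹ C`. -/
def cc (H : Subgroup (SUG B)) (g : SUG B) : Set V := {v | Cen H v ∧ Cen H (g.1 v)}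

section pr
omit [Finite F] [Finite V]

variable (B) in
/-- The projection onto `⟨e, f⟩^⊥`. -/
def prj (e f : V) : V →ₗ[F] V := LinearMap.id - (B f).smulRight ((B f e)⁻¹ • e) - (B e).smulRight ((B e f)⁻¹ • f)

theorem prj_apply (e f v : V) : prj B e f v = v - (B f v / B f e) • e - (B e v / B e f) • f := by
  simp [prj, smul_smul, div_eq_mul_inv]

theorem prj_left {e f : V} (he : B e e = 0) (h : B e f ≠ 0) (v : V) : B e (prj B e f v) = 0 := by
  simp [prj_apply, he, h]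

theorem prj_right {e f : V} (hf : B f f = 0) (h : B f e ≠ 0) (v : V) : B f (prj B e f v) = 0 := by
  simp [prj_apply, hf, h]

theorem prj_other {e f x : V} (h1 : B x e = 0) (h2 : B x f = 0) (v : V) : B x (prj B e f v) = B x v := by
  simp [prj_apply, h1, h2]

theorem ex_ne_of_span {S : Set V} {x y : V} (hx : x ∈ span F S) (hy : y ∈ span F S) (h : B x y ≠ 0) :
    ∃ a ∈ S, ∃ a' ∈ S, B a' a ≠ 0 := by
  by_contra! e
  exact h ((span_le.2 (fun a ha => mem_perp_span.2 fun a' ha' => e a ha a' ha') : span F S ≤ perp B (span F S)) hy x hx)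

theorem iend_div {x y : F} (hx : x + σ x = 0) (hy : y + σ y = 0) : σ (x / y) = x / y := by
  rw [map_div₀, ← neg_eq_of_add_eq_zero_right hx, ← neg_eq_of_add_eq_zero_right hy, neg_div_neg_eq]

theorem iend_real {x y : F} (hx : x * y + σ (x * y) = 0) (hy : y + σ y = 0) (h0 : y ≠ 0) : σ x = x := by
  simpa [h0] using iend_div hx hy

theorem ex_diag2 [FiniteDimensional F V] (hB : IsHerm σ B) {e f : V} (he : B e e = 0) (hf : B f f = 0) (h : B e f ≠ 0) {l : F}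
    (hl : l * σ l = 1) : ∃ g ∈ UG B, LinearMap.det (g : V →ₗ[F] V) = l * l ∧ g e = l • e ∧ g f = l • f ∧
      ∀ y, B e y = 0 → B f y = 0 → g y = y := by
  obtain ⟨t, ht⟩ := hB.exists_trace_eq (map_one σ)
  have h' : σ (B e f) ≠ 0 := (map_ne_zero σ).2 h
  have k : ∀ a b : F, B (e + (a / B e f) • f) (e + (b / B e f) • f) = b + σ a := fun a b => by
    simp [he, hf, ← hB.symm e f, h, h', map_div₀]
  obtain ⟨r₁, a1, a2, a3, a4, -⟩ := hB.exists_quasiReflection (z := e + (t / B e f) • f) (by rw [k, ht]; exact one_ne_zero) hl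
  obtain ⟨r₂, b1, b2, b3, b4, -⟩ := hB.exists_quasiReflection (z := e + (-σ t / B e f) • f)
    (by rw [k, map_neg, hB.invol, ← neg_add, add_comm, ht]; simp) hl
  have c1 : (r₁ * r₂) (e + (t / B e f) • f) = l • (e + (t / B e f) • f) := by
    rw [LinearEquiv.mul_apply, b4 _ (by rw [k, map_neg, hB.invol, add_neg_cancel]), a3]
  have c2 : (r₁ * r₂) (e + (-σ t / B e f) • f) = l • (e + (-σ t / B e f) • f) := by
    rw [LinearEquiv.mul_apply, b3, map_smul, a4 _ (by rw [k, neg_add_cancel])]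
  have e1 : f = B e f • ((e + (t / B e f) • f) - (e + (-σ t / B e f) • f)) := by
    rw [add_sub_add_left_eq_sub, ← sub_smul, smul_smul, ← sub_div, sub_neg_eq_add, ht, mul_one_div_cancel h, one_smul]
  have c3 : (r₁ * r₂) f = l • f := by
    conv_lhs => rw [e1, map_smul, map_sub, c1, c2, ← smul_sub, smul_comm, ← e1]
  refine ⟨r₁ * r₂, mul_mem a1 b1, ?_, ?_, c3, fun y h1 h2 => ?_⟩
  · rw [LinearEquiv.coe_toLinearMap_mul, map_mul, a2, b2]
  · rw [map_add, map_smul, c3, smul_add, smul_comm] at c1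
    exact add_right_cancel c1
  · rw [LinearEquiv.mul_apply, b4 _ (by simp [h1, h2]), a4 _ (by simp [h1, h2])]

theorem cc_left {g h : SUG B} (hh : h ∈ H) : cc H (h * g) = cc H g := Set.ext fun v => and_congr_right fun _ =>
  ⟨fun a => by simpa [mul_app, inv_app] using a.conj (H.inv_mem hh), fun a => a.conj hh⟩

theorem cc_right {g h : SUG B} (hh : h ∈ H) : cc H g = h.1 '' cc H (g * h) := Set.ext fun v =>
  ⟨fun a => ⟨(h⁻¹).1 v, ⟨a.1.conj (H.inv_mem hh), by rw [mul_app, app_inv]; exact a.2⟩, app_inv h v⟩,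
    fun ⟨_, a, e⟩ => e ▸ ⟨a.1.conj hh, a.2⟩⟩

end pr

theorem iend_num {x u Q : ℤ} (q5 : 3 ≤ x) (q4 : x ^ 3 ≤ Q) (k1 : x ^ 6 * u ^ 2 = Q ^ 2) :
    ((x + 1) * (Q - 1)) ^ 2 ≤ 2 * ((x + 1) * (x ^ 2 - 1)) * ((x ^ 3 * u + 1) * (x ^ 2 * u - 1)) := by
  have x1 : 3 * x ≤ x ^ 2 := by nlinarith
  have x2 : 3 * x ^ 2 ≤ Q := le_trans (by nlinarith) q4
  have k2 : x ^ 3 * u ≤ Q := (abs_le_of_sq_le_sq' (by rw [← k1]; exact le_of_eq (by ring)) (by omega)).2
  have k3 : x * ((x ^ 3 * u + 1) * (x ^ 2 * u - 1)) = Q ^ 2 - (x - 1) * (x ^ 3 * u) - x := by linear_combination k1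
  have k4 : x * (Q - 1) ^ 2 ≤ 2 * (x - 1) * (Q ^ 2 - (x - 1) * Q - x) := by
    nlinarith [mul_le_mul_of_nonneg_left x2 (show 0 ≤ Q by omega), mul_nonneg (show 0 ≤ x - 3 by omega) (sq_nonneg Q),
      mul_le_mul_of_nonneg_left x2 (show 0 ≤ x by omega), mul_nonneg (show 0 ≤ Q - 1 by omega) (sq_nonneg x)]
  have k5 : (Q - 1) ^ 2 ≤ 2 * (x - 1) * ((x ^ 3 * u + 1) * (x ^ 2 * u - 1)) := by
    refine le_of_mul_le_mul_left (k4.trans ?_) (show 0 < x by omega)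
    rw [mul_left_comm, k3]
    exact mul_le_mul_of_nonneg_left (by nlinarith) (by omega)
  calc ((x + 1) * (Q - 1)) ^ 2 = (x + 1) ^ 2 * (Q - 1) ^ 2 := by ring
    _ ≤ (x + 1) ^ 2 * (2 * (x - 1) * ((x ^ 3 * u + 1) * (x ^ 2 * u - 1))) := mul_le_mul_of_nonneg_left k5 (sq_nonneg _)
    _ = _ := by ring

theorem iend_ncard (hσ : IsBar q σ) : {k : F | k ≠ 0}.ncard = q ^ 2 - 1 := by
  rw [← hσ.card, ← Set.ncard_univ, ← Set.ncard_diff_singleton_of_mem (Set.mem_univ (0 : F))]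
  congr 1; ext; simp

namespace Un

variable (s : Un σ B q n) (c : CI H)
include s c

omit c in
theorem ex_perp4 (a b c d : V) : ∃ y v, B y v ≠ 0 ∧ B a y = 0 ∧ B b y = 0 ∧ B c y = 0 ∧ B d y = 0 := by
  have := s.n6
  obtain ⟨y, hy, h0⟩ := (Submodule.ne_bot_iff _).1 (LinearMap.ker_ne_bot_of_finrank_lt
    (f := LinearMap.pi fun i => B (![a, b, c, d] i)) (by rw [s.dim]; simp; omega))
  obtain ⟨v, hv⟩ := s.herm.exists_ne_zero h0
  exact ⟨y, v, hv, congrFun hy 0, congrFun hy 1, congrFun hy 2, congrFun hy 3⟩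

/-- `D` spans the non-degenerate `Y` (`ex_basis`): pick `a ≠ 0`, `a'` with `B a' a ≠ 0`; for `w ∈ D` the projection
`w - (B a' w / B a' a) • a - (B a w / B a a') • a'` lies in `D` (real coefficients, `ae_skew`); these projections span
`Y ⊓ ⟨a, a'⟩^⊥ ≠ ⊥`, a non-degenerate space. -/
theorem ex_quad {r s' : V} (hr : Cen H r) (hs : Cen H s') (e : B r s' = 1) :
    ∃ a a' b b', (∀ w ∈ ({a, a', b, b'} : Set V), Ae H r w ∧ B s' w = 0) ∧ B a' a ≠ 0 ∧ B b' b ≠ 0 ∧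
      B a b = 0 ∧ B a b' = 0 ∧ B a' b = 0 ∧ B a' b' = 0 ∧
      ∀ y, B r y = 0 → B s' y = 0 → B a y = 0 → B a' y = 0 →
        y ∈ span F {w | Ae H r w ∧ B s' w = 0 ∧ B a w = 0 ∧ B a' w = 0} := by
  have h := s.herm
  have e0 : B r s' ≠ 0 := e ▸ one_ne_zero
  have e1 : B s' r ≠ 0 := mt h.eq_zero_comm.1 e0
  obtain ⟨f, -, f1, f2⟩ := s.ex_basis c hr hs e
  have sp : ∀ y, B r y = 0 → B s' y = 0 → y ∈ span F {w | Ae H r w ∧ B s' w = 0} := fun y a b =>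
    span_mono (by rintro _ ⟨i, rfl⟩; exact f1 i) (f2 y a b)
  obtain ⟨y, v, hv, hy0, hy1, -⟩ := s.ex_perp4 r s' r r
  obtain ⟨a, ha, a', ha', n1⟩ := ex_ne_of_span (B := B) (sp y hy0 hy1) (sp _ (prj_left hr.1.2 e0 v) (prj_right hs.1.2 e1 v))
    (by rwa [prj_other (h.eq_zero_comm.1 hy0) (h.eq_zero_comm.1 hy1)])
  have n2 : B a a' ≠ 0 := mt h.eq_zero_comm.1 n1
  have ia := s.ae_iso c hr ha.1
  have ia' := s.ae_iso c hr ha'.1
  have sp' : ∀ y, B r y = 0 → B s' y = 0 → B a y = 0 → B a' y = 0 →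
      y ∈ span F {w | Ae H r w ∧ B s' w = 0 ∧ B a w = 0 ∧ B a' w = 0} := fun y y1 y2 y3 y4 => by
    have : span F {w | Ae H r w ∧ B s' w = 0} ≤
        (span F {w | Ae H r w ∧ B s' w = 0 ∧ B a w = 0 ∧ B a' w = 0}).comap (prj B a a') := span_le.2 fun w hw =>
      subset_span ⟨prj_apply (B := B) a a' w ▸ (hw.1.sub h hr.1.2 (s.ae_smul c hr ha.1 (iend_div (s.ae_skew c hr ha'.1 hw.1)
        (s.ae_skew c hr ha'.1 ha.1)))).sub h hr.1.2 (s.ae_smul c hr ha'.1 (iend_div (s.ae_skew c hr ha.1 hw.1)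
        (s.ae_skew c hr ha.1 ha'.1))), (prj_other ha.2 ha'.2 w).trans hw.2, prj_left ia n2 w, prj_right ia' n1 w⟩
    simpa [prj_apply, y3, y4] using this (sp y y1 y2)
  obtain ⟨y, v, hv, hy0, hy1, hy2, hy3⟩ := s.ex_perp4 r s' a a'
  obtain ⟨b, hb, b', hb', n3⟩ := ex_ne_of_span (B := B) (sp' y hy0 hy1 hy2 hy3) (sp' (prj B a a' (prj B r s' v))
    ((prj_other ha.1.1 ha'.1.1 _).trans (prj_left hr.1.2 e0 v)) ((prj_other ha.2 ha'.2 _).trans (prj_right hs.1.2 e1 v))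
    (prj_left ia n2 _) (prj_right ia' n1 _)) (by
      rwa [prj_other (h.eq_zero_comm.1 hy2) (h.eq_zero_comm.1 hy3),
        prj_other (h.eq_zero_comm.1 hy0) (h.eq_zero_comm.1 hy1)])
  refine ⟨a, a', b, b', ?_, n1, n3, hb.2.2.1, hb'.2.2.1, hb.2.2.2, hb'.2.2.2, sp'⟩
  rintro w (rfl | rfl | rfl | rfl)
  exacts [ha, ha', ⟨hb.1, hb.2.1⟩, ⟨hb'.1, hb'.2.1⟩]

omit c in
/-- `cnt_nd` in dimension two: `q³ + q² - q - 1`. -/
theorem card_hyp {e f : V} (he : B e e = 0) (hf : B f f = 0) (h : B e f ≠ 0) :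
    {v | Pt B v ∧ v ∈ span F {e, f}}.ncard = (q + 1) * (q ^ 2 - 1) := by
  have g : B e e * B f f - B e f * B f e ≠ 0 := by simp [he, h, mt s.herm.eq_zero_comm.1 h]
  have k := cnt_nd s.herm s.bar (disjoint_perp_pair_of_gram g)
  rw [finrank_span_pair_of_linearIndependent (linearIndependent_pair_of_gram g), ← pt_add_one] at k
  have q3 := s.q3
  have q1 : 1 ≤ q ^ 2 := Nat.one_le_pow _ _ (by omega)
  zify [q1]
  push_cast at k
  refine mul_left_cancel₀ (show (q : ℤ) ≠ 0 by positivity) ?_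
  linear_combination k

/-- `z = a + ω • b` (`ω` not real) is no centre: otherwise `λ • z ∈ D` (`lam_ne`), `λ B a' a` and `λ ω B b' b` are skew.
`g = t_z(δ)`.  If `v`, `g v` are centres and `B z v ≠ 0` then `z ∈ ⟨v, g v⟩` is a centre (`cen_line`); so
`cc H g ⊆ z^⊥`.  It contains the points of `⟨r, s'⟩` (`card_hyp`) and the `(q + 1)(q² - 1)` vectors
`k • (a + y • b)`, `k • b` (`y` real, `k ≠ 0`; `ae_cen`). -/
theorem ex_g1 : ∃ g, g ∉ H ∧ span F (cc H g) ≠ ⊤ ∧ 2 * ((q + 1) * (q ^ 2 - 1)) ≤ (cc H g).ncard := by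
  have h := s.herm
  have z0 := @h.eq_zero_comm
  obtain ⟨r, hr⟩ := c.ex
  obtain ⟨s', hs, e⟩ := s.ex_off c hr
  obtain ⟨a, a', b, b', hD, n1, n3, p1, p2, p3, p4, -⟩ := s.ex_quad c hr hs e
  have ha := hD a (by simp)
  have ha' := hD a' (by simp)
  have hb := hD b (by simp)
  have hb' := hD b' (by simp)
  have ia := s.ae_iso c hr ha.1
  have ib := s.ae_iso c hr hb.1
  obtain ⟨ω, hω⟩ := s.bar.exists_ne
  obtain ⟨δ, δ0, hδ⟩ := h.exists_skew
  have k1 : ∀ y : F, B a' (a + y • b) = B a' a := fun y => by simp [p3]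
  have k2 : ∀ y : F, B b' (a + y • b) = y * B b' b := fun y => by simp [z0.1 p2]
  have k3 : ∀ y y' : F, B (a + y • b) (a + y' • b) = 0 := fun y y' => by simp [ia, ib, p1, z0.1 p1]
  have k4 : ∀ y : F, Pt B (a + y • b) := fun y => ⟨fun e0 => n1 (by rw [← k1 y, e0, map_zero]), k3 y y⟩
  have nz : ¬ Cen H (a + ω • b) := fun hz => by
    obtain ⟨l, l0, hl⟩ := s.lam_ne c hr hz (by simp [ha.1.1, hb.1.1]) fun m => by
      obtain ⟨k, hk⟩ := mem_span_singleton.1 m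
      exact n1 (by rw [← k1 ω, ← hk, map_smul, z0.1 ha'.1.1, smul_zero])
    have a1 := s.ae_skew c hr ha'.1 hl
    have a2 := s.ae_skew c hr hb'.1 hl
    rw [map_smul, k1, smul_eq_mul] at a1
    rw [map_smul, k2, smul_eq_mul, ← mul_assoc] at a2
    have a3 := iend_real a2 (s.ae_skew c hr hb'.1 hb.1) n3
    rw [map_mul, iend_real a1 (s.ae_skew c hr ha'.1 ha.1) n1] at a3
    exact hω (mul_left_cancel₀ l0 a3)
  obtain ⟨g, hg⟩ := ex_tv h (k3 ω ω) (show δ + σ δ = 0 by simp [hδ])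
  have sub : ∀ v ∈ cc H g, B (a + ω • b) v = 0 := fun v hv => by_contra fun n => nz (s.cen_line c hv.1 hv.2
    (by rw [hg v, map_add, map_smul, hv.1.1.2, zero_add]; exact mul_ne_zero (mul_ne_zero δ0 n) (mt z0.1 n)) (k4 ω)
    (mem_span_pair.2 ⟨-(δ * B (a + ω • b) v)⁻¹, (δ * B (a + ω • b) v)⁻¹, by
      rw [hg v, smul_add, smul_smul, inv_mul_cancel₀ (mul_ne_zero δ0 n)]; module⟩))
  have inn : ∀ v, Cen H v → B a v = 0 → B b v = 0 → v ∈ cc H g := fun v hv v1 v2 =>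
    ⟨hv, by rwa [hg.fix (by simp [v1, v2])]⟩
  refine ⟨g, fun m => nz ⟨k4 ω, δ, δ0, g, m, hg⟩, fun e' => ?_, ?_⟩
  · exact (k4 ω).1 (h.nondeg _ fun v => (span_le.2 sub : _ ≤ LinearMap.ker (B (a + ω • b))) (e'.ge mem_top))
  have l1 : ∀ x, Ae H r x ∧ B s' x = 0 → ∀ v ∈ span F {r, s'}, B x v = 0 := fun x hx v hv => by
    obtain ⟨α, β, rfl⟩ := mem_span_pair.1 hv
    simp [z0.1 hx.1.1, z0.1 hx.2]
  have c2 : ((fun p : F × F => p.1 • (a + p.2 • b)) '' ({k | k ≠ 0} ×ˢ {y | σ y = y})).ncard = (q ^ 2 - 1) * q := by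
    rw [Set.ncard_image_of_injOn, Set.ncard_prod, iend_ncard s.bar, ← s.bar.card_fixed]; · rfl
    rintro ⟨k, y⟩ ⟨hk, -⟩ ⟨k', y'⟩ - e'
    have e1 := congrArg (B a') e'
    have e2 := congrArg (B b') e'
    simp only [map_smul, k1, k2, smul_eq_mul] at e1 e2
    obtain rfl := mul_right_cancel₀ n1 e1
    rw [mul_right_cancel₀ n3 (mul_left_cancel₀ hk e2)]
  have b0 : b ≠ 0 := fun e' => n3 (by simp [e'])
  have c3 : ((fun k : F => k • b) '' {k | k ≠ 0}).ncard = q ^ 2 - 1 := by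
    rw [Set.ncard_image_of_injective _ (smul_left_injective F b0), iend_ncard s.bar]
  have := Set.ncard_le_ncard (s := {v | Pt B v ∧ v ∈ span F {r, s'}} ∪ (((fun p : F × F => p.1 • (a + p.2 • b)) ''
      ({k | k ≠ 0} ×ˢ {y | σ y = y})) ∪ ((fun k : F => k • b) '' {k | k ≠ 0}))) (t := cc H g) (by
    rintro v (hv | ⟨⟨k, y⟩, ⟨hk, hy⟩, rfl⟩ | ⟨k, hk, rfl⟩)
    · exact inn v (s.cen_line c hr hs (e ▸ one_ne_zero) hv.1 hv.2) (l1 a ha v hv.2) (l1 b hb v hv.2)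
    · exact inn _ ((s.ae_cen c hr hs e (k4 y) (by simp [ha.2, hb.2]) (ha.1.add h hr.1.2 (s.ae_smul c hr hb.1 hy))).smul hk)
        (by simp [ia, p1]) (by simp [ib, z0.1 p1])
    · exact inn _ ((s.ae_cen c hr hs e ⟨b0, ib⟩ hb.2 hb.1).smul hk) (by simp [p1]) (by simp [ib]))
  rw [Set.ncard_union_eq, Set.ncard_union_eq, s.card_hyp hr.1.2 hs.1.2 (e ▸ one_ne_zero), c2, c3] at this
  · refine le_trans (le_of_eq ?_) this
    ring
  · refine Set.disjoint_left.2 ?_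
    rintro _ ⟨⟨k, y⟩, ⟨hk, -⟩, rfl⟩ ⟨k', -, e'⟩
    have e1 := congrArg (B a') e'
    simp only [map_smul, k1, p3, smul_eq_mul, mul_zero] at e1
    exact mul_ne_zero hk n1 e1.symm
  · refine Set.disjoint_left.2 ?_
    rintro v hv (⟨⟨k, y⟩, ⟨hk, -⟩, rfl⟩ | ⟨k, hk, rfl⟩)
    · have e1 := l1 a' ha' _ hv.2
      rw [map_smul, k1] at e1
      exact mul_ne_zero hk n1 e1
    · have e1 := l1 b' hb' _ hv.2
      rw [map_smul] at e1
      exact mul_ne_zero hk n3 e1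

omit c in
/-- A product of four quasi-reflections (`exists_quasiReflection` in orthogonal bases of the two planes), or Witt. -/
theorem ex_diag {e f e' f' : V} (he : B e e = 0) (hf : B f f = 0) (h : B e f ≠ 0) (he' : B e' e' = 0)
    (hf' : B f' f' = 0) (h' : B e' f' ≠ 0) (p1 : B e e' = 0) (p2 : B e f' = 0) (p3 : B f e' = 0)
    (p4 : B f f' = 0) {l : F} (hl : l * σ l = 1) :
    ∃ g : SUG B, g.1 e = l • e ∧ g.1 f = l • f ∧ g.1 e' = l⁻¹ • e' ∧ g.1 f' = l⁻¹ • f' ∧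
      ∀ y, B e y = 0 → B f y = 0 → B e' y = 0 → B f' y = 0 → g.1 y = y := by
  have z0 := @s.herm.eq_zero_comm
  have l0 : l ≠ 0 := left_ne_zero_of_mul_eq_one hl
  obtain ⟨g, a1, a2, a3, a4, a5⟩ := ex_diag2 s.herm he hf h hl
  obtain ⟨g', b1, b2, b3, b4, b5⟩ := ex_diag2 s.herm he' hf' h' (l := l⁻¹) (by rw [map_inv₀, ← mul_inv, hl, inv_one])
  refine ⟨⟨g * g', mem_SUG'.2 ⟨mul_mem a1 b1, ?_⟩⟩, ?_, ?_, ?_, ?_, fun y y1 y2 y3 y4 => ?_⟩
  · rw [LinearEquiv.coe_toLinearMap_mul, map_mul, a2, b2]; field_simp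
  · rw [LinearEquiv.mul_apply, b5 _ (z0.1 p1) (z0.1 p2), a3]
  · rw [LinearEquiv.mul_apply, b5 _ (z0.1 p3) (z0.1 p4), a4]
  · rw [LinearEquiv.mul_apply, b3, map_smul, a5 _ p1 p3]
  · rw [LinearEquiv.mul_apply, b4, map_smul, a5 _ p2 p4]
  · rw [LinearEquiv.mul_apply, b5 _ y3 y4, a5 _ y1 y2]

/-- `ex_diag` for `r, s', a, a'` and a non-real `l` of norm one (`exists_norm_eq_not_fixed`).  `cc H g` contains the
points of `⟨r, s'⟩`, of `⟨a, a'⟩` (`cen_line`, `card_hyp`) and the non-zero elements of `D ⊓ ⟨a, a'⟩^⊥`.  `g ∉ H`: `s' + b` is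
a centre (`reg'`), `g (s' + b) = l • (s' + l⁻¹ • b)`, `reg` gives `Ae H r (l⁻¹ • b)`, against `real_of`. -/
theorem ex_g2 : ∃ g, g ∉ H ∧ span F (cc H g) = ⊤ ∧ 2 * ((q + 1) * (q ^ 2 - 1)) ≤ (cc H g).ncard := by
  have h := s.herm
  have z0 := @h.eq_zero_comm
  obtain ⟨r, hr⟩ := c.ex
  obtain ⟨s', hs, e⟩ := s.ex_off c hr
  obtain ⟨a, a', b, b', hD, n1, n3, p1, -, p3, -, sp⟩ := s.ex_quad c hr hs e
  have ha := hD a (by simp)
  have ha' := hD a' (by simp)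
  have hb := hD b (by simp)
  have hb' := hD b' (by simp)
  have ia := s.ae_iso c hr ha.1
  have ia' := s.ae_iso c hr ha'.1
  have ib := s.ae_iso c hr hb.1
  have e0 : B r s' ≠ 0 := e ▸ one_ne_zero
  have n2 : B a a' ≠ 0 := mt z0.1 n1
  have ca := s.ae_cen c hr hs e ⟨fun e' => n1 (by simp [e']), ia⟩ ha.2 ha.1
  have ca' := s.ae_cen c hr hs e ⟨fun e' => n1 (by simp [e']), ia'⟩ ha'.2 ha'.1
  obtain ⟨l, hl, nl⟩ := s.bar.exists_norm_eq_not_fixed one_ne_zero (map_one σ)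
  have l0 : l ≠ 0 := left_ne_zero_of_mul_eq_one hl
  obtain ⟨g, g1, g2, g3, g4, g5⟩ := s.ex_diag hr.1.2 hs.1.2 e0 ia ia' n2 ha.1.1 ha'.1.1 ha.2 ha'.2 hl
  have inn : ∀ {x y : V} {k : F}, k ≠ 0 → Cen H x → Cen H y → B x y ≠ 0 → g.1 x = k • x → g.1 y = k • y →
      {v | Pt B v ∧ v ∈ span F {x, y}} ⊆ cc H g := fun {x y k} hk hx hy n e1 e2 v hv => by
    have := s.cen_line c hx hy n hv.1 hv.2
    obtain ⟨α, β, rfl⟩ := mem_span_pair.1 hv.2
    refine ⟨this, ?_⟩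
    rw [map_add, map_smul, map_smul, e1, e2, smul_comm α, smul_comm β, ← smul_add]
    exact this.smul hk
  have i1 := inn l0 hr hs e0 g1 g2
  have i2 := inn (inv_ne_zero l0) ca ca' n2 g3 g4
  refine ⟨g, fun m => ?_, eq_top_iff.2 fun v _ => ?_, ?_⟩
  · have c1 := ((s.reg' c hr hs e hb.1 (by simp [hs.1.2, hb.2, z0.1 hb.2, ib])).conj m).smul (inv_ne_zero l0)
    rw [map_add, g2, g5 b hb.1.1 hb.2 p1 p3, smul_add, smul_smul, inv_mul_cancel₀ l0, one_smul] at c1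
    have c2 := s.reg c hr hs c1 e (by simp [e, hb.1.1])
    rw [add_sub_cancel_left] at c2
    have := s.real_of c hr ib (fun m => by
      obtain ⟨k, hk⟩ := mem_span_singleton.1 m
      exact n3 (by rw [← hk, map_smul, z0.1 hb'.1.1, smul_zero])) ((one_smul F b).symm ▸ hb.1) c2 one_ne_zero
    rw [div_one, map_inv₀, inv_inj] at this
    exact nl this
  · have k1 : prj B a a' (prj B r s' v) ∈ span F (cc H g) := (span_le.2 fun w hw => by
        by_cases w0 : w = 0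
        · exact w0 ▸ zero_mem _
        · have := s.ae_cen c hr hs e ⟨w0, s.ae_iso c hr hw.1⟩ hw.2.1 hw.1
          exact subset_span ⟨this, by rwa [g5 w hw.1.1 hw.2.1 hw.2.2.1 hw.2.2.2]⟩ : _ ≤ span F (cc H g))
      (sp _ ((prj_other ha.1.1 ha'.1.1 _).trans (prj_left hr.1.2 e0 v))
        ((prj_other ha.2 ha'.2 _).trans (prj_right hs.1.2 (mt z0.1 e0) v)) (prj_left ia n2 _) (prj_right ia' n1 _))
    have k2 : ∀ {x y u : V}, x ∈ span F (cc H g) → y ∈ span F (cc H g) → prj B x y u ∈ span F (cc H g) →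
        u ∈ span F (cc H g) := fun {x y u} hx hy hu => by
      rw [prj_apply] at hu
      simpa using add_mem (add_mem hu (smul_mem _ (B x u / B x y) hy)) (smul_mem _ (B y u / B y x) hx)
    exact k2 (subset_span (i1 ⟨hr.1, subset_span (by simp)⟩)) (subset_span (i1 ⟨hs.1, subset_span (by simp)⟩))
      (k2 (subset_span (i2 ⟨ca.1, subset_span (by simp)⟩)) (subset_span (i2 ⟨ca'.1, subset_span (by simp)⟩)) k1)
  · have := Set.ncard_le_ncard (Set.union_subset i1 i2)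
    rw [Set.ncard_union_eq, s.card_hyp hr.1.2 hs.1.2 e0, s.card_hyp ia ia' n2] at this
    · rwa [two_mul]
    refine Set.disjoint_left.2 fun v hv hv' => hv.1.1 ?_
    obtain ⟨α, β, e1⟩ := mem_span_pair.1 hv.2
    obtain ⟨γ, δ, rfl⟩ := mem_span_pair.1 hv'.2
    have e2 := congrArg (B a) e1
    have e3 := congrArg (B a') e1
    simp [z0.1 ha.1.1, z0.1 ha.2, z0.1 ha'.1.1, z0.1 ha'.2, ia, ia', n1, n2] at e2 e3
    simp [e2, e3]

/-- `avg` (`s = {v | Pt B v}`, `O = C ≠ s` by `top_of_cen`) gives `g₀` with `|cc g₀| nI < |C|²`.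
`K g = if g ∈ H then 3 else if |cc g| nI < |C|² then 0 else if span (cc g) = ⊤ then 1 else 2` is bi-invariant
(`cc (h g) = cc g`, `cc (g h) = h⁻¹ cc g`) with values `3, 2, 1, 0` at `1, g₁, g₂, g₀`, as
`|C|² ≤ ((q + 1)(q^n - 1))² ≤ 2 (q + 1)(q² - 1) nI` (`card_cen`, `nI_eq`, `uu_sq`, or `card_isotropic`). -/
theorem ci_false (h3 : R3 H) : False := by
  classical
  have := finite_sug (B := B)
  obtain ⟨g₀, h0⟩ := avg (G := SUG B) (s := {v | Pt B v}) (O := {v | Cen H v}) (fun g a ha => ha.app g)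
    (fun a ha b hb => s.ex_move ha hb) (fun v hv => hv.1) c.ex fun e => c.ne (s.top_of_cen fun v hv => e.ge hv)
  replace h0 : (cc H g₀).ncard * nI B < {v | Cen H v}.ncard ^ 2 := h0
  obtain ⟨g₁, a1, a2, a3⟩ := s.ex_g1 c
  obtain ⟨g₂, b1, b2, b3⟩ := s.ex_g2 c
  have num : {v | Cen H v}.ncard ^ 2 ≤ 2 * ((q + 1) * (q ^ 2 - 1)) * nI B := by
    refine (Nat.pow_le_pow_left (s.card_cen c) 2).trans ?_
    have q3 := s.q3
    have n6 := s.n6
    have q1 : 1 ≤ q ^ 2 := Nat.one_le_pow _ _ (by omega)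
    have q2 : 1 ≤ q ^ n := Nat.one_le_pow _ _ (by omega)
    zify [q1, q2]
    rw [s.nI_eq]
    exact iend_num (by exact_mod_cast q3) (by exact_mod_cast Nat.pow_le_pow_right (by omega) (by omega))
      (by rw [← pow_mul, mul_comm n]; exact (uu_sq (by omega)).1)
  have n0 : g₀ ∉ H := fun m => by
    rw [← mul_one g₀, cc_left m, show cc H 1 = {v | Cen H v} from Set.ext fun v => and_self_iff, sq] at h0
    exact (Nat.lt_of_mul_lt_mul_left h0).not_ge (Set.ncard_le_ncard fun v hv => hv.1)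
  refine h3 (fun g => if g ∈ H then 3 else if (cc H g).ncard * nI B < {v | Cen H v}.ncard ^ 2 then 0 else
    if span F (cc H g) = ⊤ then 1 else 2) (fun g h hh => ⟨?_, ?_⟩) 1 g₁ g₂ g₀ ?_ ?_ ?_
  · simp only [cc_left hh, H.mul_mem_cancel_left hh]
  · have e1 : (cc H (g * h)).ncard = (cc H g).ncard := by
      rw [cc_right (g := g) hh, Set.ncard_image_of_injective _ h.1.injective]
    have e2 : span F (cc H (g * h)) = ⊤ ↔ span F (cc H g) = ⊤ := by
      rw [cc_right (g := g) hh]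
      exact (Submodule.map_eq_top_iff (e := h.1)).symm.trans (by rw [Submodule.map_span]; rfl)
    simp only [e1, e2, H.mul_mem_cancel_right hh]
  · simp [a1, a2, H.one_mem, (num.trans (Nat.mul_le_mul_right _ a3)).not_gt]
  · simp [a1, a2, b1, b2, (num.trans (Nat.mul_le_mul_right _ a3)).not_gt, (num.trans (Nat.mul_le_mul_right _ b3)).not_gt]
  · simp [n0, h0, b1, b2, (num.trans (Nat.mul_le_mul_right _ b3)).not_gt]

end Un

end Cfsg.Lib.R3U
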