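import Cfsg.Agent.Lib.R3U.HU
import Cfsg.Agent.Lib.R3U.IEnd
import Cfsg.Agent.Lib.R3S.Spr

/-! S2196, case II: no hyperbolic lines `W` with `Wd H W`.  `E_j` = number of non-zero isotropic vectors of a
non-degenerate `j`-space (`cnt_nd`, `pt_add_one`), `k = E_2 = (q + 1)(q² - 1)`, `m = n - 2`. -/

set_option autoImplicit false

namespace Cfsg.Lib.R3U

open Cfsg.Lib.Unitary Cfsg.Lib.R3S Module Submodule MulAction

variable {F V : Type*} [Field F] [AddCommGroup V] [Module F V] {σ : F →+* F}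
  {B : V →ₛₗ[σ] V →ₗ[F] F} {q n : ℕ} [Finite F] [Finite V] {H : Subgroup (SUG B)}

/-- The non-zero isotropic vectors of `U`. -/
def pts (B : V →ₛₗ[σ] V →ₗ[F] F) (U : Submodule F V) : Set V := {v | Pt B v ∧ v ∈ U}

theorem Wd.map {W : Submodule F V} (a : Wd H W) {k : SUG B} (hk : k ∈ H) : Wd H (W.map (k.1 : V →ₗ[F] V)) := by
  obtain ⟨h1, h2, d, hd, h3, h4⟩ := a
  refine ⟨by rw [LinearEquiv.finrank_map_eq, h1], ?_, k * d * k⁻¹, H.mul_mem (H.mul_mem hk hd) (H.inv_mem hk), ?_,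
    fun e => h4 (by rwa [conj_pow, conj_eq_one_iff] at e)⟩
  · rw [perp_map k.2.1]
    exact disjoint_map k.1.injective h2
  · rw [perp_map k.2.1]
    rintro _ ⟨y, hy, rfl⟩
    rw [mul_app, mul_app, LinearEquiv.coe_coe, inv_app, h3 y hy]

/-- `cnt_nd`, `pt_add_one`. -/
theorem pts_eq (h : IsHerm σ B) (hσ : IsBar q σ) {Y Y' : Submodule F V} (hY : Disjoint Y (perp B Y))
    (hY' : Disjoint Y' (perp B Y')) (e : finrank F Y = finrank F Y') : (pts B Y).ncard = (pts B Y').ncard := by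
  have k := cnt_nd h hσ hY
  rw [e, ← cnt_nd h hσ hY', ← pt_add_one, ← pt_add_one] at k
  have := mul_left_cancel₀ (by have := hσ.two_le; positivity) k
  exact Nat.succ_injective (Nat.cast_injective this)

theorem pts_two (h : IsHerm σ B) (hσ : IsBar q σ) {Y : Submodule F V} (hY : Disjoint Y (perp B Y))
    (e : finrank F Y = 2) : (pts B Y).ncard = (q + 1) * (q ^ 2 - 1) := by
  have k := cnt_nd h hσ hY
  have q2 := hσ.two_le
  rw [e, ← pt_add_one] at k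
  have := Nat.one_le_pow 2 q (by omega)
  zify [this]
  refine mul_left_cancel₀ (a := (q : ℤ)) (by positivity) ?_
  push_cast at k
  unfold pts
  linear_combination k

theorem w6_basis (h : IsHerm σ B) {W : Submodule F V} (hW : finrank F W = 2) (hd : Disjoint W (perp B W)) {z : V}
    (hz : Pt B z) (h1 : z ∈ W) : ∃ f, B f f = 0 ∧ B z f = 1 ∧ B f z = 1 ∧ W = span F {z, f} := by
  obtain ⟨f, hf, f1, f2⟩ := h.exists_hyperbolic_mem hd h1 hz.1 hz.2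
  refine ⟨f, f1, f2, ir_one h f2, eq_pair hW h1 hf fun c d e => ?_⟩
  have d0 : d = 0 := by simpa [hz.2, f2] using congrArg (B z) e
  exact ⟨by simpa [d0, hz.1] using e, d0⟩

theorem w6_mem (h : IsHerm σ B) {W : Submodule F V} (hW : finrank F W = 2) (hd : Disjoint W (perp B W)) {z w : V}
    (hz : Pt B z) (h1 : z ∈ W) (hw : w ∈ W) (e : B z w = 0) : ∃ c : F, c • z = w := by
  obtain ⟨f, -, f2, -, rfl⟩ := w6_basis h hW hd hz h1
  obtain ⟨a, b, rfl⟩ := mem_span_pair.1 hw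
  have : b = 0 := by simpa [hz.2, f2] using e
  exact ⟨a, by simp [this]⟩

theorem w6_three (h : IsHerm σ B) {W : Submodule F V} (hW : finrank F W = 2) (hd : Disjoint W (perp B W)) {v : V}
    (hv : v ∈ perp B W) (h0 : B v v ≠ 0) :
    Disjoint (W ⊔ span F {v}) (perp B (W ⊔ span F {v})) ∧ finrank F ↥(W ⊔ span F {v}) = 3 := by
  have v0 : v ≠ 0 := fun e => h0 (by simp [e])
  refine ⟨disjoint_def.2 fun x hx hx' => ?_, ?_⟩
  · obtain ⟨w, hw, _, m, rfl⟩ := mem_sup.1 hx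
    obtain ⟨c, rfl⟩ := mem_span_singleton.1 m
    have c0 : c = 0 := by
      simpa [h.eq_zero_comm.1 (hv w hw), h0] using hx' v (mem_sup_right (mem_span_singleton_self v))
    rw [c0, zero_smul, add_zero] at hx' ⊢
    exact disjoint_def.1 hd w hw fun u hu => hx' u (mem_sup_left hu)
  · have := finrank_sup_add_finrank_inf_eq W (span F {v})
    rwa [(hd.mono_right ((span_singleton_le_iff_mem _ _).2 hv)).eq_bot, finrank_bot, hW, finrank_span_singleton v0]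
      at this

theorem w6_e (h : IsHerm σ B) (hσ : IsBar q σ) {W W' : Submodule F V} (hd : Disjoint W (perp B W))
    (hd' : Disjoint W' (perp B W')) (e : finrank F W = finrank F W') :
    (pts B (perp B W)).ncard = (pts B (perp B W')).ncard :=
  pts_eq h hσ (h.disjoint_perp_perp hd) (h.disjoint_perp_perp hd') (by rw [h.finrank_perp, h.finrank_perp, e])

omit [Finite V] in
/-- The number of points of a non-zero subspace is `1` in `F`. -/
theorem w6_pt [Finite V] {U : Submodule F V} (hU : U ≠ ⊥) :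
    (({p : Submodule F V | finrank F p = 1 ∧ p ≤ U}.ncard : ℕ) : F) = 1 := by
  have cd : ∀ X : Submodule F V, {v ∈ X | v ≠ 0}.ncard + 1 = Nat.card F ^ finrank F X := fun X => by
    rw [← Module.natCard_eq_pow_finrank, ← SetLike.coe_sort_coe, Nat.card_coe_set_eq,
      ← Set.ncard_sdiff_singleton_add_one (a := 0) (s := (X : Set V)) X.zero_mem]
    rfl
  have k := dbl_eq {p : Submodule F V | finrank F p = 1 ∧ p ≤ U} {v ∈ U | v ≠ 0} (fun p v => v ∈ p)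
    (a := Nat.card F - 1) (b := 1) (fun p hp => by
      have := cd p
      rw [hp.1, pow_one] at this
      rw [← this, Nat.add_sub_cancel]
      exact congrArg _ (Set.ext fun v => ⟨fun m => ⟨m.2, m.1.2⟩, fun m => ⟨⟨hp.2 m.1, m.2⟩, m.1⟩⟩))
    fun v hv => Set.ncard_eq_one.2 ⟨span F {v}, Set.ext fun p => ⟨fun m =>
      (eq_of_le_of_finrank_eq ((span_singleton_le_iff_mem _ _).2 m.2) (by
        rw [finrank_span_singleton hv.2, m.1.1])).symm, fun m => m ▸ ⟨⟨finrank_span_singleton hv.2,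
        (span_singleton_le_iff_mem _ _).2 hv.1⟩, mem_span_singleton_self v⟩⟩⟩
  have := Fintype.ofFinite F
  have c0 : ((Nat.card F : ℕ) : F) = 0 := by rw [Nat.card_eq_fintype_card, FiniteField.cast_card_eq_zero]
  have k1 := congrArg (Nat.cast : ℕ → F) (cd U)
  have k2 := congrArg (Nat.cast : ℕ → F) k
  rw [Nat.cast_pow, c0, zero_pow (finrank_eq_zero.not.2 hU), Nat.cast_add] at k1
  rw [Nat.cast_mul, Nat.cast_mul, Nat.cast_sub Nat.card_pos, c0] at k2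
  push_cast at k1 k2
  linear_combination -k1 - k2

/-- `ln d = W'` (`ln_eq`).  `W ⊓ W' ≤ W ⊓ z^⊥ = F z`, and `z ∉ W'`.  For `x ∈ W`: `d x - x ∈ W ⊓ W' = 0`, so
`x ∈ (ln d)^⊥` (`mem_perp_ln`). -/
theorem wd_mov (h : IsHerm σ B) (a : NoTv H) {W W' : Submodule F V} (hW : finrank F W = 2)
    (hd : Disjoint W (perp B W)) (hW' : finrank F W' = 2) (hd' : Disjoint W' (perp B W')) {z : V} (hz : Pt B z)
    (h1 : z ∈ W) (h2 : z ∈ perp B W') {d : SUG B} (hH : d ∈ H) (h3 : ∀ y ∈ perp B W', d.1 y = y) (h4 : d ≠ 1)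
    (h5 : ∀ x ∈ W, d.1 x ∈ W) : W ≤ perp B W' := by
  rw [← ln_eq h a hW' hH h3 h4]
  intro x hx
  rw [mem_perp_ln h, ← sub_eq_zero]
  have m : d.1 x - x ∈ W' := ln_eq h a hW' hH h3 h4 ▸ mem_ln.2 ⟨x, rfl⟩
  obtain ⟨c, hc⟩ := w6_mem h hW hd hz h1 (sub_mem (h5 x hx) hx) (h.eq_zero_comm.1 (h2 _ m))
  exact disjoint_def.1 hd' _ m (hc ▸ smul_mem _ _ h2)

variable (h : IsHerm σ B) (c : NoC H) (q1 : Q1 H) (nb : NoB H)
include h c q1 nb

/-- `Wᵢ = ⟨z, fᵢ⟩` with `B z fᵢ = 1`; `v = f₁ - f₂ + a z ∈ W₁^⊥` for a suitable `a`, `v ≠ 0`.  If `v` is isotropic then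
`W₂ ≤ W₁ + F v`, against `Wd.eq`. -/
theorem wd_pair {W₁ W₂ : Submodule F V} (a₁ : Wd H W₁) (a₂ : Wd H W₂) {z : V} (hz : Pt B z) (h1 : z ∈ W₁)
    (h2 : z ∈ W₂) (ne : W₁ ≠ W₂) : ∃ v ∈ perp B W₁, B v v ≠ 0 ∧ W₁ ⊔ W₂ = W₁ ⊔ span F {v} := by
  obtain ⟨f₁, p1, p2, p3, e1⟩ := w6_basis h a₁.1 a₁.2.1 hz h1
  obtain ⟨f₂, -, r2, -, e2⟩ := w6_basis h a₂.1 a₂.2.1 hz h2
  have m1 : f₁ ∈ W₁ := e1 ▸ subset_span (by simp)
  have m2 : f₂ ∈ W₂ := e2 ▸ subset_span (by simp)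
  have hv : f₂ - f₁ - B f₁ f₂ • z ∈ perp B W₁ := by
    rw [e1, mem_perp_span]
    simp [hz.2, p1, p2, p3, r2]
  have le : W₂ ≤ W₁ ⊔ span F {f₂ - f₁ - B f₁ f₂ • z} := by
    rw [e2, span_le, Set.pair_subset_iff]
    refine ⟨mem_sup_left h1, mem_sup.2 ⟨_, add_mem m1 (smul_mem _ (B f₁ f₂) h1), _, mem_span_singleton_self _, ?_⟩⟩
    module
  refine ⟨_, hv, fun k => ne ?_, le_antisymm (sup_le le_sup_left le) (sup_le le_sup_left
    ((span_singleton_le_iff_mem _ _).2 (sub_mem (sub_mem (mem_sup_right m2) (mem_sup_left m1))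
      (smul_mem _ _ (mem_sup_left h1)))))⟩
  by_cases v0 : f₂ - f₁ - B f₁ f₂ • z = 0
  · rw [v0, span_zero_singleton, sup_bot_eq] at le
    exact (eq_of_le_of_finrank_eq le (a₂.1.trans a₁.1.symm)).symm
  · exact (Wd.eq h c q1 nb a₁ a₂ ⟨v0, k⟩ hv le).symm

omit c q1 nb in
theorem w6_lo (hσ : IsBar q σ) {W' : Submodule F V} {z f v : V} (hz : B z z = 0) (p3 : B f z = 1) (h0 : B v v ≠ 0)
    (r : finrank F W' = 2) (dj : Disjoint W' (perp B W')) (hz' : z ∈ perp B W') (hv' : v ∈ W' ⊔ span F {z}) :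
    (q + 1) * (q ^ 2 - 1) ≤
      {y ∈ {y ∈ pts B (perp B (span F {z, f})) | B v y ≠ 0} | y ∈ W' ⊔ span F {z}}.ncard := by
  have sy : ∀ {x y : V}, B x y = 0 → B y x = 0 := h.eq_zero_comm.1
  rw [← pts_two h hσ dj r]
  obtain ⟨w, hw, _, m, rfl⟩ := mem_sup.1 hv'
  obtain ⟨c, rfl⟩ := mem_span_singleton.1 m
  have wz := hz' w hw
  refine Set.ncard_le_ncard_of_injOn (fun x => x - B f x • z) ?_ fun x hx x' hx' e => ?_
  · rintro x ⟨hx, hx'⟩
    have xz := hz' x hx'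
    have wx : B w x ≠ 0 := fun e => by
      obtain ⟨d, rfl⟩ := w6_mem h r dj hx hx' hw (sy e)
      exact h0 (by simp [hx.2, xz, sy xz, hz])
    have nz : B (w + c • z) (x - B f x • z) ≠ 0 := by simpa [wz, sy xz, hz] using wx
    refine ⟨⟨⟨⟨fun e => nz (by rw [e, map_zero]), by simp [hx.2, xz, sy xz, hz]⟩, ?_⟩, nz⟩,
      sub_mem (mem_sup_left hx') (mem_sup_right (smul_mem _ _ (mem_span_singleton_self z)))⟩
    rw [mem_perp_span]
    simp [sy xz, hz, p3]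
  · refine sub_eq_zero.1 (disjoint_def.1 dj _ (sub_mem hx.2 hx'.2) ?_)
    have e' : x - B f x • z = x' - B f x' • z := e
    rw [show x - x' = (B f x - B f x') • z by linear_combination (norm := module) e']
    exact smul_mem _ _ hz'

omit c q1 nb in
theorem w6_hi {W₁ U : Submodule F V} {z v y : V} (hz : B z z = 0) (hy : B y y = 0) (hvy : B v y ≠ 0)
    (r : finrank F W₁ = 2) (z₁ : z ∈ perp B W₁) (v₁ : v ∈ W₁ ⊔ span F {z}) (y₁ : y ∈ W₁ ⊔ span F {z}) (mz : z ∈ U)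
    (v₂ : v ∈ U) (y₂ : y ∈ U) : W₁ ≤ U := by
  have sy : ∀ {x y : V}, B x y = 0 → B y x = 0 := h.eq_zero_comm.1
  obtain ⟨w, hw, _, m, rfl⟩ := mem_sup.1 v₁
  obtain ⟨c, rfl⟩ := mem_span_singleton.1 m
  obtain ⟨x, hx, _, m', rfl⟩ := mem_sup.1 y₁
  obtain ⟨d, rfl⟩ := mem_span_singleton.1 m'
  have wz := z₁ w hw
  have xz := z₁ x hx
  have xx : B x x = 0 := by simpa [xz, sy xz, hz] using hy
  have wx : B w x ≠ 0 := by simpa [wz, sy xz, hz] using hvy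
  rw [eq_pair r hw hx fun a b e => ?_, span_le, Set.pair_subset_iff]
  · exact ⟨(add_mem_cancel_right (smul_mem _ _ mz)).1 v₂, (add_mem_cancel_right (smul_mem _ _ mz)).1 y₂⟩
  · have a0 : a = 0 := by simpa [xx, wx] using congrArg (B · x) e
    refine ⟨a0, by_contra fun b0 => wx ?_⟩
    rw [show x = 0 by simpa [a0, b0] using e, map_zero]

/-- `dbl` for the pairs `(W', y)`, `y ∈ pts W^⊥`, `B v y ≠ 0`, `y ∈ W' + F z`.  Each `W'` has at least `k` such `y`: the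
projection `W''` of `W'` to `W^⊥` along `F z` is isometric to `W'`, contains `v`, and its isotropic vectors are not
`⊥ v`.  Each `y` has at most one `W'`, because `W' + F z = ⟨v, y, z⟩` (`Wd.eq`). -/
theorem wd_cnt (hσ : IsBar q σ) {W : Submodule F V} (hW : finrank F W = 2) (hd : Disjoint W (perp B W)) {z v : V}
    (hz : Pt B z) (h1 : z ∈ W) (hv : v ∈ perp B W) (h0 : B v v ≠ 0) :
    {W' | Wd H W' ∧ z ∈ perp B W' ∧ v ∈ W' ⊔ span F {z}}.ncard * ((q + 1) * (q ^ 2 - 1)) +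
      (pts B (perp B (W ⊔ span F {v}))).ncard ≤ (pts B (perp B W)).ncard := by
  obtain ⟨f, p1, p2, p3, e1⟩ := w6_basis h hW hd hz h1
  have k := dbl {W' | Wd H W' ∧ z ∈ perp B W' ∧ v ∈ W' ⊔ span F {z}} {y ∈ pts B (perp B W) | B v y ≠ 0}
    (fun W' y => y ∈ W' ⊔ span F {z}) (m := (q + 1) * (q ^ 2 - 1)) (n := 1) ?_ ?_
  · rw [mul_one] at k
    have := Set.ncard_inter_add_ncard_diff_eq_ncard (pts B (perp B W)) {y | B v y ≠ 0}
    rw [show pts B (perp B W) \ {y | B v y ≠ 0} = pts B (perp B (W ⊔ span F {v})) by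
      ext y
      simp only [pts, perp_sup, Set.mem_diff, Set.mem_setOf_eq, mem_inf, mem_perp_singleton, not_not, and_assoc]]
      at this
    rw [← this]
    exact Nat.add_le_add_right k _
  · rintro W' ⟨a, hz', hv'⟩
    rw [e1]
    exact w6_lo h hσ hz.2 p3 h0 a.1 a.2.1 hz' hv'
  · rintro y ⟨⟨hy, -⟩, hvy⟩
    refine (Set.ncard_le_one (Set.toFinite _)).2 ?_
    rintro W₁ ⟨⟨a₁, z₁, v₁⟩, y₁⟩ W₂ ⟨⟨a₂, z₂, v₂⟩, y₂⟩
    exact Wd.eq h c q1 nb a₂ a₁ hz z₂ (w6_hi h hz.2 hy.2 hvy a₁.1 z₁ v₁ y₁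
      (mem_sup_right (mem_span_singleton_self z)) v₂ y₂)

/-- `dbl` for the pairs `(W', W₂)` with `W₂ ≤ W + W'`.  A mover `W'` (element `d`) gives `W₂ = d W, d⁻¹ W`, different
from `W` and from each other (`wd_mov` for `d`, `d⁻¹`, `d²`).  For fixed `W₂` take `v` from `wd_pair`;
`v ∈ (W + W') ⊓ z^⊥ = W' + F z`, and `wd_cnt` bounds the number of `W'`; `E' = E_{m-1}` by `pts_eq`. -/
theorem wd_mov_le (hσ : IsBar q σ) {W : Submodule F V} (a : Wd H W) {z : V} (hz : Pt B z) (h1 : z ∈ W) {E' : ℕ}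
    (hE : ∀ v ∈ perp B W, B v v ≠ 0 → (pts B (perp B (W ⊔ span F {v}))).ncard = E') :
    2 * {W' | Wd H W' ∧ z ∈ perp B W' ∧ ¬ W ≤ perp B W'}.ncard * ((q + 1) * (q ^ 2 - 1)) +
      {W₂ | Wd H W₂ ∧ z ∈ W₂ ∧ W₂ ≠ W}.ncard * E' ≤
      {W₂ | Wd H W₂ ∧ z ∈ W₂ ∧ W₂ ≠ W}.ncard * (pts B (perp B W)).ncard := by
  have nt := c.noTv h
  have kp : 0 < (q + 1) * (q ^ 2 - 1) := by
    have := hσ.two_le
    have := Nat.one_lt_pow two_ne_zero (show 1 < q by omega)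
    exact Nat.mul_pos (by omega) (by omega)
  have key : ∀ W₂ ∈ {W₂ | Wd H W₂ ∧ z ∈ W₂ ∧ W₂ ≠ W},
      {W' ∈ {W' | Wd H W' ∧ z ∈ perp B W' ∧ ¬ W ≤ perp B W'} | W₂ ≤ W ⊔ W'}.ncard * ((q + 1) * (q ^ 2 - 1)) + E' ≤
        (pts B (perp B W)).ncard := fun W₂ ⟨a₂, z₂, ne⟩ => by
    obtain ⟨v, hv, v0, e⟩ := wd_pair h c q1 nb a a₂ hz h1 z₂ ne.symm
    refine le_trans ?_ (wd_cnt h c q1 nb hσ a.1 a.2.1 hz h1 hv v0)
    rw [hE v hv v0]
    refine Nat.add_le_add_right (Nat.mul_le_mul_right _ (Set.ncard_le_ncard ?_)) _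
    rintro W' ⟨⟨a', z', _⟩, le⟩
    refine ⟨a', z', ?_⟩
    obtain ⟨x, hx, w, hw, ev⟩ := mem_sup.1 ((sup_le le_sup_left le : W ⊔ W₂ ≤ W ⊔ W')
      (e ▸ mem_sup_right (mem_span_singleton_self v)))
    obtain ⟨d, rfl⟩ := w6_mem h a.1 a.2.1 hz h1 hx (by
      simpa [← ev, h.eq_zero_comm.1 (z' w hw)] using hv z h1)
    exact ev ▸ add_mem (mem_sup_right (smul_mem _ _ (mem_span_singleton_self z))) (mem_sup_left hw)
  have k := dbl {W' | Wd H W' ∧ z ∈ perp B W' ∧ ¬ W ≤ perp B W'} {W₂ | Wd H W₂ ∧ z ∈ W₂ ∧ W₂ ≠ W}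
    (fun W' W₂ => W₂ ≤ W ⊔ W') (m := 2) (n := ((pts B (perp B W)).ncard - E') / ((q + 1) * (q ^ 2 - 1)))
    (fun W' ⟨⟨r, dj, d, hd, fx, d2⟩, z', nl⟩ => ?_)
    fun W₂ m => (Nat.le_div_iff_mul_le kp).2 (Nat.le_sub_of_add_le (key W₂ m))
  · rcases Set.eq_empty_or_nonempty {W₂ | Wd H W₂ ∧ z ∈ W₂ ∧ W₂ ≠ W} with e | ⟨W₂, m⟩
    · rw [e, Set.ncard_empty, zero_mul] at k ⊢
      rw [mul_comm 2, Nat.le_zero.1 k]
      simp
    · obtain ⟨D, hD⟩ := Nat.exists_eq_add_of_le (le_of_add_le_right (key W₂ m))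
      rw [hD, Nat.add_sub_cancel_left] at k
      rw [hD, mul_add, add_comm, mul_comm 2]
      exact Nat.add_le_add_left ((Nat.mul_le_mul_right _ k).trans (by
        rw [mul_assoc]; exact Nat.mul_le_mul_left _ (Nat.div_mul_le_self _ _))) _
  have mv : ∀ g ∈ H, (∀ y ∈ perp B W', g.1 y = y) → g ≠ 1 → ¬ ∀ x ∈ W, g.1 x ∈ W := fun g hg f1 g1 m =>
    nl (wd_mov h nt a.1 a.2.1 r dj hz h1 z' hg f1 g1 m)
  have mm : ∀ g ∈ H, (∀ y ∈ perp B W', g.1 y = y) → g ≠ 1 → W.map (g.1 : V →ₗ[F] V) ∈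
      {W₂ ∈ {W₂ | Wd H W₂ ∧ z ∈ W₂ ∧ W₂ ≠ W} | W₂ ≤ W ⊔ W'} := fun g hg f1 g1 => by
    refine ⟨⟨a.map hg, ⟨z, h1, f1 z z'⟩, fun e => mv g hg f1 g1 fun x hx => e ▸ mem_map_of_mem hx⟩, ?_⟩
    rintro _ ⟨x, hx, rfl⟩
    exact mem_sup.2 ⟨x, hx, g.1 x - x, ln_eq h nt r hg f1 g1 ▸ mem_ln.2 ⟨x, rfl⟩, by simp⟩
  have d1 : d ≠ 1 := fun e => d2 (by rw [e, one_pow])
  refine (Set.one_lt_ncard (Set.toFinite _)).2 ⟨_, mm d hd fx d1, _, mm d⁻¹ (H.inv_mem hd) (fun y hy => by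
    conv_lhs => rw [← fx y hy, inv_app]) (inv_ne_one.2 d1), fun e => mv (d ^ 2) (H.pow_mem hd 2)
      (fun y hy => by rw [sq, mul_app, fx y hy, fx y hy]) d2 fun x hx => ?_⟩
  obtain ⟨y, hy, ey⟩ := e.le (mem_map_of_mem hx)
  rw [LinearEquiv.coe_coe, LinearEquiv.coe_coe] at ey
  rwa [sq, mul_app, ← ey, app_inv]

omit h

namespace Un

variable (s : Un σ B q n) (t : Tr H)
include s t

omit c q1 nb in
/-- Both numbers do not depend on `z` (`Tr`, `Wd.map`); `dbl_eq` twice: `|𝒲| k = nI ν`, `|𝒲| E_m = nI α`. -/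
theorem wd_dbl {W : Submodule F V} (a : Wd H W) : ∃ ν α : ℕ, (∀ z, Pt B z → {W' | Wd H W' ∧ z ∈ W'}.ncard = ν) ∧
    (∀ z, Pt B z → {W' | Wd H W' ∧ z ∈ perp B W'}.ncard = α) ∧
    α * ((q + 1) * (q ^ 2 - 1)) = ν * (pts B (perp B W)).ncard := by
  have h := s.herm
  have inv : ∀ P : Submodule F V → Submodule F V, (∀ (k : SUG B) W', P (W'.map (k.1 : V →ₗ[F] V)) =
      (P W').map (k.1 : V →ₗ[F] V)) → ∀ z z', Pt B z → Pt B z' →
      {W' | Wd H W' ∧ z ∈ P W'}.ncard ≤ {W' | Wd H W' ∧ z' ∈ P W'}.ncard := fun P hP z z' hz hz' => by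
    obtain ⟨k, hk, c, e⟩ := t z z' hz hz'
    have c0 : c ≠ 0 := fun c0 => app_ne k hz.1 (by simp [e, c0])
    refine Set.ncard_le_ncard_of_injOn (fun W' => W'.map (k.1 : V →ₗ[F] V)) (fun W' ⟨a', m⟩ => ⟨a'.map hk, ?_⟩)
      (map_injective_of_injective k.1.injective).injOn
    rw [hP, ← smul_mem_iff _ c0, ← e]
    exact mem_map_of_mem m
  obtain ⟨e, he, f, -, ee, -, ef⟩ := s.ex_hyp a.2.1 a.1.ge
  have pe : Pt B e := ⟨fun c => by simp [c] at ef, ee⟩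
  have i1 := fun z hz => le_antisymm (inv id (fun _ _ => rfl) z e hz pe) (inv id (fun _ _ => rfl) e z pe hz)
  have i2 := fun z hz => le_antisymm (inv (perp B) (fun k => perp_map k.2.1) z e hz pe)
    (inv (perp B) (fun k => perp_map k.2.1) e z pe hz)
  refine ⟨_, _, i1, i2, ?_⟩
  have k1 := dbl_eq {W' | Wd H W'} {v | Pt B v} (fun W' v => v ∈ W') (fun W' a' => pts_two h s.bar a'.2.1 a'.1) i1
  have k2 := dbl_eq {W' | Wd H W'} {v | Pt B v} (fun W' v => v ∈ perp B W')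
    (fun W' a' => w6_e h s.bar a'.2.1 a.2.1 (a'.1.trans a.1.symm)) i2
  refine Nat.eq_of_mul_eq_mul_left ((Set.ncard_pos (s := {v | Pt B v}) (Set.toFinite _)).2 ⟨e, pe⟩) ?_
  rw [← mul_assoc, ← k2, ← mul_assoc {v | Pt B v}.ncard, ← k1]
  ring

/-- Let `W₁ ≠ W₂`, `W₁ + W₂ = W₁ + F v`, `E = E_m`, `E' = E_{m-1}`.  `G = #{W' ⊥ W₁ + W₂}` satisfies
`α ≤ G + M₁ + M₂` (`Mᵢ` = movers), `(M₁ + M₂) k ≤ (ν - 1)(E - E')` (`wd_mov_le`), `G k ≤ ν E'` (`dbl`), `α k = ν E`.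
Hence `E ≤ E'`, so all isotropic vectors of `W₁^⊥` are `⊥ v`, and `le_of_isotropic` gives `v ⊥ v`. -/
theorem wd_one {W₁ W₂ : Submodule F V} (a₁ : Wd H W₁) (a₂ : Wd H W₂) {z : V} (hz : Pt B z) (h1 : z ∈ W₁)
    (h2 : z ∈ W₂) : W₁ = W₂ := by
  have h := s.herm
  by_contra ne
  obtain ⟨v, hv, v0, e⟩ := wd_pair h c q1 nb a₁ a₂ hz h1 h2 ne
  obtain ⟨u1, u2⟩ := w6_three h a₁.1 a₁.2.1 hv v0
  obtain ⟨ν, α, k1, k2, k3⟩ := s.wd_dbl t a₁
  have mv : ∀ {W : Submodule F V}, Wd H W → z ∈ W →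
      2 * {W' | Wd H W' ∧ z ∈ perp B W' ∧ ¬ W ≤ perp B W'}.ncard * ((q + 1) * (q ^ 2 - 1)) +
        (ν - 1) * (pts B (perp B (W₁ ⊔ span F {v}))).ncard ≤ (ν - 1) * (pts B (perp B W₁)).ncard := fun {W} a m => by
    have := wd_mov_le h c q1 nb s.bar a hz m (E' := (pts B (perp B (W₁ ⊔ span F {v}))).ncard) fun v' hv' v0' =>
      have k := w6_three h a.1 a.2.1 hv' v0'
      w6_e h s.bar k.1 u1 (k.2.trans u2.symm)
    rwa [w6_e h s.bar a.2.1 a₁.2.1 (a.1.trans a₁.1.symm), show {W₂ | Wd H W₂ ∧ z ∈ W₂ ∧ W₂ ≠ W}.ncard = ν - 1 by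
      rw [← k1 z hz, ← Set.ncard_diff_singleton_of_mem (s := {W' | Wd H W' ∧ z ∈ W'}) (a := W) ⟨a, m⟩]
      exact congrArg _ (Set.ext fun _ => and_assoc.symm)] at this
  have m1 := mv a₁ h1
  have m2 := mv a₂ h2
  have g := dbl {W' | Wd H W' ∧ W₁ ⊔ span F {v} ≤ perp B W'} (pts B (perp B (W₁ ⊔ span F {v})))
    (fun W' y => y ∈ W') (m := (q + 1) * (q ^ 2 - 1)) (n := ν) (fun W' ⟨a', le⟩ => by
      rw [← pts_two h s.bar a'.2.1 a'.1]
      exact Set.ncard_le_ncard fun y hy => ⟨⟨hy.1, h.le_perp_comm le hy.2⟩, hy.2⟩)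
    fun y hy => k1 y hy.1 ▸ Set.ncard_le_ncard fun W' m => ⟨m.1.1, m.2⟩
  have al : α ≤ {W' | Wd H W' ∧ W₁ ⊔ span F {v} ≤ perp B W'}.ncard +
      ({W' | Wd H W' ∧ z ∈ perp B W' ∧ ¬ W₁ ≤ perp B W'}.ncard +
        {W' | Wd H W' ∧ z ∈ perp B W' ∧ ¬ W₂ ≤ perp B W'}.ncard) := by
    rw [← k2 z hz]
    refine le_trans (Set.ncard_le_ncard fun W' m => ?_) ((Set.ncard_union_le _ _).trans
      (Nat.add_le_add_left (Set.ncard_union_le _ _) _))
    by_cases p1 : W₁ ≤ perp B W'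
    · by_cases p2 : W₂ ≤ perp B W'
      · exact .inl ⟨m.1, e ▸ sup_le p1 p2⟩
      · exact .inr (.inr ⟨m.1, m.2, p2⟩)
    · exact .inr (.inl ⟨m.1, m.2, p1⟩)
  have n1 : 0 < ν := k1 z hz ▸ (Set.ncard_pos (Set.toFinite _)).2 ⟨W₁, a₁, h1⟩
  obtain ⟨μ, rfl⟩ := Nat.exists_eq_add_of_le' n1
  have le : (pts B (perp B W₁)).ncard ≤ (pts B (perp B (W₁ ⊔ span F {v}))).ncard := by
    have := Nat.mul_le_mul_right ((q + 1) * (q ^ 2 - 1)) al
    rw [Nat.add_sub_cancel] at m1 m2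
    nlinarith
  have eq := Set.eq_of_subset_of_ncard_le (s := pts B (perp B (W₁ ⊔ span F {v}))) (t := pts B (perp B W₁))
    (fun y hy => ⟨hy.1, fun w hw => hy.2 w (mem_sup_left hw)⟩) le
  refine v0 (h.le_of_isotropic (h.disjoint_perp_perp a₁.2.1) (Z := perp B (W₁ ⊔ span F {v})) (by
    have := s.n6
    rw [h.finrank_perp, s.dim, a₁.1]; omega) (fun u hu uu => ?_) hv v (mem_sup_right (mem_span_singleton_self v)))
  by_cases u0 : u = 0
  · exact u0 ▸ zero_mem _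
  · exact (eq.ge ⟨⟨u0, uu⟩, hu⟩).2

/-- Every point `z` lies on a unique `W z` (`Tr`, `wd_one`), and `z ⊥ W'` implies `W z ⊥ W'` (`d W z = W z`, `wd_mov`).
Let `π` be totally isotropic of dimension `3` (two steps of `ex_hyp_perp`-type, or `exists_orthonormal`), `Y` its points,
`A y y' = 1` iff `y' ⊥ W y` (symmetric, zero diagonal).  `π ⊓ (W y)^⊥` has dimension `2`, `π ⊓ (W y)^⊥ ⊓ (W y')^⊥ ≠ 0`,
and a non-zero subspace has `≡ 1 mod p` points (`card_pt`: `(q² - 1) N = q^(2 d) - 1`).  `R3S.baer` over `F`. -/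
theorem noW : NoW H := by
  classical
  intro W a
  have h := s.herm
  have n6 := s.n6
  obtain ⟨e, he, f, -, ee, -, ef⟩ := s.ex_hyp a.2.1 a.1.ge
  have ex : ∀ z, Pt B z → ∃ W', Wd H W' ∧ z ∈ W' := fun z hz => by
    obtain ⟨k, hk, c, ek⟩ := t e z ⟨fun c => by simp [c] at ef, ee⟩ hz
    have c0 : c ≠ 0 := fun c0 => app_ne k (fun c => by simp [c] at ef : e ≠ 0) (by simp [ek, c0])
    exact ⟨_, a.map hk, by rw [← smul_mem_iff _ c0, ← ek]; exact mem_map_of_mem he⟩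
  have key : ∀ {z W₁ W'}, Pt B z → Wd H W₁ → z ∈ W₁ → Wd H W' → z ∈ perp B W' → W₁ ≤ perp B W' :=
    fun {z W₁ W'} hz a₁ m ⟨r, dj, d, hd, fx, d2⟩ m' =>
      wd_mov h (c.noTv h) a₁.1 a₁.2.1 r dj hz m m' hd fx (fun e => d2 (by rw [e, one_pow])) fun x hx =>
        s.wd_one c q1 nb t (a₁.map hd) a₁ hz ⟨z, m, fx z m'⟩ m ▸ mem_map_of_mem hx
  obtain ⟨x, hx⟩ := h.exists_orthonormal 6 (by rw [s.dim]; exact n6)
  obtain ⟨l, hl⟩ := h.exists_norm_eq (μ := -1) (by simp)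
  have hl' : σ l * l = -1 := by rw [mul_comm, hl]
  let u : Fin 3 → V := ![x 0 + l • x 1, x 2 + l • x 3, x 4 + l • x 5]
  have li : LinearIndependent F u := Fintype.linearIndependent_iff.2 fun g hg i => by
    have k := fun j => congrArg (B (x j)) hg
    fin_cases i
    · simpa [u, Fin.sum_univ_three, hx] using k 0
    · simpa [u, Fin.sum_univ_three, hx] using k 2
    · simpa [u, Fin.sum_univ_three, hx] using k 4
  obtain ⟨π, r3, iso⟩ : ∃ π : Submodule F V, finrank F π = 3 ∧ π ≤ perp B π :=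
    ⟨span F (Set.range u), by simpa using finrank_span_eq_card li, span_le.2 (by
      rintro _ ⟨i, rfl⟩
      refine mem_perp_span.2 ?_
      rintro _ ⟨j, rfl⟩
      fin_cases i <;> fin_cases j <;> simp [u, hx, hl'])⟩
  let Y := {p : Submodule F V // finrank F p = 1 ∧ p ≤ π}
  have gen : ∀ p : Y, ∃ z, Pt B z ∧ z ∈ π ∧ p.1 = span F {z} := fun p => by
    obtain ⟨z, hz, z0⟩ := (Submodule.ne_bot_iff p.1).1 fun e => by have := p.2.1; rw [e, finrank_bot] at this; omega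
    exact ⟨z, ⟨z0, iso (p.2.2 hz) z (p.2.2 hz)⟩, p.2.2 hz, (eq_of_le_of_finrank_eq
      ((span_singleton_le_iff_mem _ _).2 hz) (by rw [finrank_span_singleton z0, p.2.1])).symm⟩
  choose z pz zπ ez using gen
  choose L aL zL using fun p => ex (z p) (pz p)
  have sym : ∀ p p' : Y, p'.1 ≤ perp B (L p) → p.1 ≤ perp B (L p') := fun p p' m => by
    rw [ez, span_singleton_le_iff_mem] at m ⊢
    exact h.le_perp_comm (key (pz p') (aL p') (zL p') (aL p) m) (zL p)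
  have nb2 : ∀ p p' : Y, π ⊓ (perp B (L p) ⊓ perp B (L p')) ≠ ⊥ := fun p p' => by
    obtain ⟨g, -, -, -, eg⟩ := w6_basis h (aL p).1 (aL p).2.1 (pz p) (zL p)
    obtain ⟨g', -, -, -, eg'⟩ := w6_basis h (aL p').1 (aL p').2.1 (pz p') (zL p')
    obtain ⟨y, hy, y0⟩ := (Submodule.ne_bot_iff _).1 (LinearMap.ker_ne_bot_of_finrank_lt
      (f := ((B g).prod (B g')).domRestrict π) (by simp [r3]))
    refine (Submodule.ne_bot_iff _).2 ⟨y, ⟨y.2, ?_, ?_⟩, by simpa using y0⟩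
    · rw [eg, SetLike.mem_coe, mem_perp_span]
      simpa using ⟨iso y.2 _ (zπ p), congrArg Prod.fst hy⟩
    · rw [eg', SetLike.mem_coe, mem_perp_span]
      simpa using ⟨iso y.2 _ (zπ p'), congrArg Prod.snd hy⟩
  haveI := Fintype.ofFinite Y
  haveI := Fintype.ofFinite F
  have cnt : ∀ U : Submodule F V, π ⊓ U ≠ ⊥ → ∑ p : Y, (if p.1 ≤ U then (1 : F) else 0) = 1 := fun U hU => by
    rw [Finset.sum_boole, ← w6_pt hU, ← Set.ncard_coe_finset,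
      ← Set.ncard_image_of_injective _ (Subtype.val_injective (p := fun p : Submodule F V => finrank F p = 1 ∧ p ≤ π))]
    congr 2
    ext p
    simp only [Finset.coe_filter, Finset.mem_univ, true_and, Set.mem_image, Set.mem_setOf_eq, le_inf_iff]
    exact ⟨fun ⟨y, m, e⟩ => e ▸ ⟨y.2.1, y.2.2, m⟩, fun m => ⟨⟨p, m.1, m.2.1⟩, m.2.2, rfl⟩⟩
  refine baer (Matrix.of fun p p' : Y => if p'.1 ≤ perp B (L p) then (1 : F) else 0) (fun p => if_neg fun m => ?_)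
    ?_ (Matrix.ext fun p p' => ?_) (Matrix.ext fun p p' => ?_)
  · rw [ez, span_singleton_le_iff_mem] at m
    exact (pz p).1 (disjoint_def.1 (aL p).2.1 _ (zL p) m)
  · simpa using cnt ⊤ (by rw [inf_top_eq]; exact fun e => by rw [e, finrank_bot] at r3; omega)
  · refine Eq.trans ?_ (cnt _ (nb2 p p'))
    rw [Matrix.mul_apply]
    refine Finset.sum_congr rfl fun y _ => ?_
    simp only [Matrix.of_apply, ite_zero_mul_ite_zero, mul_one, le_inf_iff]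
    exact if_congr (and_congr_right' ⟨sym _ _, sym _ _⟩) rfl rfl
  · refine Eq.trans ?_ (cnt _ (nb2 p p))
    simp [Matrix.mul_apply]

end Un

end Cfsg.Lib.R3U
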