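import Cfsg.Agent.Lib.R3U.TA
import Cfsg.Agent.Lib.R3U.W6

/-! S2196, case II: the elements `C2` (definitions, local structure).  `𝒢 = gC H`, `ℓ = ln g`. -/

set_option autoImplicit false
set_option linter.unusedSectionVars false

namespace Cfsg.Lib.R3U

open Cfsg.Lib.Unitary Cfsg.Lib.R3S Module Submodule MulAction

variable {F V : Type*} [Field F] [AddCommGroup V] [Module F V] {σ : F →+* F}
  {B : V →ₛₗ[σ] V →ₗ[F] F} {q n : ℕ} [Finite F] [Finite V] {H : Subgroup (SUG B)}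

/-- The `C2`-elements of `H`. -/
def gC (H : Subgroup (SUG B)) : Set (SUG B) := {g | g ∈ H ∧ C2 g}

/-- `z` is an absolute vector of `g`. -/
def Ab (g : SUG B) (z : V) : Prop := z ≠ 0 ∧ z ∈ ln g ∧ Qz g z

/-- Two transvections with different perpendicular centres. -/
structure Pa (t s : SUG B) (u v : V) (a b : F) : Prop where
  pu : Pt B u
  pv : Pt B v
  a0 : a ≠ 0
  b0 : b ≠ 0
  uv : B u v = 0
  ne : v ∉ span F {u}
  tu : Tv t u a
  tv : Tv s v b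

/-- The partners of `t`. -/
def pc (H : Subgroup (SUG B)) (t : SUG B) : Set (SUG B) := {s | t * s ∈ H ∧ ∃ u v a b, Pa t s u v a b}

/-- `δ - 1`. -/
noncomputable def dA (H : Subgroup (SUG B)) (z : V) : ℕ := {g ∈ gC H | Ab g z}.ncard

/-- `η`. -/
noncomputable def eA (H : Subgroup (SUG B)) (z : V) : ℕ := {g ∈ gC H | z ∈ ln g ∧ ¬ Qz g z}.ncard

/-- `n_⊥`. -/
noncomputable def nP (H : Subgroup (SUG B)) (z : V) : ℕ := {g ∈ gC H | z ∈ perp B (ln g)}.ncard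

/-- `n₀`. -/
noncomputable def n0 (H : Subgroup (SUG B)) (U : Submodule F V) : ℕ := {g ∈ gC H | U ≤ perp B (ln g)}.ncard

/-- The elements `g'` perpendicular to `z` but not to `ℓ`, for which the point `ln g' ⊓ ℓ^⊥` is not absolute. -/
def bad (H : Subgroup (SUG B)) (ℓ : Submodule F V) (z : V) : Set (SUG B) :=
  {g' ∈ gC H | z ∈ perp B (ln g') ∧ ¬ ℓ ≤ perp B (ln g') ∧ ∀ y ∈ perp B ℓ, ¬ Ab g' y}

omit [Finite F] [Finite V] in
theorem qz_smul {g : SUG B} {z : V} {a : F} (ha : a ≠ 0) : Qz g (a • z) ↔ Qz g z := by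
  have k : ∀ {z : V} {a : F}, a ≠ 0 → Qz g z → Qz g (a • z) := fun {z a} ha h => ⟨by rw [map_smul, h.1], fun x hx => by
    obtain ⟨c, e⟩ := h.2 x (by simpa [ha] using hx)
    exact ⟨c / a, by rw [e, smul_smul, div_mul_cancel₀ _ ha]⟩⟩
  exact ⟨fun h => inv_smul_smul₀ ha z ▸ k (inv_ne_zero ha) h, k ha⟩

omit [Finite F] [Finite V] in
theorem ln_conj (g k : SUG B) : ln (k * g * k⁻¹) = (ln g).map (k.1 : V →ₗ[F] V) := by
  ext v
  simp only [mem_map, mem_ln, mul_app, LinearEquiv.coe_coe]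
  exact ⟨fun ⟨x, e⟩ => ⟨_, ⟨(k⁻¹).1 x, rfl⟩, by rw [map_sub, app_inv, e]⟩,
    fun ⟨_, ⟨x, e⟩, e'⟩ => ⟨k.1 x, by rw [inv_app, ← map_sub, e, e']⟩⟩

omit [Finite F] [Finite V] in
theorem gC_conj {g k : SUG B} (hg : g ∈ gC H) (hk : k ∈ H) : k * g * k⁻¹ ∈ gC H := by
  obtain ⟨h1, h2, u, v, h3, h4, h5, h6⟩ := hg
  refine ⟨mul_mem (mul_mem hk h1) (inv_mem hk), by simpa using h2, k.1 u, k.1 v, by rwa [b_app], by rwa [b_app],
    by rwa [b_app], fun x => ?_⟩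
  obtain ⟨a, b, e⟩ := mem_span_pair.1 (h6 ((k⁻¹).1 x))
  exact mem_span_pair.2 ⟨a, b, by rw [← map_smul, ← map_smul, ← map_add, e, map_sub, app_inv, mul_app, mul_app]⟩

omit [Finite F] [Finite V] in
theorem Pa.symm {t s : SUG B} {u v : V} {a b : F} (p : Pa t s u v a b) (h : IsHerm σ B) : Pa s t v u b a := ⟨p.pv, p.pu, p.b0, p.a0, h.eq_zero_comm.1 p.uv, fun k => by
    obtain ⟨c, e⟩ := mem_span_singleton.1 k
    have c0 : c ≠ 0 := by rintro rfl; exact p.pu.1 (by rw [← e, zero_smul])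
    exact p.ne (mem_span_singleton.2 ⟨c⁻¹, by rw [← e, inv_smul_smul₀ c0]⟩), p.tv, p.tu⟩

omit [Finite F] [Finite V] in
theorem Pa.comm {t s : SUG B} {u v : V} {a b : F} (p : Pa t s u v a b) (h : IsHerm σ B) : t * s = s * t := let _ := h; p.tv.comm p.tu p.uv

omit [Finite F] [Finite V] in
theorem Pa.li {t s : SUG B} {u v : V} {a b : F} (p : Pa t s u v a b) : LinearIndependent F ![u, v] :=
  (LinearIndependent.pair_iff' p.pu.1).2 fun c e => p.ne (mem_span_singleton.2 ⟨c, e⟩)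

theorem Pa.app {t s : SUG B} {u v : V} {a b : F} (p : Pa t s u v a b) (x : V) :
    (t * s).1 x - x = (a * B u x) • u + (b * B v x) • v := by
  rw [ta_app p.uv p.tv p.tu]; module

theorem Pa.ex {t s : SUG B} {u v : V} {a b : F} (p : Pa t s u v a b) (h : IsHerm σ B) (c d : F) :
    ∃ x, B u x = c ∧ B v x = d :=
  let ⟨x, e⟩ := h.exists_apply_eq p.li ![c, d]
  ⟨x, e 0, e 1⟩

theorem c2_line {L : Submodule F V} {z : V} (h1 : finrank F L < 2) (hz : z ∈ L) (h0 : z ≠ 0) : L ≤ span F {z} :=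
  (eq_of_le_of_finrank_le ((span_singleton_le_iff_mem _ _).2 hz) (by rw [finrank_span_singleton h0]; omega)).ge

/-- Rank `0`, `1` are excluded (`isT_of_rank`). -/
theorem gC_ln (h : IsHerm σ B) (a : NoTv H) {g : SUG B} (hg : g ∈ gC H) :
    finrank F (ln g) = 2 ∧ ln g ≤ perp B (ln g) := by
  obtain ⟨h1, h2, u, v, h3, h4, h5, h6⟩ := hg
  have l : ln g ≤ span F {u, v} := fun _ ⟨x, e⟩ => e ▸ h6 x
  classical
  refine ⟨le_antisymm ((finrank_mono l).trans ((finrank_span_le_card _).trans (by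
    rw [Set.toFinset_insert, Set.toFinset_singleton]; exact Finset.card_le_two))) (not_lt.1 fun k => ?_), fun x hx y hy => ?_⟩
  · obtain ⟨u, hu⟩ := (finrank_le_one_iff_isPrincipal _).1 (Nat.lt_succ_iff.1 k)
    obtain ⟨p, c, c0, t⟩ := isT_of_rank h h2 (u := u) fun x => hu ▸ mem_ln.2 ⟨x, rfl⟩
    exact a g h1 ⟨u, c, p, c0, t⟩
  · obtain ⟨a, b, rfl⟩ := mem_span_pair.1 (l hx)
    obtain ⟨c, d, rfl⟩ := mem_span_pair.1 (l hy)
    simp [h3, h4, h5, h.eq_zero_comm.1 h5]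

/-- `exists_apply_eq` gives `x` with `B u x = 1`, `B v x = 0`, and conversely. -/
theorem Pa.c2 {t s : SUG B} {u v : V} {a b : F} (p : Pa t s u v a b) (h : IsHerm σ B) :
    C2 (t * s) ∧ ln (t * s) = span F {u, v} := by
  have k : ∀ x, (t * s).1 x - x ∈ span F {u, v} := fun x => mem_span_pair.2 ⟨_, _, (p.app x).symm⟩
  obtain ⟨x, x1, x2⟩ := p.ex h a⁻¹ 0
  obtain ⟨y, y1, y2⟩ := p.ex h 0 b⁻¹
  have e : (t * s).1 x - x = u := by rw [p.app]; simp [x1, x2, p.a0]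
  exact ⟨⟨fun n => p.pu.1 (by rw [← e, n, one_app, sub_self]), u, v, p.pu.2, p.pv.2, p.uv, k⟩,
    le_antisymm (fun _ ⟨x, e⟩ => e ▸ k x) (span_le.2 (Set.pair_subset (mem_ln.2 ⟨x, e⟩)
      (mem_ln.2 ⟨y, by rw [p.app]; simp [y1, y2, p.b0]⟩)))⟩

/-- `←`: `qz_of_tv` (for `t⁻¹`), or directly.  `→`: test with `x ⊥ α u + β v`, `B u x = σ β`, `B v x = - σ α`. -/
theorem Pa.qz {t s : SUG B} {u v : V} {a b α β : F} (p : Pa t s u v a b) (h : IsHerm σ B)
    (h0 : α • u + β • v ≠ 0) : Qz (t * s) (α • u + β • v) ↔ a * (β * σ β) + b * (α * σ α) = 0 := by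
  refine ⟨fun k => ?_, fun e => ?_⟩
  · obtain ⟨x, x1, x2⟩ := p.ex h (σ β) (-σ α)
    obtain ⟨c, e⟩ := k.2 x (by simp [x1, x2, mul_comm])
    have e' := p.app x
    rw [x1, x2] at e'
    obtain ⟨e1, e2⟩ := LinearIndependent.pair_iff.1 p.li (a * σ β - c * α) (b * -σ α - c * β)
      (by linear_combination (norm := module) e - e')
    linear_combination β * e1 - α * e2
  · have a0 : α ≠ 0 := by
      rintro rfl
      exact h0 (by simpa [p.a0, p.pv.1] using e)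
    simpa using qz_of_tv h p.pu.2 p.pv.2 p.uv (p.tu.inv p.pu.2) p.tv a0 (β := β) (by linear_combination -e)

/-- For `x ⊥ z`: `g x - x = b B e x • e = b' B e' x • e'`; take `B e x = 1` to get `e = k • e'`, `b' = b k σ k`. -/
theorem Pa.uniq {t s t' s' : SUG B} {z e e' : V} {a b a' b' : F} (p : Pa t s z e a b) (p' : Pa t' s' z e' a' b')
    (h : IsHerm σ B) (e₁ : t * s = t' * s') : t = t' ∧ s = s' := by
  obtain ⟨x, x1, x2⟩ := p.ex h 0 1
  have k := (p.app x).symm.trans (e₁ ▸ p'.app x)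
  rw [x1, x2, mul_zero, mul_zero, zero_smul, zero_add, zero_add, mul_one] at k
  have k2 : e = (b⁻¹ * (b' * B e' x)) • e' := by rw [mul_smul, ← k, inv_smul_smul₀ p.b0]
  have k3 := p.tv
  rw [k2, tv_smul] at k3
  rw [k2, map_smulₛₗ, LinearMap.smul_apply, smul_eq_mul] at x2
  have e2 : s = s' := k3.eq (by
    rw [← mul_assoc, mul_inv_cancel_left₀ p.b0, mul_assoc, mul_comm (B e' x), x2, mul_one]; exact p'.tv)
  exact ⟨mul_right_cancel (e2 ▸ e₁), e2⟩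

theorem gC_adj (h : IsHerm σ B) (nt : NoTv H) {g : SUG B} (hg : g ∈ gC H) (x y : V) :
    B (g.1 x - x) y = - B x (g.1 y - y) := by
  have e := (gC_ln h nt hg).2 (mem_ln.2 ⟨y, rfl⟩) _ (mem_ln.2 ⟨x, rfl⟩)
  simp only [map_sub, LinearMap.sub_apply, b_app] at e ⊢
  linear_combination -e

/-- `N = g - 1`, `B (N x) y = - B x (N y)`.  `z = N y`.  For `x ⊥ z`, `N x ∈ ℓ ⊓ y^⊥ = F e`; `B y z ≠ 0` since `g ∉ Q_z`.
With `t = t_z(a)`, `a = (B z y)⁻¹` (skew), `t⁻¹ g` fixes `y` and moves vectors of `z^⊥` inside `F e`; `isT_of_rank`. -/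
theorem gC_dec (h : IsHerm σ B) (nt : NoTv H) {g : SUG B} (hg : g ∈ gC H) {z : V} (h0 : z ≠ 0) (hz : z ∈ ln g)
    (hq : ¬ Qz g z) : ∃ t s e a b, Pa t s z e a b ∧ g = t * s := by
  obtain ⟨d, l⟩ := gC_ln h nt hg
  have gz := (mem_perp_ln h).1 (l hz)
  obtain ⟨y, e⟩ := mem_ln.1 hz
  have k := fun x => e ▸ gC_adj h nt hg x y
  have L : finrank F ↥(ln g ⊓ perp B (span F {y})) < 2 := d ▸ finrank_lt_finrank_of_lt (inf_lt_left.2 fun k =>
    h0 (by rw [← e, (mem_perp_ln h).1 fun v hv => h.eq_zero_comm.1 (mem_perp_singleton.1 (k hv)), sub_self]))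
  have m : ∀ {v}, v ∈ ln g → B v y = 0 → v ∈ ln g ⊓ perp B (span F {y}) := fun a b =>
    ⟨a, mem_perp_singleton.2 (h.eq_zero_comm.1 b)⟩
  have p : B z y ≠ 0 := fun p => hq ⟨gz, fun x hx => by
    obtain ⟨c, e⟩ := mem_span_singleton.1 (c2_line L (m hz p) h0
      (m (mem_ln.2 ⟨x, rfl⟩) (by rw [k, h.eq_zero_comm.1 hx, neg_zero])))
    exact ⟨c, by rw [e, add_sub_cancel]⟩⟩
  have p' : σ (B z y) = - B z y := by rw [h.symm, ← neg_eq_iff_eq_neg, ← k, e]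
  have pz : Pt B z := ⟨h0, l hz z hz⟩
  obtain ⟨t, ht⟩ := ex_tv h pz.2 (c := (B z y)⁻¹) (by rw [map_inv₀, p', inv_neg, add_neg_cancel])
  obtain ⟨u, hu⟩ := (finrank_le_one_iff_isPrincipal _).1 (Nat.lt_succ_iff.1 L)
  have uL : u ∈ ln g ⊓ perp B (span F {y}) := hu ▸ mem_span_singleton_self u
  obtain ⟨pu, b, b0, tu⟩ := isT_of_rank h (g := t⁻¹ * g) (u := u)
    (fun n => nt g hg.1 ⟨z, _, pz, inv_ne_zero p, inv_mul_eq_one.1 n ▸ ht⟩) fun x => by
      rw [← hu, mul_app, ht.inv pz.2, add_sub_right_comm, show B z (g.1 x) = B z x by rw [← b_app g z x, gz]]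
      refine m (add_mem (mem_ln.2 ⟨x, rfl⟩) (smul_mem _ _ hz)) ?_
      simp only [map_add, map_smulₛₗ, LinearMap.add_apply, LinearMap.smul_apply, k, map_mul, map_neg, map_inv₀, p',
        h.symm, smul_eq_mul]
      field_simp
      ring
  refine ⟨t, _, u, _, b, ⟨pz, pu, inv_ne_zero p, b0, l uL.1 z hz, fun k => ?_, ht, tu⟩, (mul_inv_cancel_left _ _).symm⟩
  exact p (h.eq_zero_comm.1 (mem_perp_singleton.1 (c2_line (L := span F {z}) (by rw [finrank_span_singleton h0]; omega)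
    k pu.1 |>.trans (hu.ge.trans inf_le_right) (mem_span_singleton_self z))))

/-- Choose `y` with `B y (N y) ≠ 0` (a skew-hermitian form with only isotropic vectors vanishes: polarise with `x + c y`,
`exists_ne`), `z = N y`; pick `x ⊥ z` with `N x ≠ 0` (`ker N = ℓ^⊥` has codimension `2`), `N x ⊥ y`, so `N x ∉ F z`. -/
theorem gC_ex (h : IsHerm σ B) (nt : NoTv H) {g : SUG B} (hg : g ∈ gC H) : ∃ z ∈ ln g, z ≠ 0 ∧ ¬ Qz g z := by
  obtain ⟨y, p⟩ : ∃ y, B y (g.1 y - y) ≠ 0 := by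
    by_contra! k
    obtain ⟨c, hc⟩ := DFunLike.exists_ne h.ne_id
    refine hg.2.1 (ext' fun y => sub_eq_zero.1 (h.nondeg _ fun x => h.eq_zero_comm.1 ?_))
    have e1 := k (x + y)
    have e2 := k (x + c • y)
    have e3 := k x
    have e4 := k y
    simp only [map_add, map_smul, map_smulₛₗ, map_sub, LinearMap.add_apply, LinearMap.smul_apply, smul_eq_mul,
      one_app] at e1 e2 e3 e4 ⊢
    exact (mul_eq_zero_iff_left (sub_ne_zero.2 (hc : σ c ≠ c))).1 (by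
      linear_combination σ c * e1 - e2 + (1 - σ c) * e3 + σ c * (c - 1) * e4)
  have z0 : g.1 y - y ≠ 0 := fun e => p (by rw [e, map_zero])
  refine ⟨_, mem_ln.2 ⟨y, rfl⟩, z0, fun k => ?_⟩
  have l : ln g ≤ span F {g.1 y - y} := fun v hv => h.perp_perp (span F {g.1 y - y}) ▸ fun x hx =>
    h.eq_zero_comm.1 ((mem_perp_ln h).2 (by
      obtain ⟨c, e⟩ := k.2 x (mem_perp_singleton.1 hx)
      have := gC_adj h nt hg y x
      rw [mem_perp_singleton.1 hx, e, add_sub_cancel_left, map_smul, smul_eq_mul, zero_eq_neg, mul_eq_zero_iff_right p] at this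
      rw [e, this, zero_smul, add_zero]) v hv)
  have := finrank_mono l
  rw [(gC_ln h nt hg).1, finrank_span_singleton z0] at this
  omega

/-- `gC_ex`, `gC_dec`, `Pa.qz`: pairs `(α, β)` with `α ≠ 0`, `N (β / α) = - b / a` (`card_norm_eq`). -/
theorem card_ab (h : IsHerm σ B) (hσ : IsBar q σ) (nt : NoTv H) {g : SUG B} (hg : g ∈ gC H) :
    {z | Ab g z}.ncard = (q + 1) * (q ^ 2 - 1) := by
  obtain ⟨u, h1, h2, h3⟩ := gC_ex h nt hg
  obtain ⟨t, s, v, a, b, p, rfl⟩ := gC_dec h nt hg h2 h1 h3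
  have i := LinearIndependent.pair_iff.1 p.li
  rw [← hσ.card_norm_eq (μ := -b / a) (div_ne_zero (neg_ne_zero.2 p.b0) p.a0) (by
    rw [map_div₀, map_neg, eq_neg_of_add_eq_zero_right (p.tu.skew h p.pu), eq_neg_of_add_eq_zero_right (p.tv.skew h p.pv),
      neg_neg, neg_div, div_neg]), ← hσ.card, ← Set.ncard_univ F,
    ← Set.ncard_sdiff_singleton_of_mem (Set.mem_univ (0 : F)),
    show Nat.card {x : F // x * σ x = -b / a} = {x : F | x * σ x = -b / a}.ncard from Nat.card_coe_set_eq _, ← Set.ncard_prod]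
  refine (Set.ncard_congr (fun c _ => c.2 • u + (c.1 * c.2) • v) (fun c hc => ?_) (fun c d hc hd e => ?_)
    fun z hz => ?_).symm
  · have n : c.2 • u + (c.1 * c.2) • v ≠ 0 := fun e => hc.2.2 (i _ _ e).1
    refine ⟨n, (p.c2 h).2 ▸ mem_span_pair.2 ⟨_, _, rfl⟩, (p.qz h n).2 ?_⟩
    rw [map_mul]
    linear_combination (c.2 * σ c.2) * (eq_div_iff p.a0).1 hc.1
  · obtain ⟨e1, e2⟩ := i (c.2 - d.2) (c.1 * c.2 - d.1 * d.2) (by linear_combination (norm := module) e)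
    rw [sub_eq_zero] at e1 e2
    exact Prod.ext (mul_right_cancel₀ hd.2.2 (e1 ▸ e2)) e1
  · obtain ⟨α, β, rfl⟩ := mem_span_pair.1 ((p.c2 h).2 ▸ hz.2.1)
    have e := (p.qz h hz.1).1 hz.2.2
    have a0 : α ≠ 0 := by
      rintro rfl
      exact hz.1 (by simpa [p.a0, p.pv.1] using e)
    have := (map_ne_zero σ).2 a0
    have := p.a0
    refine ⟨(β / α, α), ⟨?_, trivial, a0⟩, by simp only [div_mul_cancel₀ _ a0]⟩
    simp only [Set.mem_ofPred_eq, map_div₀]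
    field_simp
    linear_combination e

/-- `card_sub`: `q⁴ - 1 = (q + 1)(q² - 1) + (q² - q)(q² - 1)`. -/
theorem card_nab (h : IsHerm σ B) (hσ : IsBar q σ) (nt : NoTv H) {g : SUG B} (hg : g ∈ gC H) :
    {z | z ≠ 0 ∧ z ∈ ln g ∧ ¬ Qz g z}.ncard = (q ^ 2 - q) * (q ^ 2 - 1) := by
  have e1 := card_ab h hσ nt hg
  have e2 := card_sub hσ (ln g)
  have e3 := Set.ncard_inter_add_ncard_sdiff_eq_ncard ((ln g : Set V) \ {0}) {z | Qz g z}
  have e4 := Set.ncard_sdiff_singleton_add_one (s := (ln g : Set V)) (ln g).zero_mem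
  rw [show ((ln g : Set V) \ {0}) ∩ {z | Qz g z} = {z | Ab g z} from Set.ext fun _ => ⟨fun a => ⟨a.1.2, a.1.1, a.2⟩,
    fun a => ⟨⟨a.2.1, a.1⟩, a.2.2⟩⟩, show ((ln g : Set V) \ {0}) \ {z | Qz g z} = {z | z ≠ 0 ∧ z ∈ ln g ∧ ¬ Qz g z} from
      Set.ext fun _ => ⟨fun a => ⟨a.1.2, a.1.1, a.2⟩, fun a => ⟨⟨a.2.1, a.1⟩, a.2.2⟩⟩, e1] at e3
  rw [← e3, e2, (gC_ln h nt hg).1] at e4
  have := hσ.two_le
  zify [show 1 ≤ q ^ 2 by nlinarith, show q ≤ q ^ 2 by nlinarith] at e4 ⊢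
  linear_combination e4

/-- `ln g' ⊓ ℓ^⊥ ≠ 0` (the pairing `ℓ × ln g'` kills `z`); `gC_dec` at a non-zero vector `z'` of it. -/
theorem bad_dec (h : IsHerm σ B) (nt : NoTv H) {t s g' : SUG B} {z e : V} {a b : F} (p : Pa t s z e a b)
    (hg : g' ∈ bad H (span F {z, e}) z) : ∃ t' s' z' e' a' b', Pa t' s' z' e' a' b' ∧ g' = t' * s' ∧
      B z z' = 0 ∧ B z e' = 0 ∧ B e z' = 0 ∧ B e e' ≠ 0 := by
  obtain ⟨hg, h1, h2, h3⟩ := hg
  obtain ⟨z', z1, z2, z0⟩ : ∃ z' ∈ ln g', B e z' = 0 ∧ z' ≠ 0 := by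
    by_contra! k
    have a := finrank_add_finrank_le_of_disjoint (disjoint_def.2 fun x a b => k x a (mem_perp_singleton.1 b) :
      Disjoint (ln g') (perp B (span F {e})))
    have := h.finrank_perp_singleton p.pv.1
    rw [(gC_ln h nt hg).1] at a
    omega
  have z3 := h.eq_zero_comm.1 (h1 z' z1)
  obtain ⟨t', s', e', a', b', p', rfl⟩ := gC_dec h nt hg z0 z1 fun k =>
    h3 z' (mem_perp_span.2 (by simp [z2, z3])) ⟨z0, z1, k⟩
  rw [(p'.c2 h).2] at h1 h2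
  exact ⟨t', s', z', e', a', b', p', rfl, z3, h.eq_zero_comm.1 (h1 e' (subset_span (by simp))), z2, fun k => h2
    (span_le.2 (Set.pair_subset h1 (mem_perp_span.2 (by simp [h.eq_zero_comm.1 z2, h.eq_zero_comm.1 k]))))⟩

end Cfsg.Lib.R3U
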