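import Cfsg.Agent.Lib.R3U.Bas
import Cfsg.Agent.Lib.R3S.A2

/-! S2196: counting isotropic vectors and transvections. -/

set_option autoImplicit false
set_option linter.unusedSectionVars false

namespace Cfsg.Lib.R3U

open Cfsg.Lib.Unitary Cfsg.Lib.R3S Module Submodule MulAction

variable {F V : Type*} [Field F] [AddCommGroup V] [Module F V] {σ : F →+* F}
  {B : V →ₛₗ[σ] V →ₗ[F] F} {q n : ℕ} [Finite F] [Finite V] {H : Subgroup (SUG B)}

/-- Exact double counting (`R3S.dbl` twice). -/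
theorem dbl_eq {α β : Type*} [Finite α] [Finite β] (s : Set α) (t : Set β) (R : α → β → Prop) {a b : ℕ}
    (ha : ∀ x ∈ s, {y ∈ t | R x y}.ncard = a) (hb : ∀ y ∈ t, {x ∈ s | R x y}.ncard = b) :
    s.ncard * a = t.ncard * b := by
  exact le_antisymm (dbl s t R (fun x hx => (ha x hx).ge) fun y hy => (hb y hy).le)
    (dbl t s (fun y x => R x y) (fun y hy => (hb y hy).ge) fun x hx => (ha x hx).le)

/-- `Module.natCard_eq_pow_finrank` / `Symp.ncard_submodule`. -/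
theorem card_sub (hσ : IsBar q σ) (U : Submodule F V) : (U : Set V).ncard = q ^ (2 * finrank F U) := by
  rw [← Nat.card_coe_set_eq, pow_mul, ← hσ.card]
  exact Module.natCard_eq_pow_finrank (K := F) (V := U)

/-- `IsHerm.restrict`, `IsHerm.card_norm_aux`. -/
theorem cnt_nd (h : IsHerm σ B) (hσ : IsBar q σ) {Y : Submodule F V} (hY : Disjoint Y (perp B Y)) :
    (q : ℤ) * {v ∈ Y | B v v = 0}.ncard = q ^ (2 * finrank F Y) + (q - 1) * (-q) ^ finrank F Y := by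
  rw [← ((h.restrict hY).card_norm_aux hσ rfl).1, ← Nat.card_coe_set_eq]
  exact congrArg (fun m : ℕ => (q : ℤ) * m) (Nat.card_congr
    ⟨fun v => ⟨⟨v.1, v.2.1⟩, v.2.2⟩, fun v => ⟨v.1.1, v.1.2, v.2⟩, fun _ => rfl, fun _ => rfl⟩)

omit [Finite F] [Finite V] in
/-- A complement of the radical is non-degenerate. -/
theorem ex_compl (h : IsHerm σ B) (U : Submodule F V) :
    ∃ Y ≤ U, Disjoint Y (perp B Y) ∧ Disjoint (U ⊓ perp B U) Y ∧ U ⊓ perp B U ⊔ Y = U := by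
  obtain ⟨C, hC⟩ := (U ⊓ perp B U).exists_isCompl
  have e : U ⊓ perp B U ⊔ C ⊓ U = U := by
    rw [← sup_inf_assoc_of_le C inf_le_left, hC.sup_eq_top, top_inf_eq]
  refine ⟨C ⊓ U, inf_le_right, disjoint_def.2 fun y hy hy' => disjoint_def.1 hC.disjoint y
    ⟨hy.2, fun u hu => ?_⟩ hy.1, hC.disjoint.mono_right inf_le_left, e⟩
  obtain ⟨r, hr, y', h1, rfl⟩ := mem_sup.1 (e.ge hu)
  rw [map_add, LinearMap.add_apply, hy' y' h1, h.eq_zero_comm.1 (hr.2 y hy.2), add_zero]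

omit [Finite F] in
theorem pt_add_one (W : Submodule F V) : {v | Pt B v ∧ v ∈ W}.ncard + 1 = {v ∈ W | B v v = 0}.ncard := by
  rw [← Set.ncard_sdiff_singleton_add_one (a := 0) (s := {v ∈ W | B v v = 0}) ⟨W.zero_mem, by simp⟩]
  congr 2
  ext v
  simp only [Pt, Set.mem_ofPred_eq, Set.mem_sdiff, Set.mem_singleton_iff]
  tauto

/-- Isotropic vectors perpendicular to a totally isotropic `E` of dimension `j`.  Either `E^⊥ = E ⊕ Y` with
`Y` non-degenerate of dimension `n - 2j` (`cnt_nd`, `v = e + y` is isotropic iff `y` is), or induction on a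
basis `x₁ … x_j` with `IsHerm.card_isotropic_apply_eq` (those `⊥ x₁ … x_{j-1}` with `B x_j v = c ≠ 0`). -/
theorem cnt_perp (h : IsHerm σ B) (hσ : IsBar q σ) {E : Submodule F V} (hE : E ≤ perp B E) :
    (q : ℤ) * {v ∈ perp B E | B v v = 0}.ncard =
      q ^ (2 * (finrank F V - finrank F E)) + (q - 1) * (-q) ^ finrank F V := by
  obtain ⟨Y, y1, y2, y3, y4⟩ := ex_compl h (perp B E)
  rw [h.perp_perp, inf_of_le_right hE] at y3 y4
  have d := finrank_sup_add_finrank_inf_eq E Y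
  have d2 := h.finrank_add_finrank_perp E
  rw [y4, y3.eq_bot, finrank_bot] at d
  have k : ∀ e ∈ E, ∀ y ∈ Y, B (e + y) (e + y) = B y y := fun e he y hy => by
    simp [hE he e he, y1 hy e he, h.eq_zero_comm.1 (y1 hy e he)]
  have c : {v ∈ perp B E | B v v = 0}.ncard = (E : Set V).ncard * {v ∈ Y | B v v = 0}.ncard := by
    rw [← Set.ncard_prod]
    refine Eq.symm (Set.ncard_congr (fun p _ => p.1 + p.2) (fun p hp => ⟨add_mem (hE hp.1) (y1 hp.2.1),
      (k _ hp.1 _ hp.2.1).trans hp.2.2⟩) (fun p p' hp hp' e => ?_) fun v hv => ?_)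
    · have := disjoint_def.1 y3 (p.1 - p'.1) (sub_mem hp.1 hp'.1) (by
        rw [sub_eq_sub_iff_add_eq_add.2 (e.trans (add_comm _ _))]; exact sub_mem hp'.2.1 hp.2.1)
      rw [sub_eq_zero] at this
      exact Prod.ext this (add_left_cancel (this ▸ e))
    · obtain ⟨e, he, y, hy, rfl⟩ := mem_sup.1 (y4.ge hv.1)
      exact ⟨(e, y), Set.mk_mem_prod he ⟨hy, (k e he y hy).symm.trans hv.2⟩, rfl⟩
  rw [c, card_sub hσ, Nat.cast_mul, mul_left_comm, cnt_nd h hσ y2,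
    show finrank F V = finrank F Y + 2 * finrank F E by omega,
    show finrank F Y + 2 * finrank F E - finrank F E = finrank F Y + finrank F E by omega,
    pow_add (-(q : ℤ)), pow_mul (-(q : ℤ)), neg_sq]
  push_cast
  ring

/-- Fix a skew `δ ≠ 0`; `v ↦ t_v(δ)` maps the right set onto the left one (`tv_smul`, `exists_norm_eq`: `c / δ` is
real) with fibres `{k • v | k * σ k = 1}` of size `q + 1` (`Tv.uniq`, `card_norm_one`); `dbl_eq`. -/
theorem cardT (h : IsHerm σ B) (hσ : IsBar q σ) (P : V → Prop) (hP : ∀ (a : F) v, a ≠ 0 → P v → P (a • v)) :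
    (q + 1) * {t : SUG B | ∃ u c, Pt B u ∧ c ≠ 0 ∧ Tv t u c ∧ P u}.ncard = {v | Pt B v ∧ P v}.ncard := by
  have := @finite_sug _ _ _ _ _ σ B _ _
  obtain ⟨δ, d0, d1⟩ := hσ.exists_skew
  have d2 : δ + σ δ = 0 := by rw [d1, add_neg_cancel]
  rw [mul_comm, ← mul_one (Set.ncard {v | Pt B v ∧ P v})]
  refine dbl_eq _ _ (fun t v => Tv t v δ) (fun t ⟨u, c, hu, hc, ht, p⟩ => ?_) fun v hv => ?_
  · obtain ⟨k, hk⟩ := hσ.exists_norm_eq (μ := c / δ) (by
      rw [map_div₀, d1, eq_neg_of_add_eq_zero_right (ht.skew h hu), neg_div_neg_eq])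
    have k0 : k ≠ 0 := fun e => div_ne_zero hc d0 (by rw [← hk, e, zero_mul])
    have t0 : Tv t (k • u) δ := tv_smul.2 (by rwa [hk, mul_div_cancel₀ _ d0])
    have u0 := hu.smul k0
    have p0 := hP k u k0 p
    generalize k • u = w at t0 u0 p0
    rw [← hσ.card_norm_one]
    refine Eq.trans ?_ (Nat.card_coe_set_eq {x : F | x * σ x = 1}).symm
    refine (Set.ncard_congr (fun a _ => a • w) (fun a ha => ?_) (fun a b _ _ e => smul_left_injective F u0.1 e)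
      fun v hv => ?_).symm
    · have a0 : a ≠ 0 := fun e => by simp [e] at ha
      exact ⟨⟨u0.smul a0, hP a w a0 p0⟩, tv_smul.2 (by rwa [show a * σ a = 1 from ha, mul_one])⟩
    · obtain ⟨a, -, e, e'⟩ := t0.uniq h u0.1 d0 hv.2
      exact ⟨a, (mul_eq_left₀ d0).1 e'.symm, e.symm⟩
  · obtain ⟨t, ht⟩ := ex_tv h hv.1.2 d2
    exact Set.ncard_eq_one.2 ⟨t, Set.ext fun t' => ⟨fun a => a.2.eq ht, fun a => a ▸ ⟨⟨v, δ, hv.1, d0, ht, hv.2⟩, ht⟩⟩⟩

/-- The root group has `q - 1` non-trivial elements (`card_trace_zero`). -/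
theorem card_root (h : IsHerm σ B) (hσ : IsBar q σ) {z : V} (hz : Pt B z) :
    {t : SUG B | ∃ c, c ≠ 0 ∧ Tv t z c}.ncard + 1 = q := by
  have := @finite_sug _ _ _ _ _ σ B _ _
  have e := dbl_eq {t : SUG B | ∃ c, c ≠ 0 ∧ Tv t z c} ({c : F | c + σ c = 0} \ {0}) (fun t c => Tv t z c)
    (a := 1) (b := 1) (fun t ⟨c, hc, ht⟩ => Set.ncard_eq_one.2 ⟨c, Set.ext fun c' => ⟨fun a => ?_,
      fun a => a ▸ ⟨⟨ht.skew h hz, hc⟩, ht⟩⟩⟩) fun c hc => ?_
  · rw [mul_one, mul_one] at e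
    rw [e, Set.ncard_sdiff_singleton_add_one (by simp), ← hσ.card_trace_zero, ← Nat.card_coe_set_eq]; rfl
  · obtain ⟨v, hv⟩ := h.exists_eq_one hz.1
    have e2 := (a.2 v).symm.trans (ht v)
    rw [add_right_inj, hv, mul_one, mul_one] at e2
    exact smul_left_injective F hz.1 e2
  · obtain ⟨t, ht⟩ := ex_tv h hz.2 hc.1
    exact Set.ncard_eq_one.2 ⟨t, Set.ext fun t' => ⟨fun a => a.2.eq ht, fun a => a ▸ ⟨⟨c, hc.2, ht⟩, ht⟩⟩⟩

theorem uu_sq {q n : ℕ} (hn : 3 ≤ n) : (q : ℤ) ^ 6 * uu q n ^ 2 = q ^ (2 * n) ∧ (-(q : ℤ)) ^ n = -(q ^ 3 * uu q n) := by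
  obtain ⟨m, rfl⟩ := Nat.exists_eq_add_of_le' hn
  rw [uu, Nat.add_sub_cancel, ← pow_mul, mul_comm m, pow_mul, neg_sq]
  exact ⟨by ring, by ring⟩

theorem uu_cases {q n : ℕ} (hq : 1 ≤ q) (hn : 6 ≤ n) :
    (n = 6 ∧ uu q n = -(q : ℤ) ^ 3) ∨ (7 ≤ n ∧ (uu q n ≤ -(q : ℤ) ^ 5 ∨ (q : ℤ) ^ 4 ≤ uu q n)) := by
  have h1 : (1 : ℤ) ≤ q := by exact_mod_cast hq
  rcases hn.eq_or_lt with rfl | h
  · exact .inl ⟨rfl, by rw [uu]; ring⟩
  refine .inr ⟨h, ?_⟩
  rcases Nat.even_or_odd (n - 3) with e | e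
  · rw [uu, e.neg_pow]; exact .inr (pow_le_pow_right₀ h1 (by omega))
  · rw [uu, e.neg_pow]
    exact .inl (neg_le_neg (pow_le_pow_right₀ h1 (by obtain ⟨k, e⟩ := e; omega)))

namespace Un

variable (s : Un σ B q n)
include s

/-- `cnt_perp` with `E = ⊥`. -/
theorem nI_eq : (nI B : ℤ) = (q ^ 3 * uu q n + 1) * (q ^ 2 * uu q n - 1) := by
  have h1 := cnt_perp s.herm s.bar (E := ⊥) bot_le
  have h2 := uu_sq (q := q) (n := n) (by have := s.n6; omega)
  have h3 : (q : ℤ) ≠ 0 := by have := s.q3; omega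
  rw [← pt_add_one, finrank_bot, s.dim, Nat.sub_zero, h2.2, ← h2.1,
    show {v | Pt B v ∧ v ∈ perp B ⊥} = {v | Pt B v} from Set.ext fun v => and_iff_left fun w hw => by
      simp [show w = 0 from hw]] at h1
  refine mul_left_cancel₀ h3 ?_
  push_cast at h1
  rw [nI]
  linear_combination h1

/-- `cardT` with `P = True`. -/
theorem nT_eq : (q + 1) * nT B = nI B := by
  simpa [nT, nI, IsT] using cardT s.herm s.bar (fun _ => True) fun _ _ _ _ => trivial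

/-- `cnt_perp` with `E = F z`. -/
theorem cnt_perp1 {z : V} (hz : Pt B z) :
    ({v | Pt B v ∧ B z v = 0}.ncard : ℤ) = q ^ 3 * uu q n ^ 2 - q ^ 3 * uu q n + q ^ 2 * uu q n - 1 := by
  have h1 := cnt_perp s.herm s.bar (E := span F {z}) ((span_singleton_le_iff_mem _ _).2 (mem_perp_singleton.2 hz.2))
  have h0 := s.n6
  have h2 := uu_sq (q := q) (n := n) (by omega)
  have h3 : (q : ℤ) ≠ 0 := by have := s.q3; omega
  have h4 : (q : ℤ) ^ (2 * n) = q ^ 2 * q ^ (2 * (n - 1)) := by rw [← pow_add]; congr 1; omega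
  rw [← pt_add_one, finrank_span_singleton hz.1, s.dim, h2.2] at h1
  simp only [mem_perp_singleton] at h1
  refine mul_left_cancel₀ (pow_ne_zero 3 h3) ?_
  push_cast at h1
  linear_combination q ^ 2 * h1 - h4 - h2.1

/-- Difference of `nI_eq` and `cnt_perp1`. -/
theorem cnt_off {z : V} (hz : Pt B z) :
    ({v | Pt B v ∧ B z v ≠ 0}.ncard : ℤ) = (q ^ 2 - 1) * (q ^ 3 * uu q n ^ 2) := by
  have h1 := Set.ncard_inter_add_ncard_sdiff_eq_ncard {v | Pt B v} {v | B z v = 0}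
  have h2 := s.nI_eq
  have h3 := s.cnt_perp1 hz
  rw [nI, ← h1] at h2
  push_cast at h2
  exact (eq_sub_of_add_eq' h2).trans (by rw [show {v | Pt B v} ∩ {v | B z v = 0} = {v | Pt B v ∧ B z v = 0} from rfl, h3]; ring)

/-- `exists_SUG_vec`. -/
theorem ex_move {u v : V} (hu : Pt B u) (hv : Pt B v) : ∃ g : SUG B, g.1 u = v := by
  obtain ⟨g, hg, e⟩ := s.herm.exists_SUG_vec (by have := s.n6; have := s.dim; omega) hu.1 hv.1 (hu.2.trans hv.2.symm)
  exact ⟨⟨g, hg⟩, e⟩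

/-- A hyperbolic pair in a non-degenerate subspace of dimension `≥ 2` (`restrict`, `exists_isotropic`,
`exists_hyperbolic_mem`). -/
theorem ex_hyp {Y : Submodule F V} (hY : Disjoint Y (perp B Y)) (h2 : 2 ≤ finrank F Y) :
    ∃ e ∈ Y, ∃ f ∈ Y, B e e = 0 ∧ B f f = 0 ∧ B e f = 1 := by
  obtain ⟨e, e0, e1⟩ := (s.herm.restrict hY).exists_isotropic h2
  obtain ⟨f, hf, f1, f2⟩ := s.herm.exists_hyperbolic_mem hY e.2 (by simpa using e0) e1
  exact ⟨e, e.2, f, hf, e1, f1, f2⟩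

/-- A hyperbolic pair perpendicular to a subspace `U` of dimension `≤ 3` all of whose radical lies in `F z`,
`z ∈ U` isotropic: `U^⊥ = F z ⊕ Y` (or `U^⊥ = Y`) with `Y` non-degenerate of dimension `≥ n - 4 ≥ 2`. -/
theorem ex_hyp_perp {U : Submodule F V} {z : V} (h3 : finrank F U ≤ 3)
    (hr : ∀ w ∈ U, w ∈ perp B U → w ∈ span F {z}) :
    ∃ e ∈ perp B U, ∃ f ∈ perp B U, B e e = 0 ∧ B f f = 0 ∧ B e f = 1 := by
  obtain ⟨Y, y1, y2, y3, y4⟩ := ex_compl s.herm (perp B U)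
  have d := finrank_sup_add_finrank_inf_eq (perp B U ⊓ perp B (perp B U)) Y
  have d2 := s.herm.finrank_add_finrank_perp U
  rw [y4, y3.eq_bot, finrank_bot, s.herm.perp_perp] at d
  have d3 : finrank F ↥(perp B U ⊓ U) ≤ 1 := (finrank_mono (t := span F {z}) (show perp B U ⊓ U ≤ _ from fun w hw => hr w hw.2 hw.1)).trans
    ((finrank_span_le_card _).trans (by simp))
  obtain ⟨e, he, f, hf, k⟩ := s.ex_hyp y2 (by have := s.n6; have := s.dim; omega)
  exact ⟨e, y1 he, f, y1 hf, k⟩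

end Un

end Cfsg.Lib.R3U
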