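import Cfsg.Agent.Lib.R3U.Iso
import Cfsg.Agent.Lib.R3U.Cnt

/-! S2196: the orbits of `Q_z`. -/

set_option autoImplicit false

namespace Cfsg.Lib.R3U

open Cfsg.Lib.Unitary Cfsg.Lib.R3S Module Submodule MulAction

variable {F V : Type*} [Field F] [AddCommGroup V] [Module F V] {σ : F →+* F}
  {B : V →ₛₗ[σ] V →ₗ[F] F} {q n : ℕ} [Finite F] [Finite V] {H : Subgroup (SUG B)}

/-- `Q_z`. -/
def qG {z : V} (hz : B z z = 0) : Subgroup (SUG B) where
  carrier := {g | Qz g z}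
  one_mem' := ⟨rfl, fun _ _ => ⟨0, by simp⟩⟩
  mul_mem' := Qz.mul hz
  inv_mem' := Qz.inv

omit [Finite F] [Finite V] in
theorem qz_fix (h : IsHerm σ B) {g : SUG B} {z s : V} (hz : B z z = 0) (hs : B s s = 0) (hzs : B z s = 1) (a : Qz g z)
    (e : g.1 s = s) : g = 1 := by
  obtain ⟨w, γ, h1, h2, h3⟩ := a.ei' h hz hs hzs
  have e1 := (h3 s).symm.trans e
  rw [hzs, h.eq_zero_comm.1 h2] at e1
  have e2 : w + γ • z = 0 := by linear_combination (norm := module) e1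
  have e3 := congrArg (B s) e2
  rw [map_add, map_smul, h2, ← h.symm z s, hzs] at e3
  have e4 : γ = 0 := by simpa using e3
  have e5 : w = 0 := by simpa [e4] using e2
  exact ext' fun x => by rw [h3 x, e4, e5]; simp

theorem dvd_card_of_index {Q X : Type*} [Group Q] [MulAction Q X] [Finite X] {d : ℕ}
    (h : ∀ x : X, d ∣ (stabilizer Q x).index) : d ∣ Nat.card X := by
  classical
  have := Fintype.ofFinite (orbitRel.Quotient Q X)
  rw [Nat.card_congr (selfEquivSigmaOrbits Q X), Nat.card_sigma]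
  refine Finset.dvd_sum fun ω _ => ?_
  rw [Nat.card_coe_set_eq, ← index_stabilizer]
  exact h _

theorem card_stab_mul {X : Type*} [MulAction (SUG B) X] (Q : Subgroup (SUG B)) (y : X) :
    Nat.card ↥(stabilizer (SUG B) y ⊓ Q) * (stabilizer Q y).index = Nat.card Q := by
  rw [← (stabilizer Q y).card_mul_index, ← Subgroup.map_subgroupOf_eq_of_le (inf_le_right : stabilizer (SUG B) y ⊓ Q ≤ Q),
    Subgroup.card_map_of_injective Q.subtype_injective, Subgroup.inf_subgroupOf_right]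
  rfl

namespace Un

variable (s : Un σ B q n)
include s

/-- Fix `s'` with `B z s' = 1`, `B s' s' = 0`; `g ↦ g s'` is a bijection from `Q_z` onto the isotropic `v` with
`B z v = 1` (`exists_QE_apply`, `Qz.ei'`, `card_isotropic_apply_eq`), or count pairs `(w, γ)` (`card_trace_eq`). -/
theorem card_qG {z : V} (hz : Pt B z) : Nat.card (qG hz.2) = q ^ (2 * n - 3) := by
  obtain ⟨f, hf, hzf⟩ := s.herm.exists_hyperbolic hz.1 hz.2
  have h5 := s.herm.card_isotropic_apply_eq s.bar (x := ![z]) (by simpa using hz.1) ![1] 0 rfl (by simpa using hz.2)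
  have n6 := s.n6
  rw [s.dim, ← pow_mul, show 2 * (n - 1) = 2 * n - 3 + 1 by omega, pow_succ'] at h5
  rw [← Nat.eq_of_mul_eq_mul_left (s.bar.two_le.trans_lt' two_pos) h5]
  refine Nat.card_eq_of_bijective (fun g => ⟨g.1.1 f, (b_app _ f f).trans hf, fun i => ?_⟩) ⟨fun g g' e => ?_, fun u => ?_⟩
  · have := b_app g.1 z f
    rw [g.2.1, hzf] at this
    fin_cases i; exact this
  · have e' : g.1.1 f = g'.1.1 f := congrArg Subtype.val e
    exact (inv_mul_eq_one.1 (Subtype.ext (qz_fix s.herm hz.2 hf hzf (g⁻¹ * g').2 (by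
      show (g.1⁻¹).1 (g'.1.1 f) = f
      rw [← e', inv_app]))))
  · obtain ⟨g, hg, e⟩ := s.herm.exists_QE_apply hz.2 hf hzf u.2.1 (u.2.2 0)
    exact ⟨⟨⟨g, s.herm.QE_le_SUG hz.1 hz.2 hg⟩, hg.2⟩, Subtype.ext e⟩

/-- `g ↦ w` (`Qz.ei'`, `w ∈ Y = ⟨z, s'⟩^⊥`, `dim Y = n - 2`) maps `H ⊓ Q_z` into `{w ∈ Y | Ae H z w}` with fibres
of size at most `|{c | Rt H z c}| < q` (a proper subset of the `q` skew elements); `ae_le`. -/
theorem card_inf_lt {z : V} (hz : Pt B z) {c : F} (hc : c + σ c = 0) (hn : ¬ Rt H z c) :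
    Nat.card ↥(H ⊓ qG hz.2) < q ^ (n - 1) := by
  have h := s.herm
  have := finite_sug (B := B)
  obtain ⟨f, hf, hzf⟩ := h.exists_hyperbolic hz.1 hz.2
  have k1 := ae_le (H := H) h s.bar hz.2 hc hn (h.disjoint_perp_perp (h.disjoint_hypPerp hz.2 hzf))
  have k2 := h.finrank_hypPerp hz.2 hzf
  have k3 : {d | Rt H z d}.ncard < q := by
    rw [← s.bar.card_trace_zero]
    refine Set.ncard_lt_ncard (t := {x : F | x + σ x = 0}) ⟨fun d ⟨g, _, a⟩ => a.skew h hz, fun e => hn (e hc)⟩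
  have k4 := dbl ((H ⊓ qG hz.2 : Subgroup (SUG B)) : Set (SUG B)) {w ∈ hypPerp B z f | Ae H z w} (fun g w => ∃ γ, Ei g z w γ)
    (m := 1) (n := {d | Rt H z d}.ncard) (fun g hg => by
      obtain ⟨w, γ, h1, h2, h3⟩ := Qz.ei' h hz.2 hf hzf hg.2
      exact (Set.ncard_pos (Set.toFinite _)).2 ⟨w, ⟨mem_perp_span.2 (by simp [h1, h2]), h1, g, hg.1, γ, h3⟩, γ, h3⟩)
    fun w ⟨_, h1, g₀, hg₀, γ₀, h2⟩ => by
      choose! γ hγ using fun g (hg : g ∈ {a ∈ ((H ⊓ qG hz.2 : Subgroup (SUG B)) : Set (SUG B)) | ∃ γ, Ei a z w γ}) => hg.2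
      refine Set.ncard_le_ncard_of_injOn (fun g => γ g - γ₀) (fun g hg => ⟨g * g₀⁻¹, H.mul_mem hg.1.1 (H.inv_mem hg₀), ?_⟩)
        fun g hg g' hg' e => (hγ g hg).eq (sub_left_injective e ▸ hγ g' hg')
      have := (hγ g hg).mul h hz.2 h1 (by simp [h1]) (h2.inv h hz.2 h1)
      rw [← ei_tv]
      convert this using 1
      · simp
      · simp only [map_neg]; ring
  have n6 := s.n6
  rw [mul_one] at k4
  rw [s.dim] at k2
  rw [show n - 1 = finrank F (hypPerp B z f) + 1 by omega, pow_succ]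
  exact k4.trans_lt ((Nat.mul_le_mul_right _ k1).trans_lt
    (Nat.mul_lt_mul_of_pos_left k3 (pow_pos (s.bar.two_le.trans_lt' two_pos) _)))

/-- If no stabiliser contains a full root group then every `Q_z`-orbit has `p`-power size `> q^(n-2) ≥ q²`
(`card_qG`, `card_inf_lt`, orbit–stabiliser; `q` is a power of `p`), so `q²` divides all orbit sizes
(`MulAction.selfEquivSigmaOrbits`, or `Nat.card` of the classes of `orbitRel`). -/
theorem sq_dvd {X : Type*} [MulAction (SUG B) X] [Finite X]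
    (hX : ∀ (y : X) v, Pt B v → ∃ c, c + σ c = 0 ∧ ¬ Rt (stabilizer (SUG B) y) v c) : q ^ 2 ∣ Nat.card X := by
  have n6 := s.n6
  have := Fintype.ofFinite F
  obtain ⟨z, z0, hz⟩ := s.herm.exists_isotropic (by rw [s.dim]; omega)
  obtain ⟨p, f, hp, -, -, hq⟩ := exists_prime_pow_of_card (Nat.card_eq_fintype_card.symm.trans s.bar.card)
  refine dvd_card_of_index (Q := qG hz) fun y => ?_
  obtain ⟨c, hc, hn⟩ := hX y z ⟨z0, hz⟩
  have k1 := s.card_inf_lt ⟨z0, hz⟩ hc hn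
  have k2 := card_stab_mul (qG hz) y
  rw [s.card_qG ⟨z0, hz⟩] at k2
  obtain ⟨k, -, hk⟩ := (Nat.dvd_prime_pow hp).1 (show (stabilizer (qG hz) y).index ∣ p ^ (f * (2 * n - 3)) by
    rw [pow_mul, ← hq, ← k2]; exact dvd_mul_left _ _)
  have k3 : q ^ 2 ≤ (stabilizer (qG hz) y).index := by
    by_contra! e
    have := Nat.mul_lt_mul'' k1 e
    rw [k2, ← pow_add] at this
    exact absurd (Nat.pow_le_pow_right (s.bar.two_le.trans_lt' two_pos) (by omega)) this.not_ge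
  rw [hk, hq, ← pow_mul] at k3 ⊢
  exact pow_dvd_pow _ ((Nat.pow_le_pow_iff_right hp.one_lt).1 k3)

/-- `Q_z` acts semiregularly. -/
theorem dvd_of_q1 {X : Type*} [MulAction (SUG B) X] [Finite X]
    (hX : ∀ y : X, Q1 (stabilizer (SUG B) y)) : q ^ (2 * n - 3) ∣ Nat.card X := by
  have n6 := s.n6
  obtain ⟨z, z0, hz⟩ := s.herm.exists_isotropic (by rw [s.dim]; omega)
  refine dvd_card_of_index (Q := qG hz) fun y => ?_
  rw [show stabilizer (qG hz) y = ⊥ from eq_bot_iff.2 fun g hg => Subtype.ext (hX y g.1 hg z ⟨z0, hz⟩ g.2),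
    Subgroup.index_bot, s.card_qG ⟨z0, hz⟩]

end Un

end Cfsg.Lib.R3U
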