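import Mathlib

/-! S2196: numerical lemmas for case II. -/

set_option autoImplicit false

namespace Cfsg.Lib.R3U

theorem nf_sign {q u : ℤ} {m : ℕ} (hq : 3 ≤ q) (hm : 4 ≤ m) (hu : u = (-q) ^ (m - 1)) :
    ∃ σ y : ℤ, (σ = 1 ∨ σ = -1) ∧ u = σ * y ∧ q ≤ y ∧ q ^ m = q * y := by
  obtain ⟨n, rfl⟩ : ∃ n, m = n + 1 := ⟨m - 1, by omega⟩
  refine ⟨(-1) ^ n, q ^ n, neg_one_pow_eq_or ℤ n, by rw [hu, Nat.add_sub_cancel, neg_pow], ?_, by ring⟩
  exact le_self_pow₀ (by omega) (by omega)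

theorem nf_core {q σ y κ l t n₂ : ℤ} (hq : 3 ≤ q) (hσ : σ = 1 ∨ σ = -1) (hy : q ≤ y)
    (hκ : (q + 1) * κ = (q ^ 3 * (σ * y) + 1) * (q ^ 2 * (σ * y) - 1)) (hN : 1 + κ + l = q * (q * y) ^ 2 * t)
    (hE : 1 + (q + 1) * κ < 1 + κ + l) (hl : l ∣ κ * n₂) :
    ∃ a j : ℤ, 0 < j ∧ q * y * j < a ∧ a ∣ n₂ ∧ IsCoprime a q ∧ q * y ∣ j + σ * (q ^ 2 - 1) * a := by
  have s2 : σ * σ = 1 := by rcases hσ with rfl | rfl <;> norm_num
  have q0 : (0 : ℤ) < q := by omega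
  have y0 : (0 : ℤ) < y := by omega
  have w0 : 0 < q * y := by positivity
  have k0 : 0 < κ := by
    refine (mul_pos_iff_of_pos_left (by omega : 0 < q + 1)).1 ?_
    have h2 : 1 < q ^ 2 * y := by nlinarith
    have h3 : 1 < q ^ 3 * y := by nlinarith
    rw [hκ]
    rcases hσ with rfl | rfl
    · exact mul_pos (by linarith) (by linarith)
    · exact mul_pos_of_neg_of_neg (by linarith) (by linarith)
  have e1 : (q + 1) * l = q * (-1 + q * y * ((q + 1) * (q * y) * t - σ * (q ^ 3 * (σ * y) + 1 - q))) := by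
    linear_combination (q + 1) * hN - hκ
  obtain ⟨l', rfl⟩ : q ∣ l := by
    have : IsCoprime q (q + 1) := ⟨-1, 1, by ring⟩
    exact this.dvd_of_dvd_mul_left (e1 ▸ dvd_mul_right _ _)
  have e2 : (q + 1) * l' = -1 + q * y * ((q + 1) * (q * y) * t - σ * (q ^ 3 * (σ * y) + 1 - q)) :=
    mul_left_cancel₀ q0.ne' (by linear_combination e1)
  have lt : κ < l' := lt_of_mul_lt_mul_left (a := q) (by linarith) q0.le
  obtain ⟨g, a, b, g0, co, rfl, rfl⟩ := Int.exists_gcd_one' (m := l') (n := κ) (Int.gcd_pos_of_ne_zero_right _ k0.ne')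
  have g1 : (0 : ℤ) < g := by exact_mod_cast g0
  have b0 : 0 < b := (mul_pos_iff_of_pos_right g1).1 k0
  have ab : b < a := lt_of_mul_lt_mul_right lt g1.le
  have co' : IsCoprime a b := Int.isCoprime_iff_gcd_eq_one.2 co
  have d1 : a ∣ n₂ := co'.dvd_of_dvd_mul_left (by
    obtain ⟨c, hc⟩ := hl
    exact ⟨q * c, mul_left_cancel₀ g1.ne' (by linear_combination hc)⟩)
  obtain ⟨z, hz⟩ : ∃ z, (1 - (q - 1) * σ * (q * y)) * b = (1 + q * (q - 1) * σ * (q * y)) * a + (q * y) ^ 2 * z :=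
    ⟨(q + 1) * t * b - q ^ 2 * b - q ^ 3 * a, mul_left_cancel₀ q0.ne' (by
      linear_combination (q + 1) * b * hN - (b + q * a) * hκ - (b + q * a) * q ^ 5 * y ^ 2 * s2)⟩
  obtain ⟨j, hj⟩ : ∃ j, a = b + q * y * j :=
    ⟨-(q - 1) * σ * b - q * (q - 1) * σ * a - q * y * z, by linear_combination -hz⟩
  refine ⟨a, j, (mul_pos_iff_of_pos_left w0).1 ?_, by linarith, d1,
    ⟨-(q + 1) * g, y * ((q + 1) * (q * y) * t - σ * (q ^ 3 * (σ * y) + 1 - q)), by linear_combination -e2⟩,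
    (q - 1) * σ * j - z, mul_left_cancel₀ w0.ne' ?_⟩
  · linarith
  · linear_combination -hz - (1 - (q - 1) * σ * (q * y)) * hj

/-- The last step.  Put `E = 1 + (q + 1) κ = q² u (q³ u + 1 - q)`, `q⁵ u² = q^(2m+3)`, `q u = ± q^m`.
`(q + 1) N = q + E + (q + 1) l`, so `(q + 1) l ≡ -q mod q^(m+1)`: `l = q l'`, `l'` coprime to `q`.  Let
`l' = a g`, `κ = b g`, `g = gcd`; then `a ∣ n₂`, `a` is coprime to `q`, and
`(q + 1) N b = (q + E) b + q (E - 1) a`.  `N > E` gives `0 < b < a`.  Modulo `q^(2m+1)`, divided by `q`: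
`(1 - q (q - 1) u) b ≡ (1 + q² (q - 1) u) a mod q^(2m)`, in particular `a - b = q^m j`, `j ≥ 1`.
Second case: `a ∣ (q^(2k) - 1) / (q + 1) < q^m` (note `q + 1 ∣ q^(2k) - 1`), impossible.  First case:
`(q + 1) i a = (q u + 1)(u - 1)` (`q + 1 ∣ u - 1` or `q u + 1`; take `a ∣ n₂ / q²`); with `ε = (-1)^m`, `q u = -ε q^m`:
`j ≡ ε (q² - 1) a`, so `(q + 1) i j ≡ ε (q² - 1)(u - 1)` and `i j ≡ q^(m-1) - ε (q - 1) mod q^m`; but
`0 < (q + 1) i j < q^(m-1) + 2`, so `0 < i j < q^(m-1) - q + 1`. -/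
theorem num7 {q u κ l N n₂ : ℤ} {m : ℕ} (hq : 3 ≤ q) (hm : 4 ≤ m) (hu : u = (-q) ^ (m - 1))
    (hκ : (q + 1) * κ = (q ^ 3 * u + 1) * (q ^ 2 * u - 1)) (hN : N = 1 + κ + l) (hd : q ^ (2 * m + 1) ∣ N)
    (hE : 1 + (q + 1) * κ < N) (hl : l ∣ κ * n₂)
    (h : (q + 1) * n₂ = q ^ 2 * ((q * u + 1) * (u - 1)) ∨
      ∃ k : ℕ, 1 ≤ k ∧ 2 * k ≤ m ∧ (q + 1) * n₂ = q ^ (2 * m - 2 * k + 1) * (q ^ (2 * k) - 1)) : False := by
  obtain ⟨σ, y, hσ, rfl, hy, hw⟩ := nf_sign hq hm hu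
  obtain ⟨t, ht⟩ := hd
  rw [pow_succ', pow_mul', hw] at ht
  obtain ⟨a, j, j0, ja, an, co, d⟩ := nf_core hq hσ hy hκ (hN.symm.trans ht) (hN ▸ hE) hl
  have s2 : σ * σ = 1 := by rcases hσ with rfl | rfl <;> norm_num
  have q0 : (0 : ℤ) < q := by omega
  have y0 : (0 : ℤ) < y := by omega
  have w0 : 0 < q * y := by positivity
  have a0 : q * y < a := by nlinarith
  rcases h with h | ⟨k, k1, k2, h⟩
  · have c1 : IsCoprime q (q + 1) := ⟨-1, 1, by ring⟩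
    obtain ⟨n', rfl⟩ : q ^ 2 ∣ n₂ := c1.pow_left.dvd_of_dvd_mul_left (h ▸ dvd_mul_right _ _)
    obtain ⟨i, rfl⟩ : a ∣ n' := co.pow_right.dvd_of_dvd_mul_left an
    have e : (q + 1) * (a * i) = (q * (σ * y) + 1) * (σ * y - 1) :=
      mul_left_cancel₀ (pow_pos q0 2).ne' (by linear_combination h)
    have i0 : 0 < i := by
      have : 0 < (q + 1) * a * i := by
        rw [mul_assoc, e]
        rcases hσ with rfl | rfl
        · exact mul_pos (by linarith) (by linarith)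
        · exact mul_pos_of_neg_of_neg (by nlinarith) (by linarith)
      exact (mul_pos_iff_of_pos_left (mul_pos (by omega) (by omega))).1 this
    obtain ⟨r, hr⟩ := d
    obtain ⟨x, hx⟩ : q * y ∣ i * j - y - σ * (q - 1) := by
      have c2 : IsCoprime (q * y) (q + 1) := hw ▸ c1.pow_left
      refine c2.dvd_of_dvd_mul_left ⟨(q + 1) * i * r - (q ^ 2 - 1) * (σ * y - 1) - (q + 1), ?_⟩
      linear_combination (q + 1) * i * hr - σ * (q ^ 2 - 1) * e - (q ^ 2 - 1) * (q * y * (σ * y - 1) + y) * s2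
    have b1 : (q + 1) * (i * j) < y + 1 := by
      refine lt_of_mul_lt_mul_left (a := q * y) ?_ w0.le
      have : (q + 1) * i * (q * y * j) < (q + 1) * i * a := mul_lt_mul_of_pos_left ja (by positivity)
      rcases hσ with rfl | rfl <;> nlinarith
    have ij : 0 < i * j := by positivity
    have b2 : i * j < y - q + 1 := by nlinarith
    rcases lt_or_ge x 0 with x0 | x0
    · have : q * y * x ≤ q * y * (-1) := mul_le_mul_of_nonneg_left (by omega) w0.le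
      rcases hσ with rfl | rfl <;> nlinarith
    · have := mul_nonneg w0.le x0
      rcases hσ with rfl | rfl <;> linarith
  · have d2 : a ∣ q ^ (2 * k) - 1 := co.pow_right.dvd_of_dvd_mul_left (h ▸ an.mul_left _)
    have := Int.le_of_dvd (sub_pos.2 (one_lt_pow₀ (by omega) (by omega))) d2
    have := pow_le_pow_right₀ (a := q) (by omega) k2
    linarith

/-- `E < q^(2n)`. -/
theorem num_E {q u κ : ℤ} {m : ℕ} (hq : 3 ≤ q) (hm : 4 ≤ m) (hu : u = (-q) ^ (m - 1))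
    (hκ : (q + 1) * κ = (q ^ 3 * u + 1) * (q ^ 2 * u - 1)) : 1 + (q + 1) * κ < q ^ (2 * m + 4) := by
  obtain ⟨σ, y, hσ, rfl, hy, hw⟩ := nf_sign hq hm hu
  rw [pow_add, pow_mul', hw, hκ]
  have q0 : (0 : ℤ) < q := by omega
  have y0 : (0 : ℤ) < y := by omega
  have a : 0 < q ^ 2 * y := by positivity
  have b : q < q ^ 3 * y * (q - 1) := by nlinarith [mul_pos a q0, mul_pos q0 q0]
  have := mul_lt_mul_of_pos_left b a
  have := mul_pos a q0
  rcases hσ with rfl | rfl <;> nlinarith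

/-- The spread case: `δ (q² + 1 - (q + 1) j) = q² - q`, so `j < q` and `δ ∣ q (q - 1)`, `δ ∣ q`.  If `δ < q` then
`j ≡ 1 mod p`, `j = 1`, `δ = 1`.  If `δ = q` then `(q + 1) j = (q + 1)(q - 2) + 4`, `q = 3`, `j = 2`. -/
theorem num_s {p a b e : ℕ} (hp : p.Prime) (hq : 3 ≤ p ^ e) (ha : 1 ≤ a)
    (h : (((p : ℤ) ^ e) ^ 2 + 1) * (p ^ a - 1) = (p ^ e + 1) * (p ^ a * p ^ b - 1)) : False := by
  have p2 : (2 : ℤ) ≤ p := by exact_mod_cast hp.two_le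
  have hq' : (3 : ℤ) ≤ (p : ℤ) ^ e := by exact_mod_cast hq
  have a1 : (1 : ℤ) < p ^ a := one_lt_pow₀ (by omega) (by omega)
  have pe : (p : ℤ) ∣ p ^ e := dvd_pow_self _ (by rintro rfl; simp at hq)
  have cp : ∀ x : ℤ, (p : ℤ) ∣ x - 1 → IsCoprime (p : ℤ) x := fun x ⟨c, e⟩ => ⟨-c, 1, by linear_combination e⟩
  generalize hq1 : (p : ℤ) ^ e = q at *
  have e1 : (p : ℤ) ^ a * (q ^ 2 + 1 - (q + 1) * p ^ b) = q * (q - 1) := by linear_combination h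
  rcases Nat.eq_zero_or_pos b with rfl | b0
  · rw [pow_zero] at e1
    nlinarith [mul_pos (sub_pos.2 a1) (show 0 < q * (q - 1) by nlinarith)]
  have pb : (p : ℤ) ∣ p ^ b := dvd_pow_self _ b0.ne'
  have d1 : q ∣ (p : ℤ) ^ a := by
    have : IsCoprime q (q ^ 2 + 1 - (q + 1) * p ^ b) := hq1 ▸ (cp _ (by
      rw [hq1, show q ^ 2 + 1 - (q + 1) * p ^ b - 1 = q * q - (q + 1) * p ^ b by ring]
      exact (pe.mul_left _).sub (pb.mul_left _))).pow_left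
    exact this.dvd_of_dvd_mul_right (e1 ▸ dvd_mul_right _ _)
  have d2 : (p : ℤ) ^ a ∣ q := by
    have : IsCoprime ((p : ℤ) ^ a) (q - 1) := by
      have := cp (1 - q) (by simpa using pe)
      rw [← IsCoprime.neg_right_iff, neg_sub] at this
      exact this.pow_left
    exact this.dvd_of_dvd_mul_right (e1 ▸ dvd_mul_right _ _)
  rw [Int.dvd_antisymm (by omega) (by omega) d2 d1] at e1
  have e2 : q ^ 2 + 1 - (q + 1) * p ^ b = q - 1 := mul_left_cancel₀ (by omega : q ≠ 0) e1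
  have := Int.le_of_dvd (by norm_num) (show q + 1 ∣ 4 from ⟨p ^ b - (q - 2), by linear_combination e2⟩)
  obtain rfl : q = 3 := by omega
  have e3 : (p : ℤ) ^ b = 2 := by linarith
  rw [e3] at pb
  have := Int.le_of_dvd (by norm_num) pb
  obtain h2 : (p : ℤ) = 2 := by omega
  rw [h2] at pe
  omega

/-- Odd characteristic: `(q² - 2q - 1)(q + 1) q^(m+1) ≤ q³ (q - 1)³ (δ - 1) < (q - 1)³ q^(m+1)` fails. -/
theorem num_b1 {q δ n₁ c η : ℤ} {m : ℕ} (hq : 3 ≤ q) (hm : 4 ≤ m) (h1 : 2 ≤ δ) (h2 : δ ≤ q ^ (m - 2))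
    (hc : 0 ≤ c) (h3 : (q ^ 2 - 2 * q - 1) * n₁ ≤ (q ^ 2 - q) * (2 * c ^ 2)) (h4 : 2 * c ≤ η)
    (h5 : (q + 1) * η = (q ^ 2 - q) * (δ - 1)) (h6 : (δ - 1) * q ^ (m + 1) ≤ 2 * (q + 1) * n₁) : False := by
  obtain ⟨n, rfl⟩ : ∃ n, m = n + 2 := ⟨m - 2, by omega⟩
  rw [Nat.add_sub_cancel] at h2
  rw [show q ^ (n + 2 + 1) = q ^ 3 * q ^ n by ring] at h6
  generalize q ^ n = y at *
  have q0 : (0 : ℤ) < q := by omega
  have a0 : 0 < q ^ 2 - 2 * q - 1 := by nlinarith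
  have b0 : 0 < q ^ 2 - q := by nlinarith
  have c1 : 4 * c ^ 2 ≤ η ^ 2 := by nlinarith
  have s1 := mul_le_mul_of_nonneg_left h6 a0.le
  have s2 := mul_le_mul_of_nonneg_left h3 (by omega : 0 ≤ 2 * (q + 1))
  have s3 := mul_le_mul_of_nonneg_left c1 (mul_pos (by omega : 0 < q + 1) b0).le
  have s4 := mul_le_mul_of_nonneg_left (show (q ^ 2 - 2 * q - 1) * ((δ - 1) * (q ^ 3 * y)) ≤
    (q + 1) * (q ^ 2 - q) * η ^ 2 by linarith) (by omega : 0 ≤ q + 1)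
  have s5 : (q + 1) * (q ^ 2 - 2 * q - 1) * y ≤ (q - 1) ^ 3 * (δ - 1) := by
    refine le_of_mul_le_mul_left (a := (δ - 1) * q ^ 3) ?_ (mul_pos (by omega) (by positivity))
    have : (q + 1) * ((q + 1) * (q ^ 2 - q) * η ^ 2) = (q ^ 2 - q) * ((q + 1) * η) ^ 2 := by ring
    rw [this, h5] at s4
    linarith
  have s6 : (q - 1) ^ 3 * (δ - 1) < (q - 1) ^ 3 * y := mul_lt_mul_of_pos_left (by omega) (pow_pos (by omega) 3)
  have s7 := lt_of_mul_lt_mul_right (s5.trans_lt s6) (by omega)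
  nlinarith

/-- Characteristic two: `2 (q² - 2q - 1)(q + 1) q^(m+1) ≤ q³ (q - 1)(δ - 1) < (q - 1) q^(m+3)` fails. -/
theorem num_b2 {q δ n₁ c : ℤ} {m : ℕ} (hq : 4 ≤ q) (h1 : 2 ≤ δ) (h2 : δ ≤ q ^ m)
    (h3 : 4 * ((q ^ 2 - 2 * q - 1) * n₁) ≤ (q ^ 2 - q) * c ^ 2)
    (h5 : (q + 1) * c = q * (δ - 1)) (h6 : (δ - 1) * q ^ (m + 1) ≤ 2 * (q + 1) * n₁) : False := by
  rw [pow_succ'] at h6
  generalize q ^ m = y at *
  have q0 : (0 : ℤ) < q := by omega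
  have a0 : 0 < q ^ 2 - 2 * q - 1 := by nlinarith
  have s1 := mul_le_mul_of_nonneg_left h6 (by omega : 0 ≤ 2 * (q ^ 2 - 2 * q - 1))
  have s2 := mul_le_mul_of_nonneg_left h3 (by omega : 0 ≤ q + 1)
  have s4 := mul_le_mul_of_nonneg_left (show 2 * (q ^ 2 - 2 * q - 1) * ((δ - 1) * (q * y)) ≤
    (q + 1) * ((q ^ 2 - q) * c ^ 2) by linarith) (by omega : 0 ≤ q + 1)
  have s5 : 2 * (q + 1) * (q ^ 2 - 2 * q - 1) * y ≤ q ^ 2 * (q - 1) * (δ - 1) := by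
    refine le_of_mul_le_mul_left (a := (δ - 1) * q) ?_ (mul_pos (by omega) q0)
    have : (q + 1) * ((q + 1) * ((q ^ 2 - q) * c ^ 2)) = (q ^ 2 - q) * ((q + 1) * c) ^ 2 := by ring
    rw [this, h5] at s4
    linarith
  have s6 : q ^ 2 * (q - 1) * (δ - 1) < q ^ 2 * (q - 1) * y :=
    mul_lt_mul_of_pos_left (by omega) (mul_pos (by positivity) (by omega))
  have s7 := lt_of_mul_lt_mul_right (s5.trans_lt s6) (by omega)
  nlinarith [mul_pos q0 q0]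

end Cfsg.Lib.R3U
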