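import Cfsg.Agent.Lib.R3U.C2a
import Cfsg.Agent.Lib.R3U.NumF
import Cfsg.Agent.Lib.R3U.Dvd

/-! S2196, case II: the elements `C2`, global counts and the spread case. -/

set_option autoImplicit false

namespace Cfsg.Lib.R3U

open Cfsg.Lib.Unitary Cfsg.Lib.R3S Module Submodule MulAction

variable {F V : Type*} [Field F] [AddCommGroup V] [Module F V] {σ : F →+* F}
  {B : V →ₛₗ[σ] V →ₗ[F] F} {q n : ℕ} [Finite F] [Finite V] {H : Subgroup (SUG B)}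

omit [Finite F] [Finite V] in
theorem smul_ne_zero_iff_ne' {c : F} (hc : c ≠ 0) {y : V} : c • y ≠ 0 ↔ y ≠ 0 := by simp [hc]

omit [Finite F] [Finite V] in
/-- Conjugate by `k ∈ H` with `k z = c • z'` (`gC_conj`, `ln_conj`, `Qz.conj`, `qz_smul`, `perp_map`). -/
theorem Tr.cst (t : Tr H) {z z' : V} (hz : Pt B z) (hz' : Pt B z') :
    dA H z = dA H z' ∧ eA H z = eA H z' ∧ nP H z = nP H z' := by
  obtain ⟨k, hk, c, e⟩ := t z z' hz hz'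
  have c0 : c ≠ 0 := fun c0 => app_ne k hz.1 (by simp [e, c0])
  have key : ∀ P : SUG B → V → Prop, (∀ g y k, P g y → P (k * g * k⁻¹) (k.1 y)) → (∀ g y, P g (c • y) ↔ P g y) →
      {g ∈ gC H | P g z}.ncard = {g ∈ gC H | P g z'}.ncard := fun P h1 h2 =>
    Set.ncard_congr (fun g _ => k * g * k⁻¹) (fun g hg => ⟨gC_conj hg.1 hk, (h2 _ _).1 (e ▸ h1 g z k hg.2)⟩)
      (fun g g' _ _ e => by simpa using e) fun g hg => ⟨k⁻¹ * g * k⁻¹⁻¹, ⟨gC_conj hg.1 (inv_mem hk), by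
        have := h1 g _ k⁻¹ ((h2 _ _).2 hg.2)
        rwa [← e, inv_app] at this⟩, by group⟩
  have ml : ∀ (g k : SUG B) y, y ∈ ln g → k.1 y ∈ ln (k * g * k⁻¹) := fun g k y m => ln_conj g k ▸ mem_map_of_mem m
  refine ⟨key Ab (fun g y k a => ⟨app_ne k a.1, ml g k y a.2.1, a.2.2.conj k⟩) fun g y => ?_,
    key (fun g y => y ∈ ln g ∧ ¬ Qz g y) (fun g y k a => ⟨ml g k y a.1, fun m => a.2 ?_⟩) fun g y => ?_,
    key (fun g y => y ∈ perp B (ln g)) (fun g y k a => ?_) fun g y => smul_mem_iff _ c0⟩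
  · simp only [Ab, smul_mem_iff _ c0, qz_smul c0, smul_ne_zero_iff_ne' c0]
  · have := m.conj k⁻¹
    rwa [inv_app, show k⁻¹ * (k * g * k⁻¹) * k⁻¹⁻¹ = g by group] at this
  · simp only [smul_mem_iff _ c0, qz_smul c0]
  · rw [ln_conj, perp_map k.2.1]
    exact mem_map_of_mem a

/-- `cnt_perp`, `pt_add_one`. -/
theorem pts_perp_eq (h : IsHerm σ B) (hσ : IsBar q σ) {E E' : Submodule F V} (hE : E ≤ perp B E)
    (hE' : E' ≤ perp B E') (e : finrank F E = finrank F E') :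
    (pts B (perp B E)).ncard = (pts B (perp B E')).ncard := by
  have k := cnt_perp h hσ hE
  rw [e, ← cnt_perp h hσ hE', ← pt_add_one, ← pt_add_one] at k
  have := mul_left_cancel₀ (by have := hσ.two_le; positivity) k
  exact Nat.succ_injective (Nat.cast_injective this)

omit [Finite F] in
/-- `U ≤ (ln g)^⊥` implies `z ⊥ ln g`. -/
theorem n0_le {U : Submodule F V} {z : V} (hz : z ∈ U) : n0 H U ≤ nP H z := by
  haveI : Finite (SUG B) := Finite.of_injective (fun g : SUG B => (g.1 : V → V)) fun _ _ e => ext' (congrFun e)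
  exact Set.ncard_le_ncard fun g hg => ⟨hg.1, hg.2 hz⟩

/-- `g ↦ w` with `Ei g z w γ`, `w ∈ Y` (`Qz.ei`, `ei_add`) is injective on `{1} ∪ {g ∈ 𝒢 | Ab g z}` (`NoTv.rt`);
`NoTv.ae_le`. -/
theorem dA_le (h : IsHerm σ B) (hσ : IsBar q σ) (nt : NoTv H) {z : V} (hz : Pt B z) {Y : Submodule F V}
    (hY : Disjoint Y (perp B Y)) (e : ∀ w, Ae H z w → w ∈ Y ⊔ span F {z}) : dA H z + 1 ≤ q ^ finrank F Y := by
  haveI := finite_sug (B := B)
  have ex : ∀ g ∈ insert 1 {g ∈ gC H | Ab g z}, g ∈ H ∧ ∃ w ∈ Y, B z w = 0 ∧ ∃ γ, Ei g z w γ := fun g hg => by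
    have k : g ∈ H ∧ Qz g z := hg.elim (fun e => e ▸ ⟨one_mem _, one_mem (qG hz.2)⟩) fun m => ⟨m.1.1, m.2.2.2⟩
    obtain ⟨w, γ, h1, h2⟩ := k.2.ei h hz
    obtain ⟨y, hy, a, rfl⟩ := hu_dec (e w ⟨h1, g, k.1, γ, h2⟩)
    exact ⟨k.1, y, hy, by simpa [hz.2] using h1, _, ei_add.1 h2⟩
  rw [dA, ← Set.ncard_insert_of_notMem (a := 1) fun m => m.1.2.1 rfl]
  choose! h0 w h1 h2 γ h3 using ex
  refine le_trans (Set.ncard_le_ncard_of_injOn (t := {w ∈ Y | Ae H z w}) w (fun g hg =>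
    ⟨h1 g hg, h2 g hg, g, h0 g hg, _, h3 g hg⟩) fun g hg g' hg' e => ?_) (nt.ae_le h hσ hz hY)
  have := (h3 g hg).mul h hz.2 (h2 g hg) (by simp [h2 g' hg']) ((h3 g' hg').inv h hz.2 (h2 g' hg'))
  rw [e, add_neg_cancel, ei_tv] at this
  exact mul_inv_eq_one.1 (this.eq (nt.rt hz ⟨_, H.mul_mem (h0 g hg) (H.inv_mem (h0 g' hg')), this⟩ ▸ tv_one z))

namespace Un

variable (s : Un σ B q n) (nt : NoTv H) (t : Tr H)
include s nt t

/-- `dbl_eq`: `|𝒢| (q + 1)(q² - 1) = nI · dA` (`card_ab`), `|𝒢| (q² - q)(q² - 1) = nI · eA` (`card_nab`),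
`|𝒢| X = nI · nP` (`pts_perp_eq`), `nI > 0`. -/
theorem c2_dbl {g : SUG B} (hg : g ∈ gC H) {z : V} (hz : Pt B z) : 1 ≤ dA H z ∧
    (q + 1) * eA H z = (q ^ 2 - q) * dA H z ∧
    nP H z * ((q + 1) * (q ^ 2 - 1)) = (pts B (perp B (ln g))).ncard * dA H z := by
  have h := s.herm
  haveI := finite_sug (B := B)
  have pt : ∀ {g y}, g ∈ gC H → y ≠ 0 → y ∈ ln g → Pt B y := fun m y0 k => ⟨y0, (gC_ln h nt m).2 k _ k⟩
  have k1 := dbl_eq (gC H) {v | Pt B v} Ab (a := (q + 1) * (q ^ 2 - 1)) (fun g m => by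
    rw [← card_ab h s.bar nt m]
    exact congrArg _ (Set.ext fun y => ⟨fun a => a.2, fun a => ⟨pt m a.1 a.2.1, a⟩⟩)) fun v hv => (t.cst hv hz).1
  have k2 := dbl_eq (gC H) {v | Pt B v} (fun g y => y ∈ ln g ∧ ¬ Qz g y) (a := (q ^ 2 - q) * (q ^ 2 - 1))
    (fun g m => by
      rw [← card_nab h s.bar nt m]
      exact congrArg _ (Set.ext fun y => ⟨fun a => ⟨a.1.1, a.2⟩, fun a => ⟨pt m a.1 a.2.1, a.2⟩⟩))
    fun v hv => (t.cst hv hz).2.1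
  have k3 := dbl_eq (gC H) {v | Pt B v} (fun g y => y ∈ perp B (ln g)) (fun g' m => pts_perp_eq h s.bar
    (gC_ln h nt m).2 (gC_ln h nt hg).2 ((gC_ln h nt m).1.trans (gC_ln h nt hg).1.symm)) fun v hv => (t.cst hv hz).2.2
  have N0 : 0 < {v | Pt B v}.ncard := (Set.ncard_pos (Set.toFinite _)).2 ⟨z, hz⟩
  have G0 : 0 < (gC H).ncard := (Set.ncard_pos (Set.toFinite _)).2 ⟨g, hg⟩
  have := Nat.one_lt_pow two_ne_zero (show 1 < q by have := s.q3; omega)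
  refine ⟨Nat.pos_of_mul_pos_left (k1 ▸ Nat.mul_pos G0 (Nat.mul_pos (by omega) (by omega))),
    Nat.eq_of_mul_eq_mul_left N0 ?_, Nat.eq_of_mul_eq_mul_left N0 ?_⟩
  · rw [mul_left_comm, ← k2, mul_left_comm _ (q ^ 2 - q) (dA H z), ← k1]
    ring
  · rw [← mul_assoc, ← k3, mul_left_comm _ _ (dA H z), ← k1]
    ring

omit t in
/-- `Y = ⟨z, s'⟩^⊥`. -/
theorem dA_le' {z : V} (hz : Pt B z) : dA H z + 1 ≤ q ^ (n - 2) := by
  have h := s.herm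
  obtain ⟨f, hf, hzf⟩ := h.exists_hyperbolic hz.1 hz.2
  have k2 := h.finrank_hypPerp hz.2 hzf
  rw [s.dim] at k2
  rw [show n - 2 = finrank F (hypPerp B z f) by omega]
  exact dA_le h s.bar nt hz (h.disjoint_perp_perp (h.disjoint_hypPerp hz.2 hzf)) fun w hw =>
    mem_sup.2 ⟨w - B f w • z, mem_hypPerp.2 ⟨by simp [hw.1, hz.2], by simp [ir_one h hzf]⟩, _,
      smul_mem _ (B f w) (mem_span_singleton_self z), sub_add_cancel _ _⟩

/-- Otherwise let `z ∈ ℓ = ln g`, `A = {k ∈ H | ln k ≤ ℓ}`, `Λ = A ⊓ Q_z`: groups of exponent `p`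
(`(k - 1)² = 0`), so `|Λ| = p ^ a`, `|A| = p ^ a p ^ b`.  `A \ 1 = {k ∈ 𝒢 | z ∈ ln k}` (`gC_ln`), so `|A| = 1 + dA + eA`,
`|Λ| = 1 + dA`, `(q + 1)(|A| - 1) = (q² + 1)(|Λ| - 1)` (`c2_dbl`); `num_s`. -/
theorem c2_spr (h : (gC H).Nonempty) : ∃ g ∈ gC H, ∃ g' ∈ gC H, ln g ≠ ln g' ∧ ∃ z, z ≠ 0 ∧ z ∈ ln g ∧ z ∈ ln g' := by
  have hB := s.herm
  haveI := finite_sug (B := B)
  haveI := Fintype.ofFinite F
  by_contra c
  push Not at c
  obtain ⟨g, hg⟩ := h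
  obtain ⟨r, iso⟩ := gC_ln hB nt hg
  obtain ⟨z, hz, z0⟩ := (Submodule.ne_bot_iff (ln g)).1 fun e => by rw [e, finrank_bot] at r; omega
  have pz : Pt B z := ⟨z0, iso hz _ hz⟩
  obtain ⟨p, e, hp, hc, -, hq⟩ := exists_prime_pow_of_card (Nat.card_eq_fintype_card.symm.trans s.bar.card)
  haveI := Fact.mk hp
  have eA' : ((H ⊓ lnG B (ln g) : Subgroup (SUG B)) : Set (SUG B)) = insert 1 {k ∈ gC H | z ∈ ln k} := by
    ext k
    refine ⟨fun m => or_iff_not_imp_left.2 fun k1 => ?_, fun m => m.elim (fun e => e ▸ one_mem _) fun m =>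
      ⟨m.1.1, (by_contra fun ne => c k m.1 g hg ne z z0 m.2 hz : ln k = ln g).le⟩⟩
    obtain ⟨-, u, v, h1, h2, h3, h4⟩ := hg.2
    have mk : k ∈ gC H := ⟨m.1, k1, u, v, h1, h2, h3, fun x => by
      obtain ⟨y, hy⟩ := mem_ln.1 (m.2 (mem_ln.2 ⟨x, rfl⟩))
      exact hy ▸ h4 y⟩
    exact ⟨mk, eq_of_le_of_finrank_eq m.2 ((gC_ln hB nt mk).1.trans r.symm) ▸ hz⟩
  have eL : ((H ⊓ lnG B (ln g) ⊓ qG pz.2 : Subgroup (SUG B)) : Set (SUG B)) = insert 1 {k ∈ gC H | Ab k z} := by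
    ext k
    rw [Subgroup.coe_inf, eA']
    exact ⟨fun m => m.1.imp_right fun a => ⟨a.1, z0, a.2, m.2⟩, fun m => m.elim
      (fun e => ⟨.inl e, e ▸ one_mem (qG pz.2)⟩) fun a => ⟨.inr ⟨a.1, a.2.2.1⟩, a.2.2.2⟩⟩
  have pg : IsPGroup p ↥(H ⊓ lnG B (ln g)) := fun k => ⟨1, Subtype.ext (ext' fun x => by
    have gv : k.1.1 (k.1.1 x - x) = k.1.1 x - x :=
      (mem_perp_ln hB).1 fun w hw => iso (k.2.2 (mem_ln.2 ⟨x, rfl⟩)) w (k.2.2 hw)
    have key : ∀ N : ℕ, (k.1 ^ N).1 x = x + (N : F) • (k.1.1 x - x) := fun N => by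
      induction N with
      | zero => simp
      | succ N ih =>
        rw [pow_succ', mul_app, ih, map_add, map_smul, gv, Nat.cast_succ]
        module
    rw [pow_one, Subgroup.coe_pow, key, CharP.cast_eq_zero, zero_smul, add_zero]
    rfl)⟩
  obtain ⟨m, hm⟩ := IsPGroup.iff_card.1 pg
  obtain ⟨a, ha, k1⟩ := (Nat.dvd_prime_pow hp).1 (hm ▸ Subgroup.card_dvd_of_le
    (inf_le_left : H ⊓ lnG B (ln g) ⊓ qG pz.2 ≤ _))
  obtain ⟨b, rfl⟩ := Nat.exists_eq_add_of_le ha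
  rw [← SetLike.coe_sort_coe, Nat.card_coe_set_eq] at hm k1
  rw [eL, Set.ncard_insert_of_notMem fun m => m.1.2.1 rfl] at k1
  rw [eA', Set.ncard_insert_of_notMem fun m => m.1.2.1 rfl,
    ← Set.ncard_inter_add_ncard_diff_eq_ncard _ {k | Qz k z},
    show {k ∈ gC H | z ∈ ln k} ∩ {k | Qz k z} = {k ∈ gC H | Ab k z} from Set.ext fun k =>
      ⟨fun m => ⟨m.1.1, z0, m.1.2, m.2⟩, fun m => ⟨⟨m.1, m.2.2.1⟩, m.2.2.2⟩⟩,
    show {k ∈ gC H | z ∈ ln k} \ {k | Qz k z} = {k ∈ gC H | z ∈ ln k ∧ ¬ Qz k z} from Set.ext fun k =>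
      and_assoc, pow_add] at hm
  obtain ⟨d1, d2, -⟩ := s.c2_dbl nt t hg pz
  change dA H z + 1 = _ at k1
  change dA H z + eA H z + 1 = _ at hm
  refine num_s (a := a) (b := b) hp (hq ▸ s.q3) (Nat.pos_of_ne_zero fun a0 => by rw [a0, pow_zero] at k1; omega) ?_
  zify [Nat.le_self_pow two_ne_zero q] at d2 k1 hm hq
  rw [← hm, ← k1, ← hq]
  linear_combination -d2

end Un

end Cfsg.Lib.R3U
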