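import Cfsg.Agent.Lib.R3U.C2b

/-! S2196, case II: the elements `C2`, a lower bound for `n₁ = n_⊥ - n₀`.  `m = n - 2`. -/

set_option autoImplicit false
set_option linter.unusedVariables false

namespace Cfsg.Lib.R3U

open Cfsg.Lib.Unitary Cfsg.Lib.R3S Module Submodule MulAction

variable {F V : Type*} [Field F] [AddCommGroup V] [Module F V] {σ : F →+* F}
  {B : V →ₛₗ[σ] V →ₗ[F] F} {q n : ℕ} [Finite F] [Finite V] {H : Subgroup (SUG B)}

/-- Double counting with two classes of rows. -/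
theorem c2c_dbl {α β : Type*} [Finite α] [Finite β] (s s' : Set α) (t : Set β) (R : α → β → Prop) {m m' k : ℕ}
    (hd : Disjoint s s') (hm : ∀ a ∈ s, m ≤ {b ∈ t | R a b}.ncard) (hm' : ∀ a ∈ s', m' ≤ {b ∈ t | R a b}.ncard)
    (hk : ∀ b ∈ t, {a ∈ s ∪ s' | R a b}.ncard ≤ k) : s.ncard * m + s'.ncard * m' ≤ t.ncard * k := by
  have lo : ∀ (u : Set α) (j : ℕ), (∀ a ∈ u, j ≤ {b ∈ t | R a b}.ncard) →
      u.ncard * j ≤ {p : α × β | p.1 ∈ u ∧ p.2 ∈ t ∧ R p.1 p.2}.ncard * 1 := fun u j hj =>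
    dbl u _ (fun a p => p.1 = a) (fun a ha => (hj a ha).trans <|
      Set.ncard_le_ncard_of_injOn (Prod.mk a) (fun b hb => ⟨⟨ha, hb⟩, rfl⟩) fun _ _ _ _ e => (Prod.ext_iff.1 e).2)
      fun p _ => (Set.ncard_le_one (Set.toFinite _)).2 fun a ha b hb => Eq.trans (b := p.1) ha.2.symm hb.2
  have hi := dbl {p : α × β | p.1 ∈ s ∪ s' ∧ p.2 ∈ t ∧ R p.1 p.2} t (fun p b => p.2 = b) (m := 1) (n := k)
    (fun p hp => (Set.ncard_pos (Set.toFinite _)).2 ⟨p.2, hp.2.1, rfl⟩) fun b hb => le_trans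
      (Set.ncard_le_ncard_of_injOn (t := {a ∈ s ∪ s' | R a b}) Prod.fst (fun p hp => ⟨hp.1.1, hp.2 ▸ hp.1.2.2⟩)
        fun p hp p' hp' e => Prod.ext e (hp.2.trans hp'.2.symm)) (hk b hb)
  have e := Set.ncard_union_eq (s := {p : α × β | p.1 ∈ s ∧ p.2 ∈ t ∧ R p.1 p.2})
    (t := {p : α × β | p.1 ∈ s' ∧ p.2 ∈ t ∧ R p.1 p.2})
    (Set.disjoint_left.2 fun p hp hp' => Set.disjoint_left.1 hd hp.1 hp'.1)
  rw [show {p : α × β | p.1 ∈ s ∪ s' ∧ p.2 ∈ t ∧ R p.1 p.2} = {p | p.1 ∈ s ∧ p.2 ∈ t ∧ R p.1 p.2} ∪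
    {p | p.1 ∈ s' ∧ p.2 ∈ t ∧ R p.1 p.2} from Set.ext fun p => or_and_right, e] at hi
  have := lo s m hm
  have := lo s' m' hm'
  omega

/-- The number of isotropic vectors of an arbitrary subspace. -/
theorem c2c_iso (h : IsHerm σ B) (hσ : IsBar q σ) (U : Submodule F V) :
    (q : ℤ) * {v ∈ U | B v v = 0}.ncard ≤ q ^ (2 * finrank F U) + (q - 1) * q ^ finrank F V := by
  obtain ⟨Y, y1, y2, y3, y4⟩ := ex_compl h U
  have d := finrank_sup_add_finrank_inf_eq (U ⊓ perp B U) Y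
  have d2 := h.finrank_add_finrank_perp U
  have d3 : finrank F ↥(U ⊓ perp B U) ≤ finrank F (perp B U) := finrank_mono inf_le_right
  have h1 : (1 : ℤ) ≤ q := by have := hσ.two_le; omega
  rw [y4, y3.eq_bot, finrank_bot] at d
  have c : {v ∈ U | B v v = 0}.ncard ≤ ((U ⊓ perp B U : Submodule F V) : Set V).ncard * {v ∈ Y | B v v = 0}.ncard := by
    rw [← Set.ncard_prod]
    refine le_trans (Set.ncard_le_ncard (fun v hv => ?_)) (Set.ncard_image_le (f := fun p : V × V => p.1 + p.2))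
    obtain ⟨e, he, y, hy, rfl⟩ := mem_sup.1 (y4.ge hv.1)
    refine ⟨(e, y), Set.mk_mem_prod he ⟨hy, ?_⟩, rfl⟩
    simpa [he.2 e he.1, he.2 y (y1 hy), h.eq_zero_comm.1 (he.2 y (y1 hy))] using hv.2
  have c2 := cnt_nd h hσ y2
  rw [card_sub hσ] at c
  generalize finrank F ↥(U ⊓ perp B U) = r at *
  generalize finrank F Y = y at *
  have c3 : (-(q : ℤ)) ^ y ≤ q ^ y := (le_abs_self _).trans (by rw [abs_pow, abs_neg, abs_of_nonneg (by omega)])
  have c4 : (q : ℤ) ^ (2 * r) * q ^ y ≤ q ^ finrank F V := by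
    rw [← pow_add]; exact pow_le_pow_right₀ h1 (by omega)
  have c5 : (0 : ℤ) ≤ q ^ (2 * r) := by positivity
  calc (q : ℤ) * {v ∈ U | B v v = 0}.ncard ≤ q * (q ^ (2 * r) * {v ∈ Y | B v v = 0}.ncard) :=
        mul_le_mul_of_nonneg_left (by exact_mod_cast c) (by omega)
    _ = q ^ (2 * finrank F U) + (q - 1) * (q ^ (2 * r) * (-q) ^ y) := by
        rw [mul_left_comm, c2, show finrank F U = r + y by omega]; ring
    _ ≤ _ := add_le_add_right (mul_le_mul_of_nonneg_left ((mul_le_mul_of_nonneg_left c3 c5).trans c4) (by omega)) _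

omit [Finite F] [Finite V] in
theorem c2c_pt {E : Submodule F V} (hE : E ≤ perp B E) {z : V} (h0 : z ≠ 0) (hz : z ∈ E) : Pt B z :=
  ⟨h0, hE hz z hz⟩

namespace Un

variable (s : Un σ B q n)
include s

/-- `E + E' = E + F v` with `v ⊥ z`.  If `v ⊥ E`: `cnt_perp` for `E` and `E + E'`, the difference is
`q^(2m-3) (q² - 1)`.  If `B v u ≠ 0` for some `u ∈ E`: `(y, a) ↦ y + a u` is a bijection from
`{y ∈ (E + E')^⊥ isotropic} × F` onto the isotropic vectors of `E^⊥`, whose number is `Z = q^(2m-1) ± (q - 1) q^(m+1)`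
(`cnt_perp`; sign `+` for `m = 4`), and the difference is `(q² - 1) Z / q²`. -/
theorem cnt_diff {E E' : Submodule F V} (hE : E ≤ perp B E) (hE' : E' ≤ perp B E') (h2 : finrank F E = 2)
    (h2' : finrank F E' = 2) (ne : E ≠ E') {z : V} (h0 : z ≠ 0) (hz : z ∈ E) (hz' : z ∈ E') :
    (pts B (perp B (E ⊔ E'))).ncard + (q ^ 2 - 1) * q ^ (n - 1) ≤ (pts B (perp B E)).ncard := by
  have a := cnt_perp s.herm s.bar hE
  have b := c2c_iso s.herm s.bar (perp B (E ⊔ E'))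
  have d := s.herm.finrank_add_finrank_perp (E ⊔ E')
  have d2 : finrank F E < finrank F ↥(E ⊔ E') := finrank_lt_finrank_of_lt (lt_of_le_of_ne le_sup_left fun e =>
    ne (eq_of_le_of_finrank_eq (le_sup_right.trans e.ge) (h2'.trans h2.symm)).symm)
  have h3 : (3 : ℤ) ≤ q := by exact_mod_cast s.q3
  have h1 : 1 ≤ q ^ 2 := Nat.one_le_pow _ _ (by omega)
  obtain ⟨m, rfl⟩ := Nat.exists_eq_add_of_le' s.n6
  rw [← pt_add_one, s.dim] at a b
  rw [s.dim, h2] at *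
  have b2 : (q : ℤ) ^ (2 * finrank F ↥(perp B (E ⊔ E'))) ≤ q ^ (2 * (m + 3)) := pow_le_pow_right₀ (by omega) (by omega)
  rw [show m + 6 - 2 = m + 4 from rfl] at a
  rw [show m + 6 - 1 = m + 5 from rfl, pts, pts]
  zify [h1]
  refine le_of_mul_le_mul_left ?_ (show (0 : ℤ) < q by omega)
  push_cast at a b
  have k : (q - 1) * (q : ℤ) ^ (m + 6) + (q ^ 2 - 1) * q ^ (m + 6) + q ^ (2 * (m + 3)) ≤
      q ^ (2 * (m + 4)) + (q - 1) * (-q) ^ (m + 6) := by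
    have p : (0 : ℤ) < (q - 1) * q ^ (m + 6) := mul_pos (by omega) (by positivity)
    rcases Nat.even_or_odd m with e | e
    · have : (1 : ℤ) ≤ q ^ m := one_le_pow₀ (by omega)
      rw [(e.add (by decide)).neg_pow]
      have := mul_nonneg (mul_nonneg p.le (show (0 : ℤ) ≤ q + 1 by omega)) (sub_nonneg.2 this)
      linear_combination this
    · have : (q : ℤ) ≤ q ^ m := le_self_pow₀ (by omega) e.pos.ne'
      rw [(e.add_even (by decide)).neg_pow]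
      have := mul_nonneg p.le (show (0 : ℤ) ≤ (q + 1) * (q ^ m - 1) - 2 by nlinarith)
      linear_combination this
  linear_combination b + b2 + k - a

variable (nt : NoTv H) (t : Tr H)
include nt t

/-- `dbl` for the pairs `(g', y)` with `Ab g' y`: `card_ab`, `Tr.cst`. -/
theorem n0_mul {U : Submodule F V} {z : V} (hz : Pt B z) :
    n0 H U * ((q + 1) * (q ^ 2 - 1)) ≤ (pts B (perp B U)).ncard * dA H z := by
  have := @finite_sug _ _ _ _ _ σ B _ _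
  refine dbl _ _ Ab (fun g hg => ?_) fun y hy => ?_
  · rw [← card_ab s.herm s.bar nt hg.1]
    exact Set.ncard_le_ncard fun y hy => ⟨⟨c2c_pt (gC_ln s.herm nt hg.1).2 hy.1 hy.2.1,
      s.herm.le_perp_comm hg.2 hy.2.1⟩, hy⟩
  · rw [(t.cst hz hy.1).1]
    exact Set.ncard_le_ncard fun g hg => ⟨hg.1.1, hg.2⟩

/-- `c2_spr` gives `ℓ₁ ≠ ℓ₂` through `z`; `n₀ ℓ₁ + n₀ ℓ₂ ≤ n_⊥ + n₀ (ℓ₁ + ℓ₂)`; `n0_mul`, `c2_dbl`, `cnt_diff` give
`(q + 1)(n_⊥ - n₀ (ℓ₁ + ℓ₂)) ≥ q^(m+1) dA`.  `Tr.cst` for other `z`. -/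
theorem c2_low (h : (gC H).Nonempty) : ∃ g ∈ gC H, ∀ z, Pt B z →
    dA H z * q ^ (n - 1) + 2 * (q + 1) * n0 H (ln g) ≤ 2 * (q + 1) * nP H z := by
  have := @finite_sug _ _ _ _ _ σ B _ _
  obtain ⟨g, hg, g', hg', ne, y, h0, hy, hy'⟩ := s.c2_spr nt t h
  have l := gC_ln s.herm nt hg
  have l' := gC_ln s.herm nt hg'
  have p := c2c_pt l.2 h0 hy
  have h1 : 0 < q ^ 2 - 1 := Nat.sub_pos_of_lt (Nat.one_lt_pow two_ne_zero (by have := s.q3; omega))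
  have a : n0 H (ln g) + n0 H (ln g') ≤ nP H y + n0 H (ln g ⊔ ln g') := by
    rw [n0, n0, ← Set.ncard_union_add_ncard_inter]
    exact add_le_add (Set.ncard_le_ncard fun k hk => hk.elim (fun a => ⟨a.1, a.2 hy⟩) fun a => ⟨a.1, a.2 hy'⟩)
      (Set.ncard_le_ncard fun k hk => ⟨hk.1.1, sup_le hk.1.2 hk.2.2⟩)
  have b := s.n0_mul nt t (U := ln g ⊔ ln g') p
  have c := (s.c2_dbl nt t hg p).2.2
  have d := Nat.mul_le_mul_right (dA H y) (s.cnt_diff l.2 l'.2 l.1 l'.1 ne h0 hy hy')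
  have e : dA H y * q ^ (n - 1) + (q + 1) * n0 H (ln g ⊔ ln g') ≤ (q + 1) * nP H y :=
    Nat.le_of_mul_le_mul_right (by linarith) h1
  have k : ∀ {j : ℕ}, 2 * j ≤ n0 H (ln g) + n0 H (ln g') → ∀ z, Pt B z →
      dA H z * q ^ (n - 1) + 2 * (q + 1) * j ≤ 2 * (q + 1) * nP H z := fun hj z hz => by
    rw [(t.cst hz p).1, (t.cst hz p).2.2]
    have := Nat.mul_le_mul_left (q + 1) (hj.trans a)
    linarith
  rcases le_total (n0 H (ln g)) (n0 H (ln g')) with o | o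
  · exact ⟨g, hg, k (by omega)⟩
  · exact ⟨g', hg', k (by omega)⟩

/-- The `g'` with `ℓ ⊥̸ ln g'` having an absolute vector in `ℓ^⊥`: count the pairs `(g', y)`, `y ∈ ℓ^⊥`, `Ab g' y`.
There are `X dA = n_⊥ (q + 1)(q² - 1)` of them (`c2_dbl`), `n₀ (q + 1)(q² - 1)` have `ℓ ⊥ ln g'` (`card_ab`), and each
`g'` above contributes at least `q² - 1` (`qz_smul`). -/
theorem good_le {g : SUG B} (hg : g ∈ gC H) {z : V} (hz : Pt B z) :
    {g' ∈ gC H | ¬ ln g ≤ perp B (ln g') ∧ ∃ y ∈ perp B (ln g), Ab g' y}.ncard + (q + 1) * n0 H (ln g) ≤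
      (q + 1) * nP H z := by
  have := @finite_sug _ _ _ _ _ σ B _ _
  have h1 : 0 < q ^ 2 - 1 := Nat.sub_pos_of_lt (Nat.one_lt_pow two_ne_zero (by have := s.q3; omega))
  have c := (s.c2_dbl nt t hg hz).2.2
  have a := c2c_dbl {g' ∈ gC H | ¬ ln g ≤ perp B (ln g') ∧ ∃ y ∈ perp B (ln g), Ab g' y}
    {g' ∈ gC H | ln g ≤ perp B (ln g')} (pts B (perp B (ln g))) Ab (m := q ^ 2 - 1) (m' := (q + 1) * (q ^ 2 - 1))
    (k := dA H z) (Set.disjoint_left.2 fun k hk hk' => hk.2.1 hk'.2) (fun k ⟨hk, _, y, hy, ab⟩ => ?_)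
    (fun k hk => ?_) fun y hy => ?_
  · exact Nat.le_of_mul_le_mul_right (by rw [n0]; linarith) h1
  · rw [← s.bar.card, ← Set.ncard_univ, ← Set.ncard_sdiff_singleton_of_mem (Set.mem_univ (0 : F))]
    refine Set.ncard_le_ncard_of_injOn (· • y) (fun a ha => ?_) fun a _ b _ e => smul_left_injective F ab.1 e
    have a0 := smul_ne_zero ha.2 ab.1
    have a1 := smul_mem _ a ab.2.1
    exact ⟨⟨c2c_pt (gC_ln s.herm nt hk).2 a0 a1, smul_mem _ a hy⟩, a0, a1, (qz_smul ha.2).2 ab.2.2⟩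
  · rw [← card_ab s.herm s.bar nt hk.1]
    exact Set.ncard_le_ncard fun y hy => ⟨⟨c2c_pt (gC_ln s.herm nt hk.1).2 hy.1 hy.2.1,
      s.herm.le_perp_comm hk.2 hy.2.1⟩, hy⟩
  · rw [(t.cst hz hy.1).1]
    exact Set.ncard_le_ncard fun g hg => ⟨hg.1.elim (·.1) (·.1), hg.2⟩

/-- Count the pairs `(g', z)`, `z ∈ ℓ` not absolute, `z ⊥ ln g'`, `ℓ ⊥̸ ln g'`: there are `(q² - q)(q² - 1) n₁`
(`card_nab`, `Tr.cst`); at most `(q² - q)(q² - 1) b` are bad; every other `g'` occurs at most `q² - 1` times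
(`ℓ ⊓ (ln g')^⊥` has dimension `≤ 1`); `good_le`. -/
theorem bad_ge {g : SUG B} (hg : g ∈ gC H) {b : ℕ}
    (hb : ∀ z ∈ ln g, z ≠ 0 → ¬ Qz g z → (bad H (ln g) z).ncard ≤ b) {z : V} (hz : Pt B z) :
    ((q : ℤ) ^ 2 - 2 * q - 1) * (nP H z - n0 H (ln g)) ≤ (q ^ 2 - q) * b := by
  have := @finite_sug _ _ _ _ _ σ B _ _
  have h3 := s.q3
  have h1 : 0 < q ^ 2 - 1 := Nat.sub_pos_of_lt (Nat.one_lt_pow two_ne_zero (by omega))
  have h2 : q ≤ q ^ 2 := Nat.le_self_pow two_ne_zero q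
  have l := gC_ln s.herm nt hg
  have c := s.good_le nt t hg hz
  have a := dbl {z | z ≠ 0 ∧ z ∈ ln g ∧ ¬ Qz g z}
    {g' ∈ gC H | ¬ ln g ≤ perp B (ln g') ∧ ∃ y ∈ perp B (ln g), Ab g' y} (fun y k => y ∈ perp B (ln k))
    (m := nP H z - n0 H (ln g) - b) (n := q ^ 2 - 1) (fun y hy => ?_) fun k hk => ?_
  · rw [card_nab s.herm s.bar nt hg, mul_right_comm] at a
    have a2 := Nat.le_of_mul_le_mul_right a h1
    have a3 : (nP H z : ℤ) - n0 H (ln g) - b ≤ (nP H z - n0 H (ln g) - b : ℕ) := by omega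
    zify [h2] at a2 c
    have := mul_le_mul_of_nonneg_left a3 (show (0 : ℤ) ≤ q ^ 2 - q by exact_mod_cast sub_nonneg.2 (Int.ofNat_le.2 h2))
    linarith
  · rw [(t.cst hz (c2c_pt l.2 hy.1 hy.2.1)).2.2, Nat.sub_sub, Nat.sub_le_iff_le_add']
    refine le_trans ?_ (Nat.add_le_add_right (Nat.add_le_add_left (hb y hy.2.1 hy.1 hy.2.2) _) _)
    refine le_trans (Set.ncard_le_ncard fun k hk => ?_) ((Set.ncard_union_le _ _).trans
      (Nat.add_le_add_right (Set.ncard_union_le _ _) _))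
    by_cases e : ln g ≤ perp B (ln k)
    · exact .inl (.inl ⟨hk.1, e⟩)
    by_cases e' : ∃ y ∈ perp B (ln g), Ab k y
    · exact .inr ⟨⟨hk.1, e, e'⟩, hk.2⟩
    · exact .inl (.inr ⟨hk.1, hk.2, e, fun y a b => e' ⟨y, a, b⟩⟩)
  · have d : finrank F ↥(ln g ⊓ perp B (ln k)) < finrank F (ln g) :=
      finrank_lt_finrank_of_lt (lt_of_le_of_ne inf_le_left fun e => hk.2.1 (inf_eq_left.1 e))
    have e := card_sub s.bar (ln g ⊓ perp B (ln k))
    have e2 : q ^ (2 * finrank F ↥(ln g ⊓ perp B (ln k))) ≤ q ^ 2 := Nat.pow_le_pow_right (by omega) (by omega)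
    refine le_trans ?_ (Nat.sub_le_sub_right (e.le.trans e2) 1)
    rw [← Set.ncard_sdiff_singleton_of_mem (zero_mem _)]
    exact Set.ncard_le_ncard fun y hy => ⟨⟨hy.1.2.1, hy.2⟩, hy.1.1⟩

end Un

end Cfsg.Lib.R3U
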