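import Cfsg.Agent.Lib.R3U.C2c

/-! S2196, case II: upper bounds for the bad elements; `H ∩ R_ℓ = 1`. -/

set_option autoImplicit false

namespace Cfsg.Lib.R3U

open Cfsg.Lib.Unitary Cfsg.Lib.R3S Module Submodule MulAction

variable {F V : Type*} [Field F] [AddCommGroup V] [Module F V] {σ : F →+* F}
  {B : V →ₛₗ[σ] V →ₗ[F] F} {q n : ℕ} [Finite F] [Finite V] {H : Subgroup (SUG B)}

theorem c2d_fib {α β : Type*} [Finite α] [Finite β] (S : Set α) (T : Set β) (R : α → β → Prop) {c : ℕ}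
    (h1 : ∀ x ∈ S, ∃ y ∈ T, R x y) (h2 : ∀ y ∈ T, {x ∈ S | R x y}.ncard ≤ c) : S.ncard ≤ T.ncard * c := by
  simpa using dbl S T R (m := 1) (fun x hx => (Set.ncard_pos (Set.toFinite _)).2 (h1 x hx)) h2

omit [Finite F] [Finite V] in
theorem c2d_tt (h : IsHerm σ B) {t : SUG B} {e e' : V} {b : F} (he : Pt B e) (he' : Pt B e') (hb : b ≠ 0)
    (tt : Tv t e' b) (p : B e e' ≠ 0) : Tv t (t.1 e - e) (B (t.1 e - e) e)⁻¹ ∧ B e (t.1 e) ≠ 0 ∧
      B e (t.1 e) + σ (B e (t.1 e)) = 0 := by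
  have p' : B e' e ≠ 0 := mt h.eq_zero_comm.1 p
  have b' : σ b ≠ 0 := by simpa using hb
  rw [tt, add_sub_cancel_left, tv_smul]
  simp only [map_add, map_smul, he.2, zero_add, LinearMap.map_smulₛₗ₂, smul_eq_mul, map_mul, h.symm]
  refine ⟨by convert tt using 1; field_simp, by simp [hb, p, p'], ?_⟩
  linear_combination B e e' * B e' e * tt.skew h he'

omit [Finite F] [Finite V] in
theorem c2d_at (h : IsHerm σ B) {t s : SUG B} {z : V} {a : F} (hz : Pt B z) (ha : a ≠ 0) (tt : Tv t z a)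
    (m : s ∈ pc H t) : ∃ v b, Pa t s z v a b := by
  obtain ⟨-, u, v, a', b, p⟩ := m
  obtain ⟨k, k0, rfl, -⟩ := tt.uniq h hz.1 ha p.tu
  refine ⟨v, b, hz, p.pv, ha, p.b0, by simpa [k0] using p.uv, fun r => p.ne ?_, tt, p.tv⟩
  rwa [span_singleton_smul_eq k0.isUnit]

theorem c2d_im (h : IsHerm σ B) {t : SUG B} {z : V} {a : F} (hz : Pt B z) (ha : a ≠ 0) (tt : Tv t z a) :
    (t * ·) '' pc H t ⊆ {g ∈ gC H | z ∈ ln g ∧ ¬ Qz g z} := by
  rintro _ ⟨s, m, rfl⟩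
  obtain ⟨v, b, p⟩ := c2d_at h hz ha tt m
  refine ⟨⟨m.1, (p.c2 h).1⟩, (p.c2 h).2 ▸ subset_span (by simp), fun r => p.b0 ?_⟩
  simpa using (p.qz h (α := 1) (β := 0) (by simpa using hz.1)).1 (by simpa using r)

theorem c2d_uq (h : IsHerm σ B) {t t' g : SUG B} {z : V} {a a' : F} (hz : Pt B z) (ha : a ≠ 0) (tt : Tv t z a)
    (ha' : a' ≠ 0) (tt' : Tv t' z a') (m : g ∈ (t * ·) '' pc H t) (m' : g ∈ (t' * ·) '' pc H t') : t = t' := by
  obtain ⟨s, m, r⟩ := m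
  obtain ⟨s', m', r'⟩ := m'
  obtain ⟨v, b, p⟩ := c2d_at h hz ha tt m
  obtain ⟨v', b', p'⟩ := c2d_at h hz ha' tt' m'
  exact (p.uniq p' h (r.trans r'.symm)).1

/-- `g = t s ∈ H` fixes `z`, `g w - w = b B e w • e =: e₁` lies in `Ae H z` (`Ae.app`, `Ae.sub`); `Ae.comm` and `NoTv.rt`
give `B w e₁ = B e₁ w`, i.e. `2 b N(B e w) = 0` (`b` is skew). -/
theorem Pa.ae (h : IsHerm σ B) (nt : NoTv H) (h2 : (2 : F) ≠ 0) {t s : SUG B} {z e w : V} {a b : F}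
    (p : Pa t s z e a b) (m : t * s ∈ H) (hw : Ae H z w) : B e w = 0 := by
  have ez : B e z = 0 := h.eq_zero_comm.1 p.uv
  have h1 : (t * s).1 w - w = (b * B e w) • e := by
    rw [mul_app, p.tv, map_add, map_smul, p.tu.fix hw.1, p.tu.fix p.uv, add_sub_cancel_left]
  have h3 := (hw.app h m (by rw [mul_app, p.tv.fix ez, p.tu.fix p.pu.2])).sub h p.pu.2 hw
  have h4 := nt.rt p.pu (hw.comm h p.pu.2 (h1 ▸ h3))
  rw [LinearMap.map_smulₛₗ₂, map_smul, map_mul, ← h.symm e w, smul_eq_mul, smul_eq_mul] at h4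
  have : 2 * b * (B e w * σ (B e w)) = 0 := by
    linear_combination -h4 + σ (B e w) * B e w * p.tv.skew h p.pv
  simpa [h2, p.b0] using this

/-- Fix `t₀` in the set, `e'' = t₀ e`, `φ = B e e'' ≠ 0`.  For `t'` in the set `t' e = λ e''` with `N λ = 1` (`Tv.conj`,
`Tv.uniq`), and `x = λ φ = B e (t' e)` is skew, so `x² = - N φ`: at most two values.  `t'` is determined by
`y = t' e - e`: `t' v = v + (B y v / B y e) • y`. -/
theorem two_tv (h : IsHerm σ B) {s s'' : SUG B} {e : V} {b : F} (he : Pt B e) (hb : b ≠ 0) (ts : Tv s e b) :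
    {t' : SUG B | (∃ e' b', Pt B e' ∧ b' ≠ 0 ∧ Tv t' e' b' ∧ B e e' ≠ 0) ∧ t' * s * t'⁻¹ = s''}.ncard ≤ 2 := by
  have := finite_sug (B := B)
  by_contra! h0
  obtain ⟨t₀, ⟨e₀, b₀, p1, p2, p3, p4⟩, p5⟩ := Set.nonempty_of_ncard_ne_zero (h0.trans' two_pos).ne'
  refine h0.not_ge ?_
  obtain ⟨-, q2, q3⟩ := c2d_tt h he p1 p2 p3 p4
  have key : ∀ t' : SUG B, t' * s * t'⁻¹ = s'' → ∃ k, t'.1 e = k • t₀.1 e ∧ k * σ k = 1 := fun t' r => by
    obtain ⟨k, -, r1, r2⟩ := (p5 ▸ ts.conj t₀).uniq h (app_ne _ he.1) hb (r ▸ ts.conj t')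
    exact ⟨k, r1, mul_left_cancel₀ hb (by rw [← r2, mul_one])⟩
  refine (Set.ncard_le_ncard_of_injOn (t := {B e (t₀.1 e), -B e (t₀.1 e)}) (fun t' => B e (t'.1 e)) ?_ ?_).trans
    ((Set.ncard_insert_le _ _).trans (by simp))
  · rintro t' ⟨⟨e', b', r1, r2, r3, r4⟩, r5⟩
    obtain ⟨k, k1, k2⟩ := key t' r5
    have r6 := (c2d_tt h he r1 r2 r3 r4).2.2
    refine sq_eq_sq_iff_eq_or_eq_neg.1 ?_
    rw [k1, map_smul, smul_eq_mul, map_mul] at r6
    rw [k1, map_smul, smul_eq_mul]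
    linear_combination k * B e (t₀.1 e) * r6 - B e (t₀.1 e) * q3 - B e (t₀.1 e) * σ (B e (t₀.1 e)) * k2
  · rintro t₁ ⟨⟨e₁, b₁, r1, r2, r3, r4⟩, r5⟩ t₂ ⟨⟨e₂, b₂, u1, u2, u3, u4⟩, u5⟩ r
    obtain ⟨k, k1, -⟩ := key t₁ r5
    obtain ⟨l, l1, -⟩ := key t₂ u5
    simp only [k1, l1, map_smul, smul_eq_mul] at r
    rw [mul_right_cancel₀ q2 r, ← l1] at k1
    exact (k1 ▸ (c2d_tt h he r1 r2 r3 r4).1).eq (c2d_tt h he u1 u2 u3 u4).1

/-- With `bad_dec`: `g' = t' s'` commutes with `t`, `t'` commutes with `s`, so `g' (t s) g'⁻¹ = t (s' s s'⁻¹)` and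
`s'' = s' s s'⁻¹` is a partner of `t` with centre `e'' = s' e`, `B e e'' = b' N(B e e') ≠ 0`. -/
theorem bad_conj (h : IsHerm σ B) {t s t' s' : SUG B} {z e z' e' : V} {a b a' b' : F} (p : Pa t s z e a b)
    (p' : Pa t' s' z' e' a' b') (m : t * s ∈ H) (m' : t' * s' ∈ H) (h1 : B z z' = 0) (h2 : B z e' = 0)
    (h3 : B e z' = 0) (h4 : B e e' ≠ 0) : t * (s' * s * s'⁻¹) ∈ H ∧ Pa t (s' * s * s'⁻¹) z (s'.1 e) a b ∧
      B e (s'.1 e) ≠ 0 := by
  have q2 := (c2d_tt h p.pv p'.pv p'.b0 p'.tv h4).2.1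
  refine ⟨?_, ⟨p.pu, p.pv.app _, p.a0, p.b0, ?_, fun r => q2 ?_, p.tu, p.tv.conj _⟩, q2⟩
  · have c1 : t * t' = t' * t := p'.tu.comm p.tu h1
    have c2 : t * s' = s' * t := p'.tv.comm p.tu h2
    have c3 : s * t' = t' * s := p'.tu.comm p.tv h3
    have c4 := p'.comm h
    convert mul_mem (mul_mem m' m) (inv_mem m') using 1
    rw [eq_mul_inv_iff_mul_eq, c4]
    calc t * (s' * s * s'⁻¹) * (s' * t') = t * s' * (s * t') := by group
      _ = _ := by rw [c2, c3, mul_assoc, ← mul_assoc t, c1]; group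
  · rw [p'.tv, map_add, map_smul, p.uv, h2, smul_zero, add_zero]
  · obtain ⟨c, r⟩ := mem_span_singleton.1 r
    rw [← r, map_smul, h.eq_zero_comm.1 p.uv, smul_zero]

/-- `g' ↦ (s'', s', t')`: at most `c` choices for `s'' ∈ pc H t`, `2` for `s'` (`two_tv`), `c` for `t' ∈ pc H s'`. -/
theorem bad_odd (h : IsHerm σ B) (nt : NoTv H) {t s : SUG B} {z e : V} {a b : F} (p : Pa t s z e a b)
    (m : t * s ∈ H) {c : ℕ} (hc : ∀ t, IsT t → (pc H t).ncard ≤ c) :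
    (bad H (span F {z, e}) z).ncard ≤ 2 * c ^ 2 := by
  have := finite_sug (B := B)
  let T : SUG B → Set (SUG B) := fun s'' =>
    {t' | (∃ e' b', Pt B e' ∧ b' ≠ 0 ∧ Tv t' e' b' ∧ B e e' ≠ 0) ∧ t' * s * t'⁻¹ = s''}
  refine (c2d_fib _ (pc H t) (fun g s'' => ∃ s' ∈ T s'', ∃ t' ∈ pc H s', t' * s' = g) (c := 2 * c)
    (fun g hg => ?_) fun s'' _ => ?_).trans ?_
  · obtain ⟨t', s', z', e', a', b', p', rfl, h1, h2, h3, h4⟩ := bad_dec h nt p hg
    obtain ⟨r1, r2, -⟩ := bad_conj h p p' m hg.1.1 h1 h2 h3 h4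
    exact ⟨_, ⟨r1, _, _, _, _, r2⟩, s', ⟨⟨e', b', p'.pv, p'.b0, p'.tv, h4⟩, rfl⟩, t',
      ⟨p'.comm h ▸ hg.1.1, _, _, _, _, p'.symm h⟩, rfl⟩
  · refine (c2d_fib _ (T s'') (fun g s' => ∃ t' ∈ pc H s', t' * s' = g) (c := c) (fun g hg => hg.2)
      fun s' ⟨⟨e', b', r1, r2, r3, _⟩, _⟩ => ?_).trans (Nat.mul_le_mul_right _ (two_tv h p.pv p.b0 p.tv))
    exact (Set.ncard_le_ncard (t := (· * s') '' pc H s') fun g hg => hg.2).trans
      ((Set.ncard_image_le).trans (hc s' ⟨e', b', r1, r2, r3⟩))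
  · exact (Nat.mul_le_mul_right _ (hc t ⟨z, a, p.pu, p.a0, p.tu⟩)).trans_eq (by ring)

/-- `s ↦ t s` and `s ↦ (t s)⁻¹ = t⁻¹ s⁻¹` are injective with disjoint images (`Pa.uniq`, `t ≠ t⁻¹`) in the set counted
by `eA` (`Pa.c2`, `Pa.qz` with `α = 1`, `β = 0`). -/
theorem pc_odd (h : IsHerm σ B) (h2 : (2 : F) ≠ 0) {t : SUG B} {z : V} {a : F} (hz : Pt B z) (ha : a ≠ 0)
    (tt : Tv t z a) : 2 * (pc H t).ncard ≤ eA H z := by
  have := finite_sug (B := B)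
  have ha' := neg_ne_zero.2 ha
  have h1 : (pc H t).ncard ≤ (pc H t⁻¹).ncard := Set.ncard_le_ncard_of_injOn (·⁻¹)
    (fun s ⟨m, u, v, a, b, p⟩ => ⟨by rw [← mul_inv_rev, ← p.comm h]; exact inv_mem m, u, v, -a, -b, p.pu, p.pv,
      neg_ne_zero.2 p.a0, neg_ne_zero.2 p.b0, p.uv, p.ne, p.tu.inv p.pu.2, p.tv.inv p.pv.2⟩) inv_injective.injOn
  have h3 := Set.ncard_le_ncard (Set.union_subset (c2d_im h hz ha tt (H := H)) (c2d_im h hz ha' (tt.inv hz.2)))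
  rw [Set.ncard_union_eq (Set.disjoint_left.2 fun g g1 g2 => (tt.mul hz.2 tt).ne_one h hz.1
    (by rw [← two_mul]; exact mul_ne_zero h2 ha) (eq_inv_iff_mul_eq_one.1 (c2d_uq h hz ha tt ha' (tt.inv hz.2) g1 g2))),
    Set.ncard_image_of_injective _ (mul_right_injective _), Set.ncard_image_of_injective _ (mul_right_injective _)] at h3
  exact (by omega : _ ≤ _).trans h3

/-- `(t, s) ↦ t s` is a bijection from the pairs (`t` in the root group of `z`, `s ∈ pc H t`) onto the set counted by `eA`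
(`gC_dec`, `Pa.uniq`, `card_root`).  All `pc H t` have the same size: `t_z(a') = k t_z(a) k⁻¹` with `k ∈ H`, `k z = c z`,
`N c = a' / a` (a real square, `ex_sqrt`, `Sq`). -/
theorem pc_two (h : IsHerm σ B) (hσ : IsBar q σ) (nt : NoTv H) (h2 : (2 : F) = 0) {t : SUG B} {z : V} {a : F}
    (hz : Pt B z) (sq : Sq H z) (ha : a ≠ 0) (tt : Tv t z a) : (q - 1) * (pc H t).ncard = eA H z := by
  have := finite_sug (B := B)
  have h1 : ∀ {t t' : SUG B} {a a' : F}, a ≠ 0 → a' ≠ 0 → Tv t z a → Tv t' z a' →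
      (pc H t).ncard ≤ (pc H t').ncard := fun {t t' a a'} ha ha' tt tt' => by
    obtain ⟨x, x1, x2⟩ := ex_sqrt hσ h2 (a := a' / a) (by
      rw [map_div₀, eq_neg_of_add_eq_zero_right (tt.skew h hz), eq_neg_of_add_eq_zero_right (tt'.skew h hz),
        neg_div_neg_eq])
    obtain ⟨k, hk, c, c1, c2⟩ := sq x x1 fun r => div_ne_zero ha' ha (by simp [x2, r])
    have r := tt.conj k
    rw [c1, tv_smul, c2, ← x2, mul_div_cancel₀ _ ha] at r
    rw [← r.eq tt']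
    refine Set.ncard_le_ncard_of_injOn (fun s => k * s * k⁻¹) (fun s ⟨m, u, v, a, b, p⟩ =>
      ⟨by rw [conj_mul]; exact mul_mem (mul_mem hk m) (inv_mem hk), _, _, a, b, p.pu.app k, p.pv.app k, p.a0, p.b0,
        by rw [b_app, p.uv], fun r => p.ne ?_, p.tu.conj k, p.tv.conj k⟩) fun x _ y _ r => by simpa using r
    obtain ⟨c, r⟩ := mem_span_singleton.1 r
    exact mem_span_singleton.2 ⟨c, k.1.injective (by rw [map_smul, r])⟩
  have h3 := dbl_eq {t : SUG B | ∃ c, c ≠ 0 ∧ Tv t z c} {g ∈ gC H | z ∈ ln g ∧ ¬ Qz g z}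
    (fun t g => g ∈ (t * ·) '' pc H t) (a := (pc H t).ncard) (b := 1) (fun t' ⟨a', ha', tt'⟩ => by
      rw [Set.sep_mem_eq, Set.inter_eq_right.2 (c2d_im h hz ha' tt'),
        Set.ncard_image_of_injective _ (mul_right_injective _), (h1 ha ha' tt tt').antisymm (h1 ha' ha tt' tt)])
    fun g hg => by
      obtain ⟨t', s, e, a', b, p, rfl⟩ := gC_dec h nt hg.1 hz.1 hg.2.1 hg.2.2
      have m : t' * s ∈ (t' * ·) '' pc H t' := ⟨s, ⟨hg.1.1, _, _, _, _, p⟩, rfl⟩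
      exact Set.ncard_eq_one.2 ⟨t', Set.eq_singleton_iff_unique_mem.2 ⟨⟨⟨a', p.a0, p.tu⟩, m⟩,
        fun x ⟨⟨c, c0, c1⟩, c2⟩ => c2d_uq h hz c0 c1 p.a0 p.tu c2 m⟩⟩
  rw [← card_root h hσ hz, add_tsub_cancel_right, h3, mul_one, eA]

/-- `k = s s'` has odd order: otherwise `j = k ^ (orderOf k / 2)` is an involution commuting with `k`,
`ln j ≤ ⟨e, e'⟩` is totally isotropic (`(j - 1)² = 0`), so `j = t_y(κ)` (`isT_of_rank`), `k y = λ y` with `N λ = 1`.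
For `y = α e + β e'`: `(λ - 1) β = b' α B e' e`, `α ≠ 0`, `λ ≠ 1`, and `B y y = 0` makes `λ` real, `λ² = 1`, `λ = 1`. -/
theorem odd_tt (h : IsHerm σ B) (h2 : (2 : F) = 0) {s s' : SUG B} {e e' : V} {b b' : F} (he : Pt B e) (he' : Pt B e')
    (hb : b ≠ 0) (hb' : b' ≠ 0) (ts : Tv s e b) (ts' : Tv s' e' b') (p : B e e' ≠ 0) : Odd (orderOf (s * s')) := by
  have := finite_sug (B := B)
  have p' : B e' e ≠ 0 := mt h.eq_zero_comm.1 p
  have hg : B e e * B e' e' - B e e' * B e' e ≠ 0 := by simp [he.2, p, p']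
  by_contra! o
  obtain ⟨n, hn⟩ := Nat.not_odd_iff_even.1 o
  have n0 := orderOf_pos (s * s')
  have m := pow_mem (mul_mem (ts.lnG (subset_span (s := {e, e'}) (by simp)))
    (ts'.lnG (subset_span (s := {e, e'}) (by simp)))) n
  have j1 : (s * s') ^ n ≠ 1 := pow_ne_one_of_lt_orderOf (by omega) (by omega)
  have j2 : ((s * s') ^ n)⁻¹ = (s * s') ^ n := by
    rw [inv_eq_iff_mul_eq_one, ← pow_add, ← hn, pow_orderOf_eq_one]
  have j3 : s * s' * (s * s') ^ n * (s * s')⁻¹ = (s * s') ^ n :=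
    mul_inv_eq_of_eq_mul (Commute.self_pow _ n)
  generalize (s * s') ^ n = j at m j1 j2 j3
  have iso : ∀ x y, B (j.1 x - x) (j.1 y - y) = 0 := fun x y => by
    have := b_inv j x y
    rw [j2] at this
    simp only [map_sub, LinearMap.sub_apply, b_app, ← this]
    linear_combination (B x y - B x (j.1 y)) * h2
  obtain ⟨x, hx⟩ : ∃ x, j.1 x - x ≠ 0 := by
    by_contra! r
    exact j1 (ext' fun x => sub_eq_zero.1 (r x))
  obtain ⟨hy, κ, k0, k1⟩ := isT_of_rank h j1 (u := j.1 x - x) fun y => mem_span_singleton.2 (w6_mem h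
    (finrank_span_pair_of_linearIndependent (linearIndependent_pair_of_gram hg)) (disjoint_perp_pair_of_gram hg)
    ⟨hx, iso x x⟩ (m (mem_ln.2 ⟨x, rfl⟩)) (m (mem_ln.2 ⟨y, rfl⟩)) (iso x y))
  obtain ⟨l, l0, l1, l2⟩ := k1.uniq h hx k0 (j3 ▸ k1.conj (s * s'))
  replace l2 : l * σ l = 1 := mul_left_cancel₀ k0 (by rw [← l2, mul_one])
  obtain ⟨α, β, r⟩ := mem_span_pair.1 (m (mem_ln.2 ⟨x, rfl⟩))
  rw [← r] at hy l1
  rw [mul_app, ts', ts] at l1
  have a1 := congrArg (B e) l1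
  have a2 := congrArg (B e') l1
  have a3 := hy.2
  simp only [map_add, map_smul, LinearMap.add_apply, LinearMap.map_smulₛₗ₂, smul_eq_mul, he.2, he'.2, mul_zero,
    zero_add, add_zero] at a1 a2 a3
  have a4 : (l - 1) * β = b' * α * B e' e := mul_right_cancel₀ p (by linear_combination -a1)
  have a5 : α ≠ 0 := by
    rintro rfl
    have : β = 0 := by simpa [hb, p, p'] using a2
    exact hy.1 (by simp [this])
  have a6 := congrArg σ a4
  simp only [map_mul, map_sub, map_one, h.symm, eq_neg_of_add_eq_zero_right (ts'.skew h he')] at a6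
  have a7 : b' * α * σ α * B e e' * B e' e * (σ l - l) = 0 := by
    linear_combination (l - 1) * (σ l - 1) * a3 - (σ l - 1) * σ α * B e e' * a4 - (l - 1) * α * B e' e * a6
  have a8 : σ l = l := by simpa [hb', a5, p, p', sub_eq_zero] using a7
  have a9 : (l - 1) ^ 2 = 0 := by rw [a8] at l2; linear_combination l2 + (1 - l) * h2
  rw [pow_eq_zero_iff two_ne_zero] at a9
  rw [a9, zero_mul] at a4
  exact mul_ne_zero (mul_ne_zero hb' a5) p' a4.symm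

/-- All four transvections are involutions; `t, t'` commute with all of them.  `(g g')² = (s s')² ∈ H`, so `s s' ∈ H`
(`odd_tt`), `t t' ∈ H`, `t s' = g (s s') ∈ H`.  So `s' ∈ F₁ = {partners of t not commuting with s}`, and `t' = t` or
`t' ∈ F₀ \ {s}`, `F₀ = {partners commuting with s} ∋ s` (`t' ≠ s` as `t'` commutes with `s'`).  `4 |F₀| |F₁| ≤ c²`. -/
theorem bad_two (h : IsHerm σ B) (nt : NoTv H) (h2 : (2 : F) = 0) {t s : SUG B} {z e : V} {a b : F}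
    (p : Pa t s z e a b) (m : t * s ∈ H) : 4 * (bad H (span F {z, e}) z).ncard ≤ (pc H t).ncard ^ 2 := by
  have := finite_sug (B := B)
  have sq : ∀ {t : SUG B} {z : V} {a : F}, Pt B z → Tv t z a → t * t = 1 := fun hz tt =>
    (tt.mul hz.2 tt).eq (by rw [← two_mul, h2, zero_mul]; exact tv_one _)
  have h1 := Set.ncard_inter_add_ncard_sdiff_eq_ncard (pc H t) {x | x.1 e = e}
  have h3 : s ∈ pc H t ∩ {x | x.1 e = e} := ⟨⟨m, _, _, _, _, p⟩, p.tv.fix p.pv.2⟩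
  have h4 := c2d_fib (bad H (span F {z, e}) z) (pc H t \ {x | x.1 e = e})
    (fun g s' => g ∈ (· * s') '' insert t ((pc H t ∩ {x | x.1 e = e}) \ {s})) (fun g hg => ?_) fun s' _ =>
    (Set.ncard_le_ncard fun g hg => hg.2).trans ((Set.ncard_image_le).trans ((Set.ncard_insert_le _ _).trans_eq
      (Set.ncard_sdiff_singleton_add_one h3)))
  · nlinarith [sq_nonneg (((pc H t ∩ {x | x.1 e = e}).ncard : ℤ) - (pc H t \ {x | x.1 e = e}).ncard)]
  obtain ⟨t', s', z', e', a', b', p', rfl, r1, r2, r3, r4⟩ := bad_dec h nt p hg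
  have c1 : Commute t t' := p'.tu.comm p.tu r1
  have c2 : Commute t s' := p'.tv.comm p.tu r2
  have c3 : Commute s t' := p'.tu.comm p.tv r3
  have c4 : Commute t' s' := p'.comm h
  have c5 : Commute t s := p.comm h
  have e1 : t * s * (t' * s') = t * t' * (s * s') := c3.mul_mul_mul_comm _ _
  have m1 : t * t' * (s * s') ∈ H := e1 ▸ mul_mem m hg.1.1
  have m2 : s * s' ∈ H := by
    have := pow_mem m1 2
    rw [((c5.mul_right c2).mul_left (c3.symm.mul_right c4)).mul_pow, c1.mul_pow, pow_two t, pow_two t', sq p.pu p.tu,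
      sq p'.pu p'.tu, one_mul, one_mul] at this
    obtain ⟨k, hk⟩ := odd_tt h h2 p.pv p'.pv p.b0 p'.b0 p.tv p'.tv r4
    have := pow_mem this (k + 1)
    rwa [← pow_mul, mul_add, mul_one, pow_succ _ (2 * k + 1), ← hk, pow_orderOf_eq_one, one_mul] at this
  have m3 : t * t' ∈ H := (H.mul_mem_cancel_right m2).1 m1
  have m4 : t * s' ∈ H := by
    have := mul_mem m m2
    rwa [mul_assoc, ← mul_assoc s, sq p.pv p.tv, one_mul] at this
  refine ⟨s', ⟨⟨m4, z, e', a, b', p.pu, p'.pv, p.a0, p'.b0, r2, fun r => r4 ?_, p.tu, p'.tv⟩, fun r => ?_⟩,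
    t', ?_, rfl⟩
  · obtain ⟨c, rfl⟩ := mem_span_singleton.1 r
    rw [map_smul, h.eq_zero_comm.1 p.uv, smul_zero]
  · exact (c2d_tt h p.pv p'.pv p'.b0 p'.tv r4).2.1 (by rw [show s'.1 e = e from r, p.pv.2])
  by_cases r : z' ∈ span F {z}
  · obtain ⟨c, rfl⟩ := mem_span_singleton.1 r
    have r5 := p.tu.mul p.pu.2 (tv_smul.1 p'.tu)
    rw [nt.rt p.pu ⟨_, m3, r5⟩] at r5
    exact .inl (mul_left_cancel ((r5.eq (tv_one _)).trans (sq p.pu p.tu).symm))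
  · refine .inr ⟨⟨⟨m3, z, z', a, a', p.pu, p'.pu, p.a0, p'.a0, r1, r, p.tu, p'.tu⟩,
      p'.tu.fix (h.eq_zero_comm.1 r3)⟩, ?_⟩
    rintro rfl
    exact (c2d_tt h p'.pv p.pv p.b0 p.tv (mt h.eq_zero_comm.1 r4)).2.1 (by rw [p'.tu.fix p'.uv, p'.pv.2])

namespace Un

variable (s : Un σ B q n) (nt : NoTv H)
include s nt

/-- `bad_dec`, `bad_conj`, `Pa.ae`: `Ae H z ⊥ e, e''` with `B e e'' ≠ 0`.  Take `s' ⊥ e, e''` isotropic with `B z s' = 1`
and `Y = ⟨z, s', e, e''⟩^⊥` of dimension `n - 4`; `dA_le`. -/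
theorem dA_odd (h2 : (2 : F) ≠ 0) {t t₁ : SUG B} {z e : V} {a b : F} (p : Pa t t₁ z e a b) (m : t * t₁ ∈ H)
    (hb : (bad H (span F {z, e}) z).Nonempty) : dA H z + 1 ≤ q ^ (n - 4) := by
  have h := s.herm
  obtain ⟨g, hg⟩ := hb
  obtain ⟨t', s', z', e', a', b', p', rfl, h1, h3, h4, h5⟩ := bad_dec h nt p hg
  obtain ⟨r1, r2, r3⟩ := bad_conj h p p' m hg.1.1 h1 h3 h4 h5
  generalize s'.1 e = f at r2 r3
  have hg : B e e * B f f - B e f * B f e ≠ 0 := by simp [p.pv.2, r3, mt h.eq_zero_comm.1 r3]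
  have w1 := finrank_span_pair_of_linearIndependent (linearIndependent_pair_of_gram hg)
  have w2 := disjoint_perp_pair_of_gram hg
  have w3 : z ∈ perp B (span F {e, f}) := mem_perp_span.2 (by
    simp [h.eq_zero_comm.1 p.uv, h.eq_zero_comm.1 r2.uv])
  have w4 : ∀ w, Ae H z w → w ∈ perp B (span F {e, f}) := fun w hw => mem_perp_span.2 (by
    simp [p.ae h nt h2 m hw, r2.ae h nt h2 r1 hw])
  generalize span F {e, f} = W at w1 w2 w3 w4
  obtain ⟨Y, y1, y2, y3, y4⟩ := ex_compl h (perp B (W ⊔ span F {z}))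
  rw [h.perp_perp] at y3 y4
  have z1 : z ∈ W ⊔ span F {z} := mem_sup_right (mem_span_singleton_self z)
  have z2 : z ∈ perp B (W ⊔ span F {z}) := by
    rw [perp_sup]; exact ⟨w3, mem_perp_singleton.2 p.pu.2⟩
  have d1 := finrank_lt_finrank_of_lt (lt_of_le_of_ne (le_sup_left : W ≤ W ⊔ span F {z}) fun r =>
    p.pu.1 (disjoint_def.1 w2 z (r ▸ z1) w3))
  have d2 := finrank_lt_finrank_of_lt (lt_of_le_of_ne y1 fun r =>
    p.pu.1 (disjoint_def.1 y3 z ⟨z2, z1⟩ (r ▸ z2)))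
  have d3 := h.finrank_add_finrank_perp (W ⊔ span F {z})
  refine (dA_le h s.bar nt p.pu y2 fun w hw => ?_).trans
    (Nat.pow_le_pow_right (by have := s.q3; omega) (by have := s.dim; omega))
  refine (y4.ge.trans ((sup_comm _ _).le.trans (sup_le_sup_left (fun u hu => ?_) Y)))
    (by rw [perp_sup]; exact ⟨w4 w hw, mem_perp_singleton.2 hw.1⟩)
  obtain ⟨x, hx, c, rfl⟩ := hu_dec hu.2
  have := (perp_sup W _).le hu.1
  rw [disjoint_def.1 w2 x hx ((Submodule.add_mem_iff_left _ (smul_mem _ c w3)).1 this.1), zero_add]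
  exact smul_mem _ _ (mem_span_singleton_self z)

/-- `g` from `c2_low`, `δ = dA + 1`, `n₁ = n_⊥ - n₀`, `m = n - 2`.  `2 ≠ 0`: `c = max |pc H t|`, `bad_ge` with
`b = 2 c²` (`gC_dec`, `Pa.c2`, `bad_odd`), `pc_odd`, `c2_dbl`; some `bad` is non-empty (else `bad_ge` with `b = 0` gives
`n₁ ≤ 0`), `dA_odd`; `num_b1`.  `2 = 0`: `c = |pc H t|` is constant (`pc_two`, `Tr.cst`), `b = c² / 4`, `dA_le'`,
`q ≠ 3`; `num_b2`. -/
theorem noC (t : Tr H) (sq : (2 : F) = 0 → ∀ v, Pt B v → Sq H v) : NoC H := by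
  have := finite_sug (B := B)
  have h := s.herm
  have q3 := s.q3
  have n6 := s.n6
  intro g₀ hg₀ c₀
  obtain ⟨g, hg, h6⟩ := s.c2_low nt t ⟨g₀, hg₀, c₀⟩
  have pt : ∀ z ∈ ln g, z ≠ 0 → Pt B z := fun z hz h0 => ⟨h0, (gC_ln h nt hg).2 hz z hz⟩
  obtain ⟨z, hz, h0, hq⟩ := gC_ex h nt hg
  have pz := pt z hz h0
  obtain ⟨h1, h5, -⟩ := s.c2_dbl nt t hg pz
  have dec : ∀ z ∈ ln g, z ≠ 0 → ¬ Qz g z → ∃ t s e a b, Pa t s z e a b ∧ t * s ∈ H ∧ ln g = span F {z, e} :=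
    fun z hz h0 hq => by
      obtain ⟨t, s, e, a, b, p, rfl⟩ := gC_dec h nt hg h0 hz hq
      exact ⟨t, s, e, a, b, p, hg.1, (p.c2 h).2⟩
  replace h6 := h6 z pz
  rw [show n - 1 = n - 2 + 1 by omega] at h6
  zify [show q ≤ q ^ 2 by nlinarith] at h5 h6
  have h7 : ((dA H z : ℤ) + 1 - 1) * q ^ (n - 2 + 1) ≤ 2 * (q + 1) * (nP H z - n0 H (ln g)) := by linarith
  by_cases h2 : (2 : F) = 0
  · obtain ⟨t₀, s₀, e₀, a₀, b₀, p₀, -, -⟩ := dec z hz h0 hq
    have h8 := pc_two h s.bar nt h2 pz (sq h2 z pz) p₀.a0 p₀.tu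
    have h9 := s.bad_ge nt t hg (b := (pc H t₀).ncard ^ 2 / 4) (fun z' hz' h0' hq' => by
      obtain ⟨t₁, s₁, e, a, b, p, m, r⟩ := dec z' hz' h0' hq'
      have r1 := pc_two h s.bar nt h2 p.pu (sq h2 z' p.pu) p.a0 p.tu
      rw [(t.cst p.pu pz).2.1, ← h8] at r1
      rw [← Nat.eq_of_mul_eq_mul_left (by omega) r1, r, Nat.le_div_iff_mul_le four_pos, mul_comm]
      exact bad_two h nt h2 p m) pz
    have h10 : 4 * (((pc H t₀).ncard ^ 2 / 4 : ℕ) : ℤ) ≤ (pc H t₀).ncard ^ 2 := by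
      exact_mod_cast Nat.mul_div_le _ 4
    have q4 : q ≠ 3 := by
      rintro rfl
      have h3 : (3 : F) = 0 := s.bar.cast_q
      exact one_ne_zero (α := F) (by linear_combination h3 - h2)
    zify [show 1 ≤ q by omega] at h8
    refine num_b2 (c := (pc H t₀).ncard) (m := n - 2) (by omega) (by omega) (by exact_mod_cast s.dA_le' nt pz) ?_
      (mul_left_cancel₀ (show (q : ℤ) - 1 ≠ 0 by omega) (by linear_combination (q + 1) * h8 + h5)) h7
    have := mul_le_mul_of_nonneg_left h10 (show (0 : ℤ) ≤ q ^ 2 - q by nlinarith)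
    linarith
  · obtain ⟨t₀, _, _, a₀, _, p₀, -, -⟩ := dec z hz h0 hq
    obtain ⟨t₁, ⟨z₁, a₁, r1, r2, r3⟩, hm⟩ := Set.exists_max_image {t : SUG B | IsT t} (fun t => (pc H t).ncard)
      (Set.toFinite _) ⟨t₀, z, a₀, pz, p₀.a0, p₀.tu⟩
    have h8 := pc_odd (H := H) h h2 r1 r2 r3
    rw [(t.cst r1 pz).2.1] at h8
    have h9 := s.bad_ge nt t hg (b := 2 * (pc H t₁).ncard ^ 2) (fun z' hz' h0' hq' => by
      obtain ⟨t₁, s₁, e, a, b, p, m, r⟩ := dec z' hz' h0' hq'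
      exact r ▸ bad_odd h nt p m hm) pz
    have h10 : dA H z + 1 ≤ q ^ (n - 2 - 2) := by
      by_contra r0
      have h11 := s.bad_ge nt t hg (b := 0) (fun z' hz' h0' hq' => by
        obtain ⟨t₁, s₁, e, a, b, p, m, r⟩ := dec z' hz' h0' hq'
        rw [r, Nat.le_zero, Set.ncard_eq_zero, ← Set.not_nonempty_iff_eq_empty]
        exact fun r1 => r0 ((t.cst p.pu pz).1 ▸ s.dA_odd nt h2 p m r1)) pz
      have h12 : (0 : ℤ) < (dA H z + 1 - 1) * q ^ (n - 2 + 1) := mul_pos (by omega) (by positivity)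
      have h13 := pos_of_mul_pos_left ((h12.trans_le h7).trans_eq (mul_comm _ _)) (by positivity)
      have := mul_pos (show (0 : ℤ) < q ^ 2 - 2 * q - 1 by nlinarith) h13
      simp only [Nat.cast_zero, mul_zero] at h11
      omega
    exact num_b1 (c := (pc H t₁).ncard) (η := eA H z) (m := n - 2) (by omega) (by omega) (by omega)
      (by exact_mod_cast h10) (by positivity) (by exact_mod_cast h9) (by exact_mod_cast h8) (by linarith) h7

end Un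

end Cfsg.Lib.R3U
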