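import Cfsg.Agent.Lib.Unitary.MaxGeo
import Cfsg.Agent.Lib.R3S.Bur
import Cfsg.Agent.Lib.R3S.Mat

/-! Rank 3 actions of the unitary groups (S2196): definitions.  Plan: `docs/R3U.md`.
`B` is conjugate-linear in the first variable; "real" = fixed by `σ`, "skew" = `c + σ c = 0`;
`m = n - 2`, `u = (-q)^(n-3)`; `Q_z` = the Eichler transformations `Ei · z w γ`. -/

set_option autoImplicit false

namespace Cfsg.Lib.R3U

open Cfsg.Lib.Unitary Cfsg.Lib.R3S Module Submodule MulAction Matrix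

open scoped LinearAlgebra.Projectivization

section mat

variable {X Y : Type*}

open Classical in
/-- The `0/1`-matrix of a relation. -/
noncomputable def rc (R : X → Y → Prop) : Matrix X Y ℂ := Matrix.of fun x y => if R x y then 1 else 0

/-- The all-one matrix. -/
def jc (X Y : Type*) : Matrix X Y ℂ := Matrix.of fun _ _ => 1

/-- A non-zero invariant multiple of an idempotent of rank `f`, perpendicular to `J`. -/
structure Idm (G : Type*) [Group G] [MulAction G X] [Fintype X] (U : Matrix X X ℂ) (f : ℤ) : Prop where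
  inv : ∀ (g : G) x y, U (g • x) (g • y) = U x y
  ne : U ≠ 0
  uj : U * jc X X = 0
  sq : ∃ y : ℂ, y ≠ 0 ∧ U * U = y • U ∧ U.trace = y * f

/-- The graph is not a disjoint union of cliques. -/
def Cn (E : X → X → Prop) : Prop := ∃ x y z, E x y ∧ E y z ∧ x ≠ z ∧ ¬ E x z

/-- The complementary graph. -/
def Co (E : X → X → Prop) (x y : X) : Prop := x ≠ y ∧ ¬ E x y

/-- Parameters of a strongly regular graph with eigenvalues `k, r, -S`; `f` is the multiplicity of `r`. -/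
structure Srg (N f k r S μ : ℤ) : Prop where
  r0 : 0 < r
  s0 : 0 < S
  m0 : 0 < μ
  ek : k = μ + r * S
  eN : N * μ = (k - r) * (k + S)
  ef : f * (r + S) = S * (N - 1) - k

/-- The class sum of the transvections is `c₁ A + c₂ (J - 1 - A)`, with row sum `T` and eigenvalue `ω`. -/
def Kn (N f T ω : ℤ) (c₂ : ℤ) : Prop :=
  ∃ k r S μ c₁ : ℤ, Srg N f k r S μ ∧ 0 ≤ c₂ ∧ c₂ < c₁ ∧ c₁ * k + c₂ * (N - 1 - k) = T ∧
    c₁ * r - c₂ * (r + 1) = ω

/-- Degree and eigenvalue of the first constituent on points. -/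
def Fa (q u f ω : ℤ) : Prop :=
  f * ((q + 1) * (q ^ 2 - 1)) = q ^ 2 * ((q ^ 3 * u + 1) * (u - 1)) ∧ (q + 1) * ω = (q ^ 2 * u - 1) * (q * u + 1)

/-- Degree and eigenvalue of the second constituent on points. -/
def Fb (q u f ω : ℤ) : Prop :=
  f * ((q + 1) * (q ^ 2 - 1)) = q ^ 3 * ((q ^ 2 * u - 1) * (q * u + 1)) ∧ (q + 1) * ω = (q ^ 3 * u + 1) * (u - 1)

/-- Degree and eigenvalue of a twisted point module. -/
def Fc (q u f ω : ℤ) : Prop :=
  f * (q ^ 2 - 1) = (q ^ 3 * u + 1) * (q ^ 2 * u - 1) ∧ (q + 1) * ω = q ^ 3 * u ^ 2 - q ^ 3 * u + q ^ 2 * u - 1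

/-- `u = (-q)^(n-3)`. -/
def uu (q n : ℕ) : ℤ := (-(q : ℤ)) ^ (n - 3)

end mat

variable {F V : Type*} [Field F] [AddCommGroup V] [Module F V] {σ : F →+* F}

/-- A unitary space of dimension `n ≥ 6` over `F_{q²}`, `q ≥ 3`. -/
structure Un (σ : F →+* F) (B : V →ₛₗ[σ] V →ₗ[F] F) (q n : ℕ) : Prop where
  herm : IsHerm σ B
  bar : IsBar q σ
  dim : finrank F V = n
  n6 : 6 ≤ n
  q3 : 3 ≤ q

/-- A non-zero isotropic vector. -/
def Pt (B : V →ₛₗ[σ] V →ₗ[F] F) (v : V) : Prop := v ≠ 0 ∧ B v v = 0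

variable {B : V →ₛₗ[σ] V →ₗ[F] F}

/-- `g = t_u(c)`. -/
def Tv (g : SUG B) (u : V) (c : F) : Prop := ∀ x, g.1 x = x + (c * B u x) • u

/-- `g` is the Eichler transformation with data `e, w, γ`. -/
def Ei (g : SUG B) (e w : V) (γ : F) : Prop :=
  ∀ x, g.1 x = x + B e x • w - B w x • e + (γ * B e x) • e

/-- `g` is a transvection. -/
def IsT (g : SUG B) : Prop := ∃ u c, Pt B u ∧ c ≠ 0 ∧ Tv g u c

/-- `g ∈ Q_z`. -/
def Qz (g : SUG B) (z : V) : Prop := g.1 z = z ∧ ∀ x, B z x = 0 → ∃ a : F, g.1 x = x + a • z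

/-- `g` fixes `z` and induces the transvection `t_e(b)` on `z^⊥ / z`. -/
def Ee (g : SUG B) (z e : V) (b : F) : Prop :=
  B z e = 0 ∧ B e e = 0 ∧ e ∉ span F {z} ∧ b ≠ 0 ∧ g.1 z = z ∧
    ∀ x, B z x = 0 → ∃ a : F, g.1 x = x + (b * B e x) • e + a • z

/-- `g ≠ 1` moves vectors by elements of a totally isotropic line. -/
def C2 (g : SUG B) : Prop :=
  g ≠ 1 ∧ ∃ u v, B u u = 0 ∧ B v v = 0 ∧ B u v = 0 ∧ ∀ x, g.1 x - x ∈ span F {u, v}

/-- `[V, g]`. -/
abbrev ln (g : SUG B) : Submodule F V := LinearMap.range (dev g.1)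

variable (H : Subgroup (SUG B))

/-- `t_v(c) ∈ H`. -/
def Rt (v : V) (c : F) : Prop := ∃ g ∈ H, Tv g v c

/-- Centres of transvections in `H`. -/
def Cen (v : V) : Prop := Pt B v ∧ ∃ c, c ≠ 0 ∧ Rt H v c

/-- The vector parts of `H ∩ Q_z` (an additive group containing `F z`). -/
def Ae (z w : V) : Prop := B z w = 0 ∧ ∃ g ∈ H, ∃ γ, Ei g z w γ

/-- The points `u`, `v` lie in one orbit. -/
def Rl (u v : V) : Prop := ∃ h ∈ H, ∃ c : F, h.1 u = c • v

/-- At most two orbits on points. -/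
def N2 : Prop := ∀ u v w : V, Pt B u → Pt B v → Pt B w → Rl H u v ∨ Rl H u w ∨ Rl H v w

/-- One orbit on points. -/
def Tr : Prop := ∀ u v : V, Pt B u → Pt B v → Rl H u v

/-- No transvections. -/
def NoTv : Prop := ∀ g ∈ H, ¬ IsT g

/-- The stabiliser of the point `v` induces all squares on the root group. -/
def Sq (v : V) : Prop := ∀ a : F, σ a = a → a ≠ 0 → ∃ h ∈ H, ∃ c : F, h.1 v = c • v ∧ c * σ c = a ^ 2

/-- All root groups meeting `H` lie in `H`. -/
def Full : Prop := ∀ v c, Cen H v → c + σ c = 0 → Rt H v c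

/-- `H ∩ R_ℓ = 1` for all totally isotropic lines `ℓ`. -/
def NoC : Prop := ∀ g ∈ H, ¬ C2 g

/-- `H ∩ Q_z = 1` for all points `z`. -/
def Q1 : Prop := ∀ g ∈ H, ∀ z, Pt B z → Qz g z → g = 1

/-- No elements of Jordan type `J₄`. -/
def NoB : Prop := ∀ g ∈ H, ∀ z e b, Pt B z → Ee g z e b → g.1 e = e

/-- `H ∩ SL(W) ⊄ {±1}` for the hyperbolic line `W`. -/
def Wd (W : Submodule F V) : Prop :=
  finrank F W = 2 ∧ Disjoint W (perp B W) ∧ ∃ d ∈ H, (∀ y ∈ perp B W, d.1 y = y) ∧ d ^ 2 ≠ 1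

/-- No such lines. -/
def NoW : Prop := ∀ W, ¬ Wd H W

/-- Case I, irreducible, with full root groups. -/
structure CI : Prop where
  full : Full H
  ex : ∃ r, Cen H r
  ne : H ≠ ⊤
  trC : ∀ u v, Cen H u → Cen H v → Rl H u v
  sp : ∀ r, Cen H r → span F {v | Cen H v ∧ B r v ≠ 0} = ⊤

variable (B)

/-- The number of non-zero isotropic vectors. -/
noncomputable def nI : ℕ := {v | Pt B v}.ncard

/-- The number of transvections. -/
noncomputable def nT : ℕ := {g : SUG B | IsT g}.ncard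

/-- The isotropic points. -/
def isoP : SubMulAction (SUG B) (ℙ F V) where
  carrier := {p | B p.rep p.rep = 0}
  smul_mem' g p := by
    induction p using Projectivization.ind with | _ v hv =>
    have key : ∀ (w : V) (hw : w ≠ 0), B (Projectivization.mk F w hw).rep (Projectivization.mk F w hw).rep = 0 ↔
        B w w = 0 := fun w hw => by
      obtain ⟨a, ha⟩ := Projectivization.exists_smul_eq_mk_rep F w hw
      simp [← ha, Units.smul_def]
    rw [Set.mem_setOf_eq, Set.mem_setOf_eq, Subgroup.smul_def, Projectivization.smul_mk, key, key]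
    exact fun h => (g.2.1 v v).trans h

/-- Non-perpendicular points. -/
def NP (p p' : isoP B) : Prop := B p.1.rep p'.1.rep ≠ 0

/-- `y` is the image of `x` under a transvection. -/
def Adj {X : Type*} [MulAction (SUG B) X] (x y : X) : Prop := ∃ t : SUG B, IsT t ∧ t • x = y

/-- The class sum of the transvections. -/
noncomputable def mT (X : Type*) [MulAction (SUG B) X] : Matrix X X ℂ :=
  Matrix.of fun x y => ({t : SUG B | IsT t ∧ t • x = y}.ncard : ℂ)

/-- An equivariant family of `χ`-homogeneous functions on `V`. -/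
structure Sys {X : Type*} [MulAction (SUG B) X] (χ : F → ℂ) (φ : X → V → ℂ) : Prop where
  inv : ∀ (g : SUG B) x v, φ (g • x) (g.1 v) = φ x v
  smul : ∀ x (a : F) v, a ≠ 0 → φ x (a • v) = χ a * φ x v

/-- Its Gram matrix (sum over the non-zero isotropic vectors). -/
noncomputable def gr [Finite V] {X : Type*} (φ : X → V → ℂ) : Matrix X X ℂ :=
  Matrix.of fun x y => ∑ v ∈ (Set.toFinite {v | Pt B v}).toFinset, φ x v * starRingEnd ℂ (φ y v)

/-- `χ = θ ∘ N` for a character `θ` of `F_q^*` with `θ² ≠ 1`. -/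
structure Ch (σ : F →+* F) (χ : F → ℂ) : Prop where
  mul : ∀ a b, a ≠ 0 → b ≠ 0 → χ (a * b) = χ a * χ b
  one : ∀ a, a * σ a = 1 → χ a = 1
  nrm : ∀ a, a ≠ 0 → χ a * starRingEnd ℂ (χ a) = 1
  ex : ∃ a, σ a = a ∧ a ≠ 0 ∧ χ a ≠ 1

end Cfsg.Lib.R3U
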