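import Cfsg.Agent.Lib.R3U.Cnt
import Cfsg.Agent.Lib.R3S.Dk

/-! S2196, case II: normal form of the elements `Ee`, and tools. -/

set_option autoImplicit false

namespace Cfsg.Lib.R3U

open Cfsg.Lib.Unitary Cfsg.Lib.R3S Module Submodule MulAction

variable {F V : Type*} [Field F] [AddCommGroup V] [Module F V] {σ : F →+* F}
  {B : V →ₛₗ[σ] V →ₗ[F] F} {q n : ℕ} [Finite F] [Finite V] {H : Subgroup (SUG B)}

/-- `g = t_e(b) · Ei z f γ`, written out. -/
structure Ed (g : SUG B) (z e f : V) (b γ : F) : Prop where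
  ze : B z e = 0
  ee : B e e = 0
  zf : B z f = 0
  ne : e ∉ span F {z}
  b0 : b ≠ 0
  app : ∀ x, g.1 x = x + B z x • f + (b * (B e x + B z x * B e f)) • e + (γ * B z x - B f x) • z

/-- `Ee.dec`. -/
theorem Ee.ed (h : IsHerm σ B) {g : SUG B} {z e : V} {b : F} (hz : Pt B z) (a : Ee g z e b) :
    ∃ f γ, Ed g z e f b γ := by
  obtain ⟨-, t, y, w, γ, ht, hw, hy, rfl⟩ := a.dec h hz
  have ez := h.eq_zero_comm.1 a.1
  refine ⟨w, γ, a.1, a.2.1, hw, a.2.2.1, a.2.2.2.1, fun x => ?_⟩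
  rw [mul_app, ht, hy]
  simp only [map_add, map_sub, map_smul, ez, smul_eq_mul]
  module

theorem Ed.toEe {g : SUG B} {z e f : V} {b γ : F} (h : IsHerm σ B) (hz : B z z = 0) (a : Ed g z e f b γ) :
    Ee g z e b := by
  refine ⟨a.ze, a.ee, a.ne, a.b0, ?_, fun x hx => ⟨-B f x, ?_⟩⟩
  · rw [a.app]
    simp [hz, h.eq_zero_comm.1 a.ze, h.eq_zero_comm.1 a.zf]
  · rw [a.app]
    simp [hx]

theorem Ed.conj {g : SUG B} {z e f : V} {b γ : F} (a : Ed g z e f b γ) (k : SUG B) :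
    Ed (k * g * k⁻¹) (k.1 z) (k.1 e) (k.1 f) b γ := by
  refine ⟨by rw [b_app, a.ze], by rw [b_app, a.ee], by rw [b_app, a.zf], fun k1 => a.ne ?_, a.b0, fun x => ?_⟩
  · obtain ⟨c, hc⟩ := mem_span_singleton.1 k1
    exact mem_span_singleton.2 ⟨c, k.1.injective (by rw [map_smul, hc])⟩
  · rw [mul_app, mul_app, a.app]
    simp only [map_add, map_smul, app_inv, b_inv, b_app]

/-- Rescaling the base point (`Ee` only depends on the point: `span F {c • z} = span F {z}`). -/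
theorem Ee.smul {g : SUG B} {z e : V} {b c : F} (a : Ee g z e b) (hc : c ≠ 0) : Ee g (c • z) e b := by
  obtain ⟨h1, h2, h3, h4, h5, h6⟩ := a
  refine ⟨by simp [h1], h2, by rwa [span_singleton_smul_eq hc.isUnit], h4, by rw [map_smul, h5], fun x hx => ?_⟩
  obtain ⟨d, hd⟩ := h6 x (by simpa [hc] using hx)
  exact ⟨d / c, by rw [hd, smul_smul, div_mul_cancel₀ _ hc]⟩

theorem Ee.inv (h : IsHerm σ B) {g : SUG B} {z e : V} {b : F} (hz : B z z = 0) (a : Ee g z e b) :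
    Ee g⁻¹ z e (-b) := by
  obtain ⟨h1, h2, h3, h4, h5, h6⟩ := a
  refine ⟨h1, h2, h3, neg_ne_zero.2 h4, by rw [← h5, inv_app, h5], fun x hx => ?_⟩
  obtain ⟨d, hd⟩ := h6 ((g⁻¹).1 x) (by rw [b_inv, h5, hx])
  rw [app_inv] at hd
  have e : B e x = B e ((g⁻¹).1 x) := by
    conv_lhs => rw [hd]
    simp [h2, h.eq_zero_comm.1 h1]
  refine ⟨-d, ?_⟩
  rw [e]
  linear_combination (norm := module) -hd

theorem Ed.app_e {g : SUG B} {z e f : V} {b γ : F} (a : Ed g z e f b γ) : g.1 e = e - B f e • z := by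
  rw [a.app]
  simp [a.ze, a.ee, sub_eq_add_neg]

/-- Two `Ee`-elements with perpendicular centres commute modulo `Q_z`. -/
theorem Q1.comm (h : IsHerm σ B) (q1 : Q1 H) {g g' : SUG B} (hg : g ∈ H) (hg' : g' ∈ H) {z e e' : V} {b b' : F}
    (hz : Pt B z) (a : Ee g z e b) (a' : Ee g' z e' b') (p : B e e' = 0) : g * g' = g' * g := by
  obtain ⟨h1, -, -, -, h5, h6⟩ := a
  obtain ⟨k1, -, -, -, k5, k6⟩ := a'
  have zz : ((g' * g)⁻¹).1 z = z := by
    conv_lhs => rw [← k5, ← h5, ← mul_app g' g, inv_app]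
  have := q1 ((g' * g)⁻¹ * (g * g')) (H.mul_mem (H.inv_mem (H.mul_mem hg' hg)) (H.mul_mem hg hg')) z hz
    ⟨by rw [mul_app, mul_app g g', k5, h5, zz], fun x hx => ?_⟩
  · exact (inv_mul_eq_one.1 this).symm
  obtain ⟨c, hc⟩ := h6 x hx
  obtain ⟨c', hc'⟩ := k6 x hx
  obtain ⟨d, hd⟩ := h6 e' k1
  obtain ⟨d', hd'⟩ := k6 e h1
  rw [p] at hd
  rw [h.eq_zero_comm.1 p] at hd'
  refine ⟨b' * B e' x * d - b * B e x * d', ?_⟩
  have : (g * g').1 x = (g' * g).1 x + (b' * B e' x * d - b * B e x * d') • z := by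
    rw [mul_app, mul_app, hc]
    conv_lhs => rw [hc']
    simp only [map_add, map_smul, h5, k5, hc, hc', hd, hd']
    module
  rw [mul_app, this, map_add, inv_app, map_smul, zz]

/-- COM: apply `g g' = g' g` to `s` with `B z s = 1`:  `(g' - 1)(g - 1) s ≡ b' B e' f • e'`,
`(g - 1)(g' - 1) s ≡ b B e f' • e` modulo `F z`. -/
theorem Ed.com (h : IsHerm σ B) {g g' : SUG B} {z e e' f f' : V} {b b' γ γ' : F} (hz : Pt B z)
    (a : Ed g z e f b γ) (a' : Ed g' z e' f' b' γ') (p : B e e' = 0) (c : g * g' = g' * g) :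
    (b' * B e' f) • e' - (b * B e f') • e ∈ span F {z} := by
  obtain ⟨s, hs⟩ := h.exists_eq_one hz.1
  have gz := (a.toEe h hz.2).2.2.2.2.1
  have gz' := (a'.toEe h hz.2).2.2.2.2.1
  have E : g.1 (g'.1 s) = g'.1 (g.1 s) := by rw [← mul_app, c, mul_app]
  rw [a'.app s, a.app s] at E
  simp only [map_add, map_smul, gz, gz'] at E
  rw [a.app s, a.app f', a.app e', a'.app s, a'.app f, a'.app e] at E
  simp only [hs, a.zf, a'.zf, a.ze, a'.ze, p, h.eq_zero_comm.1 p] at E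
  refine mem_span_singleton.2 ⟨B f' f - B f f' + b * (B e s + B e f) * B f' e - b' * (B e' s + B e' f') * B f e', ?_⟩
  linear_combination (norm := module) E

/-- Take `x ⊥ z` with `B e x ≠ 0` (else `e ∈ (z^⊥)^⊥ = F z`) and compare. -/
theorem Ee.uniq (h : IsHerm σ B) {g : SUG B} {z e e' : V} {b b' : F} (hz : Pt B z) (a : Ee g z e b)
    (a' : Ee g z e' b') : e' ∈ span F {z, e} := by
  obtain ⟨x, hx⟩ := h.exists_apply_eq (x := ![z, e']) ((LinearIndependent.pair_iff' hz.1).2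
    fun c k => a'.2.2.1 (mem_span_singleton.2 ⟨c, k⟩)) ![0, 1]
  have x0 : B z x = 0 := hx 0
  have x1 : B e' x = 1 := hx 1
  obtain ⟨c, hc⟩ := a.2.2.2.2.2 x x0
  obtain ⟨c', hc'⟩ := a'.2.2.2.2.2 x x0
  rw [hc, x1, mul_one] at hc'
  rw [← smul_mem_iff _ a'.2.2.2.1]
  exact mem_span_pair.2 ⟨c - c', b * B e x, by linear_combination (norm := module) hc'⟩

/-- On `z^⊥`: `g x = x + λ(x) e + μ(x) z`.  If `λ = 0` (or `e ∈ F z`) then `g ∈ Q_z`.  Otherwise `λ e = 0`; expand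
`B (g x) (g y) = B x y`: `y = e` gives `B e e = 0`; with `λ x₀ = 1`: `λ y B x₀ e + B e y = 0`, `B x₀ e ≠ 0`. -/
theorem ee_of (h : IsHerm σ B) {g : SUG B} {z e : V} (hz : Pt B z) (hze : B z e = 0) (h1 : g.1 z = z)
    (h2 : ∀ x, B z x = 0 → g.1 x - x ∈ span F {z, e}) (h3 : g.1 e - e ∈ span F {z}) :
    Qz g z ∨ ∃ b, Ee g z e b := by
  by_cases k : ∀ x, B z x = 0 → g.1 x - x ∈ span F {z}
  · refine .inl ⟨h1, fun x hx => ?_⟩
    obtain ⟨c, hc⟩ := mem_span_singleton.1 (k x hx)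
    exact ⟨c, by rw [hc, add_sub_cancel]⟩
  push Not at k
  obtain ⟨x, hx, k⟩ := k
  obtain ⟨α, β, e1⟩ := mem_span_pair.1 (h2 x hx)
  have β0 : β ≠ 0 := fun e0 => k (mem_span_singleton.2 ⟨α, by rw [← e1, e0, zero_smul, add_zero]⟩)
  have ne : e ∉ span F {z} := fun m => k (e1 ▸ add_mem (smul_mem _ _ (mem_span_singleton_self z)) (smul_mem _ _ m))
  have gx : g.1 x = x + (α • z + β • e) := by rw [e1, add_sub_cancel]
  have ez := h.eq_zero_comm.1 hze
  have xz := h.eq_zero_comm.1 hx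
  have ee : B e e = 0 := by
    obtain ⟨c, hc⟩ := mem_span_singleton.1 h3
    have := b_app g x e
    rw [gx, show g.1 e = e + c • z by rw [hc, add_sub_cancel]] at this
    simpa [hze, ez, xz, hz.2, β0] using this
  have key : ∀ y, B z y = 0 → ∃ α' β' : F, g.1 y = y + (α' • z + β' • e) ∧ β' * B x e + σ β * B e y = 0 := by
    intro y hy
    obtain ⟨α', β', e2⟩ := mem_span_pair.1 (h2 y hy)
    have gy : g.1 y = y + (α' • z + β' • e) := by rw [e2, add_sub_cancel]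
    refine ⟨α', β', gy, ?_⟩
    have := b_app g x y
    rw [gx, gy] at this
    simp only [map_add, map_smul, LinearMap.map_smulₛₗ, LinearMap.add_apply, LinearMap.smul_apply, smul_eq_mul, hze,
      ez, xz, hz.2, ee, hy] at this
    linear_combination this
  have σβ : σ β ≠ 0 := by simpa using β0
  have xe : B x e ≠ 0 := fun e0 => ne (by
    rw [← h.perp_perp (span F {z})]
    intro y hy
    obtain ⟨_, _, -, k⟩ := key y (mem_perp_singleton.1 hy)
    rw [e0, mul_zero, zero_add] at k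
    exact h.eq_zero_comm.1 ((mul_eq_zero.1 k).resolve_left σβ))
  refine .inr ⟨-σ β / B x e, hze, ee, ne, div_ne_zero (neg_ne_zero.2 σβ) xe, h1, fun y hy => ?_⟩
  obtain ⟨α', β', gy, k⟩ := key y hy
  refine ⟨α', ?_⟩
  rw [gy, show -σ β / B x e * B e y = β' by field_simp; linear_combination -k]
  module

/-- NEG.  The matrices `M ∈ SL(2, F)` such that some `k ∈ H` fixes `z`, acts on `e, e'` by `M` modulo `z`
(`k e ≡ M 0 0 e + M 1 0 e'`, `k e' ≡ M 0 1 e + M 1 1 e'`) and trivially modulo `z` on `⟨z, e, e'⟩^⊥` form a submonoid,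
hence a subgroup (finite: `Submonoid.toSubgroup`-type lemma or `M⁻¹ = M ^ (orderOf M - 1)`).  It contains
`!![1, b B e e'; 0, 1]` and `!![1, 0; b' B e' e, 1]`; `R3S.neg_mem_sl`. -/
theorem neg_of_ee (h : IsHerm σ B) (h2 : (2 : F) ≠ 0) {g g' : SUG B} (hg : g ∈ H) (hg' : g' ∈ H) {z e e' : V}
    {b b' : F} (hz : B z z = 0) (a : Ee g z e b) (a' : Ee g' z e' b') (p : B e e' ≠ 0) :
    ∃ j ∈ H, j.1 z = z ∧ (∃ c : F, j.1 e = -e + c • z) ∧ (∃ c : F, j.1 e' = -e' + c • z) ∧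
      ∀ x, B z x = 0 → B e x = 0 → B e' x = 0 → ∃ c : F, j.1 x = x + c • z := by
  let S : Submonoid (Matrix.SpecialLinearGroup (Fin 2) F) :=
    { carrier := {M | ∃ k ∈ H, k.1 z = z ∧ (∃ c : F, k.1 e = M 0 0 • e + M 1 0 • e' + c • z) ∧
        (∃ c : F, k.1 e' = M 0 1 • e + M 1 1 • e' + c • z) ∧
        ∀ x, B z x = 0 → B e x = 0 → B e' x = 0 → ∃ c : F, k.1 x = x + c • z}
      one_mem' := ⟨1, H.one_mem, rfl, ⟨0, by simp⟩, ⟨0, by simp⟩, fun x _ _ _ => ⟨0, by simp⟩⟩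
      mul_mem' := by
        rintro M N ⟨k, hk, k1, ⟨c, k2⟩, ⟨c', k3⟩, k4⟩ ⟨l, hl, l1, ⟨d, l2⟩, ⟨d', l3⟩, l4⟩
        refine ⟨k * l, H.mul_mem hk hl, by rw [mul_app, l1, k1], ⟨N 0 0 * c + N 1 0 * c' + d, ?_⟩,
          ⟨N 0 1 * c + N 1 1 * c' + d', ?_⟩, fun x x1 x2 x3 => ?_⟩
        · rw [mul_app, l2]
          simp only [map_add, map_smul, k1, k2, k3, Matrix.SpecialLinearGroup.coe_mul, Matrix.mul_apply,
            Fin.sum_univ_two]
          module
        · rw [mul_app, l3]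
          simp only [map_add, map_smul, k1, k2, k3, Matrix.SpecialLinearGroup.coe_mul, Matrix.mul_apply,
            Fin.sum_univ_two]
          module
        · obtain ⟨u, hu⟩ := k4 x x1 x2 x3
          obtain ⟨v, hv⟩ := l4 x x1 x2 x3
          exact ⟨u + v, by rw [mul_app, hv, map_add, map_smul, hu, k1, add_smul, add_assoc]⟩ }
  let P : Subgroup (Matrix.SpecialLinearGroup (Fin 2) F) :=
    { S with
      inv_mem' := fun {x} hx => by
        have := S.pow_mem hx (orderOf x - 1)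
        rwa [show x ^ (orderOf x - 1) = x⁻¹ from eq_inv_of_mul_eq_one_left (by
          rw [← pow_succ, Nat.sub_add_cancel (orderOf_pos x), pow_orderOf_eq_one])] at this }
  obtain ⟨h1, h2', -, h4, h5, h6⟩ := a
  obtain ⟨k1, k2, -, k4, k5, k6⟩ := a'
  have := neg_mem_sl (P := P) h2 (mul_ne_zero h4 p) (mul_ne_zero k4 (mt h.eq_zero_comm.1 p))
    (x := ⟨!![1, b * B e e'; 0, 1], by simp⟩) (y := ⟨!![1, 0; b' * B e' e, 1], by simp⟩)
    ⟨g, hg, h5, (h6 e h1).imp fun c hc => by simp [hc, h2'], (h6 e' k1).imp fun c hc => by simp [hc, add_comm],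
      fun x x1 x2 _ => (h6 x x1).imp fun c hc => by simp [hc, x2]⟩
    ⟨g', hg', k5, (k6 e h1).imp fun c hc => by simp [hc], (k6 e' k1).imp fun c hc => by simp [hc, k2],
      fun x x1 _ x3 => (k6 x x1).imp fun c hc => by simp [hc, x3]⟩ rfl rfl
  obtain ⟨j, hj, j1, ⟨c, j2⟩, ⟨c', j3⟩, j4⟩ := this
  exact ⟨j, hj, j1, ⟨c, by simpa using j2⟩, ⟨c', by simpa using j3⟩, j4⟩

/-- `[V, g] = (ker (g - 1))^⊥` (`IsHerm.range_dev`, `perp_perp`). -/
theorem mem_perp_ln (h : IsHerm σ B) {g : SUG B} {x : V} : x ∈ perp B (ln g) ↔ g.1 x = x := by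
  rw [h.range_dev g.2.1, LinearMap.mem_ker, dev_apply, sub_eq_zero]

/-- If `v = g x - x` is fixed by `g` then `g^N x = x + N v`. -/
theorem disj_ln (h : IsHerm σ B) {g : SUG B} (o : (orderOf g : F) ≠ 0) : Disjoint (ln g) (perp B (ln g)) := by
  rw [disjoint_def]
  intro v hv hv'
  obtain ⟨x, hx⟩ := mem_ln.1 hv
  have gv := (mem_perp_ln h).1 hv'
  have key : ∀ N : ℕ, (g ^ N).1 x = x + (N : F) • v := fun N => by
    induction N with
    | zero => simp
    | succ N ih =>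
      rw [pow_succ', mul_app, ih, map_add, map_smul, gv, eq_add_of_sub_eq hx, Nat.cast_succ]
      module
  have := key (orderOf g)
  rw [pow_orderOf_eq_one, one_app] at this
  simpa [o] using this

/-- Rank `0`: `g = 1`; rank `1`: `isT_of_rank` gives an isotropic generator, against `disj_ln`. -/
theorem wd_of_ss (h : IsHerm σ B) {g : SUG B} (hg : g ∈ H) (o : (orderOf g : F) ≠ 0) (h1 : finrank F (ln g) ≤ 2)
    (h2 : g ^ 2 ≠ 1) : Wd H (ln g) := by
  have g1 : g ≠ 1 := fun e => h2 (by rw [e, one_pow])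
  have d := disj_ln h o
  have r0 : finrank F (ln g) ≠ 0 := fun e => g1 (ext' fun x => by
    have : g.1 x - x ∈ ln g := mem_ln.2 ⟨x, rfl⟩
    rw [finrank_eq_zero.1 e, mem_bot, sub_eq_zero] at this
    exact this)
  have r1 : finrank F (ln g) ≠ 1 := fun e => by
    obtain ⟨u, u0, hu⟩ := finrank_eq_one_iff'.1 e
    have k : ∀ w ∈ ln g, ∃ c : F, c • u.1 = w := fun w hw => (hu ⟨w, hw⟩).imp fun c hc => congrArg Subtype.val hc
    have := (isT_of_rank h g1 (u := u.1) fun x => mem_span_singleton.2 (k _ (mem_ln.2 ⟨x, rfl⟩))).1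
    refine this.1 (disjoint_def.1 d _ u.2 fun w hw => ?_)
    obtain ⟨c, rfl⟩ := k w hw
    simp [this.2]
  exact ⟨by omega, d, g, hg, fun y hy => (mem_perp_ln h).1 hy, h2⟩

omit [Finite F] [Finite V] in
theorem dev_pow_char [Nontrivial V] (p : ℕ) [Fact p.Prime] [CharP F p] (k : SUG B) (a : ℕ) :
    (dev (k ^ p ^ a).1 : Module.End F V) = (dev k.1 : Module.End F V) ^ p ^ a := by
  haveI : CharP (Module.End F V) p := charP_of_injective_algebraMap (algebraMap F _).injective p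
  have e : ∀ N : ℕ, ((k ^ N).1 : Module.End F V) = (k.1 : Module.End F V) ^ N := fun N => by
    induction N with
    | zero => rfl
    | succ N ih => rw [pow_succ, pow_succ, ← ih]; rfl
  have := sub_pow_char_pow_of_commute p a (Commute.one_right (k.1 : Module.End F V))
  rw [one_pow, ← e] at this
  exact this.symm

/-- FIT.  `p = ringChar F`, `d = k ^ p ^ a` with `a` large (`p ^ a ≥ j`, `orderOf d` prime to `p`):
`d - 1 = (k - 1) ^ p ^ a` (`sub_pow_char_pow` for commuting endomorphisms), `d² - 1 = (k² - 1) ^ p ^ a ≠ 0`; `wd_of_ss`. -/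
theorem wd_of_fit (h : IsHerm σ B) {k : SUG B} (hk : k ∈ H) {j : ℕ} {W : Submodule F V} (h1 : finrank F W ≤ 2)
    (h2 : ∀ x, ((dev k.1 : Module.End F V) ^ j) x ∈ W) (h3 : ¬ IsNilpotent (dev (k ^ 2).1 : Module.End F V)) :
    ∃ W, Wd H W := by
  haveI : Nontrivial V := not_subsingleton_iff_nontrivial.1 fun _ => h3 ⟨0, Subsingleton.elim _ _⟩
  haveI := finite_sug (B := B)
  obtain ⟨p, hp⟩ := CharP.exists F
  haveI : Fact p.Prime := ⟨CharP.char_is_prime F p⟩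
  obtain ⟨s, m, hm, e⟩ := Nat.exists_eq_pow_mul_and_not_dvd (orderOf_pos k).ne' p (Fact.out : p.Prime).ne_one
  have jl : j ≤ p ^ (s + j) :=
    (Nat.lt_pow_self (Fact.out : p.Prime).one_lt).le.trans (Nat.pow_le_pow_right (Fact.out : p.Prime).pos (by omega))
  refine ⟨_, wd_of_ss h (H.pow_mem hk (p ^ (s + j))) (fun o => hm (((CharP.cast_eq_zero_iff F p _).1 o).trans
    (orderOf_dvd_of_pow_eq_one ?_))) ((finrank_mono ?_).trans h1) fun o => h3 ⟨p ^ (s + j), ?_⟩⟩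
  · rw [← pow_mul, pow_add, mul_right_comm, ← e, pow_mul, pow_orderOf_eq_one, one_pow]
  · rintro _ ⟨x, rfl⟩
    rw [dev_pow_char, ← Nat.add_sub_cancel' jl, pow_add]
    exact h2 _
  · rw [← dev_pow_char, ← pow_mul, mul_comm, pow_mul, o]
    exact sub_self _

end Cfsg.Lib.R3U
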