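import Cfsg.Agent.Lib.R3U.LBE
import Cfsg.Agent.Lib.R3U.NumF

/-! S2196, case II: the final count. -/

set_option autoImplicit false

namespace Cfsg.Lib.R3U

open Cfsg.Lib.Unitary Cfsg.Lib.R3S Module Submodule MulAction

variable {F V : Type*} [Field F] [AddCommGroup V] [Module F V] {σ : F →+* F}
  {B : V →ₛₗ[σ] V →ₗ[F] F} {q n : ℕ} [Finite F] [Finite V] {H : Subgroup (SUG B)}

section abs

variable {G X : Type*} [Group G] [Finite G] [MulAction G X] [Finite X] {E : X → X → Prop}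

/-- The fibres of `p ↦ p.2 • p.1 • x` over the non-neighbours all have the same size (`R3G.e2`, conjugate by the
stabiliser); `dbl_eq`. -/
theorem dvd_fam (r : R3G G X E) (x : X) (S : Set (G × G))
    (h1 : ∀ k : G, k • x = x → ∀ p ∈ S, (k * p.1 * k⁻¹, k * p.2 * k⁻¹) ∈ S)
    (h2 : ∀ p ∈ S, p.2 • p.1 • x ≠ x ∧ ¬ E x (p.2 • p.1 • x)) : {y | y ≠ x ∧ ¬ E x y}.ncard ∣ S.ncard := by
  rcases S.eq_empty_or_nonempty with rfl | ⟨p, hp⟩
  · simp
  have H : ∀ y z, y ≠ x ∧ ¬ E x y → z ≠ x ∧ ¬ E x z →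
      {p ∈ S | p.2 • p.1 • x = y}.ncard ≤ {p ∈ S | p.2 • p.1 • x = z}.ncard := fun y z a b => by
    obtain ⟨k, e, rfl⟩ := r.e2 x y z a.1 b.1 a.2 b.2
    refine Set.ncard_le_ncard_of_injOn (fun p => (k * p.1 * k⁻¹, k * p.2 * k⁻¹)) (fun p m => ⟨h1 k e p m.1, ?_⟩)
      fun p _ p' _ e => by simpa [Prod.ext_iff] using e
    simp [mul_smul, inv_smul_eq_iff.2 e.symm, m.2]
  refine ⟨_, (mul_one _).symm.trans (dbl_eq S _ (fun p y => p.2 • p.1 • x = y) (fun p m => ?_)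
    fun y m => (H _ _ m (h2 p hp)).antisymm (H _ _ (h2 p hp) m))⟩
  exact Set.ncard_eq_one.2 ⟨_, Set.eq_singleton_iff_unique_mem.2 ⟨⟨h2 p m, rfl⟩, fun _ e => e.2.symm⟩⟩

omit [Finite G] in
theorem card_split (r : R3G G X E) (x : X) :
    Nat.card X = 1 + {y | E x y}.ncard + {y | y ≠ x ∧ ¬ E x y}.ncard := by
  rw [add_assoc, add_comm, ← Set.ncard_union_eq (Set.disjoint_left.2 fun y a b => b.2 a),
    ← Set.ncard_insert_of_notMem (a := x) (by simp [r.irr]), ← Set.ncard_univ]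
  congr 1
  ext y
  by_cases h : y = x <;> simp [h, em]

end abs

section stab

variable {X : Type*} [MulAction (SUG B) X]

omit [Finite F] [Finite V] in
theorem fin_mem {x : X} {g t : SUG B} (m : t ∈ stabilizer (SUG B) (g • x)) : g⁻¹ * t * g⁻¹⁻¹ ∈ stabilizer (SUG B) x := by
  simp [mul_smul, mem_stabilizer_iff.1 m]

omit [Finite F] [Finite V] in
theorem NoTv.stab {x : X} (a : NoTv (stabilizer (SUG B) x)) (g : SUG B) : NoTv (stabilizer (SUG B) (g • x)) := by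
  exact fun t m i => a _ (fin_mem m) (i.conj g⁻¹)

omit [Finite F] [Finite V] in
theorem Q1.stab {x : X} (a : Q1 (stabilizer (SUG B) x)) (g : SUG B) : Q1 (stabilizer (SUG B) (g • x)) := by
  exact fun t m z hz i => conj_eq_one_iff.1 (a _ (fin_mem m) _ (hz.app g⁻¹) (i.conj g⁻¹))

/-- `t ↦ t • x` is injective on transvections (`c_one`). -/
theorem Loc.card_adj (h : IsHerm σ B) {x : X} (l : Loc (stabilizer (SUG B) x)) : {y | Adj B x y}.ncard = nT B := by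
  refine Set.InjOn.ncard_image (f := fun t : SUG B => t • x) (s := {t | IsT t}) fun s a t b e => c_one h l.c l.nw a b ?_
  rw [mem_stabilizer_iff, mul_smul, inv_smul_eq_iff]
  exact e.symm

end stab

/-- The span of `v` and the `Ee`-centres at `v`. -/
def Es (H : Subgroup (SUG B)) (v : V) : Submodule F V := span F (insert v {e | ∃ g ∈ H, ∃ b, Ee g v e b})

/-- `NoW.l1`. -/
theorem Loc.es_le (h : IsHerm σ B) (l : Loc H) {v : V} (hv : Pt B v) : Es H v ≤ perp B (Es H v) := by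
  refine span_le.2 fun e he => mem_perp_span.2 fun w hw => ?_
  rcases he with rfl | ⟨g, hg, b, a⟩ <;> rcases hw with rfl | ⟨g', hg', b', a'⟩
  exacts [hv.2, h.eq_zero_comm.1 a'.1, a.1, l.nw.l1 h hg' hg hv a' a]

omit [Finite F] [Finite V] in
theorem es_smul (v : V) {a : F} (ha : a ≠ 0) : Es H (a • v) = Es H v := by
  have k : ∀ (v : V) (a : F), a ≠ 0 → Es H v ≤ Es H (a • v) := fun v a ha => span_le.2 <| by
    rintro e (rfl | ⟨g, hg, b, x⟩)
    · exact (smul_mem_iff _ ha).1 (subset_span (.inl rfl))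
    · exact subset_span (.inr ⟨g, hg, b, by simp [x.1], x.2.1, by rw [span_singleton_smul_eq ha.isUnit]; exact x.2.2.1, x.2.2.2.1,
        by simp [x.2.2.2.2.1], fun y hy => (x.2.2.2.2.2 y (by simpa [ha] using hy)).elim fun c e =>
          ⟨c / a, by rw [e, smul_smul (c / a), div_mul_cancel₀ _ ha]⟩⟩)
  exact le_antisymm (by simpa [ha] using k (a • v) a⁻¹ (inv_ne_zero ha)) (k v a ha)

omit [Finite F] [Finite V] in
theorem es_map (v : V) {k : SUG B} (hk : k ∈ H) : Es H (k.1 v) = (Es H v).map (k.1 : V →ₗ[F] V) := by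
  rw [Es, Es, map_span, Set.image_insert_eq]
  congr 2
  ext e
  refine ⟨fun ⟨g, hg, b, x⟩ => ⟨(k⁻¹).1 e, ⟨_, H.mul_mem (H.mul_mem (H.inv_mem hk) hg) (H.inv_mem (H.inv_mem hk)), b,
    inv_app k v ▸ x.conj k⁻¹⟩, app_inv k e⟩, ?_⟩
  rintro ⟨e, ⟨g, hg, b, x⟩, rfl⟩
  exact ⟨_, H.mul_mem (H.mul_mem hk hg) (H.inv_mem hk), b, x.conj k⟩

/-- Sum `cardT` (for `P v`) over the first component (`dbl_eq`; `v` is determined by `t` up to a scalar, `Tv.uniq`). -/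
theorem card_fam (h : IsHerm σ B) (hσ : IsBar q σ) (P : V → V → Prop)
    (h1 : ∀ (a : F) v w, a ≠ 0 → P v w → P (a • v) w) (h2 : ∀ (a : F) v w, a ≠ 0 → P v w → P v (a • w)) {M : ℕ}
    (h3 : ∀ v, Pt B v → {w | Pt B w ∧ P v w}.ncard = M) : ∃ n₂ : ℕ, (nT B ≠ 0 → (q + 1) * n₂ = M) ∧
      {p : SUG B × SUG B | ∃ v a w b, Pt B v ∧ a ≠ 0 ∧ Tv p.1 v a ∧ Pt B w ∧ b ≠ 0 ∧ Tv p.2 w b ∧ P v w}.ncard =
        nT B * n₂ := by
  have := finite_sug (B := B)
  have k := fun v hv => (cardT h hσ (P v) fun a w => h2 a v w).trans (h3 v hv)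
  refine ⟨M / (q + 1), fun c => ?_, (mul_one _).symm.trans (dbl_eq _ _ (fun p t => p.1 = t) ?_ ?_)⟩
  · obtain ⟨t, v, a, hv, -⟩ := Set.nonempty_of_ncard_ne_zero c
    exact Nat.mul_div_cancel' ⟨_, (k v hv).symm⟩
  · rintro p ⟨v, a, -, -, hv, ha, x, -⟩
    exact Set.ncard_eq_one.2 ⟨_, Set.eq_singleton_iff_unique_mem.2 ⟨⟨⟨v, a, hv, ha, x⟩, rfl⟩, fun _ e => e.2.symm⟩⟩
  · rintro t ⟨v, a, hv, ha, x⟩
    rw [← k v hv, Nat.mul_div_cancel_left _ q.succ_pos]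
    refine Set.ncard_congr (fun p _ => p.2) ?_ (fun p p' m m' e => Prod.ext (m.2.trans m'.2.symm) e)
      fun t' ⟨w, b, hw, hb, y, m⟩ => ⟨(t, t'), ⟨⟨v, a, w, b, hv, ha, x, hw, hb, y, m⟩, rfl⟩, rfl⟩
    rintro p ⟨⟨v', a', w, b, hv', ha', x', hw, hb, y, m⟩, rfl⟩
    obtain ⟨c, hc, rfl, -⟩ := x'.uniq h hv'.1 ha' x
    exact ⟨w, b, hw, hb, y, h1 c _ w hc m⟩

omit [Finite F] in
theorem fin_cnt {v : V} {W : Submodule F V} (h : ∀ w ∈ W, B v w = 0) : {w | Pt B w ∧ B v w = 0 ∧ w ∉ W}.ncard +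
    {w ∈ W | B w w = 0}.ncard = {w | Pt B w ∧ B v w = 0}.ncard + 1 := by
  rw [← pt_add_one, ← add_assoc, ← Set.ncard_union_eq (Set.disjoint_left.2 fun y a b => a.2.2 b.2)]
  congr 2
  ext w
  have := h w
  simp only [Set.mem_union, Set.mem_ofPred_eq]
  tauto

namespace Un

variable (s : Un σ B q n)
include s

/-- `cnt_perp1` minus the `q² - 1` multiples of `v`. -/
theorem cnt_a {v : V} (hv : Pt B v) : ({w | Pt B w ∧ B v w = 0 ∧ w ∉ span F {v}}.ncard : ℤ) =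
    q ^ 2 * ((q * uu q n + 1) * (uu q n - 1)) := by
  have h1 := fin_cnt (B := B) (v := v) (W := span F {v}) fun w hw => by
    obtain ⟨a, rfl⟩ := mem_span_singleton.1 hw
    simp [hv.2]
  have h2 := card_sub s.bar (span F {v})
  rw [finrank_span_singleton hv.1, ← show {w ∈ span F {v} | B w w = 0} = _ from Set.sep_eq_self_iff_mem_true.2 fun w hw => by
    obtain ⟨a, rfl⟩ := mem_span_singleton.1 hw
    simp [hv.2]] at h2
  rw [h2] at h1
  zify at h1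
  linear_combination h1 + s.cnt_perp1 hv

/-- `cnt_perp` for `F v` and for `E`; `two_mul_finrank_le`. -/
theorem cnt_b {v : V} (hv : Pt B v) {E : Submodule F V} (hE : E ≤ perp B E) (hvE : v ∈ E) {k : ℕ}
    (hk : finrank F E = k + 1) : 2 * k ≤ n - 2 ∧ ({w | Pt B w ∧ B v w = 0 ∧ w ∉ perp B E}.ncard : ℤ) =
      q ^ (2 * (n - 2) - 2 * k + 1) * (q ^ (2 * k) - 1) := by
  have h0 := s.herm.two_mul_finrank_le hE
  have h1 := fin_cnt (B := B) (v := v) (W := perp B E) fun w hw => hw v hvE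
  have h2 := cnt_perp s.herm s.bar hE
  have h3 := cnt_perp s.herm s.bar (E := span F {v}) ((span_singleton_le_iff_mem _ _).2 (mem_perp_singleton.2 hv.2))
  rw [← pt_add_one, finrank_span_singleton hv.1] at h3
  simp only [mem_perp_singleton] at h3
  rw [hk, s.dim] at *
  refine ⟨by omega, mul_left_cancel₀ (show (q : ℤ) ≠ 0 by have := s.q3; omega) ?_⟩
  rw [show 2 * (n - 1) = 2 * (n - 2) - 2 * k + 1 + 1 + 2 * k by omega, pow_add, pow_succ] at h3
  rw [show 2 * (n - (k + 1)) = 2 * (n - 2) - 2 * k + 1 + 1 by omega, pow_succ] at h2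
  zify at h1
  push_cast at h3
  linear_combination q * h1 + h3 - h2

theorem fin_pt : ∃ z, Pt B z := s.herm.exists_isotropic (by rw [s.dim]; have := s.n6; omega)

theorem fin_T : ∃ t : SUG B, IsT t := by
  obtain ⟨z, hz⟩ := s.fin_pt
  obtain ⟨δ, d0, d1⟩ := s.bar.exists_skew
  obtain ⟨t, ht⟩ := ex_tv s.herm hz.2 (show δ + σ δ = 0 by rw [d1, add_neg_cancel])
  exact ⟨t, z, δ, hz, d0, ht⟩

theorem fin_nT : ((q : ℤ) + 1) * nT B = (q ^ 3 * uu q n + 1) * (q ^ 2 * uu q n - 1) := by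
  rw [← s.nI_eq, ← s.nT_eq]
  push_cast
  rfl

variable {X : Type*} [MulAction (SUG B) X] [Finite X]

/-- `r3g_of_card`; a non-neighbour exists because `|X| = index ≥ q^(2n) > 1 + (q + 1) nT` (`lbe`, `num_E`, `card_adj`). -/
theorem adj_r3g (x : X) (tr : ∀ x y : X, ∃ g : SUG B, g • x = y)
    (h3 : Nat.card (orbitRel.Quotient (stabilizer (SUG B) x) X) = 3) (l : Loc (stabilizer (SUG B) x)) :
    R3G (SUG B) X (Adj B) ∧ 1 + (q + 1) * nT B < Nat.card X := by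
  have n6 := s.n6
  have k : 1 + (q + 1) * nT B < Nat.card X := by
    have : IsPretransitive (SUG B) X := ⟨tr⟩
    have h1 := num_E (m := n - 2) (by exact_mod_cast s.q3) (by omega) rfl s.fin_nT
    rw [show 2 * (n - 2) + 4 = 2 * n by omega] at h1
    exact (by exact_mod_cast h1 : _ < q ^ (2 * n)).trans_le (index_stabilizer_of_transitive (SUG B) x ▸ s.lbe l)
  refine ⟨r3g_of_card x tr h3 ?_ ?_ ?_ (s.fin_T.elim fun t i => ⟨_, t, i, rfl⟩) (by_contra fun c => ?_), k⟩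
  · rintro g y _ ⟨t, i, rfl⟩
    exact ⟨_, i.conj g, by simp [mul_smul]⟩
  · rintro y _ ⟨t, i, rfl⟩
    exact ⟨_, i.inv, inv_smul_smul t y⟩
  · rintro y ⟨t, i, e⟩
    obtain ⟨g, rfl⟩ := tr x y
    exact (l.q1.noTv s.herm).stab g t e i
  · have := (Set.ncard_le_ncard (s := .univ) (t := insert x {y | Adj B x y}) fun y _ => by_contra fun e =>
      c ⟨y, fun a => e (.inl a), fun a => e (.inr a)⟩).trans (Set.ncard_insert_le _ _)
    rw [Set.ncard_univ, l.card_adj s.herm] at this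
    rw [add_mul] at k
    omega

theorem fin_aux (x : X) (tr : ∀ x y : X, ∃ g : SUG B, g • x = y)
    (h3 : Nat.card (orbitRel.Quotient (stabilizer (SUG B) x) X) = 3) (l : Loc (stabilizer (SUG B) x))
    (W : V → Submodule F V) (w1 : ∀ v {a : F}, a ≠ 0 → W (a • v) = W v)
    (w2 : ∀ k ∈ stabilizer (SUG B) x, ∀ v w, k.1 w ∈ W (k.1 v) → w ∈ W v) (w3 : ∀ v, Pt B v → span F {v} ≤ W v)
    (w4 : ∀ {r t t' : SUG B} {u v w : V} {c a b : F}, Pt B u → c ≠ 0 → a ≠ 0 → b ≠ 0 → Pt B v → B w w = 0 → B v w = 0 →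
      w ∉ span F {v} → Tv r u c → Tv t v a → Tv t' w b → r⁻¹ * (t' * t) ∈ stabilizer (SUG B) x → w ∈ W v) {M : ℤ}
    (hM : ∀ v, Pt B v → ({w | Pt B w ∧ B v w = 0 ∧ w ∉ W v}.ncard : ℤ) = M)
    (h : M = q ^ 2 * ((q * uu q n + 1) * (uu q n - 1)) ∨
      ∃ k : ℕ, 1 ≤ k ∧ 2 * k ≤ n - 2 ∧ M = q ^ (2 * (n - 2) - 2 * k + 1) * (q ^ (2 * k) - 1)) : False := by
  have := finite_sug (B := B)
  have n6 := s.n6
  obtain ⟨z, hz⟩ := s.fin_pt
  obtain ⟨r, k⟩ := s.adj_r3g x tr h3 l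
  obtain ⟨n₂, e1, e2⟩ := card_fam s.herm s.bar (fun v w => B v w = 0 ∧ w ∉ W v)
    (fun a v w ha m => ⟨by simp [m.1], w1 v ha ▸ m.2⟩) (fun a v w ha m => ⟨by simp [m.1], mt (smul_mem_iff _ ha).1 m.2⟩)
    fun v hv => Nat.cast_injective ((hM v hv).trans (hM z hz).symm)
  have e3 := congrArg (Nat.cast (R := ℤ)) (e1 (s.fin_T.elim fun _ i => Set.ncard_ne_zero_of_mem i))
  have e4 := card_split r x
  have e5 := s.dvd_of_q1 (X := X) fun y => (tr x y).elim fun g e => e ▸ l.q1.stab g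
  rw [hM z hz] at e3
  push_cast at e3
  rw [l.card_adj s.herm] at e4
  rw [show 2 * n - 3 = 2 * (n - 2) + 1 by omega] at e5
  refine num7 (m := n - 2) (N := Nat.card X) (n₂ := n₂) (by exact_mod_cast s.q3) (by omega) rfl s.fin_nT (by rw [e4]; push_cast; rfl)
    (by exact_mod_cast e5) (by exact_mod_cast k) ?_ (e3 ▸ h)
  rw [← Nat.cast_mul, Int.natCast_dvd_natCast, ← e2]
  refine dvd_fam r x _ ?_ ?_
  · rintro k hk p ⟨v, a, w, b, hv, ha, y, hw, hb, y', m, m'⟩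
    exact ⟨_, a, _, b, hv.app k, ha, y.conj k, hw.app k, hb, y'.conj k, (b_app k v w).trans m, mt (w2 k hk v w) m'⟩
  · rintro ⟨t, t'⟩ ⟨v, a, w, b, hv, ha, y, hw, hb, y', m, m'⟩
    have hi := mt (@w3 v hv w) m'
    refine ⟨fun e => l.c (t' * t) ((mul_smul _ _ _).trans e) ⟨fun e => ?_, v, w, hv.2, hw.2, m, fun u => ?_⟩, ?_⟩
    · obtain ⟨c, -, e, -⟩ := (y.inv hv.2).uniq s.herm hv.1 (neg_ne_zero.2 ha) (eq_inv_of_mul_eq_one_left e ▸ y')
      exact hi (mem_span_singleton.2 ⟨c, e.symm⟩)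
    · rw [mul_app, y', y, add_assoc, add_sub_cancel_left]
      exact mem_span_pair.2 ⟨_, _, rfl⟩
    · rintro ⟨r, ⟨u, c, hu, hc, y₀⟩, e⟩
      refine m' (w4 hu hc ha hb hv hw.2 m hi y₀ y y' ?_)
      rw [mem_stabilizer_iff, mul_smul, inv_smul_eq_iff, mul_smul]
      exact e.symm

/-- `dvd_fam`, `card_fam` with `P v w = (v ⊥ w, w ∉ F v)` if `H` has no `Ee`-elements (`Loc.ta_ex`, `cnt_a`), and
`P v w = (v ⊥ w, w ∉ (Es H v)^⊥)` otherwise (`Loc.ta_all`, `cnt_b`; `dim (Es H v) = k + 1 ≥ 2` is constant by `Tr`).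
`t' t x ≠ x` because `t' t` is `C2`.  `num7` with `m = n - 2`, `dvd_of_q1`, `nI_eq`, `nT_eq`. -/
theorem fin (x : X) (tr : ∀ x y : X, ∃ g : SUG B, g • x = y)
    (h3 : Nat.card (orbitRel.Quotient (stabilizer (SUG B) x) X) = 3) (l : Loc (stabilizer (SUG B) x))
    (t : Tr (stabilizer (SUG B) x)) : False := by
  by_cases c : ∃ g ∈ stabilizer (SUG B) x, ∃ z e b, Pt B z ∧ Ee g z e b
  · obtain ⟨g, hg, z, e, b, hz, a⟩ := c
    have m : ∀ v, v ∈ Es (stabilizer (SUG B) x) v := fun v => subset_span (.inl rfl)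
    have k := finrank_lt_finrank_of_lt (SetLike.lt_iff_le_and_exists.2 ⟨(span_singleton_le_iff_mem _ _).2 (m z), e,
      subset_span (.inr ⟨g, hg, b, a⟩), a.2.2.1⟩)
    rw [finrank_span_singleton hz.1] at k
    obtain ⟨j, hj⟩ := Nat.exists_eq_add_one_of_ne_zero k.ne_bot
    refine s.fin_aux x tr h3 l (fun v => perp B (Es _ v)) (fun v _ ha => by rw [es_smul v ha]) (fun k hk v w e => ?_)
      (fun v hv => (span_singleton_le_iff_mem _ _).2 (l.es_le s.herm hv (m v))) ?_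
      (fun v hv => (s.cnt_b hv (l.es_le s.herm hv) (m v) (k := j) ?_).2)
      (.inr ⟨j, by omega, (s.cnt_b hz (l.es_le s.herm hz) (m z) hj).1, rfl⟩)
    · rw [es_map v hk] at e
      exact fun u hu => (b_app k u w).symm.trans (e _ ⟨u, hu, rfl⟩)
    · refine fun hu hc ha hb hv hw hvw hi ts tt tt' m => mem_perp_span.2 ?_
      rintro _ (rfl | ⟨g, hg, b, a⟩)
      exacts [hvw, s.herm.eq_zero_comm.1 (l.ta_all s.herm hu hc ha hb hv hw hvw hi ts tt tt' m hg a)]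
    · obtain ⟨k, hk, c, e⟩ := t z v hz hv
      rw [← es_smul v (show c ≠ 0 by rintro rfl; exact app_ne k hz.1 (e.trans (zero_smul _ _))), ← e, es_map z hk,
        LinearEquiv.finrank_map_eq, hj]
  · refine s.fin_aux x tr h3 l (fun v => span F {v}) (fun v _ ha => span_singleton_smul_eq ha.isUnit v) (fun k _ v w e => ?_)
      (fun _ _ => le_rfl) (fun hu hc ha hb hv hw hvw hi ts tt tt' m => ?_) (fun v => s.cnt_a) (.inl rfl)
    · obtain ⟨a, e⟩ := mem_span_singleton.1 e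
      exact mem_span_singleton.2 ⟨a, k.1.injective (by rw [map_smul, e])⟩
    · obtain ⟨z, hz, a⟩ := l.ta_ex s.herm hu hc ha hb hv hw hvw hi ts tt tt' m
      exact (c ⟨_, m, z, _, _, hz, a⟩).elim

end Un

end Cfsg.Lib.R3U
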