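import Cfsg.Agent.Lib.R3U.Ed

/-! S2196, case II: elements of `H` moving vectors inside `U = W + F z`; lemma L1. -/

set_option autoImplicit false
set_option linter.unusedSectionVars false

namespace Cfsg.Lib.R3U

open Cfsg.Lib.Unitary Cfsg.Lib.R3S Module Submodule MulAction

variable {F V : Type*} [Field F] [AddCommGroup V] [Module F V] {σ : F →+* F}
  {B : V →ₛₗ[σ] V →ₗ[F] F} {q n : ℕ} [Finite F] [Finite V] {H : Subgroup (SUG B)}

/-- The elements moving vectors inside `U`. -/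
def lnG (B : V →ₛₗ[σ] V →ₗ[F] F) (U : Submodule F V) : Subgroup (SUG B) where
  carrier := {k | ln k ≤ U}
  one_mem' := by rintro _ ⟨x, rfl⟩; simp
  mul_mem' {a b} ha hb := by
    rintro _ ⟨x, rfl⟩
    simpa [dev_apply] using add_mem (ha ⟨b.1 x, rfl⟩) (hb ⟨x, rfl⟩)
  inv_mem' {a} ha := by
    rintro _ ⟨x, rfl⟩
    simpa [dev_apply] using neg_mem (ha ⟨(a⁻¹).1 x, rfl⟩)

theorem hu_dec {W : Submodule F V} {z u : V} (hu : u ∈ W ⊔ span F {z}) : ∃ w ∈ W, ∃ a : F, w + a • z = u :=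
  let ⟨w, hw, _, h, e⟩ := mem_sup.1 hu
  let ⟨a, e'⟩ := mem_span_singleton.1 h
  ⟨w, hw, a, e' ▸ e⟩

theorem hu_perp {W : Submodule F V} {z u : V} (hz : B z z = 0) (hzW : z ∈ perp B W) (hu : u ∈ W ⊔ span F {z}) :
    B u z = 0 := by
  obtain ⟨w, hw, a, rfl⟩ := hu_dec hu
  simp [hzW w hw, hz]

theorem hu_lt {W S : Submodule F V} (hW : finrank F W = 2) {z : V} (h1 : S ≤ W ⊔ span F {z}) (h2 : z ∉ S) :
    finrank F S ≤ 2 := by
  have a := finrank_lt_finrank_of_lt (h1.lt_of_ne fun e => h2 (e ▸ mem_sup_right (mem_span_singleton_self z)))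
  have b := finrank_add_le_finrank_add_finrank W (span F {z})
  have c : finrank F (span F {z}) ≤ 1 := (finrank_span_le_card _).trans (by simp)
  omega

theorem hu_pair (h : IsHerm σ B) {W : Submodule F V} (hW : finrank F W = 2) (hd : Disjoint W (perp B W)) {z e f : V}
    (hz : B z z = 0) (hzW : z ∈ perp B W) (he : e ∈ W ⊔ span F {z}) (hf : f ∈ W ⊔ span F {z}) (h0 : e ∉ span F {z})
    (h1 : B e e = 0) (h2 : B e f = 0) : f ∈ span F {z, e} := by
  obtain ⟨w, hw, a, rfl⟩ := hu_dec he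
  obtain ⟨w', hw', a', rfl⟩ := hu_dec hf
  have w0 : w ≠ 0 := by rintro rfl; exact h0 (by simpa using smul_mem _ _ (mem_span_singleton_self z))
  simp only [map_add, map_smul, map_smulₛₗ, LinearMap.add_apply, LinearMap.smul_apply,
    hz, hzW w hw, h.eq_zero_comm.1 (hzW w hw), h.eq_zero_comm.1 (hzW w' hw'), smul_zero, add_zero] at h1 h2
  by_cases i : LinearIndependent F ![w, w']
  · have e : span F {w, w'} = W := eq_of_le_of_finrank_eq (span_le.2 (Set.pair_subset hw hw'))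
      ((finrank_span_pair_of_linearIndependent i).trans hW.symm)
    exact (w0 (disjoint_def.1 hd w hw (e ▸ mem_perp_span.2 (by simp [h1, h.eq_zero_comm.1 h2])))).elim
  · rw [LinearIndependent.pair_iff' w0, not_forall] at i
    obtain ⟨c, i⟩ := i
    exact mem_span_pair.2 ⟨a' - c * a, c, by rw [← not_not.1 i]; module⟩

/-- `ln d ≤ W` (`mem_perp_ln`, `perp_perp`); rank `0` and rank `1` (`isT_of_rank`) are excluded. -/
theorem ln_eq (h : IsHerm σ B) (a : NoTv H) {W : Submodule F V} (hW : finrank F W = 2) {d : SUG B} (hd : d ∈ H)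
    (h1 : ∀ y ∈ perp B W, d.1 y = y) (h2 : d ≠ 1) : ln d = W := by
  have l : ln d ≤ W := fun v hv => h.perp_perp W ▸ fun y hy => h.eq_zero_comm.1 ((mem_perp_ln h).2 (h1 y hy) v hv)
  refine eq_of_le_of_finrank_le l (hW ▸ not_lt.1 fun k => ?_)
  obtain ⟨u, hu⟩ := (finrank_le_one_iff_isPrincipal _).1 (Nat.lt_succ_iff.1 k)
  obtain ⟨p, c, c0, t⟩ := isT_of_rank h h2 (u := u) fun x => hu ▸ mem_ln.2 ⟨x, rfl⟩
  exact a d hd ⟨u, c, p, c0, t⟩

/-- Type A: `Ed g z e f b γ` with `B f e = 0` (`Ed.app_e`), `f ∈ W + F z` (apply `g - 1` to `s` and to `x ⊥ z` with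
`B e x ≠ 0`, so `e ∈ W + F z` too); in `W + F z` only `⟨z, e⟩` is perpendicular to `e` (dimension), so `g` is `C2`. -/
theorem hu_ee (h : IsHerm σ B) (c : NoC H) (nb : NoB H) {W : Submodule F V} (hW : finrank F W = 2)
    (hd : Disjoint W (perp B W)) {z : V} (hz : Pt B z) (hzW : z ∈ perp B W) {g : SUG B} (hg : g ∈ H)
    (hl : ln g ≤ W ⊔ span F {z}) {e : V} {b : F} (a : Ee g z e b) : False := by
  obtain ⟨f, γ, d⟩ := a.ed h hz
  have fe : B f e = 0 := by simpa [d.app_e, hz.1] using nb g hg z e b hz a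
  have ef := h.eq_zero_comm.1 fe
  have zU : ∀ a : F, a • z ∈ W ⊔ span F {z} := fun a => mem_sup_right (smul_mem _ _ (mem_span_singleton_self z))
  have k : ∀ x, g.1 x - x = B z x • f + (b * B e x) • e + (γ * B z x - B f x) • z := fun x => by
    rw [d.app, ef]; module
  obtain ⟨x, x1, x2⟩ : ∃ x, B z x = 0 ∧ B e x ≠ 0 := by
    by_contra! k
    exact d.ne (h.perp_perp (span F {z}) ▸ fun y hy => h.eq_zero_comm.1 (k y (mem_perp_singleton.1 hy)))
  have x3 := mul_ne_zero d.b0 x2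
  have kx := k x
  rw [x1, zero_smul, zero_add] at kx
  have eU : e ∈ W ⊔ span F {z} :=
    (smul_mem_iff _ x3).1 ((add_mem_cancel_right (zU _)).1 (kx ▸ hl (mem_ln.2 ⟨x, rfl⟩)))
  obtain ⟨s, hs⟩ := h.exists_eq_one hz.1
  have fU : f ∈ W ⊔ span F {z} := by
    have := hl (mem_ln.2 ⟨s, rfl⟩)
    rwa [k, add_mem_cancel_right (zU _), add_mem_cancel_right (smul_mem _ _ eU), hs, one_smul] at this
  refine c g hg ⟨?_, z, e, hz.2, d.ee, d.ze, fun y => k y ▸ add_mem (add_mem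
    (smul_mem _ _ (hu_pair h hW hd hz.2 hzW eU fU d.ne d.ee ef)) (smul_mem _ _ (subset_span (by simp))))
      (smul_mem _ _ (subset_span (by simp)))⟩
  rintro rfl
  rw [one_app, sub_self] at kx
  exact d.ne ((smul_mem_iff _ x3).1 (eq_neg_of_add_eq_zero_left kx.symm ▸ neg_mem (smul_mem _ _ (mem_span_singleton_self z))))

/-- `N = g - 1` is nilpotent (`N ^ p = 0`), `g z = z` (`z ⊥ ln g`).  `N` maps `U = W + F z` into itself, and
`N (z^⊥) = N U` (`z^⊥ = W + U^⊥`).  `N U + F z ≠ U` (else `N` is onto modulo `z`), so `N U ≤ ⟨z, e⟩` for some `e ∈ U`,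
and `N e ∈ F z` (`N e ≡ λ e`, `λ ^ p e ∈ F z`).  `ee_of`, `hu_ee`. -/
theorem hu_p (h : IsHerm σ B) (c : NoC H) (q1 : Q1 H) (nb : NoB H) {W : Submodule F V} (hW : finrank F W = 2)
    (hd : Disjoint W (perp B W)) {z : V} (hz : Pt B z) (hzW : z ∈ perp B W) {g : SUG B} (hg : g ∈ H)
    (hl : ln g ≤ W ⊔ span F {z}) (p : ℕ) [Fact p.Prime] [CharP F p] (e : g ^ p = 1) : g = 1 := by
  have zU : ∀ x, B z (g.1 x - x) = 0 := fun x => h.eq_zero_comm.1 (hu_perp hz.2 hzW (hl (mem_ln.2 ⟨x, rfl⟩)))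
  have gz : g.1 z = z := (mem_perp_ln h).1 fun u hu => hu_perp hz.2 hzW (hl hu)
  refine q1 g hg z hz ?_
  by_cases k : ∀ x, B z x = 0 → dev g.1 (dev g.1 x) ∈ span F {z} → dev g.1 x ∈ span F {z}
  · have k2 : ∀ j x, B z x = 0 → ((dev g.1 : Module.End F V) ^ j) (dev g.1 x) ∈ span F {z} →
        dev g.1 x ∈ span F {z} := fun j => by
      induction j with
      | zero => exact fun _ _ => id
      | succ j ih => exact fun x hx a => k x hx (ih _ (zU x) (by rwa [pow_succ] at a))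
    have : Nontrivial V := ⟨z, 0, hz.1⟩
    have : CharP (Module.End F V) p := charP_of_injective_algebraMap (algebraMap F _).injective p
    have n : (dev g.1 : Module.End F V) ^ p = 0 := by
      refine (sub_pow_char_of_commute p (Commute.one_right (g.1 : Module.End F V))).trans ?_
      rw [one_pow, sub_eq_zero]
      exact (map_pow (LinearEquiv.automorphismGroup.toLinearMapMonoidHom.comp (SUG B).subtype) g p).symm.trans
        (e ▸ map_one _)
    refine ⟨gz, fun x hx => ?_⟩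
    obtain ⟨a, ha⟩ := mem_span_singleton.1 (k2 p x hx (by simp [n]))
    exact ⟨a, by rw [ha, dev_apply, add_sub_cancel]⟩
  · push Not at k
    obtain ⟨x, x1, x2, x3⟩ := k
    obtain ⟨a, ha⟩ := mem_span_singleton.1 x2
    have k : ∀ y, B z y = 0 → B (dev g.1 x) (g.1 y - y) = 0 := fun y hy => by
      have := b_app g (dev g.1 x) y
      rw [show g.1 (dev g.1 x) = dev g.1 x + a • z by rw [ha, dev_apply _ (dev _ _), add_sub_cancel],
        ← sub_add_cancel (g.1 y) y] at this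
      simpa [zU, hy, -sub_add_cancel, -map_sub] using this
    refine (ee_of h hz (zU x) gz (fun y hy => hu_pair h hW hd hz.2 hzW (hl ⟨x, rfl⟩) (hl ⟨y, rfl⟩) x3 (k x x1)
      (k y hy)) x2).elim id fun ⟨b, a⟩ => (hu_ee h c nb hW hd hz hzW hg hl a).elim

/-- If `p ∣ orderOf g` apply `hu_p` to `g ^ (orderOf g / p)` (`ln (g ^ k) ≤ ln g`). -/
theorem hu_ord (h : IsHerm σ B) (c : NoC H) (q1 : Q1 H) (nb : NoB H) {W : Submodule F V} (hW : finrank F W = 2)
    (hd : Disjoint W (perp B W)) {z : V} (hz : Pt B z) (hzW : z ∈ perp B W) {g : SUG B} (hg : g ∈ H)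
    (hl : ln g ≤ W ⊔ span F {z}) : (orderOf g : F) ≠ 0 := fun e => by
  have := @finite_sug _ _ _ _ _ σ B _ _
  have := Fact.mk (CharP.char_is_prime F (ringChar F))
  have d := (ringChar.spec F _).1 e
  exact pow_ne_one_of_lt_orderOf (Nat.div_pos (Nat.le_of_dvd (orderOf_pos g) d) this.out.pos).ne'
    (Nat.div_lt_self (orderOf_pos g) this.out.one_lt) (hu_p h c q1 nb hW hd hz hzW (pow_mem hg _)
      ((lnG B _).pow_mem hl _) (ringChar F)
        (by rw [← pow_mul, Nat.div_mul_cancel d, pow_orderOf_eq_one]))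

/-- `ln g` is non-degenerate (`disj_ln`), so `z ∉ ln g` and `dim (ln g) ≤ 2`; `wd_of_ss`. -/
theorem hu_sq (h : IsHerm σ B) (c : NoC H) (q1 : Q1 H) (nb : NoB H) (nw : NoW H) {W : Submodule F V}
    (hW : finrank F W = 2) (hd : Disjoint W (perp B W)) {z : V} (hz : Pt B z) (hzW : z ∈ perp B W) {g : SUG B}
    (hg : g ∈ H) (hl : ln g ≤ W ⊔ span F {z}) : g ^ 2 = 1 ∧ ((2 : F) = 0 → g = 1) := by
  have o := hu_ord h c q1 nb hW hd hz hzW hg hl
  have e : g ^ 2 = 1 := by_contra fun e => nw _ (wd_of_ss h hg o (hu_lt hW hl fun k =>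
    hz.1 (disjoint_def.1 (disj_ln h o) z k fun u hu => hu_perp hz.2 hzW (hl hu))) e)
  refine ⟨e, fun h2 => by_contra fun k => o ?_⟩
  rw [orderOf_eq_prime e k]
  exact h2

/-- `K = {k ∈ H | ln k ≤ U}` (`U = W + F z`) is a subgroup of order prime to `p` (`hu_p`, Cauchy), fixing `z`.  With
`B s z = 1`, `φ x = ∑ k ∈ K, B s (k x)` is `K`-invariant and `φ z = |K| ≠ 0`.  `W = ln d`, `W' = ln d'` (`ln_eq`) lie in
`U ∩ ker φ`, of dimension `≤ 2`. -/
theorem Wd.eq (h : IsHerm σ B) (c : NoC H) (q1 : Q1 H) (nb : NoB H) {W W' : Submodule F V} (a : Wd H W)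
    (a' : Wd H W') {z : V} (hz : Pt B z) (hzW : z ∈ perp B W) (hl : W' ≤ W ⊔ span F {z}) : W' = W := by
  obtain ⟨hW, hd, d, d1, d2, d3⟩ := a
  obtain ⟨hW', -, d', e1, e2, e3⟩ := a'
  have := @finite_sug _ _ _ _ _ σ B _ _
  have := Fact.mk (CharP.char_is_prime F (ringChar F))
  obtain ⟨s, hs⟩ := h.exists_eq_one hz.1
  set K := H ⊓ lnG B (W ⊔ span F {z})
  have := Fintype.ofFinite K
  let φ : V →ₗ[F] F := ∑ k : K, B s ∘ₗ k.1.1.toLinearMap
  have k : ∀ {S : Submodule F V} {d}, finrank F S = 2 → d ∈ H → (∀ y ∈ perp B S, d.1 y = y) → d ^ 2 ≠ 1 →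
      S ≤ W ⊔ span F {z} → S = (W ⊔ span F {z}) ⊓ LinearMap.ker φ := fun {S d} s1 s2 s3 s4 s5 => by
    have e := ln_eq h (c.noTv h) s1 s2 s3 (by rintro rfl; simp at s4)
    refine eq_of_le_of_finrank_le (le_inf s5 ?_) (s1 ▸ hu_lt hW inf_le_left fun k => ?_)
    · rw [← e]
      rintro _ ⟨x, rfl⟩
      simp only [φ, dev_apply, LinearMap.mem_ker, map_sub, LinearMap.sum_apply, sub_eq_zero]
      exact Fintype.sum_equiv (Equiv.mulRight (⟨d, s2, e.le.trans s5⟩ : K)) _ _ fun _ => rfl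
    · have k := k.2
      have k2 : ∀ k : K, k.1.1 z = z := fun k => (mem_perp_ln h).1 fun u hu => hu_perp hz.2 hzW (k.2.2 hu)
      simp only [φ, SetLike.mem_coe, LinearMap.mem_ker, LinearMap.sum_apply, LinearMap.comp_apply, LinearEquiv.coe_coe, k2,
        Finset.sum_const, Finset.card_univ, nsmul_eq_mul, mul_eq_zero,
        show B s z ≠ 0 from fun e => by simp [h.eq_zero_comm.1 e] at hs, or_false] at k
      obtain ⟨g, hg⟩ := exists_prime_orderOf_dvd_card _ ((ringChar.spec F _).1 k)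
      refine hu_ord h c q1 nb hW hd hz hzW g.2.1 g.2.2 ?_
      rw [Subgroup.orderOf_coe, hg, ringChar.Nat.cast_ringChar]
  exact (k hW' e1 e2 e3 hl).trans (k hW d1 d2 d3 le_sup_left).symm

theorem l1_aux (h : IsHerm σ B) {g g' : SUG B} (hg : g ∈ H) (hg' : g' ∈ H) {z e e' : V} {b b' : F}
    (a : Ee g z e b) (a' : Ee g' z e' b') (p : B e e' ≠ 0) (t : b' * B e e' * (b * B e' e) + 4 ≠ 0) :
    ∃ W, Wd H W := by
  obtain ⟨a1, a2, -, a3, a4, a5⟩ := a
  obtain ⟨c1, c2, -, c3, c4, c5⟩ := a'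
  have p' : B e' e ≠ 0 := fun k => p (h.eq_zero_comm.1 k)
  have kz : (g * g').1 z = z := by rw [mul_app, c4, a4]
  have k0 : ∀ x, B z ((g * g').1 x) = B z x := fun x => by rw [← b_app (g * g') z x, kz]
  have k1 : ∀ x, B z x = 0 → ∃ c : F, (g * g').1 x =
      x + (b * B e x + b' * B e' x * (b * B e e')) • e + (b' * B e' x) • e' + c • z := fun x hx => by
    obtain ⟨u, hu⟩ := c5 x hx
    obtain ⟨v, hv⟩ := a5 x hx
    obtain ⟨w, hw⟩ := a5 e' c1
    exact ⟨u + v + b' * B e' x * w, by rw [mul_app, hu, map_add, map_add, map_smul, map_smul, hv, hw, a4]; module⟩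
  have k2 : ∀ x, B z x = 0 → B e ((g * g').1 x) = B e x + b' * B e e' * B e' x ∧
      B e' ((g * g').1 x) = b * B e' e * B e x + (1 + b' * B e e' * (b * B e' e)) * B e' x := fun x hx => by
    obtain ⟨c, k⟩ := k1 x hx
    simp only [k, map_add, map_smul, smul_eq_mul, a2, c2, h.eq_zero_comm.1 a1, h.eq_zero_comm.1 c1]
    exact ⟨by ring, by ring⟩
  classical
  refine wd_of_fit h (mul_mem hg hg') (j := 3) (W := span F {dev (g * g').1 e, dev (g * g').1 e'})
    ((finrank_span_le_card _).trans (by rw [Set.toFinset_insert, Set.toFinset_singleton]; exact Finset.card_le_two)) (fun x => ?_) fun ⟨j, hj⟩ => ?_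
  · obtain ⟨c, k⟩ := k1 (dev (g * g').1 x) (by rw [dev_apply, map_sub, k0, sub_self])
    simp only [pow_succ', pow_zero, Module.End.mul_apply, Module.End.one_apply]
    generalize dev (g * g').1 x = y at k
    rw [dev_apply _ y, k, add_assoc, add_assoc, add_sub_cancel_left, map_add, map_add, map_smul, map_smul, map_smul,
      dev_apply _ z, kz, sub_self, smul_zero, add_zero]
    exact mem_span_pair.2 ⟨_, _, rfl⟩
  · have k : ∀ j, B z (((dev ((g * g') ^ 2).1 : Module.End F V) ^ j) e) = 0 ∧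
        ¬ (B e (((dev ((g * g') ^ 2).1 : Module.End F V) ^ j) e) = 0 ∧
          B e' (((dev ((g * g') ^ 2).1 : Module.End F V) ^ j) e) = 0) := fun j => by
      induction j with
      | zero => exact ⟨a1, fun k => p' k.2⟩
      | succ j ih =>
        rw [pow_succ', Module.End.mul_apply]
        generalize ((dev ((g * g') ^ 2).1 : Module.End F V) ^ j) e = v at ih
        have k3 := k2 v ih.1
        have k4 := k2 _ ((k0 v).trans ih.1)
        have t' := mul_ne_zero (mul_ne_zero (mul_ne_zero c3 p) (mul_ne_zero a3 p')) t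
        rw [dev_apply, sq, mul_app, map_sub, map_sub, map_sub, k0, k0, k4.1, k4.2, k3.1, k3.2]
        generalize b' * B e e' = u at *
        generalize b * B e' e = w at *
        exact ⟨sub_self _, fun ⟨e1, e2⟩ => ih.2 ⟨(mul_eq_zero_iff_left t').1 (by
          linear_combination (2 + u * w) * u * e2 - (u * w * (u * w + 3)) * e1), (mul_eq_zero_iff_left t').1 (by
          linear_combination (2 + u * w) * w * e1 - u * w * e2)⟩⟩
    exact (k j).2 (by rw [hj]; simp)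

/-- L1.  Let `φ = B e e' ≠ 0`, `τ = b b' φ σ φ ≠ 0`.  `k = g g'` or `k = g g'⁻¹` (`Ee.inv`) acts on `⟨e, e'⟩` modulo `z`
with determinant `1` and trace `θ = 2 ± τ`; choose the sign with `θ² ≠ 4` (`τ = -4` and `τ = 4` give `2 = 0`, `τ = 0`).
`(k - 1) V ⊆ z^⊥`, `(k - 1)² V ⊆ ⟨z, e, e'⟩`, `(k - 1)³ V ⊆ ⟨(k - 1) e, (k - 1) e'⟩`.  Modulo `z`, on `⟨e, e'⟩`:
`k² = θ k - 1`, `(k² - 1)² = (θ² - 4) k²`, so `k² - 1` maps no vector of `⟨z, e, e'⟩ \ F z` into `F z` and is not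
nilpotent.  `wd_of_fit`. -/
theorem NoW.l1 (h : IsHerm σ B) (nw : NoW H) {g g' : SUG B} (hg : g ∈ H) (hg' : g' ∈ H) {z e e' : V} {b b' : F}
    (hz : Pt B z) (a : Ee g z e b) (a' : Ee g' z e' b') : B e e' = 0 := by_contra fun p => by
  by_cases t : b' * B e e' * (b * B e' e) + 4 = 0
  · refine (l1_aux h hg (inv_mem hg') a (a'.inv h hz.2) p fun t' => ?_).elim nw
    have h2 : (2 : F) = 0 := pow_eq_zero_iff (three_ne_zero) |>.1 (by linear_combination t + t')
    exact mul_ne_zero (mul_ne_zero a'.2.2.2.1 p) (mul_ne_zero a.2.2.2.1 fun k => p (h.eq_zero_comm.1 k))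
      (by linear_combination t - 2 * h2)
  · exact (l1_aux h hg hg' a a' p t).elim nw

/-- `s = t_u(a)`, `t = t_v(c)`, `d = s⁻¹ t`.  `v ∈ F u`: `d = t_u(·)` is trivial by `NoC.noTv`.  `u ⊥ v`: `d` is `C2` or `1`.
`B u v ≠ 0`: `W = ⟨u, v⟩` (`disjoint_perp_pair_of_gram`), `d` fixes `W^⊥`, and `d² ≠ 1` (`d u = d⁻¹ u` is impossible:
`d u = u + β v - a β B u v u`, `d⁻¹ u = u - β v`... compare the `u`-coordinates, `β = c B v u`). -/
theorem c_one (h : IsHerm σ B) (c : NoC H) (nw : NoW H) {s t : SUG B} (hs : IsT s) (ht : IsT t)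
    (e : s⁻¹ * t ∈ H) : s = t := by
  obtain ⟨u, a, hu, a0, hs⟩ := hs
  obtain ⟨v, b, hv, b0, ht⟩ := ht
  have k : ∀ x, (s⁻¹ * t).1 x = x + (b * B v x) • v - (a * (B u x + b * B v x * B u v)) • u := fun x => by
    rw [mul_app, hs.inv hu.2, ht, map_add, map_smul]; module
  by_cases p : B u v = 0
  · exact inv_mul_eq_one.1 (by_contra fun n => c _ e ⟨n, u, v, hu.2, hv.2, p, fun x =>
      mem_span_pair.2 ⟨_, _, by rw [k, neg_smul, neg_add_eq_sub, add_sub_assoc, add_sub_cancel_left]⟩⟩)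
  have p' : B v u ≠ 0 := fun k => p (h.eq_zero_comm.1 k)
  have g : B u u * B v v - B u v * B v u ≠ 0 := by simp [hu.2, p, p']
  refine (nw _ ⟨finrank_span_pair_of_linearIndependent (linearIndependent_pair_of_gram g), disjoint_perp_pair_of_gram g,
    _, e, fun y hy => ?_, fun n => ?_⟩).elim
  · rw [k]
    simp [hy u (subset_span (by simp)), hy v (subset_span (by simp))]
  · have := congrArg (fun d : SUG B => B u (d.1 v)) n
    simp only [sq, mul_app (s⁻¹ * t), k] at this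
    simp [hu.2, hv.2, a0, b0, p, p'] at this

end Cfsg.Lib.R3U
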