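import Cfsg.Agent.Lib.R3U.Iso
import Cfsg.Agent.Lib.R3U.Cnt

/-! S2196, case I: all points are centres. -/

set_option autoImplicit false
set_option linter.unusedSectionVars false

namespace Cfsg.Lib.R3U

open Cfsg.Lib.Unitary Cfsg.Lib.R3S Module Submodule MulAction

variable {F V : Type*} [Field F] [AddCommGroup V] [Module F V] {σ : F →+* F}
  {B : V →ₛₗ[σ] V →ₗ[F] F} {q n : ℕ} [Finite F] [Finite V] {H : Subgroup (SUG B)}

omit [Finite F] [Finite V] in
/-- Direct computation. -/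
theorem ei_of_tv (h : IsHerm σ B) {r u : V} {a b : F} {t t' : SUG B} (hr : B r r = 0) (hu : B u u = 0)
    (hru : B r u = 0) (hb : b + σ b = 0) (h1 : Tv t (u + a • r) b) (h2 : Tv t' u b) :
    Ei (t * t'⁻¹) r ((b * σ a) • u) (b * a * σ a) := by
  intro x
  rw [mul_app, h1, h2.inv hu]
  simp only [map_add, map_smul, LinearMap.add_apply, LinearMap.map_smulₛₗ₂, map_mul, h.invol, hu, hru, smul_eq_mul,
    eq_neg_of_add_eq_zero_right hb]
  module

omit [Finite F] [Finite V] in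
theorem ae_of_rt (h : IsHerm σ B) {r u : V} {a b : F} (hr : B r r = 0) (hu : B u u = 0) (hru : B r u = 0)
    (hb : b + σ b = 0) (h1 : Rt H (u + a • r) b) (h2 : Rt H u b) : Ae H r ((b * σ a) • u) := by
  obtain ⟨t, ht, h1⟩ := h1
  obtain ⟨t', ht', h2⟩ := h2
  exact ⟨by simp [hru], _, mul_mem ht (inv_mem ht'), _, ei_of_tv h hr hu hru hb h1 h2⟩

omit [Finite F] [Finite V] in
/-- `t f - f` with `Ae.app`, `Ae.sub`. -/
theorem ae_tv (h : IsHerm σ B) {r u f : V} {b : F} (hr : B r r = 0) (hru : B r u = 0) (h1 : Rt H u b)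
    (h2 : Ae H r f) : Ae H r ((b * B u f) • u) := by
  obtain ⟨t, ht, h1⟩ := h1
  have := (h2.app h ht (h1.fix (h.eq_zero_comm.1 hru))).sub h hr h2
  rwa [h1, add_sub_cancel_left] at this

omit [Finite F] [Finite V] in
theorem rt_stab {X : Type*} [MulAction (SUG B) X] (g : SUG B) (x : X) {v : V} {c : F} :
    Rt (stabilizer (SUG B) (g • x)) (g.1 v) c ↔ Rt (stabilizer (SUG B) x) v c := by
  refine ⟨fun ⟨t, ht, h1⟩ => ⟨g⁻¹ * t * g⁻¹⁻¹, ?_, inv_app g v ▸ h1.conj g⁻¹⟩,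
    fun ⟨t, ht, h1⟩ => ⟨g * t * g⁻¹, ?_, h1.conj g⟩⟩
  · rw [mem_stabilizer_iff] at ht ⊢
    rw [inv_inv, mul_smul, mul_smul, ht, inv_smul_smul]
  · rw [mem_stabilizer_iff] at ht ⊢
    rw [mul_smul, mul_smul, inv_smul_smul, ht]

omit [Finite F] [Finite V] in
theorem top_of_le (h : SUG B ≤ H.map (SUG B).subtype) : H = ⊤ := eq_top_iff.2 fun g _ =>
  (Subgroup.mem_map_iff_mem (SUG B).subtype_injective).1 (h g.2)

theorem card_skew (hσ : IsBar q σ) : {c : F | c ≠ 0 ∧ c + σ c = 0}.ncard + 1 = q := by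
  rw [show {c : F | c ≠ 0 ∧ c + σ c = 0} = {c : F | c + σ c = 0} \ {0} from Set.ext fun _ => and_comm,
    Set.ncard_sdiff_singleton_add_one (by simp), ← hσ.card_trace_zero, ← Nat.card_coe_set_eq]; rfl

namespace Un

variable (s : Un σ B q n)
include s

/-- `TG_eq_SUG`, `TG_le` for `H.map (SUG B).subtype`. -/
theorem top_of_rt (h : ∀ v c, Pt B v → c + σ c = 0 → Rt H v c) : H = ⊤ := by
  refine top_of_le ((s.herm.TG_eq_SUG s.bar fun e => by have := s.q3; omega).ge.trans (TG_le fun u c hu hc => ?_))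
  obtain ⟨g, hg, t⟩ : Rt H u c := by
    rcases eq_or_ne u 0 with rfl | h0
    exacts [⟨1, one_mem _, fun x => by simp⟩, h u c ⟨h0, hu⟩ hc]
  exact ⟨g, hg, LinearEquiv.ext t⟩

/-- `IsHerm.SUG_le_of_AE` (`IsEich`, `mem_AE`) for `H.map (SUG B).subtype`. -/
theorem top_of_ae {r f : V} (hr : B r r = 0) (hf : Cen H f) (hrf : B r f ≠ 0) (h : ∀ w, B r w = 0 → Ae H r w) :
    H = ⊤ := by
  obtain ⟨h1, c, c0, g, hg, t⟩ := hf
  exact top_of_le (s.herm.SUG_le_of_AE s.bar (by have := s.n6; have := s.dim; omega)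
    (by rintro _ ⟨k, -, rfl⟩; exact k.2.1) hr hrf (hf := h1.2) (hc := t.skew s.herm h1) c0 ⟨g, hg, LinearEquiv.ext t⟩
    fun w hw => let ⟨_, k, hk, γ, e⟩ := h w hw; ⟨hw, _, ⟨k, hk, rfl⟩, γ, e⟩)

/-- Pigeonhole: each of the `q²` vectors `u + a • r` has a skew `c(a) ≠ 0` with `Rt H (u + a • r) (c a)`; some value `c`
of the `q - 1` is taken by more than `q` elements `a`, and `ae_of_rt` (for `u + a₀ • r`, `a - a₀`; modulo `F r`,
`Ae.smul_self`) gives the elements `c σ(a - a₀)`. -/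
theorem lam_big (h : ∀ v, Pt B v → Cen H v) {r u : V} (hr : Pt B r) (hu : B u u = 0) (hru : B r u = 0)
    (hi : u ∉ span F {r}) : q < {k : F | Ae H r (k • u)}.ncard := by
  by_contra! hc
  have p : ∀ a : F, B (u + a • r) (u + a • r) = 0 := fun a => by
    simp [hu, hru, hr.2, s.herm.eq_zero_comm.1 hru]
  have := dbl (Set.univ : Set F) {c : F | c ≠ 0 ∧ c + σ c = 0} (fun a c => Rt H (u + a • r) c) (m := 1) (n := q)
    (fun a _ => ?_) fun c c1 => ?_
  · have h1 := card_skew s.bar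
    have h2 := s.q3
    rw [Set.ncard_univ, s.bar.card] at this
    nlinarith
  · have h1 : Pt B (u + a • r) := ⟨fun e => hi (mem_span_singleton.2 ⟨-a, by
      rw [neg_smul, neg_eq_of_add_eq_zero_left e]⟩), p a⟩
    obtain ⟨-, c, c0, g, hg, t⟩ := h _ h1
    exact (Set.ncard_pos (Set.toFinite _)).2 ⟨c, ⟨c0, t.skew s.herm h1⟩, g, hg, t⟩
  · rcases Set.eq_empty_or_nonempty {a ∈ (Set.univ : Set F) | Rt H (u + a • r) c} with e | ⟨a₀, h0⟩
    · rw [e, Set.ncard_empty]; exact Nat.zero_le _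
    refine (Set.ncard_le_ncard_of_injOn (fun a => c * σ (a - a₀)) (fun a ha => ?_) fun a _ b _ e => ?_).trans hc
    · have := (ae_of_rt s.herm (a := a - a₀) hr.2 (p a₀) (by simp [hru, hr.2]) c1.2
        (by rw [add_assoc, ← add_smul, add_sub_cancel]; exact ha.2) h0.2).sub s.herm hr.2
        (Ae.smul_self s.herm hr.2 (c * σ (a - a₀) * a₀))
      rwa [smul_add, smul_smul, add_sub_cancel_right] at this
    · exact sub_left_injective (σ.injective (mul_left_cancel₀ c1.1 e))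

/-- Otherwise take a hyperbolic pair `u, u'` in `r^⊥` (`ex_hyp_perp`); `ae_le` for `Y = ⟨u, u'⟩` gives at most `q²`
vectors, but `k • u + k' • u'` are more than `q · q` (`lam_big`).  Then `top_of_rt`. -/
theorem top_of_cen (h : ∀ v, Pt B v → Cen H v) : H = ⊤ := by
  refine s.top_of_rt fun v c hv hc => by_contra fun hn => ?_
  obtain ⟨e, he, f, hf, e1, f1, ef⟩ := s.ex_hyp_perp (U := span F {v}) (z := v)
    (by rw [finrank_span_singleton hv.1]; norm_num) fun w hw _ => hw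
  rw [mem_perp_singleton] at he hf
  have fe : B f e = 1 := by rw [← s.herm.symm, ef, map_one]
  have h1 := s.lam_big h hv e1 he fun m => by
    obtain ⟨a, rfl⟩ := mem_span_singleton.1 m
    simp [hf] at ef
  have h2 := s.lam_big h hv f1 hf fun m => by
    obtain ⟨a, rfl⟩ := mem_span_singleton.1 m
    simp [he] at fe
  have h3 := (ae_le s.herm s.bar hv.2 hc hn (disjoint_perp_pair_of_gram (by simp [e1, ef, fe]))).trans
    (Nat.pow_le_pow_right (by have := s.q3; omega) (finrank_span_pair_le e f))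
  have h4 := Set.ncard_le_ncard_of_injOn (s := {k : F | Ae H v (k • e)} ×ˢ {k : F | Ae H v (k • f)})
    (t := {w ∈ span F {e, f} | Ae H v w}) (fun p => p.1 • e + p.2 • f)
    (fun p hp => ⟨mem_span_pair.2 ⟨_, _, rfl⟩, hp.1.add s.herm hv.2 hp.2⟩) fun p _ p' _ k =>
      Prod.ext (by simpa [f1, fe] using congrArg (B f) k) (by simpa [e1, ef] using congrArg (B e) k)
  rw [Set.ncard_prod] at h4
  nlinarith

end Un

end Cfsg.Lib.R3U
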