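import Cfsg.Agent.Lib.R3U.IReg

/-! S2196, case I with full root groups: no totally isotropic line consists of centres. -/

set_option autoImplicit false

namespace Cfsg.Lib.R3U

open Cfsg.Lib.Unitary Cfsg.Lib.R3S Module Submodule MulAction

variable {F V : Type*} [Field F] [AddCommGroup V] [Module F V] {σ : F →+* F}
  {B : V →ₛₗ[σ] V →ₗ[F] F} {q n : ℕ} [Finite F] [Finite V] {H : Subgroup (SUG B)}

section fl

omit [Finite F] [Finite V]

theorem Fl.perp {r f : V} (h : Fl H r f) : B r f = 0 := by simpa using (h 1).1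

theorem Fl.self (b : IsHerm σ B) {r : V} (hr : B r r = 0) : Fl H r r := Ae.smul_self b hr

theorem Fl.add {r f g : V} (h : Fl H r f) (b : IsHerm σ B) (hr : B r r = 0) (h' : Fl H r g) : Fl H r (f + g) := fun c =>
  (smul_add c f g).symm ▸ (h c).add b hr (h' c)

theorem Fl.sub {r f g : V} (h : Fl H r f) (b : IsHerm σ B) (hr : B r r = 0) (h' : Fl H r g) : Fl H r (f - g) := fun c =>
  (smul_sub c f g).symm ▸ (h c).sub b hr (h' c)

theorem Fl.smul {r f : V} (h : Fl H r f) (a : F) : Fl H r (a • f) := fun c => (smul_smul c a f).symm ▸ h _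

theorem Fl.conj {z z' w : V} (h : Fl H z w) (b : IsHerm σ B) {k : SUG B} (hk : k ∈ H) {c : F} (hc : c ≠ 0) (e : k.1 z = c • z') :
    Fl H z' (k.1 w) := fun d => by
  have := (h ((σ c)⁻¹ * d)).conj b hk e
  rwa [map_smul, smul_smul, mul_inv_cancel_left₀ ((_root_.map_ne_zero σ).2 hc)] at this

theorem Cen.swap {u v : V} {a : F} (ha : a ≠ 0) (h : Cen H (u + a⁻¹ • v)) : Cen H (v + a • u) := by
  have := h.smul ha
  rwa [smul_add, smul_inv_smul₀ ha, add_comm] at this

theorem not_mem_span_of {r f x : V} (h0 : f ≠ 0) (h1 : B x r = 1) (h2 : B x f = 0) : f ∉ span F {r} := fun h => by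
  obtain ⟨a, rfl⟩ := mem_span_singleton.1 h
  rw [map_smul, h1, smul_eq_mul, mul_one] at h2
  exact h0 (by rw [h2, zero_smul])

end fl

namespace Un

variable (s : Un σ B q n) (c : CI H)
include s c

/-- If all `u + a • r` are centres then `Fl H r u` (`ae_of_rt`, `lam`); it suffices to have all `a ≠ a₀`
(take `a` real, `a' ` non-real … after moving the base point). -/
theorem fl_of_cen {r u : V} {a₀ : F} (hr : Cen H r) (hu : B u u = 0) (hru : B r u = 0)
    (h : ∀ a, a ≠ a₀ → Cen H (u + a • r)) : Fl H r u := by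
  obtain ⟨δ, d0, d1⟩ := s.herm.exists_skew
  have d2 : δ + σ δ = 0 := by rw [d1, add_neg_cancel]
  obtain ⟨e, he⟩ := s.bar.exists_ne
  have rr := hr.1.2
  have ur := s.herm.eq_zero_comm.1 hru
  have k : ∀ a, a ≠ -1 → Ae H r ((δ * σ a) • (u + (a₀ + 1) • r)) := fun a ha =>
    ae_of_rt s.herm rr (by simp [hu, hru, ur, rr]) (by simp [hru, rr]) d2
      (c.full _ _ (by
        rw [add_assoc, ← add_smul]
        exact h _ fun e => ha (by linear_combination e)) d2)
      (c.full _ _ (h _ (by simp)) d2)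
  have e0 : e ≠ 0 := fun x => he (by rw [x, map_zero])
  have e1 : σ e ≠ 0 := (_root_.map_ne_zero σ).2 e0
  have := (s.lam c hr (k e fun x => he (by rw [x]; simp)) (k (e + 1) fun x => he (by
    rw [show e = -(1 + 1) by linear_combination x]; simp only [map_neg, map_add, map_one])) (mul_ne_zero d0 e1) (fun x => he (by
      rw [mul_div_mul_left _ _ d0, map_div₀, s.herm.invol, s.herm.invol, map_add, map_one,
        div_eq_div_iff e0 e1] at x
      linear_combination x))).sub s.herm rr ((Fl.self s.herm rr).smul (a₀ + 1))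
  rwa [add_sub_cancel_right] at this

/-- `s' + k • f` is a centre for all `k` (`reg'`), so `f + a • s'` for `a ≠ 0`; `fl_of_cen` at `s'`, `cen_add` (with
`u = f + s'`, `a = -1`) gives `Cen H f`; `cen_add` at `r` gives all `f + a • r`; `fl_of_cen` at `f` for `r` and `s'`. -/
theorem fl_cen' {r s' f : V} (hr : Cen H r) (hs : Cen H s') (e : B r s' = 1) (hf : Pt B f) (hsf : B s' f = 0)
    (h : Fl H r f) : Cen H f ∧ Fl H f r ∧ Fl H f s' := by
  obtain ⟨δ, d0, d1⟩ := s.herm.exists_skew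
  have d2 : δ + σ δ = 0 := by rw [d1, add_neg_cancel]
  have rf := h.perp
  have fs := s.herm.eq_zero_comm.1 hsf
  have sr : B s' r = 1 := by rw [← s.herm.symm, e, map_one]
  have ss := hs.1.2
  have k : ∀ a : F, Cen H (s' + a • f) := fun a => s.reg' c hr hs e (h a) (by simp [ss, hf.2, hsf, fs])
  have k1 := s.fl_of_cen c (a₀ := 0) hs hf.2 hsf fun a ha => Cen.swap ha (k _)
  have k2 : Cen H f := by
    have := s.cen_add c (a := -1) hs (k 1) (by simp [ss, hsf]) (fun x => not_mem_span_of hf.1 e rf (by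
      simpa using sub_mem x (mem_span_singleton_self s'))) d2 d0 (((Fl.self s.herm ss).add s.herm ss (k1.smul 1)) _)
    simpa using this
  exact ⟨k2, s.fl_of_cen c (a₀ := 0) k2 hr.1.2 (s.herm.eq_zero_comm.1 rf) fun a ha =>
    Cen.swap ha (s.cen_add c hr k2 rf (not_mem_span_of hf.1 sr hsf) d2 d0 (h _)),
    s.fl_of_cen c (a₀ := 0) k2 ss fs fun a _ => k a⟩

/-- `f ∈ F r`, or `fl_cen'` for `f - B s' f • r` and `cen_add`. -/
theorem fl_cen {r f : V} (hr : Cen H r) (hf : Pt B f) (h : Fl H r f) : Cen H f := by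
  by_cases hi : f ∈ span F {r}
  · obtain ⟨a, rfl⟩ := mem_span_singleton.1 hi
    exact hr.smul fun e => hf.1 (by rw [e, zero_smul])
  obtain ⟨δ, d0, d1⟩ := s.herm.exists_skew
  obtain ⟨s', hs, e⟩ := s.ex_off c hr
  have rr := hr.1.2
  have rf := h.perp
  have fr := s.herm.eq_zero_comm.1 rf
  have sr : B s' r = 1 := by rw [← s.herm.symm, e, map_one]
  have hi' : f - B s' f • r ∉ span F {r} := fun x => hi (by
    simpa using add_mem x (smul_mem _ (B s' f) (mem_span_singleton_self r)))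
  have h' := h.sub s.herm rr ((Fl.self s.herm rr).smul (B s' f))
  have := s.cen_add c (a := B s' f) hr (s.fl_cen' c hr hs e ⟨fun x => hi' (by rw [x]; exact zero_mem _), by simp [hf.2, rf, fr, rr]⟩
    (by simp [sr]) h').1 h'.perp hi' (by rw [d1, add_neg_cancel]) d0 (h' _)
  rwa [sub_add_cancel] at this

/-- By `fl_cen'` some centre `f'` has `Fl H f' r`, `Fl H f' s'` with `B r s' = 1`; move `f'` to `r` (`trC`, `Ae.conj`):
isotropic `f₁, f₂` with `Fl H r f_i`, `B f₁ f₂ = 1`, w.l.o.g. `⊥ s'`.  For `Ae H r g`, `g ⊥ s', f₁`: `v = s' + g + a • r`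
isotropic (`exists_add_smul_isotropic`) is a centre (`reg'`), `Fl H f₁ v` (`ae_tv` with `k • r`), so `Fl H f₁ g`; for
any `k`, `v' = s' + k • g + a' • r` isotropic has `Fl H f₁ v'`, is a centre (`fl_cen`), and `reg` gives `Ae H r (k • g)`.
In general use `g - B s' g • r - B f₁ g • f₂`.  So `Ae H r` is a subspace; `ae_span`, `top_of_ae`. -/
theorem no_fl {r f : V} (hr : Cen H r) (hf : B f f = 0) (hi : f ∉ span F {r}) : ¬ Fl H r f := by
  intro h
  obtain ⟨δ, d0, d1⟩ := s.herm.exists_skew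
  have d2 : δ + σ δ = 0 := by rw [d1, add_neg_cancel]
  obtain ⟨s', hs, e⟩ := s.ex_off c hr
  have rr := hr.1.2
  have ss := hs.1.2
  have sr : B s' r = 1 := by rw [← s.herm.symm, e, map_one]
  have red : ∀ x, Fl H r x → B x x = 0 → Fl H r (x - B s' x • r) ∧ B (x - B s' x • r) (x - B s' x • r) = 0 ∧
      B s' (x - B s' x • r) = 0 := fun x a b => ⟨a.sub s.herm rr ((Fl.self s.herm rr).smul _),
    by simp [b, a.perp, s.herm.eq_zero_comm.1 a.perp, rr], by simp [sr]⟩
  obtain ⟨f₁, f₂, a1, ⟨a2, a3⟩, ⟨b1, -, b3⟩, ab⟩ : ∃ f₁ f₂, Fl H r f₁ ∧ (B f₁ f₁ = 0 ∧ B s' f₁ = 0) ∧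
      (Fl H r f₂ ∧ B f₂ f₂ = 0 ∧ B s' f₂ = 0) ∧ B f₁ f₂ = 1 := by
    obtain ⟨a1, a2, a3⟩ := red f h hf
    obtain ⟨b1, b2, b3⟩ := s.fl_cen' c hr hs e ⟨fun x => hi (by
      rw [sub_eq_zero.1 x]; exact smul_mem _ _ (mem_span_singleton_self r)), a2⟩ a3 a1
    obtain ⟨k, hk, d, ek⟩ := c.trC _ _ b1 hr
    have hd : d ≠ 0 := fun x => app_ne k b1.1.1 (by rw [ek, x, zero_smul])
    have c1 := b2.conj s.herm hk hd ek
    have c2 := b3.conj s.herm hk hd ek
    have c3 := red _ c1 ((b_app k r r).trans rr)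
    exact ⟨_, _, c3.1, c3.2, red _ c2 ((b_app k s' s').trans ss), by
      simp [b_app, e, c2.perp, s.herm.eq_zero_comm.1 c1.perp, rr]⟩
  obtain ⟨c1, c2, c3⟩ := s.fl_cen' c hr hs e ⟨fun x => by simp [x] at ab, a2⟩ a3 a1
  have key : ∀ g, Ae H r g → B s' g = 0 → B f₁ g = 0 → Fl H r g := fun g g1 g2 g3 k => by
    obtain ⟨a, ha⟩ := s.herm.exists_add_smul_isotropic (v := s' + g) rr (by simp [e, g1.1])
    have v1 := s.reg' c hr hs e (g1.add s.herm rr (Ae.smul_self s.herm rr a)) (by rwa [← add_assoc])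
    have v2 : B (s' + (g + a • r)) r = 1 := by simp [sr, s.herm.eq_zero_comm.1 g1.1, rr]
    have v3 : Fl H f₁ (s' + (g + a • r)) := fun d => by
      have := ae_tv s.herm a2 (by simp [c2.perp, c3.perp, g3]) (c.full _ _ v1 d2) (c2 (δ⁻¹ * d))
      rwa [map_smul, v2, smul_eq_mul, mul_one, mul_inv_cancel_left₀ d0] at this
    have v4 : Fl H f₁ g := by simpa using (v3.sub s.herm a2 c3).sub s.herm a2 (c2.smul a)
    obtain ⟨a', ha'⟩ := s.herm.exists_add_smul_isotropic (v := s' + k • g) rr (by simp [e, g1.1])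
    have v5 : B r (s' + k • g + a' • r) = 1 := by simp [e, g1.1, rr]
    have := (s.reg c hr hs (s.fl_cen c c1 ⟨fun x => by simp [x] at v5, ha'⟩
      ((c3.add s.herm a2 (v4.smul k)).add s.herm a2 (c2.smul a'))) e v5).sub s.herm rr (Ae.smul_self s.herm rr a')
    convert this using 1
    abel
  refine c.ne (s.top_of_ae rr hs (by simp [e]) fun w hw => ?_)
  have : Fl H r w := by
    refine span_induction (fun g (hg : Ae H r g) => ?_) (by simpa using (Fl.self (H := H) s.herm rr).smul 0)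
      (fun _ _ _ _ a b => a.add s.herm rr b) (fun a _ _ b => b.smul a) (s.ae_span c hr hw)
    have := ((key _ ((hg.sub s.herm rr (Ae.smul_self s.herm rr (B s' g))).sub s.herm rr (b1 (B f₁ g))) (by simp [sr, b3])
      (by simp [ab, c2.perp])).add s.herm rr (b1.smul (B f₁ g))).add s.herm rr ((Fl.self s.herm rr).smul (B s' g))
    simpa using this
  simpa using this 1

/-- Consequence of `lam`, `no_fl`. -/
theorem real_of {r u : V} {a a' : F} (hr : Cen H r) (hu : B u u = 0) (hi : u ∉ span F {r})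
    (h1 : Ae H r (a • u)) (h2 : Ae H r (a' • u)) (h0 : a ≠ 0) : σ (a' / a) = a' / a := by
  exact by_contra fun hn => s.no_fl c hr hu hi (s.lam c hr h1 h2 h0 hn)

end Un

end Cfsg.Lib.R3U
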