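import Cfsg.Agent.Lib.R3U.Def

/-! S2196: numerical lemmas for a known constituent.  Check small cases (`q = 3, 4`, `u = -q³, q⁴, -q⁵`) first. -/

set_option autoImplicit false
set_option linter.unusedSectionVars false

namespace Cfsg.Lib.R3U

/-- `f μ (r + S) = k (S - 1) (k + S)` (eliminate `N`). -/
theorem Srg.key {N f k r S μ : ℤ} (h : Srg N f k r S μ) : f * μ * (r + S) = k * (S - 1) * (k + S) := by
  linear_combination μ * h.ef + S * h.eN + (k + S) * h.ek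

theorem Srg.k0 {N f k r S μ : ℤ} (h : Srg N f k r S μ) : 0 < k := by
  have := mul_pos h.r0 h.s0
  have := h.m0
  have := h.ek
  omega

theorem Srg.kN {N f k r S μ : ℤ} (h : Srg N f k r S μ) : k ≤ N - 1 := by
  have e : (N - 1 - k) * μ = k * (r + 1) * (S - 1) := by linear_combination h.eN + k * h.ek + h.ek
  have s := h.s0
  have r := h.r0
  have p : 0 ≤ (N - 1 - k) * μ :=
    e ▸ mul_nonneg (mul_nonneg h.k0.le (by omega)) (by omega)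
  have := nonneg_of_mul_nonneg_left p h.m0
  omega

/-- `(N - 1 - k) μ = k (r + 1) (S - 1) ≥ 0`, `k > 0`. -/
theorem Kn.le {N f T ω c₂ : ℤ} (h : Kn N f T ω c₂) (h1 : 1 ≤ c₂) : N - 1 ≤ T := by
  obtain ⟨k, r, S, μ, c₁, s, -, h2, h3, -⟩ := h
  have a := s.k0
  have b := s.kN
  nlinarith [mul_nonneg (sub_nonneg.2 h1) (sub_nonneg.2 b), mul_nonneg (sub_nonneg.2 (h1.trans h2.le)) a.le]

theorem pos_of_mul_pos_left' {a b : ℤ} (ha : 0 < a) (h : 0 < a * b) : 0 < b := (mul_pos_iff_of_pos_left ha).1 h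

theorem uc {q u : ℤ} (hq : 3 ≤ q) (hu : u ≤ -q ^ 3 ∨ q ^ 4 ≤ u) : ∃ s t : ℤ, 0 ≤ s ∧ 0 ≤ t ∧ q = s + 3 ∧
    (u = -((s + 3) ^ 3 + t) ∨ u = (s + 3) ^ 4 + t) := by
  obtain ⟨s, rfl⟩ : ∃ s, q = s + 3 := ⟨q - 3, by ring⟩
  rcases hu with h | h
  · exact ⟨s, -u - (s + 3) ^ 3, by omega, by linarith, rfl, .inl (by ring)⟩
  · exact ⟨s, u - (s + 3) ^ 4, by omega, by linarith, rfl, .inr (by ring)⟩

theorem bndA {q u : ℤ} (hq : 3 ≤ q) (hu : u ≤ -q ^ 3 ∨ q ^ 4 ≤ u) :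
    0 < (q ^ 2 * u - 1) * (q * u + 1) ∧
    0 < (q ^ 2 + 1) * ((q ^ 2 * u - 1) * (q * u + 1)) - (q ^ 3 * u + 1) * (q ^ 2 * u - 1) ∧
    0 ≤ 2 * ((q ^ 3 * u + 1) * (q ^ 2 * u - 1)) - (2 * q ^ 2 - 1) * ((q ^ 2 * u - 1) * (q * u + 1)) ∧
    0 ≤ 3 * (q ^ 2 * ((q ^ 3 * u + 1) * (u - 1))) - 2 * q ^ 2 * u ^ 2 * ((q + 1) * (q ^ 2 - 1)) := by
  obtain ⟨s, t, hs, ht, rfl, rfl | rfl⟩ := uc hq hu <;> refine ⟨?_, ?_, ?_, ?_⟩ <;> ring_nf <;> positivity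

theorem bndB {q u : ℤ} (hq : 3 ≤ q) (hu : u ≤ -q ^ 3 ∨ q ^ 4 ≤ u) :
    0 < (q ^ 3 * u + 1) * (u - 1) ∧
    0 < (q ^ 2 + 1) * ((q ^ 3 * u + 1) * (u - 1)) - (q ^ 3 * u + 1) * (q ^ 2 * u - 1) ∧
    0 ≤ 2 * ((q ^ 3 * u + 1) * (q ^ 2 * u - 1)) - (2 * q ^ 2 - 1) * ((q ^ 3 * u + 1) * (u - 1)) ∧
    0 ≤ 3 * (q ^ 3 * ((q ^ 2 * u - 1) * (q * u + 1))) - 2 * q ^ 2 * u ^ 2 * ((q + 1) * (q ^ 2 - 1)) := by
  obtain ⟨s, t, hs, ht, rfl, rfl | rfl⟩ := uc hq hu <;> refine ⟨?_, ?_, ?_, ?_⟩ <;> ring_nf <;> positivity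

theorem bndC {q u : ℤ} (hq : 3 ≤ q) (hu : u ≤ -q ^ 3 ∨ q ^ 4 ≤ u) :
    0 < q ^ 3 * u ^ 2 - q ^ 3 * u + q ^ 2 * u - 1 ∧
    0 < (q ^ 2 + 1) * (q ^ 3 * u ^ 2 - q ^ 3 * u + q ^ 2 * u - 1) - (q ^ 3 * u + 1) * (q ^ 2 * u - 1) ∧
    0 ≤ 2 * ((q ^ 3 * u + 1) * (q ^ 2 * u - 1)) - (2 * q ^ 2 - 1) * (q ^ 3 * u ^ 2 - q ^ 3 * u + q ^ 2 * u - 1) ∧
    0 ≤ (q + 1) * (3 * ((q ^ 3 * u + 1) * (q ^ 2 * u - 1))) - 2 * q ^ 2 * u ^ 2 * ((q + 1) * (q ^ 2 - 1)) := by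
  obtain ⟨s, t, hs, ht, rfl, rfl | rfl⟩ := uc hq hu <;> refine ⟨?_, ?_, ?_, ?_⟩ <;> ring_nf <;> positivity

theorem bndT {q u : ℤ} (hq : 3 ≤ q) (hu : u ≤ -q ^ 3 ∨ q ^ 4 ≤ u) :
    0 ≤ (q + 1) * (q ^ 4 * u ^ 2) - (q ^ 3 * u + 1) * (q ^ 2 * u - 1) := by
  obtain ⟨s, t, hs, ht, rfl, rfl | rfl⟩ := uc hq hu <;> ring_nf <;> positivity

theorem bnd {q u f T ω : ℤ} (hq : 3 ≤ q) (hu : u ≤ -q ^ 3 ∨ q ^ 4 ≤ u)
    (hT : (q + 1) * T = (q ^ 3 * u + 1) * (q ^ 2 * u - 1)) (h : Fa q u f ω ∨ Fb q u f ω ∨ Fc q u f ω) :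
    0 < ω ∧ T < (q ^ 2 + 1) * ω ∧ (2 * q ^ 2 - 1) * ω ≤ 2 * T ∧ 2 * q ^ 2 * u ^ 2 ≤ 3 * f ∧ T ≤ q ^ 4 * u ^ 2 := by
  have p : 0 < q + 1 := by omega
  have d : 0 < (q + 1) * (q ^ 2 - 1) := mul_pos p (by nlinarith)
  have key : ∀ w F : ℤ, (q + 1) * ω = w → 3 * f * ((q + 1) * (q ^ 2 - 1)) = F → 0 < w ∧
      0 < (q ^ 2 + 1) * w - (q ^ 3 * u + 1) * (q ^ 2 * u - 1) ∧
      0 ≤ 2 * ((q ^ 3 * u + 1) * (q ^ 2 * u - 1)) - (2 * q ^ 2 - 1) * w ∧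
      0 ≤ F - 2 * q ^ 2 * u ^ 2 * ((q + 1) * (q ^ 2 - 1)) → 0 < ω ∧ T < (q ^ 2 + 1) * ω ∧
      (2 * q ^ 2 - 1) * ω ≤ 2 * T ∧ 2 * q ^ 2 * u ^ 2 ≤ 3 * f ∧ T ≤ q ^ 4 * u ^ 2 := by
    rintro w F rfl rfl ⟨a, b, c, e⟩
    have g := bndT hq hu
    rw [← hT] at b c g
    exact ⟨pos_of_mul_pos_left' p a, lt_of_mul_lt_mul_left (a := q + 1) (by linarith) p.le,
      le_of_mul_le_mul_left (a := q + 1) (by linarith) p, le_of_mul_le_mul_right (by linarith) d,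
      le_of_mul_le_mul_left (a := q + 1) (by linarith) p⟩
  rcases h with ⟨a, b⟩ | ⟨a, b⟩ | ⟨a, b⟩
  · exact key _ _ b (by linear_combination 3 * a) (bndA hq hu)
  · exact key _ _ b (by linear_combination 3 * a) (bndB hq hu)
  · exact key _ _ b (by linear_combination 3 * (q + 1) * a) (bndC hq hu)

theorem omega_pos {q u f ω : ℤ} (hq : 3 ≤ q) (hu : u ≤ -q ^ 3 ∨ q ^ 4 ≤ u)
    (h : Fa q u f ω ∨ Fb q u f ω ∨ Fc q u f ω) : 0 < ω := by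
  refine pos_of_mul_pos_left' (a := q + 1) (by omega) ?_
  rcases h with ⟨-, b⟩ | ⟨-, b⟩ | ⟨-, b⟩ <;> rw [b]
  exacts [(bndA hq hu).1, (bndB hq hu).1, (bndC hq hu).1]

/-- `q² ∣ f` (`q²` is coprime to `(q + 1)(q² - 1)`), `f' (q² - 1) ≡ -1`, so `f' ≡ 1` and `2 ≡ 0 mod q²`. -/
theorem num_i {q u f ω f' ω' : ℤ} (hq : 3 ≤ q) (h : Fa q u f ω ∨ Fb q u f ω) (h' : Fc q u f' ω')
    (hd : q ^ 2 ∣ 1 + f + f') : False := by
  obtain ⟨c, hc⟩ := hd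
  have : q ^ 2 ∣ 2 * (q + 1) := by
    rcases h with ⟨a, -⟩ | ⟨a, -⟩
    · exact ⟨(q + 1) + (q ^ 3 * u + 1) * (u - 1) + (q + 1) * (q ^ 3 * u ^ 2 - q * u + u) -
        c * ((q + 1) * (q ^ 2 - 1)), by
          linear_combination a + (q + 1) * h'.1 - ((q + 1) * (q ^ 2 - 1)) * hc⟩
    · exact ⟨(q + 1) + q * ((q ^ 2 * u - 1) * (q * u + 1)) + (q + 1) * (q ^ 3 * u ^ 2 - q * u + u) -
        c * ((q + 1) * (q ^ 2 - 1)), by
          linear_combination a + (q + 1) * h'.1 - ((q + 1) * (q ^ 2 - 1)) * hc⟩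
  have := Int.le_of_dvd (by omega) this
  nlinarith

theorem qf {q : ℤ} (hq : 3 ≤ q) : 0 ≤ q ^ 2 - 9 ∧ 0 ≤ q ^ 3 - 27 ∧ 0 < q ^ 6 - (q ^ 4 - 1) * (q + 1) ∧
    0 ≤ q ^ 2 * (q - 1) - 2 ∧ 0 ≤ q ^ 4 - 1 := by
  obtain ⟨t, rfl⟩ : ∃ t, q = t + 3 := ⟨q - 3, by ring⟩
  have ht : 0 ≤ t := by omega
  refine ⟨?_, ?_, ?_, ?_, ?_⟩ <;> ring_nf <;> positivity

theorem core_p {x f T ω S w : ℤ} (hx : 9 ≤ x) (hω : 0 < ω) (h1 : f * (T - S * ω) * ω ≤ T ^ 2 * (S - 1))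
    (h2 : S * ω < T) (h3 : T < (x + 1) * ω) (h4 : (2 * x - 1) * ω ≤ 2 * T) (h5 : 2 * x * w ≤ 3 * f)
    (h6 : x ^ 3 ≤ w) (hS : 0 < S) : S = x ∧ f * (T - x * ω) ≤ T * (x ^ 2 - 1) := by
  have t0 : 0 < T := (mul_pos hS hω).trans h2
  have a : S < x + 1 := lt_of_mul_lt_mul_right (h2.trans h3) hω.le
  have x3 : 0 < x ^ 3 := by positivity
  have f0 : 2 * x ^ 4 ≤ 3 * f := by nlinarith
  have x4 : 9 * x ^ 3 ≤ x ^ 4 := by nlinarith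
  have e : S = x := by
    by_contra n
    have b : S ≤ x - 1 := by omega
    have c : ω ≤ 2 * (T - S * ω) := by nlinarith
    have d : T ^ 2 ≤ ((x + 1) * ω) ^ 2 := pow_le_pow_left₀ t0.le h3.le 2
    have g : T ^ 2 * (S - 1) ≤ ((x + 1) * ω) ^ 2 * (x - 2) :=
      mul_le_mul d (by omega) (by omega) (by positivity)
    have i : 2 * x ^ 4 * ω * ω ≤ 3 * f * (2 * (T - S * ω)) * ω :=
      mul_le_mul_of_nonneg_right (mul_le_mul f0 c hω.le (by linarith)) hω.le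
    have j : 0 < (2 * x ^ 4 - 6 * ((x + 1) ^ 2 * (x - 2))) * (ω * ω) := mul_pos (by nlinarith) (mul_pos hω hω)
    nlinarith
  subst e
  refine ⟨rfl, le_of_mul_le_mul_right (h1.trans ?_) hω⟩
  have : T * (S - 1) * T ≤ T * (S - 1) * ((S + 1) * ω) :=
    mul_le_mul_of_nonneg_left h3.le (mul_nonneg t0.le (by omega))
  linarith

theorem core_c {f k r S n T ω x w : ℝ} (hr : 0 < r) (hS : 0 < S) (hk : r * S < k) (h1 : f * r ≤ S * n)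
    (h2 : f * r ≤ k * S * (k + S)) (h3 : k * ω ≤ r * (T - n)) (h4 : T ≤ (x + 1) * ω) (hn : 0 ≤ n) (hω : 0 < ω)
    (hx : 9 ≤ x) (hT : T ≤ x ^ 2 * w) (hf : 2 * x * w ≤ 3 * f) (hw : x ^ 4 ≤ w) : False := by
  obtain ⟨a, rfl⟩ : ∃ a, k = r * a := ⟨k / r, by field_simp⟩
  have sa : S ≤ a := (lt_of_mul_lt_mul_left hk hr.le).le
  have a0 : 0 < a := hS.trans_le sa
  have x0 : 0 < x := by linarith
  have w0 : 0 < w := lt_of_lt_of_le (by positivity) hw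
  have f0 : 0 < f := by nlinarith [mul_pos x0 w0]
  have b : f ≤ a * S * (r * a + S) := le_of_mul_le_mul_left (by linarith) hr
  have c : a * ω ≤ T - n := le_of_mul_le_mul_left (by linarith) hr
  have t0 : 0 < T := by nlinarith [mul_pos a0 hω]
  have d : a * T ≤ (x + 1) * (T - n) := by
    nlinarith [mul_le_mul_of_nonneg_left h4 a0.le, mul_le_mul_of_nonneg_left c (by linarith : 0 ≤ x + 1)]
  have ay : a ≤ x + 1 := le_of_mul_le_mul_right (by nlinarith) t0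
  have an : 4 * (a * n) ≤ (x + 1) * T := le_of_mul_le_mul_right (by
    nlinarith [mul_le_mul_of_nonneg_right d hn, mul_nonneg (by linarith : 0 ≤ x + 1) (sq_nonneg (T - 2 * n))]) t0
  have s2 : S ^ 2 ≤ a ^ 2 := pow_le_pow_left₀ hS.le sa 2
  have a3 : a ^ 3 ≤ (10 / 9 * x) ^ 3 := pow_le_pow_left₀ a0.le (by linarith) 3
  have e : f * f ≤ a ^ 3 * (a * n + f) := by
    have e1 : f * f ≤ f * (a * S * (r * a + S)) := mul_le_mul_of_nonneg_left b f0.le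
    have e2 : a ^ 2 * S * (f * r) ≤ a ^ 2 * S * (S * n) := mul_le_mul_of_nonneg_left h1 (by positivity)
    have e3 : S ^ 2 * (a ^ 2 * n + a * f) ≤ a ^ 2 * (a ^ 2 * n + a * f) :=
      mul_le_mul_of_nonneg_right s2 (by positivity)
    linarith
  have g : 4 * (a * n) ≤ 10 / 9 * x * (x ^ 2 * w) :=
    an.trans (mul_le_mul (by linarith) hT t0.le (by positivity))
  have i : f * f ≤ (10 / 9 * x) ^ 3 * (10 / 9 * x * (x ^ 2 * w) / 4 + f) :=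
    e.trans (mul_le_mul a3 (by linarith) (by positivity) (by positivity))
  have j : x ^ 2 * w * x ^ 4 ≤ x ^ 2 * w * w := mul_le_mul_of_nonneg_left hw (by positivity)
  have l : (2 * x * w) ^ 2 ≤ (3 * f) ^ 2 := pow_le_pow_left₀ (by positivity) hf 2
  have m : 54 * x ^ 3 ≤ f := by
    have m1 : 81 * x ^ 3 ≤ x ^ 2 * x ^ 3 := mul_le_mul_of_nonneg_right (by nlinarith) (by positivity)
    have m2 : x * x ^ 4 ≤ x * w := mul_le_mul_of_nonneg_left hw x0.le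
    linarith
  have o : 54 * x ^ 3 * f ≤ f * f := mul_le_mul_of_nonneg_right m f0.le
  have := mul_pos f0 f0
  linarith

/-- Proper adjacency: `c₁ k = T`, `c₁ r = ω`, so `k / r = ρ = A / A'` with
`Fa`: `A / A' = (q³u + 1) / (q u + 1)`, `Fb`: `(q²u - 1) / (u - 1)`, `Fc`: `(q+1) T / ((q+1) ω)`.
`μ = r (ρ - S) > 0`, and `Srg.key` gives `f (ρ - S) (r + S) = ρ (S - 1) (ρ r + S) ≤ ρ² (S - 1) (r + S)`, i.e.
`f (T - S ω) ω ≤ T² (S - 1)` with `S ω < T < (q² + 1) ω`, `S ≤ q²`.  For `S ≤ q² - 1`: `ρ - S ≥ 1/2` and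
`f ≥ (2/3) q² u² ≥ (2/3) q⁸`, too large against `ρ² (S - 1) < (q² + 1)² q²` (use `ρ - S ≥ ρ - q² + 1` more
precisely if needed).  `S = q²` needs `ρ > q²`: `Fa` with `u < 0`: `ρ - q² = (q² - 1) / (-q u - 1)`,
`f (ρ - q²) ≈ q³ |u|`, fine for `u ≤ -q⁵`; for `u = -q³`: `r = μ (q² + 1)`, `k = μ (q⁴ + q² + 1)`,
`f = q² (q⁴ + q² + 1)(q² - q + 1)`, and `Srg.key` becomes `μ (q⁵ - 2q⁴ + q³ - q² - 1) = q⁶ - q⁵ + q²`, so `q² ∣ μ`,
`μ ≥ q²`, impossible.  `Fb` with `u > 0`: `ρ - q² = (q² - 1) / (u - 1)`, `f (ρ - q²) ≈ q⁵ u`.  `Fc` with `u > 0`: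
`ρ - q² ≈ q² / u`, `f ≈ q³ u²`. -/
theorem num_p {q u N f T ω : ℤ} (hq : 3 ≤ q) (hu : u = -q ^ 3 ∨ u ≤ -q ^ 5 ∨ q ^ 4 ≤ u)
    (hT : (q + 1) * T = (q ^ 3 * u + 1) * (q ^ 2 * u - 1)) (h : Fa q u f ω ∨ Fb q u f ω ∨ Fc q u f ω)
    (k : Kn N f T ω 0) : False := by
  obtain ⟨z2, z3, big, z4, z5⟩ := qf hq
  obtain ⟨k, r, S, μ, c, s, -, c0, e1, e2⟩ := k
  have q3 : q ^ 3 ≤ q ^ 5 := pow_le_pow_right₀ (by omega) (by norm_num)
  have hu' : u ≤ -q ^ 3 ∨ q ^ 4 ≤ u := by omega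
  obtain ⟨b1, b2, b3, b4, -⟩ := bnd hq hu' hT h
  have key := s.key
  have hk := s.ek
  have hs := s.s0
  have m : T - S * ω = c * μ := by linear_combination c * hk - e1 + S * e2
  have m0 : 0 < T - S * ω := m ▸ mul_pos c0 s.m0
  have u2 : (q ^ 2) ^ 3 ≤ u ^ 2 := by
    have q4 : q ^ 3 ≤ q ^ 4 := pow_le_pow_right₀ (by omega) (by norm_num)
    have p : 0 < q ^ 3 := by positivity
    rcases hu' with a | a <;> nlinarith
  have cs := mul_pos c0 hs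
  have oT : ω ≤ T := by linarith [mul_nonneg (by omega : 0 ≤ S - 1) b1.le]
  have h1 : f * (T - S * ω) * ω ≤ T ^ 2 * (S - 1) := by
    have i : f * (T - S * ω) * (ω + c * S) = T * (S - 1) * (T + c * S) := by
      rw [m, ← e1, ← e2]; linear_combination c ^ 2 * key
    refine le_of_mul_le_mul_right (a := ω + c * S) ?_ (by linarith)
    have j : T * (S - 1) * (c * S) * ω ≤ T * (S - 1) * (c * S) * T :=
      mul_le_mul_of_nonneg_left oT (mul_nonneg (mul_nonneg (by linarith) (by omega)) cs.le)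
    linear_combination ω * i.le + j
  obtain ⟨rfl, g⟩ := core_p (by linarith) b1 h1 (by linarith) b2 b3 b4 u2 hs
  have t0 : 0 < T := by linarith
  have p : 0 < q + 1 := by omega
  have x1 : 0 < q ^ 2 - 1 := by linarith
  have q6 : q ^ 6 ≤ q ^ 7 := pow_le_pow_right₀ (by omega) (by norm_num)
  rcases h with ⟨a, b⟩ | ⟨a, b⟩ | ⟨a, b⟩
  · have i : (q + 1) * (T - q ^ 2 * ω) = (1 - q ^ 2 * u) * (q ^ 2 - 1) := by linear_combination hT - q ^ 2 * b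
    have j : q ^ 2 * (1 - u) ≤ (q ^ 4 - 1) * (q + 1) := by
      refine le_of_mul_le_mul_left (a := (q + 1) * T) ?_ (mul_pos p t0)
      have := mul_le_mul_of_nonneg_left g (mul_pos p p).le
      linear_combination this - (q + 1) * f * i + (q ^ 2 * u - 1) * a - q ^ 2 * (u - 1) * hT
    have l : 0 < 1 - q ^ 2 * u := pos_of_mul_pos_left' x1 (by rw [mul_comm, ← i]; exact mul_pos p m0)
    rcases hu with rfl | n | n
    · have hr : r = μ * (q ^ 2 + 1) := by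
        refine mul_left_cancel₀ (a := c * ((q + 1) * (q ^ 2 - 1))) (mul_pos c0 (mul_pos p x1)).ne' ?_
        linear_combination (q + 1) * (q ^ 2 - 1) * e2 + (q ^ 2 - 1) * b + (q ^ 2 - 1) * (q ^ 2 + 1) * (q + 1) * m -
          (q ^ 2 - 1) * (q ^ 2 + 1) * i
      have hf : f = q ^ 2 * (q ^ 4 + q ^ 2 + 1) * (q ^ 2 - q + 1) :=
        mul_right_cancel₀ (mul_pos p x1).ne' (by linear_combination a)
      have hm := s.m0
      subst hk hr hf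
      have z : μ * (q ^ 5 - 2 * q ^ 4 + q ^ 3 - q ^ 2 - 1) = q ^ 6 - q ^ 5 + q ^ 2 := by
        refine mul_left_cancel₀ (a := μ * (q ^ 4 + q ^ 2 + 1)) (by positivity) ?_
        linear_combination -key
      have y : q ^ 2 ≤ μ := Int.le_of_dvd hm ⟨μ * (q ^ 3 - 2 * q ^ 2 + q - 1) - q ^ 4 + q ^ 3 - 1, by
        linear_combination -z⟩
      obtain ⟨t, rfl⟩ : ∃ t, q = t + 3 := ⟨q - 3, by ring⟩
      have ht : 0 ≤ t := by omega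
      have y1 : 0 ≤ (t + 3) ^ 5 - 2 * (t + 3) ^ 4 + (t + 3) ^ 3 - (t + 3) ^ 2 - 1 := by ring_nf; positivity
      have y2 : 0 < (t + 3) ^ 2 * ((t + 3) ^ 5 - 2 * (t + 3) ^ 4 + (t + 3) ^ 3 - (t + 3) ^ 2 - 1) -
        ((t + 3) ^ 6 - (t + 3) ^ 5 + (t + 3) ^ 2) := by ring_nf; positivity
      have := mul_le_mul_of_nonneg_right y y1
      linarith
    · have := mul_le_mul_of_nonneg_left n (by linarith : 0 ≤ q ^ 2)
      linarith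
    · have := mul_le_mul (by linarith : 9 ≤ q ^ 2) (by linarith : 1 ≤ u) zero_le_one (by linarith)
      linarith
  · have i : (q + 1) * (T - q ^ 2 * ω) = (q ^ 3 * u + 1) * (q ^ 2 - 1) := by linear_combination hT - q ^ 2 * b
    have j : q ^ 3 * (q * u + 1) ≤ (q ^ 4 - 1) * (q + 1) := by
      refine le_of_mul_le_mul_left (a := (q + 1) * T) ?_ (mul_pos p t0)
      have := mul_le_mul_of_nonneg_left g (mul_pos p p).le
      linear_combination this - (q + 1) * f * i - (q ^ 3 * u + 1) * a + q ^ 3 * (q * u + 1) * hT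
    have l : 0 < q ^ 3 * u + 1 := pos_of_mul_pos_left' x1 (by rw [mul_comm, ← i]; exact mul_pos p m0)
    rcases hu' with n | n
    · have := mul_le_mul (by linarith : 27 ≤ q ^ 3) (by linarith : 1 ≤ -u) zero_le_one (by linarith)
      linarith
    · have := mul_le_mul_of_nonneg_left n (by positivity : 0 ≤ q ^ 4)
      have q8 : q ^ 6 ≤ q ^ 8 := pow_le_pow_right₀ (by omega) (by norm_num)
      linarith
  · have i : (q + 1) * (T - q ^ 2 * ω) = (q ^ 2 * (q - 1) * u + 1) * (q ^ 2 - 1) := by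
      linear_combination hT - q ^ 2 * b
    have j : q ^ 2 * (q - 1) * u + 1 ≤ q ^ 4 - 1 := by
      refine le_of_mul_le_mul_left (a := (q + 1) * T) ?_ (mul_pos p t0)
      have := mul_le_mul_of_nonneg_left g p.le
      linear_combination this - f * i - (q ^ 2 * (q - 1) * u + 1) * a + (q ^ 2 * (q - 1) * u + 1) * hT
    have l : 0 < q ^ 2 * (q - 1) * u + 1 := pos_of_mul_pos_left' x1 (by rw [mul_comm, ← i]; exact mul_pos p m0)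
    rcases hu' with n | n
    · have := mul_le_mul (by linarith : 2 ≤ q ^ 2 * (q - 1)) (by linarith : 1 ≤ -u) zero_le_one (by linarith)
      linarith
    · have := mul_le_mul (by linarith : 2 ≤ q ^ 2 * (q - 1)) n (by linarith) (by linarith)
      linarith

/-- Complete adjacency, `n ≥ 7`.  `(c₁ - c₂) k = T - c₂ (N - 1)`, `(c₁ - c₂) r = ω + c₂ > ω`, so
`ρ₁ = k / r < ρ (1 - x)` with `ρ = T / ω < q² + 1`, `x = (N - 1) / T`.  `S < ρ₁` (`μ > 0`), `f r < S (N - 1)` (`ef`),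
`f r < k S (k + S)` (`Srg.key`, `μ ≥ 1`), hence `f < ρ₁ S (ρ₁ r + S)`, `f² < ρ₁⁴ (N - 1) + ρ₁³ f`, and
`ρ₁⁴ (N - 1) ≤ ρ⁴ x (1 - x) T ≤ ρ⁴ T / 4`.  With `3 f ≥ 2 q² u²`, `T < q⁴ u²`, `u² ≥ q⁸`, `9 (q² + 1) ≤ 10 q²` this fails
(`4/9 > (10/9)⁴ / 4 + small`).  Work in `ℚ` or `ℝ`. -/
theorem num_c {q u N f T ω c₂ : ℤ} (hq : 3 ≤ q) (hu : u ≤ -q ^ 5 ∨ q ^ 4 ≤ u)
    (hT : (q + 1) * T = (q ^ 3 * u + 1) * (q ^ 2 * u - 1)) (h : Fa q u f ω ∨ Fb q u f ω ∨ Fc q u f ω)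
    (k : Kn N f T ω c₂) (h1 : 1 ≤ c₂) : False := by
  have le := k.le h1
  obtain ⟨k, r, S, μ, c, s, -, c0, e1, e2⟩ := k
  have q3 : q ^ 3 ≤ q ^ 5 := pow_le_pow_right₀ (by omega) (by norm_num)
  obtain ⟨b1, b2, -, b4, b5⟩ := bnd hq (by omega) hT h
  have u2 : (q ^ 2) ^ 4 ≤ u ^ 2 := by
    have q4 : q ^ 4 ≤ q ^ 5 := pow_le_pow_right₀ (by omega) (by norm_num)
    have p : 0 < q ^ 4 := by positivity
    rcases hu with a | a <;> nlinarith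
  have k0 := s.k0
  have kN := s.kN
  have hs := s.s0
  have hr := s.r0
  have hm := s.m0
  have f0 : 0 ≤ f := by nlinarith [sq_nonneg (q * u)]
  have fs := mul_nonneg f0 hs.le
  have a1 : f * r ≤ S * (N - 1) := by linarith [s.ef]
  have a2 : f * r ≤ k * S * (k + S) := by
    have := mul_nonneg (mul_nonneg f0 (by linarith : 0 ≤ r + S)) (by omega : 0 ≤ μ - 1)
    have := mul_nonneg k0.le (by linarith : 0 ≤ k + S)
    linarith [s.key]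
  have a3 : k * ω ≤ r * (T - (N - 1)) := by
    refine le_of_mul_le_mul_left (a := c - c₂) ?_ (by omega)
    have i := mul_nonneg (mul_nonneg (by omega : 0 ≤ c₂ - 1) (by omega : 0 ≤ N - 1)) b1.le
    have j := mul_nonneg (by omega : 0 ≤ c₂) (by omega : 0 ≤ T - (N - 1))
    linear_combination i + j + ω * e1.le - (T - (N - 1)) * e2
  refine core_c (f := f) (k := k) (r := r) (S := S) (n := N - 1) (T := T) (ω := ω) (x := q ^ 2) (w := u ^ 2)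
    (by exact_mod_cast hr) (by exact_mod_cast hs) ?_ (by exact_mod_cast a1) (by exact_mod_cast a2)
    (by exact_mod_cast a3) (by exact_mod_cast b2.le) ?_ (by exact_mod_cast b1) ?_ ?_ (by exact_mod_cast b4)
    (by exact_mod_cast u2)
  · exact_mod_cast (by linarith [s.ek] : r * S < k)
  · exact_mod_cast (by omega : 0 ≤ N - 1)
  · exact_mod_cast (by nlinarith : 9 ≤ q ^ 2)
  · exact_mod_cast (by linarith : T ≤ (q ^ 2) ^ 2 * u ^ 2)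

/-- `n = 6`: `T = (q - 1)(q⁴ + q² + 1)(q⁵ + 1)`. -/
theorem num_6 {q N T : ℤ} (hq : 3 ≤ q) (hT : (q + 1) * T = (q ^ 3 * -q ^ 3 + 1) * (q ^ 2 * -q ^ 3 - 1))
    (h1 : N - 1 ≤ T) (h2 : q ^ 10 ≤ N + q ^ 8) : False := by
  obtain ⟨s, rfl⟩ : ∃ s, q = s + 3 := ⟨q - 3, by ring⟩
  have hs : 0 ≤ s := by omega
  have a : 0 < (s + 3 + 1) * ((s + 3) ^ 10 - (s + 3) ^ 8 - 1) -
      ((s + 3) ^ 3 * -(s + 3) ^ 3 + 1) * ((s + 3) ^ 2 * -(s + 3) ^ 3 - 1) := by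
    ring_nf; positivity
  rw [← hT] at a
  have b : (s + 3 + 1) * ((s + 3) ^ 10 - (s + 3) ^ 8 - 1) ≤ (s + 3 + 1) * T :=
    mul_le_mul_of_nonneg_left (by linarith) (by omega)
  linarith

end Cfsg.Lib.R3U
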