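import Cfsg.Agent.Lib.R3U.Idm

/-! S2196: a known constituent gives the parameters of the rank 3 graph (abstract). -/

set_option autoImplicit false

namespace Cfsg.Lib.R3U

open Cfsg.Lib.R3S MulAction Matrix

section aux
variable {W Y Z : Type*} [Fintype Y]

theorem km_mul_jc {M : Matrix W Y ℂ} {o : ℂ} (h : ∀ x, ∑ y, M x y = o) (Z : Type*) :
    M * jc Y Z = o • jc W Z := by
  ext x z; simp [mul_apply, jc, h]

theorem km_jc_mul {M : Matrix Y W ℂ} {o : ℂ} (h : ∀ x, ∑ y, M y x = o) (Z : Type*) :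
    jc Z Y * M = o • jc Z W := by
  ext x z; simp [mul_apply, jc, h]

theorem km_rs {M : Matrix W Y ℂ} {o : ℂ} (h : M * jc Y Z = o • jc W Z) (z : Z) (x : W) : ∑ y, M x y = o := by
  simpa [mul_apply, jc] using congrFun (congrFun h x) z

theorem km_jj (W Z : Type*) : jc W Y * jc Y Z = (Fintype.card Y : ℂ) • jc W Z :=
  km_mul_jc (fun _ => by simp [jc]) Z

theorem km_smul_jc {a : ℂ} (h : a • jc W Z = 0) (w : W) (z : Z) : a = 0 := by
  simpa [jc] using congrFun (congrFun h w) z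

theorem km_trace_jc : (jc Y Y).trace = Fintype.card Y := by simp [Matrix.trace, jc]

variable {G : Type*} [Group G] [MulAction G W] [MulAction G Y] [MulAction G Z]

theorem km_iv_mul {M : Matrix W Y ℂ} {N : Matrix Y Z ℂ} (a : ∀ (g : G) x y, M (g • x) (g • y) = M x y)
    (b : ∀ (g : G) x y, N (g • x) (g • y) = N x y) (g : G) (x : W) (z : Z) :
    (M * N) (g • x) (g • z) = (M * N) x z := by
  rw [mul_apply, mul_apply, ← Equiv.sum_comp (MulAction.toPerm g)]
  exact Finset.sum_congr rfl fun y _ => by rw [toPerm_apply, a, b]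

omit [Fintype Y] in
theorem km_iv_rc {R : W → Y → Prop} (h : ∀ (g : G) x y, R x y → R (g • x) (g • y)) (g : G) (x : W) (y : Y) :
    rc R (g • x) (g • y) = rc R x y := by
  have : R (g • x) (g • y) ↔ R x y := ⟨fun e => by simpa using h g⁻¹ _ _ e, h g x y⟩
  simp only [rc, of_apply]
  rw [propext this]

theorem km_iv_rs {M : Matrix W Y ℂ} (a : ∀ (g : G) x y, M (g • x) (g • y) = M x y)
    (tr : ∀ x y : W, ∃ g : G, g • x = y) (x x' : W) : ∑ y, M x' y = ∑ y, M x y := by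
  obtain ⟨g, rfl⟩ := tr x x'
  rw [← Equiv.sum_comp (MulAction.toPerm g)]
  exact Finset.sum_congr rfl fun y _ => a g x y

variable {E : Y → Y → Prop}

theorem km_trace_rc (h : R3G G Y E) : (rc E).trace = 0 := by simp [Matrix.trace, rc, h.irr]

theorem km_ja (h : R3G G Y E) {k : ℂ} (e : rc E * jc Y Y = k • jc Y Y) (Z : Type*) :
    jc Z Y * rc E = k • jc Z Y := by
  refine km_jc_mul (fun y => ?_) Z
  rw [← km_rs e y y]
  refine Finset.sum_congr rfl fun z _ => ?_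
  simp only [rc, of_apply]
  rw [propext (⟨h.symm z y, h.symm y z⟩ : E z y ↔ E y z)]

theorem km_aj (h : R3G G Y E) : ∃ k : ℂ, rc E * jc Y Y = k • jc Y Y := by
  obtain ⟨u, -⟩ := h.ex1
  exact ⟨_, km_mul_jc (km_iv_rs (km_iv_rc h.inv) h.tr u) Y⟩

end aux

variable {G X : Type*} [Group G] [MulAction G X] [Fintype X] [DecidableEq X] {E : X → X → Prop}

theorem km_ju (h : R3G G X E) {U : Matrix X X ℂ} {f : ℤ} (hU : Idm G U f) : jc X X * U = 0 := by
  obtain ⟨a, b, c, e⟩ := span_c h U hU.inv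
  obtain ⟨k, hk⟩ := km_aj h
  have := hU.uj
  rw [e] at this ⊢
  simpa only [Matrix.add_mul, Matrix.mul_add, Matrix.smul_mul, Matrix.mul_smul, Matrix.one_mul, Matrix.mul_one, hk,
    km_ja h hk] using this

theorem km_srg (h : R3G G X E) (c : Cn E) :
    ∃ κ l μ : ℕ, 0 < μ ∧ μ ≤ κ ∧ κ ≤ Fintype.card X ∧ rc E * jc X X = (κ : ℂ) • jc X X ∧
      rc E * rc E = ((κ : ℂ) - μ) • (1 : Matrix X X ℂ) + ((l : ℂ) - μ) • rc E + (μ : ℂ) • jc X X := by
  obtain ⟨κ, l, μ, a, b, aJ, aA⟩ := h.srg c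
  obtain ⟨x, -⟩ := h.ex1
  have e1 : ∀ u v, rc E u v = ((rm E u v : ℚ) : ℂ) := fun u v => by
    simp only [rc, rm, of_apply]; split_ifs <;> simp
  refine ⟨κ, l, μ, a, b, ?_, ?_, ?_⟩
  · have : (κ : ℚ) ≤ ∑ _y : X, (1 : ℚ) := by
      rw [← rs_of aJ x x]
      exact Finset.sum_le_sum fun y _ => by simp only [rm, of_apply]; split_ifs <;> norm_num
    simpa using this
  · refine km_mul_jc (fun u => ?_) X
    simp only [e1]
    exact_mod_cast congrArg (fun t : ℚ => (t : ℂ)) (rs_of aJ x u)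
  · ext u v
    have := congrArg (fun t : ℚ => (t : ℂ)) (congrFun (congrFun aA u) v)
    simp only [mul_apply, Matrix.add_apply, Matrix.smul_apply, smul_eq_mul, jm, jc, of_apply, Matrix.one_apply,
      e1] at this ⊢
    split_ifs at this ⊢ <;> exact_mod_cast this

/-- `M = c₁ A + c₂ (J - 1 - A)`, `c₁ > c₂`.  `R3G.srg` (cast from `ℚ`, `rc E = (rm E).map (↑)`) gives `k, λ, μ`,
`μ > 0`, `A² = (k - μ) + (λ - μ) A + μ J`, `A J = k J`, so `k² = k - μ + (λ - μ) k + μ N`.  From `M U = ω U`,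
`J U = 0` (invariant matrices commute): `A U = r U`, `r = (ω + c₂) / (c₁ - c₂) > 0` rational with
`r² = (λ - μ) r + (k - μ)`, an integer (`int_of_quad`); put `S = r - (λ - μ)`, so `r S = k - μ ≥ 0`; `S = 0` would give
`k = μ`, `λ - μ = r > 0`, `λ > k` impossible (or: `N μ = (k - r) k`, `N = k - r < k`), so `S > 0`.
`U = a + b A + c J` (`span_c`) with `A U = r U`, `U J = 0` forces (`indep_c`) `U = b (A + S - ((k + S) / N) J)`;
`U² = y U` gives `y = b (r + S)`, the trace gives `y f = b (S N - (k + S))`. -/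
theorem km_lt (h : R3G G X E) (c : Cn E) {U : Matrix X X ℂ} {f ω c₁ c₂ : ℤ} (hU : Idm G U f) (h0 : 0 ≤ c₂)
    (h1 : c₂ < c₁) (hω : 0 < ω)
    (e : ((c₁ : ℂ) • rc E + (c₂ : ℂ) • (jc X X - 1 - rc E)) * U = (ω : ℂ) • U) :
    ∃ k r S μ : ℤ, Srg (Fintype.card X) f k r S μ ∧ rc E * jc X X = (k : ℂ) • jc X X ∧
      c₁ * r - c₂ * (r + 1) = ω := by
  obtain ⟨κ, l, μ, μ0, μκ, κN, aJ, aA⟩ := km_srg h c
  obtain ⟨x, -⟩ := h.ex1
  have jU := km_ju h hU
  have can : ∀ {a : ℂ}, a • U = 0 → a = 0 := fun e => (smul_eq_zero.1 e).resolve_right hU.ne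
  have d0 : ((c₁ : ℚ) - c₂) ≠ 0 := sub_ne_zero.2 (by exact_mod_cast h1.ne')
  obtain ⟨r, hr⟩ : ∃ r : ℚ, ((c₁ : ℚ) - c₂) * r = ω + c₂ := ⟨_, mul_div_cancel₀ _ d0⟩
  have hr' : ((c₁ : ℂ) - c₂) * r = ω + c₂ := by exact_mod_cast congrArg (fun t : ℚ => (t : ℂ)) hr
  have d0' : ((c₁ : ℂ) - c₂) ≠ 0 := sub_ne_zero.2 (by exact_mod_cast h1.ne')
  simp only [Matrix.add_mul, Matrix.sub_mul, Matrix.smul_mul, Matrix.one_mul, jU] at e
  have h7 : rc E * U = (r : ℂ) • U := smul_right_injective _ d0' (by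
    simp only [smul_smul, hr']; linear_combination (norm := module) e)
  have h3 : rc E * (rc E * U) = ((κ : ℂ) - μ) • U + ((l : ℂ) - μ) • (rc E * U) := by
    rw [← Matrix.mul_assoc, aA]; simp [Matrix.add_mul, jU]
  rw [h7, Matrix.mul_smul, h7] at h3
  have h4 := can (a := (r : ℂ) ^ 2 - ((l - μ) * r + (κ - μ))) (by linear_combination (norm := module) h3)
  obtain ⟨t, rfl⟩ := int_of_quad (r := r) (a := (l : ℤ) - μ) (b := (κ : ℤ) - μ) (by
    have : ((r ^ 2 : ℚ) : ℂ) = ((((l : ℤ) - μ : ℤ) * r + ((κ : ℤ) - μ : ℤ) : ℚ) : ℂ) := by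
      push_cast; linear_combination h4
    exact_mod_cast this)
  have hz : (c₁ - c₂) * t = ω + c₂ := by exact_mod_cast hr
  have t0 : 0 < t := (mul_pos_iff_of_pos_left (sub_pos.2 h1)).1 (by rw [hz]; omega)
  simp only [Rat.cast_intCast] at h4 h7
  obtain ⟨S, hS⟩ : ∃ S : ℤ, S = t - (l - μ) := ⟨_, rfl⟩
  have h5 : t ^ 2 - ((l - μ) * t + (κ - μ)) = 0 := by exact_mod_cast h4
  have rS : t * S = κ - μ := by rw [hS]; linear_combination h5
  have h9 : (κ : ℤ) ^ 2 - (κ - μ + (l - μ) * κ + μ * Fintype.card X) = 0 := by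
    have := congrArg (· * jc X X) aA
    simp only [Matrix.mul_assoc, Matrix.add_mul, Matrix.smul_mul, Matrix.one_mul, aJ, Matrix.mul_smul, km_jj] at this
    have := km_smul_jc (a := (κ : ℂ) ^ 2 - (κ - μ + (l - μ) * κ + μ * Fintype.card X))
      (by linear_combination (norm := module) this) x x
    exact Int.cast_injective (α := ℂ) (by push_cast; exact this)
  have eN : (Fintype.card X : ℤ) * μ = (κ - t) * (κ + S) := by
    linear_combination -h9 - κ * hS + rS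
  have μ0' : (0 : ℤ) < μ := by exact_mod_cast μ0
  have S0 : 0 < S := by
    have a : (μ : ℤ) ≤ κ := by exact_mod_cast μκ
    have b : (κ : ℤ) ≤ Fintype.card X := by exact_mod_cast κN
    refine lt_of_le_of_ne (nonneg_of_mul_nonneg_right (by linarith) t0) fun z => ?_
    rw [← z] at rS eN
    have : (κ : ℤ) = μ := by linarith
    rw [this] at eN b
    nlinarith
  refine ⟨κ, t, S, μ, ⟨t0, S0, μ0', by linarith, eN, ?_⟩, by simpa using aJ, by linarith⟩
  obtain ⟨y, y0, hy, tr⟩ := hU.sq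
  obtain ⟨a, b, c, hP⟩ := span_c h U hU.inv
  have q1 : U * U = (a + b * t) • U := by
    nth_rw 1 [hP]
    simp only [Matrix.add_mul, Matrix.smul_mul, Matrix.one_mul, h7, jU]; module
  have q2 := can (a := y - (a + b * t)) (by linear_combination (norm := module) q1 - hy)
  have p4 := hU.uj
  rw [hP] at h7 p4 tr
  simp only [Matrix.mul_add, Matrix.mul_smul, Matrix.mul_one, aA, aJ] at h7
  have p2 := (indep_c h (a := b * (κ - μ) - t * a) (b := a + b * (l - μ) - t * b) (c := b * μ + c * κ - t * c)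
    (by linear_combination (norm := module) h7)).2.1
  simp only [Matrix.add_mul, Matrix.smul_mul, Matrix.one_mul, aJ, km_jj] at p4
  have p5 := km_smul_jc (a := a + b * κ + c * Fintype.card X) (by linear_combination (norm := module) p4) x x
  simp only [trace_add, trace_smul, trace_one, km_trace_rc h, km_trace_jc, smul_eq_mul] at tr
  have hS' : (S : ℂ) = t - (l - μ) := by exact_mod_cast congrArg (fun t : ℤ => (t : ℂ)) hS
  have p3 : a = b * S := by rw [hS']; linear_combination p2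
  have b0 : b ≠ 0 := fun z => y0 (by rw [p3, z] at q2; simpa using q2)
  have : (f : ℂ) * (t + S) = S * (Fintype.card X - 1) - κ := mul_left_cancel₀ b0 (by
    linear_combination -tr - f * q2 - f * p3 + p5 + (Fintype.card X - 1) * p3)
  exact_mod_cast this

theorem km_aux (h : R3G G X E) (c : Cn E) {U M : Matrix X X ℂ} {f ω T c₁ c₂ : ℤ} (hU : Idm G U f) (h0 : 0 ≤ c₂)
    (h1 : c₂ < c₁) (hω : 0 < ω) (hM : M = (c₁ : ℂ) • rc E + (c₂ : ℂ) • (jc X X - 1 - rc E))
    (hT : M * jc X X = (T : ℂ) • jc X X) (e : M * U = (ω : ℂ) • U) : Kn (Fintype.card X) f T ω c₂ := by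
  subst hM
  obtain ⟨k, r, S, μ, a, b, d⟩ := km_lt h c hU h0 h1 hω e
  obtain ⟨x, -⟩ := h.ex1
  simp only [Matrix.add_mul, Matrix.sub_mul, Matrix.smul_mul, Matrix.one_mul, b, km_jj] at hT
  have := km_smul_jc (a := (c₁ : ℂ) * k + c₂ * (Fintype.card X - 1 - k) - T)
    (by linear_combination (norm := module) hT) x x
  exact ⟨k, r, S, μ, c₁, a, h0, h1, sub_eq_zero.1 (by exact_mod_cast this), d⟩

omit [Fintype X] in
theorem km_rc_co (h : R3G G X E) : rc (Co E) = jc X X - 1 - rc E := by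
  ext x y
  by_cases a : x = y
  · simp [rc, jc, Co, a, h.irr]
  · by_cases b : E x y <;> simp [rc, jc, Co, a, b]

/-- `M` is constant on `E` (value `c₁`) and on `Co E` (value `c₂`) by `e1`, `e2`.  `c₁ = c₂` gives
`M U = -c₁ U`, against `ω > 0`; otherwise `km_lt` for `E` or for `Co E` (`co_r3g`, `rc (Co E) = J - 1 - rc E`);
the row sum gives the equation for `T`. -/
theorem km (h : R3G G X E) (c : Cn E) (c' : Cn (Co E)) {U : Matrix X X ℂ} {f ω T : ℤ} (hU : Idm G U f)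
    (M : X → X → ℕ) (inv : ∀ (g : G) x y, M (g • x) (g • y) = M x y) (diag : ∀ x, M x x = 0)
    (rs : ∀ x, ∑ y, (M x y : ℤ) = T) (hω : 0 < ω)
    (e : (Matrix.of fun x y => (M x y : ℂ)) * U = (ω : ℂ) • U) : ∃ c₂, Kn (Fintype.card X) f T ω c₂ := by
  obtain ⟨a, b, d, hP⟩ := span_c h (Matrix.of fun x y => (M x y : ℂ)) fun g x y => by simp [inv]
  obtain ⟨u, v, k⟩ := h.ex1
  obtain ⟨u', v', n, k'⟩ := h.ex2
  have n' : u ≠ v := fun e => h.irr u (e ▸ k)
  have e1 := congrFun (congrFun hP u') v'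
  have e2 := congrFun (congrFun hP u) v
  have e3 := congrFun (congrFun hP u) u
  simp only [Matrix.add_apply, Matrix.smul_apply, rc, jc, of_apply, Matrix.one_apply, h.irr, n, n', k, k', if_true,
    if_false, smul_eq_mul, mul_one, mul_zero, add_zero, zero_add, diag, Nat.cast_zero] at e1 e2 e3
  have hM : (Matrix.of fun x y => (M x y : ℂ)) =
      ((M u v : ℤ) : ℂ) • rc E + ((M u' v' : ℤ) : ℂ) • (jc X X - 1 - rc E) := by
    have : a = -d := by linear_combination -e3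
    rw [hP, Int.cast_natCast, Int.cast_natCast, e1, e2, this]; module
  have hT : (Matrix.of fun x y => (M x y : ℂ)) * jc X X = (T : ℂ) • jc X X :=
    km_mul_jc (fun x => by rw [← rs x]; simp) X
  rcases lt_trichotomy (M u' v' : ℤ) (M u v) with l | l | l
  · exact ⟨_, km_aux h c hU (Int.natCast_nonneg _) l hω hM hT e⟩
  · rw [hM, l] at e
    simp only [Matrix.add_mul, Matrix.sub_mul, Matrix.smul_mul, Matrix.one_mul, km_ju h hU] at e
    have : ((ω + (M u v : ℤ) : ℤ) : ℂ) = 0 := (smul_eq_zero.1 (by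
      rw [Int.cast_add]; linear_combination (norm := module) -e)).resolve_right hU.ne
    have : ω + (M u v : ℤ) = 0 := by exact_mod_cast this
    omega
  · exact ⟨_, km_aux (co_r3g h) c' hU (Int.natCast_nonneg _) l hω (by rw [hM, km_rc_co h]; module) hT e⟩

variable {Y : Type*} [MulAction G Y] [Fintype Y] [DecidableEq Y] {E' : Y → Y → Prop}

open scoped ComplexOrder in
omit [DecidableEq X] in
theorem two_aux (hY : R3G G Y E') {C : Matrix X Y ℂ} (iC : ∀ (g : G) x y, C (g • x) (g • y) = C x y)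
    (c0 : C ≠ 0) (m1 : C * jc Y Y = 0) (m2 : Cᴴ * jc X X = 0) {η₁ η₂ γ κ f₁ : ℤ} (hη : η₁ ≠ η₂)
    (hA : rc E' * rc E' = ((η₁ + η₂ : ℤ) : ℂ) • rc E' - ((η₁ * η₂ : ℤ) : ℂ) • (1 : Matrix Y Y ℂ) +
      (γ : ℂ) • jc Y Y)
    (hJ : rc E' * jc Y Y = (κ : ℂ) • jc Y Y)
    (h1 : f₁ * (η₁ - η₂) = -η₂ * (Fintype.card Y - 1) - κ) (hC : C * rc E' = (η₁ : ℂ) • C) :
    Idm G (C * Cᴴ) f₁ := by
  have iT : ∀ (g : G) y x, Cᴴ (g • y) (g • x) = Cᴴ y x := fun g y x => by simp [iC]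
  obtain ⟨y, -⟩ := hY.ex1
  obtain ⟨a, b, c, hW⟩ := span_c hY _ (km_iv_mul iT iC)
  have q1 : Cᴴ * C * rc E' = (η₁ : ℂ) • (Cᴴ * C) := by rw [Matrix.mul_assoc, hC, Matrix.mul_smul]
  have q4 : Cᴴ * C * jc Y Y = 0 := by rw [Matrix.mul_assoc, m1]; simp
  have q6 : C * Cᴴ * (C * Cᴴ) = (a + b * η₁) • (C * Cᴴ) := by
    rw [Matrix.mul_assoc, ← Matrix.mul_assoc Cᴴ, ← Matrix.mul_assoc C, hW]
    simp only [Matrix.mul_add, Matrix.mul_smul, Matrix.mul_one, hC, m1, Matrix.add_mul, Matrix.smul_mul,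
      Matrix.zero_mul]
    module
  have tr := Matrix.trace_mul_comm C Cᴴ
  rw [hW] at q1 q4 tr
  simp only [Matrix.add_mul, Matrix.smul_mul, Matrix.one_mul, hA, hJ, km_jj, km_ja hY hJ] at q1 q4
  push_cast at q1
  have q2 := (indep_c hY (a := -(b * (η₁ * η₂)) - η₁ * a) (b := a + b * η₂) (c := b * γ + c * κ - η₁ * c)
    (by linear_combination (norm := module) q1)).2.1
  have q5 := km_smul_jc (a := a + b * κ + c * Fintype.card Y) (by linear_combination (norm := module) q4) y y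
  simp only [trace_add, trace_smul, trace_one, km_trace_rc hY, km_trace_jc, smul_eq_mul] at tr
  have cY : (Fintype.card Y : ℂ) ≠ 0 := by exact_mod_cast (Fintype.card_pos_iff.2 ⟨y⟩).ne'
  have h1' : (f₁ : ℂ) * (η₁ - η₂) = -η₂ * (Fintype.card Y - 1) - κ := by exact_mod_cast h1
  refine ⟨km_iv_mul iC iT, fun e => c0 (self_mul_conjTranspose_eq_zero.1 e), by rw [Matrix.mul_assoc, m2]; simp,
    _, fun z => c0 ?_, q6, by linear_combination tr + q5 + (Fintype.card Y - 1 - f₁) * q2 - b * h1'⟩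
  have b0 : b = 0 := (mul_eq_zero.1 (show b * ((η₁ : ℂ) - η₂) = 0 by linear_combination z - q2)).resolve_right
    (sub_ne_zero.2 (by exact_mod_cast hη))
  have a0 : a = 0 := by simpa [b0] using z
  have d0 : c = 0 := by simpa [a0, b0, cY] using q5
  rw [a0, b0, d0] at hW
  exact conjTranspose_mul_self_eq_zero.1 (by simpa using hW)

/-- Two orbits.  Let `A = rc E'`, `o = |{y | R x y}|`, `C = rc R - (o / |Y|) J`.  Row `x` of `rc R * A` is constant on
the two orbits of the stabiliser, so `rc R * A = η rc R + η' J` (invariance, `tr`), `C J = 0`, `J C = 0` (column sums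
of `rc R` are constant), `C A = η C`; `C ≠ 0` gives `η² = (η₁ + η₂) η - η₁ η₂`.  `W = Cᴴ C` is invariant with
`W J = 0`, `W A = η W`, so (`span_c`, `indep_c` on `Y`) `W = w (A - η₂ - ((κ - η₂) / |Y|) J)` for `η = η₁`.  Hence
`C W = w (η₁ - η₂) C`, `(C Cᴴ)² = w (η₁ - η₂) C Cᴴ`, `tr (C Cᴴ) = tr W = w (η₁ - η₂) f₁`, and `tr (C Cᴴ) ≠ 0`
(sum of squared norms; `Matrix.trace_mul_conjTranspose_self_eq_zero_iff`-style). -/
theorem two (hY : R3G G Y E') (tr : ∀ x y : X, ∃ g : G, g • x = y) {R : X → Y → Prop}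
    (hR : ∀ (g : G) x y, R x y → R (g • x) (g • y)) (x : X)
    (t1 : ∀ a b, R x a → R x b → ∃ g : G, g • x = x ∧ g • a = b)
    (t2 : ∀ a b, ¬ R x a → ¬ R x b → ∃ g : G, g • x = x ∧ g • a = b)
    (r1 : ∃ a, R x a) (r2 : ∃ a, ¬ R x a) {η₁ η₂ γ κ f₁ f₂ : ℤ} (hη : η₁ ≠ η₂)
    (hA : rc E' * rc E' = ((η₁ + η₂ : ℤ) : ℂ) • rc E' - ((η₁ * η₂ : ℤ) : ℂ) • (1 : Matrix Y Y ℂ) +
      (γ : ℂ) • jc Y Y)
    (hJ : rc E' * jc Y Y = (κ : ℂ) • jc Y Y)
    (h1 : f₁ * (η₁ - η₂) = -η₂ * (Fintype.card Y - 1) - κ)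
    (h2 : f₂ * (η₂ - η₁) = -η₁ * (Fintype.card Y - 1) - κ) :
    ∃ C : Matrix X Y ℂ, (∀ (g : G) x y, C (g • x) (g • y) = C x y) ∧ C * jc Y Y = 0 ∧
      ((C * rc E' = (η₁ : ℂ) • C ∧ Idm G (C * Cᴴ) f₁) ∨ (C * rc E' = (η₂ : ℂ) • C ∧ Idm G (C * Cᴴ) f₂)) := by
  obtain ⟨y₁, r1⟩ := r1
  obtain ⟨y₂, r2⟩ := r2
  have iM := km_iv_rc hR
  have iP := km_iv_mul iM (km_iv_rc hY.inv)
  have cY : (Fintype.card Y : ℂ) ≠ 0 := by exact_mod_cast (Fintype.card_pos_iff.2 ⟨y₁⟩).ne'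
  obtain ⟨o, ho⟩ : ∃ o, ∀ x, ∑ y, rc R x y = o := ⟨_, km_iv_rs iM tr x⟩
  obtain ⟨o', ho'⟩ : ∃ o, ∀ y, ∑ x, rc R x y = o :=
    ⟨_, km_iv_rs (M := (rc R)ᵀ) (fun g y x => iM g x y) hY.tr y₁⟩
  have oo : Fintype.card X * o = Fintype.card Y * o' := by
    have := Finset.sum_comm (s := Finset.univ) (t := Finset.univ) (f := fun x y => rc R x y)
    simpa [ho, ho'] using this
  obtain ⟨C, hC⟩ : ∃ C, C = rc R - (o / Fintype.card Y) • jc X Y := ⟨_, rfl⟩
  have iC : ∀ (g : G) x y, C (g • x) (g • y) = C x y := fun g x y => by rw [hC]; simp [iM g x y, jc]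
  have m1 : C * jc Y Y = 0 := by
    rw [km_mul_jc (o := 0) (fun x => by simp [hC, ho, jc]; field_simp; ring), zero_smul]
  have m2 : Cᴴ * jc X X = 0 := by
    rw [km_mul_jc (o := 0) (fun y => ?_), zero_smul]
    have : ∑ x, C x y = 0 := by simp [hC, ho', jc]; field_simp; linear_combination -oo
    simpa only [conjTranspose_apply, star_sum, star_zero] using congrArg star this
  have c0 : C ≠ 0 := fun e => by
    have a := congrFun (congrFun (hC.symm.trans e) x) y₁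
    have b := congrFun (congrFun (hC.symm.trans e) x) y₂
    simp only [Matrix.sub_apply, Matrix.smul_apply, rc, jc, of_apply, r1, r2, if_true, if_false,
      Matrix.zero_apply] at a b
    exact one_ne_zero (α := ℂ) (by linear_combination a - b)
  obtain ⟨η, η', hP⟩ : ∃ η η' : ℂ, rc R * rc E' = η • rc R + η' • jc X Y := by
    refine ⟨(rc R * rc E') x y₁ - (rc R * rc E') x y₂, (rc R * rc E') x y₂, ?_⟩
    ext u v
    obtain ⟨g, rfl⟩ := tr x u
    obtain ⟨w, rfl⟩ : ∃ w, v = g • w := ⟨g⁻¹ • v, by simp⟩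
    rw [iP, Matrix.add_apply, Matrix.smul_apply, Matrix.smul_apply, iM]
    by_cases a : R x w
    · obtain ⟨k, b, d⟩ := t1 _ _ r1 a
      have := iP k x y₁
      rw [b, d] at this
      rw [this]; simp [rc, jc, a]
    · obtain ⟨k, b, d⟩ := t2 _ _ r2 a
      have := iP k x y₂
      rw [b, d] at this
      rw [this]; simp [rc, jc, a]
  have k1 : C * rc E' = η • C + (η' + (η - κ) * (o / Fintype.card Y)) • jc X Y := by
    rw [hC, Matrix.sub_mul, hP, Matrix.smul_mul, km_ja hY hJ]; module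
  have k2 := congrArg (· * jc Y Y) k1
  simp only [Matrix.mul_assoc, hJ, Matrix.mul_smul, m1, Matrix.add_mul, Matrix.smul_mul, km_jj, smul_zero, zero_add,
    smul_smul] at k2
  rw [(mul_eq_zero.1 (km_smul_jc k2.symm x y₁)).resolve_right cY, zero_smul, add_zero] at k1
  have k3 : C * rc E' * rc E' = (η * η) • C := by rw [k1, Matrix.smul_mul, k1, smul_smul]
  rw [Matrix.mul_assoc, hA] at k3
  simp only [Matrix.mul_add, Matrix.mul_sub, Matrix.mul_smul, Matrix.mul_one, k1, m1] at k3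
  push_cast at k3
  have k4 : (η - η₁) * (η - η₂) = 0 :=
    (smul_eq_zero.1 (by linear_combination (norm := module) -k3)).resolve_right c0
  refine ⟨C, iC, m1, (mul_eq_zero.1 k4).imp (fun z => ?_) fun z => ?_⟩ <;> rw [sub_eq_zero.1 z] at k1
  · exact ⟨k1, two_aux hY iC c0 m1 m2 hη hA hJ h1 k1⟩
  · exact ⟨k1, two_aux hY iC c0 m1 m2 hη.symm (by rw [hA, add_comm η₁, mul_comm η₁]) hJ h2 k1⟩

end Cfsg.Lib.R3U
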