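import Cfsg.Agent.Lib.R3U.Pts
import Cfsg.Agent.Lib.R3U.Km

/-! S2196: the constituent coming from two orbits on points. -/

set_option autoImplicit false

namespace Cfsg.Lib.R3U

open Cfsg.Lib.Unitary Cfsg.Lib.R3S Module Submodule MulAction

variable {F V : Type*} [Field F] [AddCommGroup V] [Module F V] {σ : F →+* F}
  {B : V →ₛₗ[σ] V →ₗ[F] F} {q n : ℕ} [Finite F] [Finite V] {H : Subgroup (SUG B)}

open Matrix

variable {X : Type*} [MulAction (SUG B) X] [Fintype X]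

theorem pt_sum {G Z R : Type*} [Finite G] [Fintype Z] [Semiring R] (P : G → Prop) (f : G → Z) (c : Z → R) :
    ∑ z, ({t | P t ∧ f t = z}.ncard : R) * c z = ∑ t ∈ (Set.toFinite {t | P t}).toFinset, c (f t) := by
  classical
  rw [← Finset.sum_fiberwise _ f]
  refine Finset.sum_congr rfl fun z _ => ?_
  rw [Finset.sum_congr rfl fun t ht => congrArg c (Finset.mem_filter.1 ht).2, Finset.sum_const, nsmul_eq_mul,
    ← Set.ncard_coe_finset]
  congr 3
  ext; simp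

theorem pt_num {q n : ℕ} {N : ℤ} (hq : 3 ≤ q)
    (h : ((q : ℤ) ^ 2 - 1) * N = (q ^ 3 * uu q n + 1) * (q ^ 2 * uu q n - 1)) :
    ∃ f : ℤ, (q + 1) * f = N - 1 - q ^ 3 * uu q n := by
  have h0 : (q : ℤ) ^ 2 - 1 ≠ 0 := by
    have : (3 : ℤ) ≤ q := by exact_mod_cast hq
    nlinarith
  obtain ⟨j, hj⟩ := Nat.even_or_odd' (n - 3)
  obtain ⟨m, hm⟩ := sub_dvd_pow_sub_pow ((q : ℤ) ^ 2) 1 j
  rw [one_pow, sub_eq_iff_eq_add] at hm
  rcases hj with e | e
  · have u : uu q n = (q ^ 2 - 1) * m + 1 := by rw [uu, e, pow_mul, neg_sq, hm]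
    rw [u] at h ⊢
    exact ⟨(q ^ 2 - q + 1 + q ^ 3 * (q - 1) * m) * q ^ 2 * m, mul_left_cancel₀ h0 (by linear_combination -h)⟩
  · have u : uu q n = -q * ((q ^ 2 - 1) * m + 1) := by rw [uu, e, pow_succ', pow_mul, neg_sq, hm]
    rw [u] at h ⊢
    exact ⟨(q ^ 2 + 1 + q ^ 4 * m) * (q ^ 2 + q ^ 3 * (q - 1) * m), mul_left_cancel₀ h0 (by linear_combination -h)⟩

omit [Finite F] [Finite V] in
theorem Idm.smul {G : Type*} [Group G] [MulAction G X] {U : Matrix X X ℂ} {f : ℤ} (h : Idm G U f) {c : ℂ}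
    (hc : c ≠ 0) : Idm G (c • U) f := by
  obtain ⟨y, h1, h2, h3⟩ := h.sq
  refine ⟨fun g a b => by rw [Matrix.smul_apply, Matrix.smul_apply, h.inv], smul_ne_zero hc h.ne,
    by rw [smul_mul, h.uj, smul_zero], c * y, mul_ne_zero hc h1, ?_, by rw [trace_smul, h3, smul_eq_mul, mul_assoc]⟩
  rw [smul_mul, Matrix.mul_smul, h2, smul_smul, smul_smul, smul_smul, mul_right_comm]

/-- `(M_X C)(x, y) = ∑_t C (t • x) y = ∑_t C x (t⁻¹ • y) = (C M_Y)(x, y)`: `t ↦ t⁻¹` preserves the transvections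
(sum over the finite set of transvections, `Finset.sum_fiberwise` / `Finset.card_eq_sum_ones`; `finite_sug`). -/
theorem mT_mul {Y : Type*} [MulAction (SUG B) Y] [Fintype Y] (C : Matrix X Y ℂ)
    (hC : ∀ (g : SUG B) x y, C (g • x) (g • y) = C x y) : mT B X * C = C * mT B Y := by
  have := finite_sug (B := B)
  ext x y
  simp only [mul_apply, mT, of_apply]
  rw [pt_sum IsT (· • x) (C · y), Finset.sum_congr rfl fun t _ => show C (t • x) y = C x (t⁻¹ • y) by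
    rw [← hC t x, smul_inv_smul], ← pt_sum IsT (·⁻¹ • y) (C x)]
  refine Finset.sum_congr rfl fun z _ => ?_
  simp only [inv_smul_eq_iff, @eq_comm _ y, mul_comm]

/-- The row sums of `mT`. -/
theorem mT_row (x : X) : ∑ y, ({t : SUG B | IsT t ∧ t • x = y}.ncard : ℤ) = nT B := by
  have := finite_sug (B := B)
  simpa [nT, Set.ncard_eq_toFinset_card _ (Set.toFinite _)] using pt_sum (IsT (B := B)) (· • x) fun _ => (1 : ℤ)

/-- `two` with `Y = isoP B`, `R y p :=` "`∃ g, g • x = y ∧ g • pt v₀ = p`" for a point `v₀`; by `N2`, `¬ Tr` the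
other points form one orbit (choose `v₀, v₁` with `¬ Rl H v₀ v₁`); `η₁ = q u`, `η₂ = -u`, `np_sq`, `np_row`;
`f₁, f₂` are the integers of `Fa`, `Fb` (`(q + 1)(q² - 1)` divides the right sides: `u ≡ 1 mod q + 1`,
`u = (-q)^(n-3)`; e.g. `q² - 1 ∣ (q³u + 1)(q²u - 1)` etc.; alternatively get them from `card_pts`:
`f₁ (q + 1) u = u (|P| - 1) - q³u²`, so `(q + 1) f₁ = |P| - 1 - q³u`, `(q + 1) f₂ = q (|P| - 1) + q³ u`, and
`|P| - 1 - q³ u ≡ 0 mod q + 1`).  Put `φ y v = C y (pt v)` for `Pt B v`, `0` otherwise; `gr B φ = (q² - 1) C Cᴴ`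
(`sum_pt`); `mT_mul`, `mT_pts` give `ω = a + (q - 1) η`. -/
theorem Un.two_pt (s : Un σ B q n) (x : X) (tr : ∀ x y : X, ∃ g : SUG B, g • x = y)
    (h2 : N2 (stabilizer (SUG B) x)) (h1 : ¬ Tr (stabilizer (SUG B) x)) :
    ∃ (φ : X → V → ℂ) (f ω : ℤ), Sys B (fun _ => 1) φ ∧ Idm (SUG B) (gr B φ) f ∧
      mT B X * gr B φ = (ω : ℂ) • gr B φ ∧ (Fa q (uu q n) f ω ∨ Fb q (uu q n) f ω) := by
  classical
  have := finite_isoP (B := B)
  have := Fintype.ofFinite (isoP B)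
  obtain ⟨v, w, hv, hw, hn⟩ : ∃ v w, Pt B v ∧ Pt B w ∧ ¬ Rl (stabilizer (SUG B) x) v w := by
    simpa only [Tr, not_forall, exists_prop] using h1
  have key : ∀ {a b : V} (ha : Pt B a) (hb : Pt B b),
      (∃ g : SUG B, g • x = x ∧ g • pt ha = pt hb) ↔ Rl (stabilizer (SUG B) x) a b := fun ha hb =>
    exists_congr fun g => by rw [smul_pt, pt_eq, mem_stabilizer_iff]
  have hN := s.card_pts
  rw [Nat.card_eq_fintype_card] at hN
  obtain ⟨f, hf⟩ := pt_num s.q3 hN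
  obtain ⟨a, ha, hM⟩ := s.mT_pts
  have q3 : (3 : ℤ) ≤ q := by exact_mod_cast s.q3
  have u0 : uu q n ≠ 0 := pow_ne_zero _ (by omega)
  obtain ⟨C, c1, -, c2⟩ := two s.r3g_pts tr (R := fun y p => ∃ g : SUG B, g • x = y ∧ g • pt hv = p)
    (fun g y p ⟨k, k1, k2⟩ => ⟨g * k, by rw [mul_smul, k1], by rw [mul_smul, k2]⟩) x
    (fun a b ⟨k, k1, k2⟩ ⟨l, l1, l2⟩ => ⟨l * k⁻¹, by rw [mul_smul, inv_smul_eq_iff.2 k1.symm, l1],
      by rw [← k2, mul_smul, inv_smul_smul, l2]⟩)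
    (fun a b k l => by
      obtain ⟨ha, e⟩ := pt_rep a
      obtain ⟨hb, e'⟩ := pt_rep b
      rw [← e, key] at k
      rw [← e', key] at l
      rw [← e, ← e', key]
      exact ((h2 _ _ _ hv ha hb).resolve_left k).resolve_left l)
    ⟨_, 1, one_smul _ _, rfl⟩ ⟨pt hw, by rwa [key]⟩ (f₁ := f) (f₂ := Fintype.card (isoP B) - 1 - f)
    (fun e => mul_ne_zero (by omega : (q : ℤ) + 1 ≠ 0) u0 (by linear_combination e)) s.np_sq s.np_row
    (by linear_combination uu q n * hf) (by linear_combination uu q n * hf)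
  set φ : X → V → ℂ := fun y v => if hv : Pt B v then C y (pt hv) else 0 with hφ
  have sy : Sys B (fun _ => 1) φ := ⟨fun g y v => by
      by_cases hv : Pt B v
      · simp only [hφ, dif_pos hv, dif_pos (hv.app g), ← smul_pt g hv, c1]
      · simp only [hφ, dif_neg hv, dif_neg fun e : Pt B (g.1 v) => hv (inv_app g v ▸ e.app g⁻¹)],
    fun y a v ha => by
      by_cases hv : Pt B v
      · simp only [hφ, dif_pos hv, dif_pos (hv.smul ha), (pt_eq (hv.smul ha) hv).2 ⟨a, rfl⟩, one_mul]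
      · simp only [hφ, dif_neg hv, dif_neg fun e : Pt B (a • v) =>
          hv (inv_smul_smul₀ ha v ▸ e.smul (inv_ne_zero ha)), one_mul]⟩
  have e : gr B φ = ((q : ℂ) ^ 2 - 1) • (C * Cᴴ) := by
    ext y z
    rw [gr, of_apply, sum_pt s.bar _ fun a v ha => by rw [sy.smul _ _ _ ha, sy.smul _ _ _ ha, one_mul, one_mul],
      Matrix.smul_apply, mul_apply, smul_eq_mul]
    refine congrArg _ (Finset.sum_congr rfl fun p _ => ?_)
    obtain ⟨hp, e⟩ := pt_rep p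
    simp only [hφ, dif_pos hp, e, conjTranspose_apply, RCLike.star_def]
  have c0 : (q : ℂ) ^ 2 - 1 ≠ 0 := by exact_mod_cast (by nlinarith : (q : ℤ) ^ 2 - 1 ≠ 0)
  have m : ∀ η : ℤ, C * rc (NP B) = (η : ℂ) • C → mT B X * gr B φ = ((a + (q - 1) * η : ℤ) : ℂ) • gr B φ := fun η k => by
    rw [e, Matrix.mul_smul, ← Matrix.mul_assoc, mT_mul C c1, hM, Matrix.mul_add, Matrix.mul_smul, Matrix.mul_smul,
      Matrix.mul_one, k, smul_smul, ← add_smul, smul_mul, smul_comm]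
    push_cast; rfl
  rcases c2 with ⟨k, i⟩ | ⟨k, i⟩
  · exact ⟨φ, _, _, sy, e ▸ i.smul c0, m _ k,
      .inl ⟨by linear_combination (q ^ 2 - 1) * hf + hN, by linear_combination ha⟩⟩
  · exact ⟨φ, _, _, sy, e ▸ i.smul c0, m _ k,
      .inr ⟨by linear_combination (1 - q ^ 2) * hf + q * hN, by linear_combination ha⟩⟩

end Cfsg.Lib.R3U
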