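import Cfsg.Agent.Lib.R3U.Pts

/-! S2196: the twisted point modules. -/

set_option autoImplicit false

namespace Cfsg.Lib.R3U

open Cfsg.Lib.Unitary Cfsg.Lib.R3S Module Submodule MulAction

variable {F V : Type*} [Field F] [AddCommGroup V] [Module F V] {σ : F →+* F}
  {B : V →ₛₗ[σ] V →ₗ[F] F} {q n : ℕ} [Finite F] [Finite V] {H : Subgroup (SUG B)}

open Matrix

variable {X : Type*} [MulAction (SUG B) X]

omit [Finite V] in
/-- The character of `ex_sys`. -/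
theorem th_ex_ch (hσ : IsBar q σ) (H : Subgroup (SUG B)) (v : V) {a : F} (ha : σ a = a) (ha0 : a ≠ 0)
    (h : ∀ g ∈ H, ∀ c : F, g.1 v = c • v → c * σ c ≠ a ^ 2) :
    ∃ χ : F → ℂ, Ch σ χ ∧ ∀ g ∈ H, ∀ c : F, c ≠ 0 → g.1 v = c • v → χ c = 1 := by
  classical
  let S : Subgroup Fˣ :=
    { carrier := {u | ∃ g ∈ H, ∃ c : F, g.1 v = c • v ∧ c * σ c = u}
      one_mem' := ⟨1, H.one_mem, 1, by rw [one_smul, one_app], by simp⟩
      mul_mem' := by
        rintro u u' ⟨g, hg, c, e, f⟩ ⟨g', hg', c', e', f'⟩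
        refine ⟨g * g', H.mul_mem hg hg', c' * c, by rw [mul_app, e', map_smul, e, smul_smul], ?_⟩
        rw [Units.val_mul, ← f, ← f', map_mul]; ring
      inv_mem' := by
        rintro u ⟨g, hg, c, e, f⟩
        have hc : c ≠ 0 := by rintro rfl; exact u.ne_zero (by rw [← f, zero_mul])
        refine ⟨g⁻¹, H.inv_mem hg, c⁻¹, ?_, ?_⟩
        · have := congrArg (g⁻¹).1 e
          rw [inv_app, map_smul] at this
          rw [eq_inv_smul_iff₀ hc]; exact this.symm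
        · rw [Units.val_inv_eq_inv_val, ← f, map_inv₀, mul_inv] }
  have nz : ∀ c : F, c ≠ 0 → c * σ c ≠ 0 := fun c hc => mul_ne_zero hc ((map_ne_zero σ).2 hc)
  have hn : (QuotientGroup.mk (Units.mk0 _ (nz a ha0)) : Fˣ ⧸ S) ≠ 1 := by
    rw [Ne, QuotientGroup.eq_one_iff]
    rintro ⟨g, hg, c, e, f⟩
    exact h g hg c e (by rw [f, Units.val_mk0, ha, sq])
  haveI : NeZero ((Monoid.exponent (Fˣ ⧸ S) : ℕ) : ℂ) :=
    ⟨Nat.cast_ne_zero.2 Monoid.exponent_ne_zero_of_finite⟩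
  obtain ⟨θ, hθ⟩ := CommGroup.exists_apply_ne_one_of_hasEnoughRootsOfUnity (Fˣ ⧸ S) ℂ hn
  let χ : F → ℂ := fun c => if hc : c = 0 then 0 else (θ (QuotientGroup.mk (Units.mk0 _ (nz c hc))) : ℂ)
  have val : ∀ c (hc : c ≠ 0), χ c = (θ (QuotientGroup.mk (Units.mk0 _ (nz c hc))) : ℂ) := fun c hc => by
    simp only [χ, dif_neg hc]
  refine ⟨χ, ⟨fun b c hb hc => ?_, fun b hb => ?_, fun b hb => ?_, a, ha, ha0, ?_⟩, fun g hg c hc e => ?_⟩
  · rw [val _ hb, val _ hc, val _ (mul_ne_zero hb hc), ← Units.val_mul, ← map_mul, ← QuotientGroup.mk_mul]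
    congr 3
    ext; simp only [Units.val_mk0, Units.val_mul, map_mul]; ring
  · have hb0 : b ≠ 0 := by rintro rfl; simp at hb
    have : Units.mk0 _ (nz b hb0) = 1 := Units.ext hb
    rw [val _ hb0, this, QuotientGroup.mk_one, map_one, Units.val_one]
  · have e : χ b ^ Nat.card (Fˣ ⧸ S) = 1 := by
      rw [val _ hb, ← Units.val_pow_eq_pow_val, ← map_pow, pow_card_eq_one', map_one, Units.val_one]
    have := Complex.norm_eq_one_of_pow_eq_one e Nat.card_pos.ne'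
    rw [Complex.mul_conj, Complex.normSq_eq_norm_sq, this]; simp
  · rw [val _ ha0]; exact fun e => hθ (Units.ext e)
  · have : (QuotientGroup.mk (Units.mk0 _ (nz c hc)) : Fˣ ⧸ S) = 1 :=
      (QuotientGroup.eq_one_iff _).2 ⟨g, hg, c, e, rfl⟩
    rw [val _ hc, this, map_one, Units.val_one]

/-- `S = {c σ c | ∃ h ∈ H, h v = c • v}` is a subgroup of `Fˣ` not containing `a²`.  Take a character `θ` of the
finite abelian group `Fˣ` trivial on `S` with `θ (a²) ≠ 1` (`MulChar`/`CommGroup.exists_apply_ne_one_of_hasEnoughRootsOfUnity`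
for `Fˣ ⧸ S`, values in `ℂˣ`), `χ c = θ (c σ c)` (`0` at `0`).  Define `φ y w = χ c` if `y = g • x`, `w = c • g v`
for some `g`, `c ≠ 0` (independent of the choice), and `0` otherwise. -/
theorem ex_sys (hσ : IsBar q σ) (x : X) {v : V} (hv : v ≠ 0) (h : ¬ Sq (stabilizer (SUG B) x) v) :
    ∃ (χ : F → ℂ) (φ : X → V → ℂ), Ch σ χ ∧ Sys B χ φ ∧ φ x v ≠ 0 := by
  classical
  simp only [Sq, not_forall, not_exists, not_and] at h
  obtain ⟨a, ha, ha0, h⟩ := h
  obtain ⟨χ, hχ, h1⟩ := th_ex_ch hσ (stabilizer (SUG B) x) v ha ha0 h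
  have key : ∀ (g g' : SUG B) (c c' : F), c ≠ 0 → c' ≠ 0 → g • x = g' • x → c • g.1 v = c' • g'.1 v →
      χ c = χ c' := fun g g' c c' hc hc' e1 e2 => by
    have e3 : (g'⁻¹ * g).1 v = (c⁻¹ * c') • v := by
      have := congrArg (g'⁻¹).1 e2
      rw [map_smul, map_smul, inv_app] at this
      rw [mul_app, mul_smul, ← this, smul_smul, inv_mul_cancel₀ hc, one_smul]
    have e4 := h1 (g'⁻¹ * g) (by rw [mem_stabilizer_iff, mul_smul, e1, inv_smul_smul]) _
      (mul_ne_zero (inv_ne_zero hc) hc') e3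
    rw [← mul_inv_cancel_left₀ hc c', hχ.mul _ _ hc (mul_ne_zero (inv_ne_zero hc) hc'), e4, mul_one]
  let R : X → V → SUG B × F → Prop := fun y w p => p.2 ≠ 0 ∧ y = p.1 • x ∧ w = p.2 • p.1.1 v
  let φ : X → V → ℂ := fun y w => if h : ∃ p, R y w p then χ h.choose.2 else 0
  have val : ∀ y w p, R y w p → φ y w = χ p.2 := fun y w p hp => by
    have h' : ∃ p, R y w p := ⟨p, hp⟩
    have hs := h'.choose_spec
    simp only [φ, dif_pos h']
    exact key _ _ _ _ hs.1 hp.1 (hs.2.1.symm.trans hp.2.1) (hs.2.2.symm.trans hp.2.2)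
  have val0 : ∀ y w, (¬ ∃ p, R y w p) → φ y w = 0 := fun y w hp => by simp only [φ, dif_neg hp]
  have mv : ∀ (g : SUG B) y w p, R y w p → R (g • y) (g.1 w) (g * p.1, p.2) := fun g y w p hp =>
    ⟨hp.1, by rw [hp.2.1, mul_smul], by rw [hp.2.2, map_smul, mul_app]⟩
  have sc : ∀ (b : F) y w p, b ≠ 0 → R y w p → R y (b • w) (p.1, b * p.2) := fun b y w p hb hp =>
    ⟨mul_ne_zero hb hp.1, hp.2.1, by rw [hp.2.2, smul_smul]⟩
  refine ⟨χ, φ, hχ, ⟨fun g y w => ?_, fun y b w hb => ?_⟩, ?_⟩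
  · by_cases hp : ∃ p, R y w p
    · obtain ⟨p, hp⟩ := hp
      rw [val _ _ _ hp, val _ _ _ (mv g _ _ _ hp)]
    · rw [val0 _ _ hp, val0]
      rintro ⟨p, hp'⟩
      have := mv g⁻¹ _ _ _ hp'
      rw [inv_smul_smul, inv_app] at this
      exact hp ⟨_, this⟩
  · by_cases hp : ∃ p, R y w p
    · obtain ⟨p, hp⟩ := hp
      rw [val _ _ _ hp, val _ _ _ (sc b _ _ _ hb hp), hχ.mul _ _ hb hp.1]
    · rw [val0 _ _ hp, val0, mul_zero]
      rintro ⟨p, hp'⟩
      have := sc b⁻¹ _ _ _ (inv_ne_zero hb) hp'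
      rw [smul_smul, inv_mul_cancel₀ hb, one_smul] at this
      exact hp ⟨_, this⟩
  · rw [val x v (1, 1) ⟨one_ne_zero, (one_smul _ _).symm, by rw [one_smul, one_app]⟩, hχ.one 1 (by simp)]
    exact one_ne_zero

variable [Fintype X] {χ : F → ℂ} {φ ψ : X → V → ℂ}

omit [Finite F] [Fintype X] in
theorem Ch.at_one (c : Ch σ χ) : χ 1 = 1 := c.one 1 (by simp)

omit [Finite F] [Fintype X] in
theorem Ch.conj (c : Ch σ χ) {a : F} (ha : a ≠ 0) : starRingEnd ℂ (χ a) = χ a⁻¹ := by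
  have e : χ a⁻¹ * χ a = 1 := by rw [← c.mul _ _ (inv_ne_zero ha) ha, inv_mul_cancel₀ ha, c.at_one]
  rw [← one_mul (starRingEnd ℂ (χ a)), ← e, mul_assoc, c.nrm a ha, mul_one]

omit [Finite F] [Finite V] in
/-- Invariance of `K(v, w)`. -/
theorem th_inv {χ' : F → ℂ} (h : Sys B χ' ψ) (h' : Sys B χ φ) (g : SUG B) (v w : V) :
    ∑ x, starRingEnd ℂ (ψ x (g.1 v)) * φ x (g.1 w) = ∑ x, starRingEnd ℂ (ψ x v) * φ x w := by
  rw [← Equiv.sum_comp (MulAction.toPerm g)]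
  simp only [MulAction.toPerm_apply, h.inv, h'.inv]

omit [Finite F] [Finite V] in
theorem th_zero {χ' : F → ℂ} (h : Sys B χ' ψ) (h' : Sys B χ φ) {g : SUG B} {v w : V} {a b : F} (ha : a ≠ 0)
    (hb : b ≠ 0) (e1 : g.1 v = a • v) (e2 : g.1 w = b • w) (ne : starRingEnd ℂ (χ' a) * χ b ≠ 1) :
    ∑ x, starRingEnd ℂ (ψ x v) * φ x w = 0 := by
  have e := th_inv h h' g v w
  simp only [e1, e2, h.smul _ _ _ ha, h'.smul _ _ _ hb, map_mul] at e
  have e' : (starRingEnd ℂ (χ' a) * χ b - 1) * ∑ x, starRingEnd ℂ (ψ x v) * φ x w = 0 := by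
    rw [sub_mul, one_mul, sub_eq_zero, Finset.mul_sum, ← e]
    exact Finset.sum_congr rfl fun x _ => by ring
  exact (mul_eq_zero.1 e').resolve_left (sub_ne_zero.2 ne)

omit [Finite F] [MulAction (SUG B) X] in
theorem gr_mul (ψ φ : X → V → ℂ) (x y : X) : (gr B ψ * gr B φ) x y =
    ∑ v ∈ (Set.toFinite {v | Pt B v}).toFinset, ψ x v * ∑ w ∈ (Set.toFinite {v | Pt B v}).toFinset,
      starRingEnd ℂ (φ y w) * ∑ z, starRingEnd ℂ (ψ z v) * φ z w := by
  simp only [Matrix.mul_apply, gr, Matrix.of_apply, Finset.sum_mul_sum]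
  simp only [Finset.mul_sum]
  rw [Finset.sum_comm]
  refine Finset.sum_congr rfl fun v _ => ?_
  rw [Finset.sum_comm]
  refine Finset.sum_congr rfl fun w _ => Finset.sum_congr rfl fun z _ => by ring

omit [Finite V] in
/-- A row of `mT` times a vector. -/
theorem mT_sum [Finite (SUG B)] (x : X) (f : X → ℂ) :
    ∑ y, mT B X x y * f y = ∑ t ∈ (Set.toFinite {t : SUG B | IsT t}).toFinset, f (t • x) := by
  classical
  rw [← Finset.sum_fiberwise (s := (Set.toFinite {t : SUG B | IsT t}).toFinset) (fun t => t • x)]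
  refine Finset.sum_congr rfl fun y _ => ?_
  rw [Finset.sum_congr rfl (g := fun _ => f y) fun t ht => by rw [(Finset.mem_filter.1 ht).2],
    Finset.sum_const, nsmul_eq_mul, mT, Matrix.of_apply, ← Set.ncard_coe_finset]
  congr 3
  ext t; simp

omit [Fintype X] [MulAction (SUG B) X] in
/-- The transvections moving `v`. -/
theorem th_bij (h : IsHerm σ B) [Finite (SUG B)] {v : V} (hv : Pt B v) (f : V → ℂ) :
    ∑ t ∈ (Set.toFinite {t : SUG B | IsT t ∧ t.1 v ≠ v}).toFinset, f (t.1 v) =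
      ∑ w ∈ (Set.toFinite {w | B w w = 0 ∧ B v w ≠ 0 ∧ B v w + σ (B v w) = 0}).toFinset, f w := by
  have nz : ∀ {t : SUG B} {u c}, Tv t u c → t.1 v ≠ v → B u v ≠ 0 := fun a b e => b (a.fix e)
  refine Finset.sum_bij (fun t _ => t.1 v) (fun t ht => ?_) (fun t ht t' ht' e => ?_) (fun w hw => ?_)
    fun _ _ => rfl
  · simp only [Set.Finite.mem_toFinset, Set.mem_setOf_eq] at ht ⊢
    obtain ⟨⟨u, c, hu, hc, a⟩, b⟩ := ht
    have e : B v (t.1 v) = c * (B u v * σ (B u v)) := by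
      rw [a v, map_add, map_smul, hv.2, h.symm, smul_eq_mul]; ring
    refine ⟨by rw [b_app, hv.2], ?_, ?_⟩
    · rw [e]; exact mul_ne_zero hc (mul_ne_zero (nz a b) ((map_ne_zero σ).2 (nz a b)))
    · rw [e, map_mul, map_mul, h.invol]
      linear_combination (B u v * σ (B u v)) * a.skew h hu
  · simp only [Set.Finite.mem_toFinset, Set.mem_setOf_eq] at ht ht'
    obtain ⟨⟨u, c, hu, hc, a⟩, b⟩ := ht
    obtain ⟨⟨u', c', hu', hc', a'⟩, b'⟩ := ht'
    have n1 := mul_ne_zero hc' (nz a' b')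
    have e1 : u' = ((c' * B u' v)⁻¹ * (c * B u v)) • u := by
      rw [a v, a' v, add_right_inj] at e
      rw [mul_smul, e, smul_smul, inv_mul_cancel₀ n1, one_smul]
    generalize (c' * B u' v)⁻¹ * (c * B u v) = k at e1
    subst e1
    rw [tv_smul] at a'
    rw [a v, a' v, add_right_inj] at e
    have e2 := mul_right_cancel₀ (nz a b) (smul_left_injective F hu.1 e)
    exact a.eq (e2 ▸ a')
  · simp only [Set.Finite.mem_toFinset, Set.mem_setOf_eq] at hw ⊢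
    obtain ⟨h1, h2, h3⟩ := hw
    have e1 : B (w - v) v = σ (B v w) := by rw [map_sub, LinearMap.sub_apply, hv.2, h.symm, sub_zero]
    have n1 : B (w - v) v ≠ 0 := by rw [e1]; exact (map_ne_zero σ).2 h2
    have e2 : B (w - v) (w - v) = 0 := by
      rw [map_sub, e1, map_sub, LinearMap.sub_apply, h1]; linear_combination -h3
    have e3 : (B (w - v) v)⁻¹ + σ (B (w - v) v)⁻¹ = 0 := by
      rw [e1, map_inv₀, h.invol, eq_neg_of_add_eq_zero_right h3, inv_neg, neg_add_cancel]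
    obtain ⟨t, a⟩ := ex_tv h e2 e3
    have e4 : t.1 v = w := by rw [a v, inv_mul_cancel₀ n1, one_smul, add_sub_cancel]
    refine ⟨t, ⟨⟨_, _, ⟨fun e => n1 (by rw [e]; simp), e2⟩, inv_ne_zero n1, a⟩, fun e => h2 ?_⟩, e4⟩
    rw [← e4, e, hv.2]

namespace Un

variable (s : Un σ B q n)
include s

/-- `K(v, w) = ∑ x, conj (φ x v) * φ x w` is invariant, `K (a v, b w) = conj (χ a) χ b K(v, w)`.  For `w ∉ F v`
scale: `sc1` with `(1, a)`, or `sc2` with a `b` of norm `a` … : `conj (χ b) χ ((σ b)⁻¹) = (χ b)⁻²`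
(`χ (σ b) = χ b` as `σ b / b` has norm one) and `(χ b)² = χ (b σ b) = χ a ≠ 1` for the real `a` of `Ch.ex`. -/
theorem th_orth (c : Ch σ χ) (h : Sys B χ φ) {v w : V} (hv : Pt B v) (hw : Pt B w) (hi : w ∉ span F {v}) :
    ∑ x, starRingEnd ℂ (φ x v) * φ x w = 0 := by
  obtain ⟨a, ha, ha0, h1⟩ := c.ex
  by_cases e : B v w = 0
  · obtain ⟨g, e1, e2⟩ := s.sc1 hv hw.2 e hi one_ne_zero ha0
    exact th_zero h h one_ne_zero ha0 e1 e2 (by rwa [c.at_one, map_one, one_mul])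
  · obtain ⟨b, hb⟩ := s.bar.exists_norm_eq (μ := a⁻¹) (by rw [map_inv₀, ha])
    have hb0 : b ≠ 0 := by rintro rfl; exact inv_ne_zero ha0 (by rw [← hb, zero_mul])
    have hb1 : (σ b)⁻¹ ≠ 0 := inv_ne_zero ((map_ne_zero σ).2 hb0)
    obtain ⟨g, e1, e2⟩ := s.sc2 hv.2 hw.2 e hb0
    refine th_zero h h hb0 hb1 e1 e2 ?_
    rwa [c.conj hb0, ← c.mul _ _ (inv_ne_zero hb0) hb1, ← mul_inv, hb, inv_inv]

/-- The mixed version: scale `w` by the `a` of `Ch.ex` keeping the point `v` (`sc1`, `sc2`, or `w ∈ F v`). -/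
theorem th_orth' (c : Ch σ χ) (h : Sys B (fun _ => 1) ψ) (h' : Sys B χ φ) {v w : V} (hv : Pt B v)
    (hw : Pt B w) : ∑ x, starRingEnd ℂ (ψ x v) * φ x w = 0 := by
  obtain ⟨a, ha, ha0, h1⟩ := c.ex
  have h2 : starRingEnd ℂ 1 * χ a ≠ 1 := by rwa [map_one, one_mul]
  by_cases hi : w ∈ span F {v}
  · obtain ⟨b, rfl⟩ := mem_span_singleton.1 hi
    obtain ⟨g, e⟩ := s.ex_move hv (hv.smul ha0)
    exact th_zero h h' ha0 ha0 e (by rw [map_smul, e, smul_comm]) h2
  by_cases e : B v w = 0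
  · obtain ⟨g, e1, e2⟩ := s.sc1 hv hw.2 e hi one_ne_zero ha0
    exact th_zero h h' one_ne_zero ha0 e1 e2 h2
  · obtain ⟨g, e1, e2⟩ := s.sc2 hv.2 hw.2 e (inv_ne_zero ha0)
    rw [map_inv₀, inv_inv, ha] at e2
    exact th_zero h h' (inv_ne_zero ha0) ha0 e1 e2 h2

/-- `th_orth'`. -/
theorem gr_orth (c : Ch σ χ) (h : Sys B (fun _ => 1) ψ) (h' : Sys B χ φ) : gr B ψ * gr B φ = 0 := by
  ext x y
  rw [gr_mul, Matrix.zero_apply]
  refine Finset.sum_eq_zero fun v hv => mul_eq_zero_of_right _ (Finset.sum_eq_zero fun w hw => ?_)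
  rw [Set.Finite.mem_toFinset] at hv hw
  rw [s.th_orth' c h h' hv hw, mul_zero]

/-- `∑_{t ∈ T} φ (t • x) v = ∑_t φ x (t v)`.  The `t` with centre `⊥ v` fix `v` (`cardT`, `cnt_perp1`).  For the others
`t ↦ t v` is a bijection onto `{w | B w w = 0, B v w ≠ 0 skew}` (inverse: `u = w - v`, `c = (B u v)⁻¹`); this set is
invariant under `w ↦ a • w` (`a` real, `χ a ≠ 1`), so the sum of `φ x w` over it vanishes. -/
theorem th_eig (c : Ch σ χ) (h : Sys B χ φ) : ∃ ω : ℤ,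
    (q + 1) * ω = q ^ 3 * uu q n ^ 2 - q ^ 3 * uu q n + q ^ 2 * uu q n - 1 ∧
      ∀ x v, Pt B v → ∑ y, mT B X x y * φ y v = ω * φ x v := by
  classical
  haveI : Finite (SUG B) := finite_sug
  have cnt : ∀ v, Pt B v → ((q : ℤ) + 1) * ({t : SUG B | IsT t ∧ t.1 v = v}.ncard : ℤ) =
      q ^ 3 * uu q n ^ 2 - q ^ 3 * uu q n + q ^ 2 * uu q n - 1 := fun v hv => by
    have e := cardT s.herm s.bar (fun u => B v u = 0) fun a u _ e => by rw [map_smul, e, smul_zero]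
    rw [← s.cnt_perp1 hv, ← e]
    push_cast
    congr 3
    ext t
    simp only [Set.mem_setOf_eq]
    refine ⟨fun ⟨⟨u, c, hu, hc, a⟩, b⟩ => ⟨u, c, hu, hc, a, ?_⟩, fun ⟨u, c, hu, hc, a, b⟩ =>
      ⟨⟨u, c, hu, hc, a⟩, a.fix (s.herm.eq_zero_comm.1 b)⟩⟩
    rw [a v, add_eq_left, smul_eq_zero, mul_eq_zero] at b
    exact s.herm.eq_zero_comm.1 ((b.resolve_right hu.1).resolve_left hc)
  obtain ⟨e, -, f, -, he, -, hef⟩ := s.ex_hyp (Y := ⊤) (by rw [s.herm.perp_top]; exact disjoint_bot_right)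
    (by rw [finrank_top, s.dim]; exact le_trans (by norm_num) s.n6)
  have pe : Pt B e := ⟨fun e0 => by rw [e0] at hef; simp at hef, he⟩
  refine ⟨_, cnt e pe, fun x v hv => ?_⟩
  have e1 : ({t : SUG B | IsT t ∧ t.1 e = e}.ncard : ℤ) = {t : SUG B | IsT t ∧ t.1 v = v}.ncard :=
    mul_left_cancel₀ (by positivity) ((cnt e pe).trans (cnt v hv).symm)
  have e2 : ∑ t ∈ (Set.toFinite {t : SUG B | IsT t}).toFinset, φ (t • x) v =
      ∑ t ∈ (Set.toFinite {t : SUG B | IsT t}).toFinset, φ x (t.1 v) := by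
    refine Finset.sum_nbij' (·⁻¹) (·⁻¹) (fun t ht => ?_) (fun t ht => ?_) (fun t _ => inv_inv t)
      (fun t _ => inv_inv t) fun t _ => by rw [← h.inv t x, app_inv]
    all_goals
      simp only [Set.Finite.mem_toFinset, Set.mem_setOf_eq] at ht ⊢
      exact ht.inv
  have e3 : ∑ t ∈ (Set.toFinite {t : SUG B | IsT t ∧ t.1 v ≠ v}).toFinset, φ x (t.1 v) = 0 := by
    obtain ⟨a, ha, ha0, h1⟩ := c.ex
    rw [th_bij s.herm hv]
    set W := (Set.toFinite {w | B w w = 0 ∧ B v w ≠ 0 ∧ B v w + σ (B v w) = 0}).toFinset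
    have cl : ∀ b : F, σ b = b → b ≠ 0 → ∀ w ∈ W, b • w ∈ W := fun b hb hb0 w hw => by
      simp only [W, Set.Finite.mem_toFinset, Set.mem_setOf_eq] at hw ⊢
      refine ⟨by simp [hw.1], by rw [map_smul]; exact smul_ne_zero hb0 hw.2.1, ?_⟩
      rw [map_smul, smul_eq_mul, map_mul, hb, ← mul_add, hw.2.2, mul_zero]
    have e4 : ∑ w ∈ W, φ x (a • w) = ∑ w ∈ W, φ x w :=
      Finset.sum_nbij' (a • ·) (a⁻¹ • ·) (cl a ha ha0) (cl a⁻¹ (by rw [map_inv₀, ha]) (inv_ne_zero ha0))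
        (fun w _ => inv_smul_smul₀ ha0 w) (fun w _ => smul_inv_smul₀ ha0 w) fun _ _ => rfl
    simp only [h.smul _ _ _ ha0, ← Finset.mul_sum] at e4
    have e5 : (χ a - 1) * ∑ w ∈ W, φ x w = 0 := by rw [sub_mul, e4, one_mul, sub_self]
    exact (mul_eq_zero.1 e5).resolve_left (sub_ne_zero.2 h1)
  rw [mT_sum x (fun y => φ y v), e2, ← Finset.sum_filter_add_sum_filter_not _ (fun t : SUG B => t.1 v = v), e1,
    Finset.sum_congr rfl (g := fun _ => φ x v) fun t ht => by rw [(Finset.mem_filter.1 ht).2],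
    Finset.sum_const, nsmul_eq_mul, ← Set.ncard_coe_finset]
  have e6 : (((Set.toFinite {t : SUG B | IsT t}).toFinset.filter fun t : SUG B => t.1 v = v : Finset (SUG B)) :
      Set (SUG B)) = {t : SUG B | IsT t ∧ t.1 v = v} := by ext t; simp
  rw [e6, Int.cast_natCast, add_eq_left, ← e3]
  congr 1
  ext t; simp

/-- `κ = K(v, v) > 0` is constant on `Pt B` (`ex_move`); by `th_orth`, `(gr φ)² = (q² - 1) κ gr φ` and
`tr (gr φ) = κ nI`, `f = |P|` (`card_pts`, `nI_eq`); `∑ y, φ y v = 0` (scale `v`: `sc2`) gives `U J = 0`. -/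
theorem th (c : Ch σ χ) (h : Sys B χ φ) {x : X} {v : V} (hv : Pt B v) (h0 : φ x v ≠ 0) :
    ∃ f ω : ℤ, Idm (SUG B) (gr B φ) f ∧ mT B X * gr B φ = (ω : ℂ) • gr B φ ∧ Fc q (uu q n) f ω := by
  classical
  obtain ⟨ω, hω, eig⟩ := s.th_eig c h
  set P := (Set.toFinite {v | Pt B v}).toFinset with hP
  have mP : ∀ w, w ∈ P ↔ Pt B w := fun w => by simp [P]
  set κ := ∑ z, starRingEnd ℂ (φ z v) * φ z v with hκ
  have cst : ∀ w, Pt B w → ∑ z, starRingEnd ℂ (φ z w) * φ z w = κ := fun w hw => by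
    obtain ⟨g, rfl⟩ := s.ex_move hv hw
    exact th_inv h h g v v
  have κ0 : κ ≠ 0 := by
    have e : κ = ((∑ z, Complex.normSq (φ z v) : ℝ) : ℂ) := by
      rw [hκ, Complex.ofReal_sum]
      exact Finset.sum_congr rfl fun z _ => by rw [mul_comm, Complex.mul_conj]
    rw [e, Complex.ofReal_ne_zero]
    exact (Finset.sum_pos' (f := fun z => Complex.normSq (φ z v)) (fun z _ => Complex.normSq_nonneg _)
      ⟨x, Finset.mem_univ _, Complex.normSq_pos.2 h0⟩).ne'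
  haveI := Fintype.ofFinite F
  have cF : ((Finset.univ.erase (0 : F)).card : ℂ) = q ^ 2 - 1 := by
    rw [Finset.card_erase_of_mem (Finset.mem_univ _), Finset.card_univ, Nat.cast_pred Fintype.card_pos,
      ← Nat.card_eq_fintype_card, s.bar.card, Nat.cast_pow]
  have q0 : (q : ℂ) ^ 2 - 1 ≠ 0 := by
    rw [← cF, Nat.cast_ne_zero, Finset.card_ne_zero]
    exact ⟨1, by simp⟩
  have inner : ∀ y u, Pt B u → ∑ w ∈ P, starRingEnd ℂ (φ y w) * ∑ z, starRingEnd ℂ (φ z u) * φ z w =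
      (q ^ 2 - 1) * κ * starRingEnd ℂ (φ y u) := fun y u hu => by
    rw [← Finset.sum_filter_of_ne (p := fun w => w ∈ span F {u}) fun w hw ne => by
      by_contra hi
      exact ne (by rw [s.th_orth c h hu ((mP w).1 hw) hi, mul_zero]), mul_assoc, ← cF, ← nsmul_eq_mul,
      ← Finset.sum_const]
    refine (Finset.sum_bij (fun a _ => a • u) (fun a ha => ?_) (fun a _ b _ e => smul_left_injective F hu.1 e)
      (fun w hw => ?_) fun a ha => ?_).symm
    · exact Finset.mem_filter.2 ⟨(mP _).2 (hu.smul (Finset.ne_of_mem_erase ha)),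
        smul_mem _ _ (mem_span_singleton_self u)⟩
    · obtain ⟨a, rfl⟩ := mem_span_singleton.1 (Finset.mem_filter.1 hw).2
      refine ⟨a, Finset.mem_erase.2 ⟨?_, Finset.mem_univ _⟩, rfl⟩
      rintro rfl
      exact ((mP _).1 (Finset.mem_filter.1 hw).1).1 (zero_smul _ _)
    · have ha0 := Finset.ne_of_mem_erase ha
      simp only [h.smul _ _ _ ha0, map_mul, mul_left_comm _ (χ a), ← Finset.mul_sum, cst u hu]
      linear_combination (-(κ * starRingEnd ℂ (φ y u))) * c.nrm a ha0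
  have tr : (gr B φ).trace = P.card * κ := by
    simp only [Matrix.trace, Matrix.diag, gr, Matrix.of_apply]
    rw [Finset.sum_comm, ← nsmul_eq_mul, ← Finset.sum_const]
    refine Finset.sum_congr rfl fun w hw => ?_
    rw [← cst w ((mP w).1 hw)]
    exact Finset.sum_congr rfl fun z _ => mul_comm _ _
  have cP : (P.card : ℂ) = (q ^ 2 - 1) * ((Nat.card (isoP B) : ℤ) : ℂ) := by
    have e : (P.card : ℤ) = (q ^ 2 - 1) * Nat.card (isoP B) := by
      rw [s.card_pts, ← s.nI_eq, nI, Set.ncard_eq_toFinset_card _ (Set.toFinite _)]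
    exact_mod_cast congrArg (Int.cast : ℤ → ℂ) e
  refine ⟨Nat.card (isoP B), ω, ⟨fun g y z => ?_, fun e => ?_, ?_, (q ^ 2 - 1) * κ, mul_ne_zero q0 κ0, ?_, ?_⟩, ?_,
    by rw [mul_comm]; exact s.card_pts, hω⟩
  · simp only [gr, Matrix.of_apply]
    exact (Finset.sum_nbij' g.1 (g⁻¹).1 (fun w hw => (mP _).2 (((mP _).1 hw).app g))
      (fun w hw => (mP _).2 (((mP _).1 hw).app g⁻¹)) (fun w _ => inv_app g w) (fun w _ => app_inv g w)
      fun w _ => by rw [h.inv, h.inv]).symm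
  · rw [e, Matrix.trace_zero] at tr
    exact mul_ne_zero (Nat.cast_ne_zero.2 (Finset.card_ne_zero.2 ⟨v, (mP v).2 hv⟩)) κ0 tr.symm
  · ext y z
    simp only [Matrix.mul_apply, gr, jc, Matrix.of_apply, mul_one, Matrix.zero_apply]
    rw [Finset.sum_comm]
    refine Finset.sum_eq_zero fun w hw => ?_
    have := s.th_orth' (ψ := fun _ _ => 1) c ⟨fun _ _ _ => rfl, fun _ _ _ _ => (one_mul _).symm⟩ h hv ((mP w).1 hw)
    simp only [map_one, one_mul] at this
    rw [← Finset.mul_sum, ← map_sum, this, map_zero, mul_zero]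
  · ext y z
    rw [gr_mul, Matrix.smul_apply, gr, Matrix.of_apply, smul_eq_mul, Finset.mul_sum]
    exact Finset.sum_congr rfl fun w hw => by rw [inner z w ((mP w).1 hw)]; ring
  · rw [tr, cP]; ring
  · ext y z
    simp only [Matrix.mul_apply, gr, Matrix.of_apply, Matrix.smul_apply, smul_eq_mul, Finset.mul_sum]
    rw [Finset.sum_comm]
    refine Finset.sum_congr rfl fun w hw => ?_
    rw [← mul_assoc, ← eig y w ((mP w).1 hw), Finset.sum_mul]
    exact Finset.sum_congr rfl fun _ _ => (mul_assoc _ _ _).symm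

end Un

end Cfsg.Lib.R3U
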