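import Cfsg.Agent.Lib.R3U.I0
import Cfsg.Agent.Lib.R3U.Dvd
import Cfsg.Agent.Lib.R3U.PT
import Cfsg.Agent.Lib.R3U.TH
import Cfsg.Agent.Lib.R3U.NumP

/-! S2196, case I: the root groups are full. -/

set_option autoImplicit false

namespace Cfsg.Lib.R3U

open Cfsg.Lib.Unitary Cfsg.Lib.R3S Module Submodule MulAction

variable {F V : Type*} [Field F] [AddCommGroup V] [Module F V] {σ : F →+* F}
  {B : V →ₛₗ[σ] V →ₗ[F] F} {q n : ℕ} [Finite F] [Finite V] {H : Subgroup (SUG B)}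

/-- `h v = k • v` gives `Rt H v (c₀ * (k * σ k))` (`Rt.conj`, `rt_smul`); `c / c₀ = x² + y²` (`sum_sq`), `Rt.add`. -/
theorem rt_of_sq (h : IsHerm σ B) (hσ : IsBar q σ) {v : V} (hv : Cen H v) (hs : Sq H v) {c : F}
    (hc : c + σ c = 0) : Rt H v c := by
  obtain ⟨hp, c₀, h0, h1⟩ := hv
  have k : ∀ a, σ a = a → Rt H v (c₀ * a ^ 2) := fun a ha => by
    by_cases e : a = 0
    · simpa [e] using Rt.zero v
    obtain ⟨g, hg, k, e1, e2⟩ := hs a ha e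
    exact e2 ▸ rt_smul.1 (e1 ▸ h1.conj hg)
  have sk : σ c₀ = -c₀ := let ⟨_, _, t⟩ := h1; (neg_eq_of_add_eq_zero_right (t.skew h hp)).symm
  obtain ⟨x, y, a, b, e⟩ := sum_sq hσ (a := c / c₀) (by
    rw [map_div₀, sk, ← neg_eq_of_add_eq_zero_right hc, neg_div_neg_eq])
  rw [show c = c₀ * x ^ 2 + c₀ * y ^ 2 by rw [← mul_add, ← e, mul_div_cancel₀ _ h0]]
  exact (k x a).add hp.2 (k y b)

/-- Otherwise `¬ Sq H v` (`rt_of_sq`): `ex_sys`, `th`, `two_pt` (a centre and a non-centre are not `Rl`-related,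
`Rl.cen`), `gr_orth`, `orth` give `|X| = 1 + f + f'`; `sq_dvd` applies (`rt_stab`; for a centre `w` use `N2.two` to move
`¬ Rt H v c`, for a non-centre any skew `c ≠ 0`); `num_i`. -/
theorem Un.full (s : Un σ B q n) {X : Type*} [MulAction (SUG B) X] [Finite X] {E : X → X → Prop}
    (hE : R3G (SUG B) X E) (x : X) (h2 : N2 (stabilizer (SUG B) x)) {r z : V}
    (hr : Cen (stabilizer (SUG B) x) r) (hz : Pt B z) (hz' : ¬ Cen (stabilizer (SUG B) x) z) :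
    Full (stabilizer (SUG B) x) := by
  classical
  have := Fintype.ofFinite X
  intro v c hv hc
  by_contra hn
  obtain ⟨χ, φ, a1, a2, a3⟩ := ex_sys s.bar x hv.1.1 fun e => hn (rt_of_sq s.herm s.bar hv e hc)
  obtain ⟨f', ω', b1, -, b2⟩ := s.th a1 a2 hv.1 a3
  obtain ⟨ψ, f, ω, c1, c2, -, c3⟩ := s.two_pt x hE.tr h2 fun t => hz' ((t r z hr.1 hz).cen hr)
  refine num_i (by exact_mod_cast s.q3) c3 b2 ?_
  rw [← orth hE c2 b1 (s.gr_orth a1 c1 a2), ← Nat.card_eq_fintype_card]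
  refine Int.natCast_dvd_natCast.2 (s.sq_dvd fun y w hw => ?_)
  obtain ⟨g, rfl⟩ := hE.tr x y
  obtain ⟨w, rfl⟩ : ∃ w', g.1 w' = w := ⟨_, app_inv g w⟩
  have hw' : Pt B w := inv_app g w ▸ hw.app g⁻¹
  simp only [rt_stab]
  by_cases e : Cen (stabilizer (SUG B) x) w
  · obtain ⟨h, hh, k, e1⟩ := (h2.two hr hz hz').1 w v e hv
    have k0 : k ≠ 0 := fun k0 => app_ne h hw'.1 (by rw [e1, k0, zero_smul])
    have k1 : k * σ k ≠ 0 := mul_ne_zero k0 ((map_ne_zero σ).2 k0)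
    refine ⟨c / (k * σ k), ?_, fun t => hn (div_mul_cancel₀ c k1 ▸ rt_smul.1 (e1 ▸ t.conj hh))⟩
    rw [map_div₀, map_mul, s.herm.invol, mul_comm (σ k), ← add_div, hc, zero_div]
  · obtain ⟨δ, d0, d1⟩ := s.herm.exists_skew
    exact ⟨δ, by rw [d1, add_neg_cancel], fun t => e ⟨hw', δ, d0, t⟩⟩

end Cfsg.Lib.R3U
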