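import Cfsg.Agent.Lib.R3U.IFull

/-! S2196, case I with full root groups: the real symplectic structure. -/

set_option autoImplicit false

namespace Cfsg.Lib.R3U

open Cfsg.Lib.Unitary Cfsg.Lib.R3S Module Submodule MulAction

variable {F V : Type*} [Field F] [AddCommGroup V] [Module F V] {σ : F →+* F}
  {B : V →ₛₗ[σ] V →ₗ[F] F} {q n : ℕ} [Finite F] [Finite V] {H : Subgroup (SUG B)}

omit [Finite F] [Finite V] in
theorem ir_one (h : IsHerm σ B) {r s' : V} (e : B r s' = 1) : B s' r = 1 := by rw [← h.symm, e, map_one]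

omit [Finite F] [Finite V] in
/-- The projection to `s'^⊥` along `r`. -/
theorem ir_proj (h : IsHerm σ B) {r s' w : V} (hr : B r r = 0) (e : B r s' = 1) (hw : Ae H r w) :
    Ae H r (w - B s' w • r) ∧ B s' (w - B s' w • r) = 0 :=
  ⟨hw.sub h hr (Ae.smul_self h hr _), by simp [ir_one h e]⟩

omit [Finite F] [Finite V] in
theorem ir_nmem {r s' f : V} (e : B s' r ≠ 0) (hf : f ≠ 0) (hsf : B s' f = 0) : f ∉ span F {r} := fun k => by
  obtain ⟨a, rfl⟩ := mem_span_singleton.1 k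
  rw [map_smul, smul_eq_mul, mul_eq_zero, or_iff_left e] at hsf
  exact hf (by rw [hsf, zero_smul])

omit [Finite F] [Finite V] in
theorem ir_nmem' {f x v : V} (h1 : B x f = 0) (h2 : B x v ≠ 0) : v ∉ span F {f} := fun k => by
  obtain ⟨a, rfl⟩ := mem_span_singleton.1 k
  exact h2 (by simp [h1])

omit [Finite F] [Finite V] in
theorem ir_span {S T : Set V} (π : V →ₗ[F] V) (h : ∀ w ∈ S, π w ∈ T) {y : V} (hy : y ∈ span F S) :
    π y ∈ span F T :=
  span_mono (Set.image_subset_iff.2 h) (apply_mem_span_image_of_mem_span π hy)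

/-- `D`. -/
def dG (h : IsHerm σ B) (H : Subgroup (SUG B)) {r : V} (hr : B r r = 0) (s' : V) : AddSubgroup V where
  carrier := {w | Ae H r w ∧ B s' w = 0}
  zero_mem' := ⟨(aeG h H hr).zero_mem, map_zero _⟩
  add_mem' a b := ⟨a.1.add h hr b.1, by rw [map_add, a.2, b.2, add_zero]⟩
  neg_mem' a := ⟨a.1.neg h hr, by rw [map_neg, a.2, neg_zero]⟩

namespace Un

variable (s : Un σ B q n) (c : CI H)
include s c

/-- `s' + k • f` is a centre for real `k` (`ae_smul`, `reg'`), so `u = f + s'` and `u + (a - 1) • s'` (`a` real `≠ 0, 1`) are;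
`ae_of_rt`, `ae_smul` give `Ae H s' (b • u)`, `cen_add` with `-1`. -/
theorem ae_cen {r s' f : V} (hr : Cen H r) (hs : Cen H s') (e : B r s' = 1) (hf : Pt B f) (hsf : B s' f = 0)
    (h : Ae H r f) : Cen H f := by
  have h0 := s.herm
  have hfs := h0.eq_zero_comm.1 hsf
  have k : ∀ a : F, σ a = a → Cen H (s' + a • f) := fun a ha =>
    s.reg' c hr hs e (s.ae_smul c hr h ha) (by simp [hs.1.2, hf.2, hsf, hfs])
  obtain ⟨a, a1, a2, a3⟩ := s.bar.exists_fixed_ne (by have := s.q3; omega)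
  obtain ⟨b, b0, b1⟩ := h0.exists_skew
  have b2 : b + σ b = 0 := by rw [b1, add_neg_cancel]
  have u1 : Cen H (s' + f) := by simpa using k 1 (map_one σ)
  have u2 : Cen H (s' + f + (a - 1) • s') := by
    have := (k a⁻¹ (by rw [map_inv₀, a1])).smul a2
    rwa [show a • (s' + a⁻¹ • f) = s' + f + (a - 1) • s' by
      rw [smul_add, smul_inv_smul₀ a2]; module] at this
  have su : B s' (s' + f) = 0 := by simp [hs.1.2, hsf]
  have u3 := s.ae_smul c hs (ae_of_rt h0 hs.1.2 u1.1.2 su b2 (c.full _ b u2 b2) (c.full _ b u1 b2))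
    (a := -(a - 1)⁻¹) (by simp [a1])
  have u4 := s.cen_add c (a := -1) hs u1 su (fun k => ir_nmem (by rw [e]; exact one_ne_zero) hf.1 h.1
    (by simpa using sub_mem k (mem_span_singleton_self s'))) b2 b0 (by
      convert u3 using 1
      rw [smul_smul, map_sub, a1, map_one, map_neg, map_one]
      congr 1
      field_simp [sub_ne_zero.2 a3])
  simpa using u4

/-- `f' = f - B s' f • r` is zero or a centre; `ae_tv` and `real_of` show that `b * B f' g` is real. -/
theorem skew_iso {r f g : V} (hr : Cen H r) (hf : Ae H r f) (h0 : B f f = 0) (hg : Ae H r g) :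
    B f g + σ (B f g) = 0 := by
  have h := s.herm
  obtain ⟨s', hs, e⟩ := s.ex_off c hr
  obtain ⟨p1, p2⟩ := ir_proj h hr.1.2 e hf
  have e1 : B (f - B s' f • r) g = B f g := by simp [hg.1]
  rw [← e1]
  have e2 : B (f - B s' f • r) (f - B s' f • r) = 0 := by simp [h0, hf.1, hr.1.2, h.eq_zero_comm.1 hf.1]
  generalize f - B s' f • r = f' at p1 p2 e2
  by_cases f0 : f' = 0
  · simp [f0]
  obtain ⟨b, b0, b1⟩ := h.exists_skew
  have := s.real_of c hr e2 (ir_nmem (by rw [ir_one h e]; exact one_ne_zero) f0 p2) (a := 1) (by simpa using p1)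
    (ae_tv h hr.1.2 p1.1 (c.full _ b (s.ae_cen c hr hs e ⟨f0, e2⟩ p2 p1) (by rw [b1, add_neg_cancel])) hg)
    one_ne_zero
  rw [div_one, map_mul, b1] at this
  exact mul_left_cancel₀ b0 (by linear_combination -this)

/-- `D = {w | Ae H r w ∧ B s' w = 0}` spans `Y = ⟨r, s'⟩^⊥` (`ae_span`), so contains a basis of `Y`. -/
theorem ex_basis {r s' : V} (hr : Cen H r) (hs : Cen H s') (e : B r s' = 1) :
    ∃ f : Fin (n - 2) → V, LinearIndependent F f ∧ (∀ i, Ae H r (f i) ∧ B s' (f i) = 0) ∧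
      ∀ y, B r y = 0 → B s' y = 0 → y ∈ span F (Set.range f) := by
  have h := s.herm
  have e1 : span F {w | Ae H r w ∧ B s' w = 0} = perp B (span F {r, s'}) := by
    refine le_antisymm (span_le.2 fun w hw => mem_perp_span.2 (by simp [hw.1.1, hw.2])) fun y hy => ?_
    rw [mem_perp_span] at hy
    have := ir_span (T := {w | Ae H r w ∧ B s' w = 0}) (LinearMap.id - (B s').smulRight r)
      (fun w hw => ir_proj h hr.1.2 e hw) (s.ae_span c hr (hy r (by simp)))
    rwa [LinearMap.sub_apply, LinearMap.smulRight_apply, hy s' (by simp), zero_smul, sub_zero] at this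
  have e2 : finrank F (span F {w | Ae H r w ∧ B s' w = 0}) = n - 2 := by
    rw [e1, h.finrank_perp, s.dim, finrank_span_pair_of_linearIndependent (linearIndependent_pair_of_gram (B := B)
      (by simp [hr.1.2, e, ir_one h e]))]
  have := exists_fun_fin_finrank_span_eq F {w | Ae H r w ∧ B s' w = 0}
  rw [e2] at this
  obtain ⟨f, f1, f2, f3⟩ := this
  exact ⟨f, f3, f1, fun y y1 y2 => f2 ▸ e1 ▸ mem_perp_span.2 (by simp [y1, y2])⟩

/-- Real combinations of the basis (`ae_smul`, `card_fixed`). -/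
theorem card_ge {r s' : V} (hr : Cen H r) (hs : Cen H s') (e : B r s' = 1) :
    q ^ 4 ≤ {w | Ae H r w ∧ B s' w = 0}.ncard := by
  obtain ⟨f, f1, f2, -⟩ := s.ex_basis c hr hs e
  have := Nat.card_le_card_of_injective (fun a : Fin (n - 2) → {x : F // σ x = x} =>
    (⟨∑ i, (a i).1 • f i, sum_mem fun i _ => ⟨s.ae_smul c hr (f2 i).1 (a i).2, by simp [(f2 i).2]⟩⟩ :
      dG s.herm H hr.1.2 s')) fun a b k => funext fun i =>
        Subtype.ext (Fintype.linearIndependent_iffₛ.1 f1 _ _ (congrArg Subtype.val k) i)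
  rw [Nat.card_fun, s.bar.card_fixed, Nat.card_eq_fintype_card, Fintype.card_fin] at this
  exact (Nat.pow_le_pow_right (by have := s.q3; omega) (by have := s.n6; omega)).trans this

/-- `cw` for `D` (`β = B`) gives an isotropic `f₁ ≠ 0`.  If `B f₁ g ≠ 0` (skew), take `κ` with `tr (κ B f₁ g) ≠ 0` and apply
`cw` to the kernel of `w ↦ κ B w g + σ (κ B w g)` in `D` (index `≤ q`): an isotropic `f₂ ≠ 0`, not a real multiple of
`f₁`; `f₂ - (B f₂ g / B f₁ g) • f₁` (a real coefficient by `skew_iso`; isotropic by `skew_iso`) works. -/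
theorem ex_iso {r s' g : V} (hr : Cen H r) (hs : Cen H s') (e : B r s' = 1) (hg : Ae H r g) :
    ∃ f, Pt B f ∧ Ae H r f ∧ B s' f = 0 ∧ B f g = 0 := by
  have h := s.herm
  obtain ⟨κ, hκ⟩ := s.bar.exists_ne
  let φ : V →+ F := AddMonoidHom.mk' (fun w => κ * B w g + σ (κ * B w g)) fun a b => by
    simp only [map_add, LinearMap.add_apply, mul_add]; ring
  let D := dG h H hr.1.2 s'
  have h1 : φ.ker.relIndex D ≤ q := by
    rw [AddSubgroup.relIndex_ker, ← s.bar.card_fixed]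
    refine Nat.card_le_card_of_injective (fun x => ⟨x.1, ?_⟩) fun x y k => Subtype.ext (Subtype.mk.inj k)
    obtain ⟨w, -, k⟩ := x.2
    rw [← k]
    show σ (κ * B w g + σ (κ * B w g)) = κ * B w g + σ (κ * B w g)
    rw [map_add, h.invol, add_comm]
  have h2 : Nat.card ↥(φ.ker ⊓ D) * φ.ker.relIndex D = Nat.card D := by
    rw [← Nat.card_congr (AddSubgroup.addSubgroupOfEquivOfLe (inf_le_right : φ.ker ⊓ D ≤ D)).toEquiv,
      AddSubgroup.inf_addSubgroupOf_right]
    exact AddSubgroup.card_mul_index _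
  have h3 : q ^ 4 ≤ Nat.card D := s.card_ge c hr hs e
  obtain ⟨f, f1, f2, f3⟩ := cw s.bar (φ.ker ⊓ D) (AddMonoidHom.mk' (fun u => (B u).toAddMonoidHom)
    fun a b => by ext; simp) (fun a _ => h.self_fixed a) (by
      have := s.q3
      by_contra! k
      have : q ^ 4 ≤ q ^ 2 * q := h3.trans (h2 ▸ Nat.mul_le_mul k h1)
      rw [← pow_succ, Nat.pow_le_pow_iff_right (by omega)] at this
      omega)
  refine ⟨f, ⟨f2, f3⟩, f1.2.1, f1.2.2, mul_left_cancel₀ (sub_ne_zero.2 hκ) ?_⟩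
  have k1 : κ * B f g + σ (κ * B f g) = 0 := f1.1
  rw [map_mul] at k1
  linear_combination σ κ * s.skew_iso c hr f1.2.1 f3 hg - k1

/-- W.l.o.g. `g ⊥ s'`.  Take `f` from `ex_iso` (a centre, `ae_cen`), `a = s' + g + k • r` isotropic (a centre, `reg'`),
so `B g g + k + σ k = 0`.  `r, s', a` are centres `⊥ f`, not in `F f`; by `lam_ne` and `skew_iso` at `f`,
`σ λ₁ λ₂ B r s'`, `σ λ₂ λ₃ B s' a`, `σ λ₃ λ₁ B a r` are skew, `B r s' = 1`, `B s' a = k`, `B a r = 1`; the product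
`N(λ₁ λ₂ λ₃) k` of three skew elements is skew, so `k` is skew. -/
theorem ae_iso {r g : V} (hr : Cen H r) (hg : Ae H r g) : B g g = 0 := by
  have h := s.herm
  obtain ⟨s', hs, e⟩ := s.ex_off c hr
  have e' := ir_one h e
  obtain ⟨p1, p2⟩ := ir_proj h hr.1.2 e hg
  rw [← show B (g - B s' g • r) (g - B s' g • r) = B g g by simp [hg.1, hr.1.2, h.eq_zero_comm.1 hg.1]]
  generalize g - B s' g • r = g at p1 p2
  obtain ⟨f, f1, f2, f3, f4⟩ := s.ex_iso c hr hs e p1
  have hf := s.ae_cen c hr hs e f1 f3 f2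
  obtain ⟨k, hk⟩ := h.exists_add_smul_isotropic hr.1.2 (v := s' + g) (by simp [e, p1.1])
  rw [add_assoc] at hk
  have ha := s.reg' c hr hs e (p1.add h hr.1.2 (Ae.smul_self h hr.1.2 k)) hk
  have a1 : B r (s' + (g + k • r)) = 1 := by simp [e, p1.1, hr.1.2]
  have a2 : B s' (s' + (g + k • r)) = k := by simp [e', p2, hs.1.2]
  have fr := h.eq_zero_comm.1 f2.1
  have fs := h.eq_zero_comm.1 f3
  have a3 : B f (s' + (g + k • r)) = 0 := by simp [fr, fs, f4]
  have a4 : B g g + k + σ k = 0 := by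
    rw [← hk]; simp [e, e', p1.1, p2, hr.1.2, hs.1.2, h.eq_zero_comm.1 p1.1, h.eq_zero_comm.1 p2]; ring
  generalize s' + (g + k • r) = a at ha a1 a2 a3
  obtain ⟨l₁, n₁, m₁⟩ := s.lam_ne c hf hr fr (ir_nmem' f3 (by rw [e']; exact one_ne_zero))
  obtain ⟨l₂, n₂, m₂⟩ := s.lam_ne c hf hs fs (ir_nmem' f2.1 (by rw [e]; exact one_ne_zero))
  obtain ⟨l₃, n₃, m₃⟩ := s.lam_ne c hf ha a3 (ir_nmem' f2.1 (by rw [a1]; exact one_ne_zero))
  have x := s.skew_iso c hf m₁ (by simp [hr.1.2]) m₂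
  have y := s.skew_iso c hf m₂ (by simp [hs.1.2]) m₃
  have z := s.skew_iso c hf m₃ (by simp [ha.1.2]) m₁
  simp only [map_smul, LinearMap.map_smulₛₗ, LinearMap.smul_apply, smul_eq_mul, map_mul, h.invol, e, a2,
    ir_one h a1, mul_one] at x y z
  have n : l₁ * l₂ * l₃ * σ l₁ * σ l₂ * σ l₃ ≠ 0 := by simp [n₁, n₂, n₃]
  refine mul_left_cancel₀ n ?_
  linear_combination l₁ * l₂ * l₃ * σ l₁ * σ l₂ * σ l₃ * a4 - σ l₂ * l₃ * k * (σ l₃ * l₁) * x +
    l₁ * σ l₂ * (σ l₃ * l₁) * y - l₁ * σ l₂ * (l₂ * σ l₃ * σ k) * z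

theorem ae_skew {r f g : V} (hr : Cen H r) (hf : Ae H r f) (hg : Ae H r g) : B f g + σ (B f g) = 0 :=
  s.skew_iso c hr hf (s.ae_iso c hr hf) hg

/-- `w ↦ (B (f i) w)_i` is injective on `Y` with skew values (`ex_basis`, `card_trace_zero`). -/
theorem card_le {r s' : V} (hr : Cen H r) (hs : Cen H s') (e : B r s' = 1) :
    {w | Ae H r w ∧ B s' w = 0}.ncard ≤ q ^ (n - 2) := by
  have h := s.herm
  obtain ⟨f, -, f2, f3⟩ := s.ex_basis c hr hs e
  have := Nat.card_le_card_of_injective (fun (w : dG h H hr.1.2 s') (i : Fin (n - 2)) =>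
    (⟨B (f i) w, s.ae_skew c hr (f2 i).1 w.2.1⟩ : {x : F // x + σ x = 0})) fun a b k => by
      refine Subtype.ext (sub_eq_zero.1 (h.nondeg_right _ fun v => ?_))
      have k1 := (a - b).2
      have k2 := (mem_perp_span (B := B) (s := Set.range f) (v := a.1 - b.1)).2 (by
        rintro _ ⟨i, rfl⟩
        rw [map_sub, sub_eq_zero]; exact congrArg Subtype.val (congrFun k i)) (v - B s' v • r - B r v • s')
        (f3 _ (by simp [hr.1.2, e]) (by simp [hs.1.2, ir_one h e]))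
      rw [map_sub B, map_sub B, LinearMap.map_smulₛₗ, LinearMap.map_smulₛₗ, LinearMap.sub_apply,
        LinearMap.sub_apply, LinearMap.smul_apply, LinearMap.smul_apply, show B r (a.1 - b.1) = 0 from k1.1.1,
        show B s' (a.1 - b.1) = 0 from k1.2] at k2
      simpa only [smul_zero, sub_zero] using k2
  rwa [Nat.card_fun, s.bar.card_trace_zero, Nat.card_eq_fintype_card (α := Fin _), Fintype.card_fin] at this

/-- `V₀ = {w + κ • r + a • s' | w ∈ D, κ skew, a real}` has at most `q^n` elements and is closed under real scalars.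
Every centre `v` has a non-zero multiple in `V₀`: if `B r v = 1` by `reg`, `ae_iso`; if `v ∈ F r`; otherwise
`λ • v = w + κ • r` (`lam_ne`), `w` is a centre (`ae_cen`), `ae_of_rt`, `real_of` show that `b σ κ` is real.  `dbl` on
pairs `(v, λ)`: `|C| (q - 1) ≤ (q² - 1)(|V₀| - 1)`. -/
theorem card_cen : {v | Cen H v}.ncard ≤ (q + 1) * (q ^ n - 1) := by
  have h := s.herm
  have q3 := s.q3
  obtain ⟨r, hr⟩ := c.ex
  obtain ⟨s', hs, e⟩ := s.ex_off c hr
  have e' := ir_one h e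
  obtain ⟨b, b0, b1⟩ := h.exists_skew
  have b2 : b + σ b = 0 := by rw [b1, add_neg_cancel]
  let V₀ := (fun p : V × F × F => p.1 + p.2.1 • r + p.2.2 • s') ''
    ({w | Ae H r w ∧ B s' w = 0} ×ˢ {x | x + σ x = 0} ×ˢ {x | σ x = x})
  have v1 : V₀.ncard ≤ q ^ n := by
    refine (Set.ncard_image_le (Set.toFinite _)).trans ?_
    rw [Set.ncard_prod, Set.ncard_prod, show {x : F | x + σ x = 0}.ncard = q from s.bar.card_trace_zero,
      show {x : F | σ x = x}.ncard = q from s.bar.card_fixed, show n = n - 2 + 2 by have := s.n6; omega,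
      pow_add, sq]
    exact Nat.mul_le_mul_right _ (s.card_le c hr hs e)
  have d0 : Ae H r 0 ∧ B s' 0 = 0 := (dG h H hr.1.2 s').zero_mem
  have v2 : ∀ t : F, σ t = t → ∀ x ∈ V₀, t • x ∈ V₀ := by
    rintro t ht _ ⟨⟨w, k, a⟩, ⟨⟨w1, w2⟩, k1, a1⟩, rfl⟩
    refine ⟨⟨t • w, t * k, t * a⟩, ⟨⟨s.ae_smul c hr w1 ht, by simp [show B s' w = 0 from w2]⟩, ?_, ?_⟩, by
      simp only [smul_add, mul_smul]⟩
    · show t * k + σ (t * k) = 0
      rw [map_mul, ht, ← mul_add, show k + σ k = 0 from k1, mul_zero]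
    · show σ (t * a) = t * a
      rw [map_mul, ht, show σ a = a from a1]
  have v3 : ∀ v, Cen H v → ∃ l : F, l ≠ 0 ∧ l • v ∈ V₀ := fun v hv => by
    by_cases k1 : B r v = 0
    · by_cases k2 : v ∈ span F {r}
      · obtain ⟨a, rfl⟩ := mem_span_singleton.1 k2
        have a0 : a ≠ 0 := left_ne_zero_of_smul hv.1.1
        exact ⟨b / a, div_ne_zero b0 a0, ⟨0, b, 0⟩, ⟨d0, b2, map_zero σ⟩, by simp [smul_smul, a0]⟩
      obtain ⟨l, l0, l1⟩ := s.lam_ne c hr hv k1 k2
      obtain ⟨p1, p2⟩ := ir_proj h hr.1.2 e l1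
      refine ⟨l, l0, ⟨_, B s' (l • v), 0⟩, ⟨⟨p1, p2⟩, ?_, map_zero σ⟩, by simp⟩
      have p3 := hv.smul l0
      have p4 : l • v - B s' (l • v) • r ≠ 0 := fun k => k2 ((smul_mem_iff _ l0).1
        (sub_eq_zero.1 k ▸ smul_mem _ _ (mem_span_singleton_self r)))
      rw [← sub_add_cancel (l • v) (B s' (l • v) • r)] at p3
      have p5 := s.ae_iso c hr p1
      have := s.real_of c hr p5 (ir_nmem (by rw [e']; exact one_ne_zero) p4 p2) (a := 1)
        (by rw [one_smul]; exact p1) (ae_of_rt h hr.1.2 p5 p1.1 b2 (c.full _ b p3 b2)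
          (c.full _ b (s.ae_cen c hr hs e ⟨p4, p5⟩ p2 p1) b2)) one_ne_zero
      rw [div_one, map_mul, b1, h.invol] at this
      exact mul_left_cancel₀ b0 (show _ * (_ + _) = _ by linear_combination -this)
    · have l0 := inv_ne_zero k1
      have p0 := hv.smul l0
      have p1 : B r ((B r v)⁻¹ • v) = 1 := by simp [k1]
      refine ⟨_, l0, ?_⟩
      generalize (B r v)⁻¹ • v = v at p0 p1
      obtain ⟨p2, p3⟩ := ir_proj h hr.1.2 e (s.reg c hr hs p0 e p1)
      have p4 := s.ae_iso c hr p2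
      have p5 := p0.1.2
      refine ⟨⟨_, B s' (v - s'), 1⟩, ⟨⟨p2, p3⟩, ?_, map_one σ⟩, by simp⟩
      rw [show v = v - s' - B s' (v - s') • r + B s' (v - s') • r + s' by simp] at p5
      generalize v - s' - B s' (v - s') • r = w at p2 p3 p4 p5
      generalize B s' (v - s') = k at p5
      simpa [e, e', p2.1, p3, p4, hr.1.2, hs.1.2, h.eq_zero_comm.1 p2.1, h.eq_zero_comm.1 p3, add_comm] using p5
  have v4 := dbl {v | Cen H v} (V₀ \ {0}) (fun v x => ∃ l : F, l ≠ 0 ∧ l • v = x) (m := q - 1) (n := q ^ 2 - 1)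
    (fun v hv => by
      obtain ⟨l, l0, l1⟩ := v3 v hv
      rw [← show {x : F | σ x = x}.ncard = q from s.bar.card_fixed,
        ← Set.ncard_diff_singleton_of_mem (show (0 : F) ∈ {x : F | σ x = x} from map_zero σ)]
      refine Set.ncard_le_ncard_of_injOn (fun t => t • l • v) (fun t ht => ⟨⟨v2 t ht.1 _ l1,
        smul_ne_zero ht.2 (smul_ne_zero l0 hv.1.1)⟩, t * l, mul_ne_zero ht.2 l0, mul_smul _ _ _⟩)
        (smul_left_injective F (smul_ne_zero l0 hv.1.1)).injOn)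
    fun x _ => by
      rw [← s.bar.card, ← Set.ncard_univ, ← Set.ncard_diff_singleton_of_mem (Set.mem_univ (0 : F))]
      refine le_trans (Set.ncard_le_ncard (t := (fun m : F => m • x) '' (Set.univ \ {0})) ?_) Set.ncard_image_le
      rintro v ⟨-, l, l0, rfl⟩
      exact ⟨l⁻¹, ⟨trivial, inv_ne_zero l0⟩, inv_smul_smul₀ l0 v⟩
  rw [Set.ncard_diff_singleton_of_mem (show (0 : V) ∈ V₀ from ⟨0, ⟨d0, by simp, map_zero σ⟩, by simp⟩),
    show q ^ 2 - 1 = (q + 1) * (q - 1) by rw [← Nat.sq_sub_sq, one_pow], ← mul_assoc] at v4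
  exact (Nat.le_of_mul_le_mul_right v4 (by omega)).trans
    ((mul_comm _ _).trans_le (Nat.mul_le_mul_left _ (Nat.sub_le_sub_right v1 1)))

end Un

end Cfsg.Lib.R3U
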