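import Cfsg.Agent.Lib.R3U.Cnt

/-! S2196, case I: the centres span the space. -/

set_option autoImplicit false

namespace Cfsg.Lib.R3U

open Cfsg.Lib.Unitary Cfsg.Lib.R3S Module Submodule MulAction

variable {F V : Type*} [Field F] [AddCommGroup V] [Module F V] {σ : F →+* F}
  {B : V →ₛₗ[σ] V →ₗ[F] F} {q n : ℕ} [Finite F] [Finite V] {H : Subgroup (SUG B)}

omit [Finite F] in
theorem red_lt (h : IsHerm σ B) {W : Submodule F V} (hW : W ≤ perp B W) {g t : SUG B} {e f : V} {δ : F} (ht : Tv t f δ)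
    (hδ : δ ≠ 0) (he : e ∈ W) (hef : B e f ≠ 0) (h1 : ∀ x, B e (g.1 x) = B e x) (h2 : g.1 e = e) :
    {y ∈ (W : Set V) | (g * t) • y ∈ (W : Set V)}.ncard < {y ∈ (W : Set V) | g • y ∈ (W : Set V)}.ncard := by
  have k : ∀ w ∈ W, g.1 (t.1 w) ∈ W → B f w = 0 := fun w hw e1 => by
    have := hW e1 e he
    rw [h1, ht, map_add, map_smul, hW hw e he] at this
    simpa [hδ, hef] using this
  refine Set.ncard_lt_ncard ⟨fun w hw => ⟨hw.1, ?_⟩, fun k' => hef (h.eq_zero_comm.1 (k e he (k' ⟨he, ?_⟩).2))⟩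
  · exact ht.fix (k w hw.1 hw.2) ▸ hw.2
  · exact show g.1 e ∈ W by rwa [h2]

omit [Finite F] [Finite V] in
theorem red_perp {W : Submodule F V} (hH : ∀ g ∈ H, ∀ w ∈ W, g.1 w ∈ W) : ∀ g ∈ H, ∀ w ∈ perp B W, g.1 w ∈ perp B W :=
  fun g hg w hw y hy => by rw [← app_inv g y, b_app]; exact hw _ (hH _ (inv_mem hg) y hy)

omit [Finite F] [Finite V] in
theorem red_rl {W : Submodule F V} (hH : ∀ g ∈ H, ∀ w ∈ W, g.1 w ∈ W) {u v : V} (hu : u ≠ 0) (h : Rl H u v) (a : u ∈ W) :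
    v ∈ W := h.imp hH (fun c _ _ => W.smul_mem c) hu a

namespace Un

variable (s : Un σ B q n)
include s

/-- `R3.set` with `Y = V`, `O = W`.  Take independent `e₁, e₂, e₃ ∈ W` and mutually perpendicular isotropic
`f₁, f₂, f₃` with `B e_i f_j = δ_ij` (`exists_partner` inductively for the families `e₁ e₂ e₃ f₁ …`,
`linearIndependent_cons_of_apply`), `g_i = t_{f₁}(δ) ⋯ t_{f_i}(δ)`; for `w ∈ W`, `g_i w ∈ W` iff
`B f_j w = 0` for `j ≤ i` (apply `B e_j`); strict inclusions (`Set.ncard_lt_ncard`). -/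
theorem red1 (h3 : R3 H) {W : Submodule F V} (hW : W ≤ perp B W) (hd : 3 ≤ finrank F W)
    (hH : ∀ g ∈ H, ∀ w ∈ W, g.1 w ∈ W) : False := by
  have h := s.herm
  obtain ⟨e', he'⟩ := exists_linearIndependent_of_le_finrank hd
  have he : LinearIndependent F fun i => (e' i : V) := he'.map' W.subtype W.ker_subtype
  obtain ⟨δ, d0, d1⟩ := h.exists_skew
  choose f f0 f1 using fun j => h.exists_partner he j fun i => hW (e' j).2 _ (e' i).2
  choose t ht using fun j => ex_tv h (f0 j) (c := δ) (by rw [d1, add_neg_cancel])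
  have a : ∀ i j, i ≠ j → ∀ x, B (e' i) ((t j).1 x) = B (e' i) x := fun i j n x => by rw [ht]; simp [f1, n]
  have b : ∀ i j, i ≠ j → (t j).1 (e' i) = e' i := fun i j n => (ht j).fix (h.eq_zero_comm.1 (by simp [f1, n]))
  refine h3.set (W : Set V) hH (1 * t 0) (1 * t 0 * t 1) (1 * t 0 * t 1 * t 2) ?_
    (red_lt h hW (ht 1) d0 (e' 1).2 (by simp [f1]) (fun x => by rw [one_mul, a 1 0 (by decide)]) (by rw [one_mul, b 1 0 (by decide)]))
    (red_lt h hW (ht 2) d0 (e' 2).2 (by simp [f1]) (fun x => by rw [one_mul, mul_app, a 2 0 (by decide), a 2 1 (by decide)])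
      (by rw [one_mul, mul_app, b 2 1 (by decide), b 2 0 (by decide)]))
  simpa using red_lt h hW (g := 1) (ht 0) d0 (e' 0).2 (by simp [f1]) (fun _ => rfl) rfl

/-- Scale to `B u u = 1`; then `h u = a • u` has `a σ a = 1`.  `I g = if g u ∈ F u then 3 else if B u (g u) = 0 then 2
else if B u (g u) * σ (B u (g u)) = 1 then 1 else 0` is bi-invariant; `exists_SUG_vec` maps `u` to `u' ⊥ u` of norm `1`,
to `u + e` (`e ⊥ u` isotropic), to `a • u + y` (`a σ a = k` real `≠ 0, 1`, `y ⊥ u`, `B y y = 1 - k`). -/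
theorem red2 (h3 : R3 H) {u : V} (hu : B u u ≠ 0) (hH : ∀ g ∈ H, ∃ a : F, g.1 u = a • u) : False := by
  classical
  have h := s.herm
  have u0 : u ≠ 0 := fun e => hu (by simp [e])
  have n6 := s.dim ▸ s.n6
  have one : ∀ g ∈ H, ∃ a : F, a * σ a = 1 ∧ g.1 u = a • u := fun g hg => by
    obtain ⟨a, e⟩ := hH g hg
    have := b_app g u u
    rw [e, LinearMap.map_smulₛₗ₂, map_smul, smul_eq_mul, smul_eq_mul, ← mul_assoc, mul_comm _ a] at this
    exact ⟨a, mul_right_cancel₀ hu (this.trans (one_mul _).symm), e⟩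
  obtain ⟨e, he, f, hf, e0, f0, ef⟩ := s.ex_hyp (h.disjoint_perp_perp (IsHerm.disjoint_perp_singleton hu))
    (by have := h.finrank_perp_singleton u0; omega)
  rw [mem_perp_singleton] at he hf
  have key : ∀ a : F, ∃ g : SUG B, (¬ ∃ b : F, g.1 u = b • u) ∧ B u (g.1 u) * σ (B u (g.1 u)) = a * σ a * B u u ^ 2 := fun a => by
    obtain ⟨θ, hθ⟩ := h.exists_trace_eq (s := (1 - a * σ a) * B u u) (by
      rw [map_mul, map_sub, map_one, map_mul, h.invol, h.self_fixed, mul_comm (σ a)])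
    have fe : B f e = 1 := by rw [← h.symm, ef, map_one]
    have eu := h.eq_zero_comm.1 he
    have fu := h.eq_zero_comm.1 hf
    have nb : ∀ b : F, a • u + (e + θ • f) ≠ b • u := fun b k => by simpa [fu, fe, f0] using congrArg (B f) k
    obtain ⟨g, hg, k⟩ := h.exists_SUG_vec (by omega) u0 (u' := a • u + (e + θ • f)) (by simpa using nb 0) (by
      simp [he, hf, eu, fu, e0, f0, ef, fe]; linear_combination -hθ)
    refine ⟨⟨g, hg⟩, fun ⟨b, k'⟩ => nb b (k.symm.trans k'), ?_⟩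
    simp only [k, map_add, map_smul, he, hf, smul_eq_mul, mul_zero, add_zero, map_mul, h.self_fixed]; ring
  obtain ⟨k, k1, k2, k3⟩ := s.bar.exists_fixed_ne (by have := s.q3; omega)
  obtain ⟨a, rfl⟩ := s.bar.exists_norm_eq k1
  obtain ⟨g₁, a1, b1⟩ := key 0
  obtain ⟨g₂, a2, b2⟩ := key 1
  obtain ⟨g₃, a3, b3⟩ := key a
  refine h3 (fun g => if ∃ b : F, g.1 u = b • u then 3 else if B u (g.1 u) * σ (B u (g.1 u)) = 0 then 2
    else if B u (g.1 u) * σ (B u (g.1 u)) = B u u ^ 2 then 1 else 0) (fun g x hx => ⟨?_, ?_⟩) 1 g₁ g₂ g₃ ?_ ?_ ?_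
  · obtain ⟨c, c1, c2⟩ := one x hx
    obtain ⟨d, d1, d2⟩ := one _ (inv_mem hx)
    have e1 : (∃ b : F, (x * g).1 u = b • u) ↔ ∃ b : F, g.1 u = b • u :=
      ⟨fun ⟨b, k⟩ => ⟨b * d, by rw [← inv_app x (g.1 u), ← mul_app x, k, map_smul, d2, mul_smul]⟩,
        fun ⟨b, k⟩ => ⟨b * c, by rw [mul_app, k, map_smul, c2, mul_smul]⟩⟩
    have e2 : B u ((x * g).1 u) = σ d * B u (g.1 u) := by
      rw [← b_app x⁻¹, mul_app, inv_app, d2, LinearMap.map_smulₛₗ₂, smul_eq_mul]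
    have e3 : B u ((x * g).1 u) * σ (B u ((x * g).1 u)) = B u (g.1 u) * σ (B u (g.1 u)) := by
      rw [e2, map_mul, h.invol]; linear_combination B u (g.1 u) * σ (B u (g.1 u)) * d1
    simp only [e1, e3]
  · obtain ⟨c, c1, c2⟩ := one x hx
    have e0 : (g * x).1 u = c • g.1 u := by rw [mul_app, c2, map_smul]
    have e1 : (∃ b : F, (g * x).1 u = b • u) ↔ ∃ b : F, g.1 u = b • u :=
      ⟨fun ⟨b, k⟩ => ⟨σ c * b, by rw [mul_smul, ← k, e0, smul_smul, mul_comm, c1, one_smul]⟩,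
        fun ⟨b, k⟩ => ⟨c * b, by rw [e0, k, mul_smul]⟩⟩
    have e3 : B u ((g * x).1 u) * σ (B u ((g * x).1 u)) = B u (g.1 u) * σ (B u (g.1 u)) := by
      rw [e0, map_smul, smul_eq_mul, map_mul]; linear_combination B u (g.1 u) * σ (B u (g.1 u)) * c1
    simp only [e1, e3]
  · rw [if_neg a1, if_pos (by simpa using b1), if_pos ⟨1, (one_smul _ _).symm⟩]; decide
  · simp [a1, a2, b1, b2, hu]
  · simp [a2, a3, b2, b3, hu, k2, k3]

omit [Finite F] [Finite V] in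
/-- An invariant subspace that meets both orbits is the whole space. -/
theorem red_top (h2 : N2 H) {r z : V} (hr : Cen H r) (hz : Pt B z) (hz' : ¬ Cen H z) {W : Submodule F V}
    (hH : ∀ g ∈ H, ∀ w ∈ W, g.1 w ∈ W) (a : r ∈ W) (b : z ∈ W) : W = ⊤ :=
  s.herm.eq_top_of_isotropic hz.1 hz.2 fun u hu => by
    by_cases u0 : u = 0
    · exact u0 ▸ W.zero_mem
    by_cases e : Cen H u
    · exact red_rl hH hr.1.1 ((h2.two hr hz hz').1 r u hr e) a
    · exact red_rl hH hz.1 ((h2.two hr hz hz').2 z u hz ⟨u0, hu⟩ hz' e) b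

/-- Let `W ≠ ⊤` be the span, `C` the centres, `C'` the other points (`N2.two`, `Rl.imp`).  Every point in `W` is a
centre (else `C' ⊆ W`, `eq_top_of_isotropic`).  If `W ⊓ W^⊥ ≠ ⊥` then `C ⊆ W^⊥`, `W ≤ W^⊥`, and every point of `W^⊥` is in
`W` (else `W^⊥ = ⊤`); so `dim W ≥ 3`: otherwise enlarge `W` (`W^⊥ = W ⊕ Y`, `dim Y ≥ 2`; or `cnt_perp`); `red1`.
If `W ⊓ W^⊥ = ⊥`: a point `v ∈ W^⊥` gives `C' ⊆ W^⊥`, but `r + v` is in neither; so `W^⊥` is anisotropic, of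
dimension one (`ex_hyp`); `red2`. -/
theorem span_cen (h2 : N2 H) (h3 : R3 H) {r z : V} (hr : Cen H r) (hz : Pt B z) (hz' : ¬ Cen H z) :
    span F {v | Cen H v} = ⊤ := by
  have h := s.herm
  have n6 := s.dim ▸ s.n6
  by_contra hW
  have mem : ∀ v, Cen H v → v ∈ span F {v | Cen H v} := fun v hv => subset_span hv
  have le : ∀ U : Submodule F V, (∀ v, Cen H v → v ∈ U) → span F {v | Cen H v} ≤ U := fun U k => span_le.2 k
  have hH : ∀ g ∈ H, ∀ w ∈ span F {v | Cen H v}, g.1 w ∈ span F {v | Cen H v} := fun g hg w hw =>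
    le (comap (g.1 : V →ₗ[F] V) (span F {v | Cen H v})) (fun v hv => mem _ (hv.conj hg)) hw
  generalize span F {v | Cen H v} = W at hW mem le hH
  have hP := red_perp hH
  have cen : ∀ v ∈ W, Pt B v → Cen H v := fun v hv p => by_contra fun n => hW (s.red_top h2 hr p n hH (mem r hr) hv)
  by_cases d : Disjoint W (perp B W)
  · have an : ∀ v ∈ perp B W, ¬ Pt B v := fun v hv p => by
      have d' := disjoint_def.1 d
      have rv : B r v = 0 := hv r (mem r hr)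
      have nc : ¬ Cen H v := fun c => p.1 (d' v (mem v c) hv)
      have nW : r + v ∉ W := fun k => p.1 (d' v ((W.add_mem_iff_right (mem r hr)).1 k) hv)
      have p' : Pt B (r + v) := ⟨fun k => nW (k ▸ W.zero_mem), by simp [hr.1.2, p.2, rv, h.eq_zero_comm.1 rv]⟩
      exact hr.1.1 (d' r (mem r hr) (((perp B W).add_mem_iff_left hv).1
        (red_rl hP p.1 ((h2.two hr hz hz').2 v _ p p' nc fun c => nW (mem _ c)) hv)))
    have d1 : finrank F (perp B W) ≤ 1 := by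
      by_contra! k
      obtain ⟨e, he, f, -, e0, -, ef⟩ := s.ex_hyp (h.disjoint_perp_perp d) k
      exact an e he ⟨fun k => by simp [k] at ef, e0⟩
    obtain ⟨u, hu⟩ := finrank_le_one_iff.1 d1
    have u0 : (u : V) ≠ 0 := fun k => hW (h.perp_injective (h.perp_top ▸ (Submodule.eq_bot_iff _).2 fun w hw => by
      obtain ⟨c, e⟩ := hu ⟨w, hw⟩
      simpa [k] using (congrArg Subtype.val e).symm))
    exact s.red2 h3 (fun k => an u u.2 ⟨u0, k⟩) fun g hg =>
      let ⟨c, e⟩ := hu ⟨_, hP g hg u u.2⟩; ⟨c, (congrArg Subtype.val e).symm⟩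
  · obtain ⟨v, v1, v2, v0⟩ : ∃ v ∈ W, v ∈ perp B W ∧ v ≠ 0 := by simpa [disjoint_def] using d
    have cv := cen v v1 ⟨v0, v2 v v1⟩
    have WP : W ≤ perp B W := le _ fun w hw => red_rl hP v0 ((h2.two hr hz hz').1 v w cv hw) v2
    refine s.red1 h3 WP (by_contra fun k => ?_) hH
    obtain ⟨Y, y1, y2, -, y3⟩ := ex_compl h (perp B W)
    rw [h.perp_perp, inf_of_le_right WP] at y3
    have := y3 ▸ finrank_add_le_finrank_add_finrank W Y
    obtain ⟨e, he, f, hf, e0, -, ef⟩ := s.ex_hyp y2 (by have := h.finrank_add_finrank_perp W; omega)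
    have p : Pt B e := ⟨fun k => by simp [k] at ef, e0⟩
    by_cases c : Cen H e
    · exact one_ne_zero (ef.symm.trans (y1 hf e (mem e c)))
    · exact v0 (h.nondeg v fun w => ((s.red_top h2 cv p c hP v2 (y1 he)).ge mem_top : w ∈ perp B W) v v1)

/-- `V₁` = this span; `r ∈ V₁` (`t_r s - s`).  A centre `u ∉ V₁` is `⊥ r` and `⊥` every centre `v ̸⊥ r` (else
`t_u v ̸⊥ r` is a centre and `u ∈ V₁`), so `V₂ = span (C \ V₁) ⊥ V₁`, `V₁ + V₂ = ⊤`, `V₁ ⊓ V₂ = ⊥`.  If `u ∈ C \ V₁`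
then `r + u ∈ C'`, so every element of `C'` is a sum of two centres (`N2.two`).  Take non-isotropic `x_i ∈ V_i`
(`exists_nonisotropic`, `exists_smul_norm_eq`) with `x₁ + x₂` isotropic; it is in neither `V_i`, so in `C'`, so
`= a + b` with `a ∈ V₁`, `b ∈ V₂` isotropic, `x₁ = a`: contradiction. -/
theorem span_off (h2 : N2 H) {r z : V} (hr : Cen H r) (hz : Pt B z) (hz' : ¬ Cen H z)
    (h : span F {v | Cen H v} = ⊤) : span F {v | Cen H v ∧ B r v ≠ 0} = ⊤ := by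
  have hh := s.herm
  have le : ∀ U : Submodule F V, (∀ v, Cen H v → v ∈ U) → U = ⊤ := fun U k => top_le_iff.1 (h ▸ span_le.2 k)
  have mem : ∀ v, Cen H v → B r v ≠ 0 → v ∈ span F {v | Cen H v ∧ B r v ≠ 0} := fun v a b => subset_span ⟨a, b⟩
  -- `t_u v - v`
  have step : ∀ u v, Cen H u → Cen H v → B r u = 0 → B r v ≠ 0 → B u v ≠ 0 → u ∈ span F {v | Cen H v ∧ B r v ≠ 0} := by
    rintro u v ⟨-, c, c0, t, ht, tv⟩ hv ru rv uv
    have := mem _ (hv.conj ht) (by rw [tv]; simpa [ru] using rv)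
    rwa [tv, Submodule.add_mem_iff_right _ (mem v hv rv), smul_mem_iff _ (mul_ne_zero c0 uv)] at this
  have alt : ∀ u, Cen H u → u ∈ span F {v | Cen H v ∧ B r v ≠ 0} ∨ u ∈ perp B (span F {v | Cen H v ∧ B r v ≠ 0}) := fun u hu => by
    by_cases ru : B r u = 0
    · refine or_iff_not_imp_left.2 fun k => mem_perp_span.2 fun v hv => hh.eq_zero_comm.1 (by_contra fun uv => ?_)
      exact k (step u v hu hv.1 ru hv.2 uv)
    · exact .inl (mem u hu ru)
  obtain ⟨w, w1, w2⟩ : ∃ w, Cen H w ∧ B r w ≠ 0 := by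
    by_contra! k
    exact hr.1.1 (hh.nondeg r fun v => mem_perp_singleton.1 ((le _ fun v hv => mem_perp_singleton.2 (k v hv)).ge mem_top))
  have rV := step r w hr w1 hr.1.2 w2 w2
  have wV := mem w w1 w2
  by_contra hW
  generalize span F {v | Cen H v ∧ B r v ≠ 0} = W at alt rV wV hW
  have top : W ⊔ perp B W = ⊤ := le _ fun v hv => (alt v hv).elim mem_sup_left mem_sup_right
  have d : ∀ x ∈ W, x ∈ perp B W → x = 0 := fun x a b => hh.nondeg_right x fun v =>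
    (perp_sup W _ ▸ ⟨b, hh.le_perp_perp W a⟩ : x ∈ perp B (W ⊔ perp B W)) v (top.ge mem_top)
  obtain ⟨u, u1, u2⟩ : ∃ u, Cen H u ∧ u ∉ W := by_contra fun k => hW (le W fun v hv => by_contra fun n => k ⟨v, hv, n⟩)
  have uP := (alt u u1).resolve_left u2
  -- sums of non-zero vectors of `W` and `W^⊥`
  have nc : ∀ a ∈ W, ∀ b ∈ perp B W, a ≠ 0 → b ≠ 0 → a + b ∉ W ∧ a + b ∉ perp B W := fun a ha b hb a0 b0 =>
    ⟨fun k => b0 (d b ((W.add_mem_iff_right ha).1 k) hb), fun k => a0 (d a ha (((perp B W).add_mem_iff_left hb).1 k))⟩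
  have pt : ∀ a ∈ W, ∀ b ∈ perp B W, a ≠ 0 → b ≠ 0 → B a a + B b b = 0 → Pt B (a + b) ∧ ¬ Cen H (a + b) :=
    fun a ha b hb a0 b0 e => ⟨⟨fun k => (nc a ha b hb a0 b0).1 (k ▸ W.zero_mem), by
      simpa [hb a ha, hh.eq_zero_comm.1 (hb a ha)] using e⟩, fun c => (alt _ c).elim (nc a ha b hb a0 b0).1 (nc a ha b hb a0 b0).2⟩
  obtain ⟨x, x1, x2⟩ := hh.exists_nonisotropic rV wV w2
  obtain ⟨v, v1, v2⟩ : ∃ v ∈ perp B W, B v u ≠ 0 := by_contra fun k => u2 (hh.perp_perp W ▸ fun v hv => by_contra fun n => k ⟨v, hv, n⟩)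
  obtain ⟨y', y1, y2⟩ := hh.exists_nonisotropic v1 uP v2
  obtain ⟨c, c0, e⟩ := hh.exists_smul_norm_eq y2 (neg_ne_zero.2 x2) (by rw [map_neg, hh.self_fixed])
  have yP := (perp B W).smul_mem c y1
  generalize c • y' = y at e yP
  have x0 : x ≠ 0 := fun k => x2 (by simp [k])
  have y0 : y ≠ 0 := fun k => x2 (by simpa [k] using e)
  have p1 := pt r rV u uP hr.1.1 u1.1.1 (by rw [hr.1.2, u1.1.2, add_zero])
  have p2 := pt x x1 y yP x0 y0 (by rw [e, add_neg_cancel])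
  obtain ⟨g, hg, k, ek⟩ := (h2.two hr hz hz').2 _ _ p1.1 p2.1 p1.2 p2.2
  have k0 : k ≠ 0 := fun k0 => app_ne g p1.1.1 (by rw [ek, k0, zero_smul])
  have fin : ∀ a ∈ W, ∀ b ∈ perp B W, B a a = 0 → a + b ≠ k • (x + y) := fun a ha b hb a0 e1 => by
    have e2 : a - k • x = k • y - b := by rw [sub_eq_sub_iff_add_eq_add, e1, smul_add, add_comm]
    rw [sub_eq_zero.1 (d _ (W.sub_mem ha (W.smul_mem k x1)) (e2 ▸ sub_mem (smul_mem _ k yP) hb))] at a0
    simp [k0, x2] at a0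
  rw [map_add] at ek
  have n := nc x x1 y yP x0 y0
  rcases alt _ (hr.conj hg) with a | a <;> rcases alt _ (u1.conj hg) with b | b
  · exact n.1 ((smul_mem_iff _ k0).1 (ek ▸ add_mem a b))
  · exact fin _ a _ b (hr.conj hg).1.2 ek
  · exact fin _ b _ a (u1.conj hg).1.2 ((add_comm _ _).trans ek)
  · exact n.2 ((smul_mem_iff _ k0).1 (ek ▸ add_mem a b))

end Un

end Cfsg.Lib.R3U
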