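import Cfsg.Agent.Lib.R3U.I0

/-! S2196, case I with full root groups: `H ∩ Q_r` is regular on the opposite centres. -/

set_option autoImplicit false
set_option linter.unusedSectionVars false

namespace Cfsg.Lib.R3U

open Cfsg.Lib.Unitary Cfsg.Lib.R3S Module Submodule MulAction

variable {F V : Type*} [Field F] [AddCommGroup V] [Module F V] {σ : F →+* F}
  {B : V →ₛₗ[σ] V →ₗ[F] F} {q n : ℕ} [Finite F] [Finite V] {H : Subgroup (SUG B)}

/-- The whole line `F f` lies in `Ae H r`. -/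
def Fl (H : Subgroup (SUG B)) (r f : V) : Prop := ∀ c : F, Ae H r (c • f)

namespace Un

variable (s : Un σ B q n) (c : CI H)
include s c

theorem ex_off {r : V} (hr : Cen H r) : ∃ v, Cen H v ∧ B r v = 1 := by
  obtain ⟨v, hv, h⟩ : ∃ v, Cen H v ∧ B r v ≠ 0 := by
    by_contra hn
    have e := c.sp r hr
    rw [show {v | Cen H v ∧ B r v ≠ 0} = ∅ from Set.eq_empty_of_forall_notMem fun v hv => hn ⟨v, hv⟩,
      span_empty] at e
    exact hr.1.1 ((mem_bot F).1 (e ▸ mem_top))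
  exact ⟨(B r v)⁻¹ • v, hv.smul (inv_ne_zero h), by simp [h]⟩

/-- `v = a • r`, or `v = k • (s' + a • r) = k • t_r(a / B r s') s'`. -/
theorem cen_line {r s' v : V} (hr : Cen H r) (hs : Cen H s') (h : B r s' ≠ 0) (hv : Pt B v)
    (hm : v ∈ span F {r, s'}) : Cen H v := by
  obtain ⟨x, y, rfl⟩ := mem_span_pair.1 hm
  by_cases hy : y = 0
  · subst hy
    rw [zero_smul, add_zero]
    exact hr.smul fun e => hv.1 (by simp [e])
  have e1 : σ (B r s') = B s' r := s.herm.symm _ _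
  have h' : B s' r ≠ 0 := e1 ▸ (map_ne_zero σ).2 h
  have hy' : σ y ≠ 0 := (map_ne_zero σ).2 hy
  have i := hv.2
  simp only [map_add, map_smul, LinearMap.add_apply, LinearMap.map_smulₛₗ₂, smul_eq_mul, hr.1.2, hs.1.2] at i
  obtain ⟨t, ht, e⟩ := c.full r (x / y / B r s') hr (by
    rw [map_div₀, map_div₀, e1]; field_simp; linear_combination i)
  have := (hs.conj ht).smul hy
  rw [e, div_mul_cancel₀ _ h, smul_add, smul_smul, mul_div_cancel₀ _ hy, add_comm] at this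
  exact this

/-- The Weyl element `t_r(k) t_s(-1/k) t_r(k)`. -/
theorem ex_weyl {r s' : V} (hr : Cen H r) (hs : Cen H s') (h : B r s' = 1) {k : F} (hk : k + σ k = 0) (h0 : k ≠ 0) :
    ∃ w ∈ H, w.1 r = (-k⁻¹) • s' ∧ w.1 s' = k • r ∧ ∀ y, B r y = 0 → B s' y = 0 → w.1 y = y := by
  have h' : B s' r = 1 := by rw [← s.herm.symm, h, map_one]
  obtain ⟨t, ht, e⟩ := c.full r k hr hk
  obtain ⟨t', ht', e'⟩ := c.full s' (-k⁻¹) hs (by
    rw [map_neg, map_inv₀, show σ k = -k by linear_combination hk, inv_neg]; ring)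
  have a1 : t.1 r = r := e.fix hr.1.2
  have a2 : t.1 s' = s' + k • r := by rw [e, h, mul_one]
  have b1 : t'.1 s' = s' := e'.fix hs.1.2
  have b2 : t'.1 r = r + (-k⁻¹) • s' := by rw [e', h', mul_one]
  have i : k⁻¹ * k = 1 := inv_mul_cancel₀ h0
  refine ⟨t * t' * t, H.mul_mem (H.mul_mem ht ht') ht, ?_, ?_, fun y y1 y2 => by
    rw [mul_app, mul_app, e.fix y1, e'.fix y2, e.fix y1]⟩
  · rw [mul_app, mul_app, a1, b2, map_add, map_smul, a1, a2]
    linear_combination (norm := module) (-i) • r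
  · rw [mul_app, mul_app, a2, map_add, map_smul, b1, b2,
      show s' + k • (r + -k⁻¹ • s') = k • r by linear_combination (norm := module) (-i) • s', map_smul, a1]

/-- `tor` (Lib/Unitary/Parab) and `SU_le_of_transv` for `Y = ⟨r, s'⟩` (`cen_line`), or the explicit product of six
transvections `w(a) w(-1)`. -/
theorem ex_tor {r s' : V} (hr : Cen H r) (hs : Cen H s') (h : B r s' = 1) {a : F} (ha : σ a = a) (h0 : a ≠ 0) :
    ∃ τ ∈ H, τ.1 r = a • r ∧ τ.1 s' = a⁻¹ • s' ∧ ∀ y, B r y = 0 → B s' y = 0 → τ.1 y = y := by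
  obtain ⟨δ, d0, d1⟩ := s.bar.exists_skew
  obtain ⟨w, hw, a1, a2, a3⟩ := s.ex_weyl c hr hs h (k := a * δ) (by rw [map_mul, ha, d1]; ring) (mul_ne_zero h0 d0)
  obtain ⟨w', hw', b1, b2, b3⟩ := s.ex_weyl c hr hs h (k := -δ) (by rw [map_neg, d1]; ring) (neg_ne_zero.2 d0)
  refine ⟨w * w', H.mul_mem hw hw', ?_, ?_, fun y e e' => by rw [mul_app, b3 y e e', a3 y e e']⟩
  · rw [mul_app, b1, map_smul, a2, smul_smul]; congr 1; field_simp
  · rw [mul_app, b2, map_smul, a1, smul_smul]; congr 1; field_simp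

theorem ex_tor' {r s' : V} (hr : Cen H r) (hs : Cen H s') (h : B r s' = 1) {a : F} (ha : σ a = a) (h0 : a ≠ 0) :
    ∃ τ ∈ H, τ.1 r = a • r ∧ τ.1 s' = a⁻¹ • s' ∧ ∀ y, B r y = 0 → ∃ k : F, τ.1 y = y + k • r := by
  have h' : B s' r = 1 := by rw [← s.herm.symm, h, map_one]
  obtain ⟨τ, hτ, a1, a2, a3⟩ := s.ex_tor c hr hs h ha h0
  refine ⟨τ, hτ, a1, a2, fun y hy => ⟨(a - 1) * B s' y, ?_⟩⟩
  have := a3 (y - B s' y • r) (by simp [hy, hr.1.2]) (by simp [h'])
  rw [map_sub, map_smul, a1] at this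
  linear_combination (norm := module) this

/-- `Ae.conj` with `τ`, for `w - B s' w • r ⊥ r, s'`. -/
theorem ae_smul {r w : V} (hr : Cen H r) (hw : Ae H r w) {a : F} (ha : σ a = a) : Ae H r (a • w) := by
  by_cases h0 : a = 0
  · simpa [h0] using Ae.smul_self s.herm (H := H) hr.1.2 0
  obtain ⟨f, hf, e⟩ := s.ex_off c hr
  have e' : B f r = 1 := by rw [← s.herm.symm, e, map_one]
  obtain ⟨τ, hτ, a1, -, a3⟩ := s.ex_tor c hr hf e ha h0
  have h1 := (hw.sub s.herm hr.1.2 (Ae.smul_self s.herm hr.1.2 (B f w))).conj s.herm hτ a1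
  rw [ha, a3 _ (by simp [hw.1, hr.1.2]) (by simp [e'])] at h1
  have := h1.add s.herm hr.1.2 (Ae.smul_self s.herm hr.1.2 (a * B f w))
  convert this using 1
  module

/-- `g` differs from the element of `H` by an element of the root group (`Ei.mul`, `Ei.inv`, `ei_tv`, `Tv.skew`). -/
theorem ei_mem {r w : V} (hr : Cen H r) (hw : Ae H r w) {g : SUG B} {γ : F} (hg : Ei g r w γ) : g ∈ H := by
  obtain ⟨h0, g', hg', γ', e⟩ := hw
  have := hg.mul s.herm hr.1.2 h0 (by simp [h0]) (e.inv s.herm hr.1.2 h0)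
  rw [add_neg_cancel, ei_tv] at this
  simpa using H.mul_mem ((c.full r _ hr (this.skew s.herm hr.1)).mem this) hg'

/-- Take a real `a ≠ 0, 1` and `τ₁, τ₂` from `ex_tor`; `τ₂ τ₁⁻¹ ∈ Q_r` maps `s₁` to `s₁ + (1 - a)(s₂ - s₁)` modulo `r`
(each `τ_i` is trivial on `r^⊥ / r`); `Qz.ei`, then `ae_smul` with `(1 - a)⁻¹`. -/
theorem reg {r s₁ s₂ : V} (hr : Cen H r) (h1 : Cen H s₁) (h2 : Cen H s₂) (e1 : B r s₁ = 1) (e2 : B r s₂ = 1) :
    Ae H r (s₂ - s₁) := by
  obtain ⟨a, ha, a0, a1⟩ := s.bar.exists_fixed_ne (by have := s.q3; omega)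
  obtain ⟨τ, hτ, b1, b2, b3⟩ := s.ex_tor' c hr h1 e1 ha a0
  obtain ⟨τ', hτ', c1, c2, c3⟩ := s.ex_tor' c hr h2 e2 ha a0
  have i1 : (τ⁻¹).1 r = a⁻¹ • r := by
    apply τ.1.injective; rw [app_inv, map_smul, b1, smul_smul, inv_mul_cancel₀ a0, one_smul]
  have i2 : (τ⁻¹).1 s₁ = a • s₁ := by
    apply τ.1.injective; rw [app_inv, map_smul, b2, smul_smul, mul_inv_cancel₀ a0, one_smul]
  have hQ : Qz (τ' * τ⁻¹) r := by
    refine ⟨by rw [mul_app, i1, map_smul, c1, smul_smul, inv_mul_cancel₀ a0, one_smul], fun x hx => ?_⟩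
    have hy : B r ((τ⁻¹).1 x) = 0 := by rw [b_inv, b1]; simp [hx]
    obtain ⟨k, hk⟩ := b3 _ hy
    obtain ⟨k', hk'⟩ := c3 _ hy
    rw [app_inv] at hk
    exact ⟨k' - k, by rw [mul_app, hk']; linear_combination (norm := module) (-1 : F) • hk⟩
  obtain ⟨w, γ, w0, hw⟩ := hQ.ei s.herm hr.1
  have hA : Ae H r w := ⟨w0, _, H.mul_mem hτ' (H.inv_mem hτ), γ, hw⟩
  obtain ⟨k, hk⟩ := c3 (s₁ - s₂) (by simp [e1, e2])
  have e := hw s₁
  rw [mul_app, i2, map_smul, ← sub_add_cancel s₁ s₂, map_add, hk, c2, sub_add_cancel, e1] at e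
  have n : 1 - a ≠ 0 := sub_ne_zero.2 a1.symm
  have := s.ae_smul c hr (hA.add s.herm hr.1.2 (Ae.smul_self s.herm hr.1.2 (γ - B w s₁ - a * k)))
    (a := (1 - a)⁻¹) (by simp [ha])
  convert this using 1
  rw [eq_inv_smul_iff₀ n]
  rw [smul_add, smul_smul, mul_inv_cancel₀ a0] at e
  linear_combination (norm := module) e

/-- `g s₁ = s₁ + w` for `Ei g r w (B w s₁)` (`ex_ei`; the parameter condition is the isotropy), `ei_mem`. -/
theorem reg' {r s₁ w : V} (hr : Cen H r) (h1 : Cen H s₁) (e1 : B r s₁ = 1) (hw : Ae H r w)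
    (hi : B (s₁ + w) (s₁ + w) = 0) : Cen H (s₁ + w) := by
  obtain ⟨g, hg⟩ := ex_ei s.herm hr.1.2 hw.1 (γ := B w s₁) (by
    simp only [map_add, LinearMap.add_apply, h1.1.2] at hi
    rw [s.herm.symm]; linear_combination hi)
  have := h1.conj (s.ei_mem c hr hw hg)
  rw [hg, e1] at this
  convert this using 1
  module

/-- `ei_of_tv`, `ei_mem`. -/
theorem cen_add {r u : V} {a b : F} (hr : Cen H r) (hu : Cen H u) (hru : B r u = 0) (hi : u ∉ span F {r})
    (hb : b + σ b = 0) (b0 : b ≠ 0) (h : Ae H r ((b * σ a) • u)) : Cen H (u + a • r) := by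
  have hur : B u r = 0 := s.herm.eq_zero_comm.1 hru
  have i : B (u + a • r) (u + a • r) = 0 := by simp [hr.1.2, hu.1.2, hru, hur]
  obtain ⟨t, ht⟩ := ex_tv s.herm i hb
  obtain ⟨t', ht', e⟩ := c.full u b hu hb
  have := s.ei_mem c hr h (ei_of_tv s.herm hr.1.2 hu.1.2 hru hb ht e)
  refine ⟨⟨fun e => hi (mem_span_singleton.2 ⟨-a, ?_⟩), i⟩, b, b0, t, by simpa using H.mul_mem this ht', ht⟩
  linear_combination (norm := module) (-1 : F) • e

/-- By `sp` and `reg`, `V = ⟨s', Ae H r⟩`. -/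
theorem ae_span {r x : V} (hr : Cen H r) (hx : B r x = 0) : x ∈ span F {w | Ae H r w} := by
  obtain ⟨f, hf, e⟩ := s.ex_off c hr
  have key : ∀ v ∈ span F {v | Cen H v ∧ B r v ≠ 0}, v - B r v • f ∈ span F {w | Ae H r w} := by
    intro v hv
    induction hv using span_induction with
    | mem v hv =>
      have := smul_mem _ (B r v) (subset_span (R := F) (s := {w | Ae H r w})
        (s.reg c hr hf (hv.1.smul (inv_ne_zero hv.2)) e (by simp [hv.2])))
      rwa [smul_sub, smul_smul, mul_inv_cancel₀ hv.2, one_smul] at this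
    | zero => simp
    | add u v _ _ a b =>
      have := add_mem a b
      convert this using 1
      rw [map_add]; module
    | smul k v _ a =>
      have := smul_mem _ k a
      convert this using 1
      rw [map_smul, smul_eq_mul]; module
  simpa [hx] using key x (c.sp r hr ▸ mem_top)

/-- `F = F_q a + F_q a'` (`ae_smul`). -/
theorem lam {r u : V} {a a' : F} (hr : Cen H r) (h1 : Ae H r (a • u)) (h2 : Ae H r (a' • u)) (h0 : a ≠ 0)
    (hn : σ (a' / a) ≠ a' / a) : Fl H r u := by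
  intro k
  have n : a' / a - σ (a' / a) ≠ 0 := sub_ne_zero.2 hn.symm
  have n' : σ (a' / a) - a' / a ≠ 0 := sub_ne_zero.2 hn
  obtain ⟨y, hy, ey⟩ : ∃ y, σ y = y ∧ y * (a' / a - σ (a' / a)) = k / a - σ (k / a) :=
    ⟨(k / a - σ (k / a)) / (a' / a - σ (a' / a)), by
      rw [map_div₀, map_sub, map_sub, s.herm.invol, s.herm.invol, div_eq_div_iff n' n]; ring, div_mul_cancel₀ _ n⟩
  have := (s.ae_smul c hr h1 (a := k / a - y * (a' / a)) (by
    rw [map_sub, map_mul, hy]; linear_combination ey)).add s.herm hr.1.2 (s.ae_smul c hr h2 hy)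
  rw [smul_smul, smul_smul, ← add_smul] at this
  convert this using 2
  field_simp; ring

/-- Some `w` with `Ae H r w` has `B u w ≠ 0` (`ae_span`; else `u ∈ r^⊥⊥`); `ae_tv`. -/
theorem lam_ne {r u : V} (hr : Cen H r) (hu : Cen H u) (hru : B r u = 0) (hi : u ∉ span F {r}) :
    ∃ a : F, a ≠ 0 ∧ Ae H r (a • u) := by
  obtain ⟨w, hw, h0⟩ : ∃ w, Ae H r w ∧ B u w ≠ 0 := by
    by_contra hn
    obtain ⟨f, -, e⟩ := s.ex_off c hr
    have k : span F {w | Ae H r w} ≤ LinearMap.ker (B u) :=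
      span_le.2 fun w hw => by_contra fun h => hn ⟨w, hw, h⟩
    refine hi (mem_span_singleton.2 ⟨σ (B u f), (sub_eq_zero.1 (s.herm.nondeg _ fun v => ?_)).symm⟩)
    have := k (s.ae_span c hr (x := v - B r v • f) (by simp [e]))
    simp only [LinearMap.mem_ker, map_sub, map_smul, smul_eq_mul] at this
    simp only [map_sub, LinearMap.sub_apply, LinearMap.map_smulₛₗ₂, smul_eq_mul, s.herm.invol]
    linear_combination this
  obtain ⟨b, b0, hb⟩ := hu.2
  exact ⟨_, mul_ne_zero b0 h0, ae_tv s.herm hr.1.2 hru hb hw⟩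

end Un

end Cfsg.Lib.R3U
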