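import Cfsg.Agent.Lib.R3U.Bas
import Cfsg.Agent.Lib.OMax.ExtB

/-! S2196: isotropic additive subgroups; Chevalley–Warning. -/

set_option autoImplicit false

namespace Cfsg.Lib.R3U

open Cfsg.Lib.Unitary Cfsg.Lib.R3S Module Submodule MulAction

variable {F V : Type*} [Field F] [AddCommGroup V] [Module F V] {σ : F →+* F}
  {B : V →ₛₗ[σ] V →ₗ[F] F} {q n : ℕ} [Finite F] [Finite V] {H : Subgroup (SUG B)}

/-- A biadditive map of `ZMod p`-modules is bilinear. -/
def isoBil {p : ℕ} {M N : Type*} [AddCommGroup M] [Module (ZMod p) M] [AddCommGroup N] [Module (ZMod p) N]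
    (ω : M →+ M →+ N) : M →ₗ[ZMod p] M →ₗ[ZMod p] N :=
  LinearMap.mk₂ _ (fun a b => ω a b) (by simp) (fun c a b => ZMod.map_smul (ω.flip b) c a) (by simp)
    (fun c a b => ZMod.map_smul (ω a) c b)

theorem iso_abs {p : ℕ} [Fact p.Prime] {M : Type*} [AddCommGroup M] [Finite M] [Module (ZMod p) M]
    (ω : M →+ M →+ ZMod p) (h1 : ∀ a, (∀ b, ω a b = 0) → a = 0) (h2 : ∀ b, (∀ a, ω a b = 0) → b = 0) (A : AddSubgroup M)
    (h : ∀ a ∈ A, ∀ b ∈ A, ω a b = 0) : Nat.card A ^ 2 ≤ Nat.card M := by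
  let ω' : LinearMap.BilinForm (ZMod p) M := isoBil ω
  have l := finrank_mono (show AddSubgroup.toZModSubmodule p A ≤ ω'.orthogonal (AddSubgroup.toZModSubmodule p A) from
    fun b hb a ha => h a ha b hb)
  rw [LinearMap.BilinForm.finrank_orthogonal (B := ω') ⟨h1, h2⟩] at l
  rw [Module.natCard_eq_pow_finrank (K := ZMod p) (V := M), show Nat.card A = _ from
    Module.natCard_eq_pow_finrank (K := ZMod p) (V := AddSubgroup.toZModSubmodule p A), ← pow_mul]
  exact Nat.pow_le_pow_right Nat.card_pos (by omega)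

theorem cw_abs {p : ℕ} [hp : Fact p.Prime] {M N : Type*} [AddCommGroup M] [Finite M] [Module (ZMod p) M] [AddCommGroup N]
    [Finite N] [Module (ZMod p) N] (ω : M →+ M →+ N) (h : Nat.card N ^ 2 < Nat.card M) : ∃ w, w ≠ 0 ∧ ω w w = 0 := by
  obtain ⟨w, h0, h1⟩ := OMax.exists_ne_zero_of_two_mul_lt (F := ZMod p) 0 (isoBil ω) (by
    rw [Module.natCard_eq_pow_finrank (K := ZMod p) (V := N), Module.natCard_eq_pow_finrank (K := ZMod p) (V := M),
      Nat.card_zmod, ← pow_mul, mul_comm] at h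
    exact (Nat.pow_lt_pow_iff_right hp.out.one_lt).1 h)
  exact ⟨w, h0, (zero_add _).symm.trans h1⟩

omit [Finite F] in
theorem iso_tor {M : Type*} [AddCommGroup M] [Module F M] (A : AddSubgroup M) (p : ℕ) [CharP F p] (x : A) : p • x = 0 :=
  Subtype.ext (by rw [AddSubgroupClass.coe_nsmul, ← Nat.cast_smul_eq_nsmul F, CharP.cast_eq_zero, zero_smul]; rfl)

/-- Choose an additive character `ψ` of `F` (or a `ZMod p`-linear functional) trivial on `Z` with `ψ c ≠ 1`.
The pairing `(a, y) ↦ ψ (B a y - B y a)` on `Y` is non-degenerate: for `y ≠ 0` take `a ∈ Y` with `B a y = κ`,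
where `κ - σ κ = c` (`κ = c ω / (ω + σ ω)` for any `ω` of non-zero trace).  `A` lies in its own annihilator, so
`|A|² ≤ |Y| = q^(2 dim Y)`.  (Compare `R3S.card_le_of_iso`.) -/
theorem iso_le (h : IsHerm σ B) (hσ : IsBar q σ) {Y : Submodule F V} (hY : Disjoint Y (perp B Y))
    (A : AddSubgroup V) (hA : ∀ a ∈ A, a ∈ Y) (Z : AddSubgroup F) {c : F} (hc : c + σ c = 0) (hZ : c ∉ Z)
    (hB : ∀ a ∈ A, ∀ a' ∈ A, B a a' - B a' a ∈ Z) : Nat.card A ≤ q ^ finrank F Y := by
  have : Fact (ringChar F).Prime := ⟨CharP.char_is_prime F _⟩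
  let _ := ZMod.algebra F (ringChar F)
  obtain ⟨f, f0, hf⟩ := Submodule.exists_dual_map_eq_bot_of_notMem (p := AddSubgroup.toZModSubmodule (ringChar F) Z) hZ
    inferInstance
  let ω : Y.toAddSubgroup →+ Y.toAddSubgroup →+ ZMod (ringChar F) := AddMonoidHom.mk'
    (fun a => AddMonoidHom.mk' (fun b => f (B a b - B b a)) fun b b' => by rw [← map_add]; congr 1; simp; ring)
    fun a a' => AddMonoidHom.ext fun b => by
      change f _ = f _ + f _
      rw [← map_add]; congr 1; simp; ring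
  have k : ∀ b, (∀ a, ω a b = 0) → b = 0 := fun b hb => Subtype.ext (Submodule.disjoint_def.1 hY b b.2 fun a ha => by
    by_contra n
    obtain ⟨θ, hθ⟩ := hσ.exists_trace_eq (map_one σ)
    have e : B (σ (c * θ / B a b) • a) b = c * θ := by
      rw [LinearMap.map_smulₛₗ₂, h.invol, smul_eq_mul, div_mul_cancel₀ _ n]
    refine f0 (Eq.trans ?_ (hb ⟨_, Y.smul_mem (σ (c * θ / B a b)) ha⟩))
    change _ = f (B _ _ - B _ _)
    rw [← h.symm (_ • a), e, map_mul, show σ c = -c from (neg_eq_of_add_eq_zero_right hc).symm]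
    congr 1
    linear_combination (-c) * hθ)
  have l := @iso_abs _ _ _ _ _ (AddCommGroup.zmodModule (iso_tor (F := F) _ _)) ω (fun a ha => k a fun b => by
    have := ha b
    change f _ = 0 at this ⊢
    rw [← neg_sub, map_neg, this, neg_zero]) k (A.addSubgroupOf Y.toAddSubgroup) fun a ha b hb =>
      (Submodule.mem_bot _).1 (hf ▸ Submodule.mem_map_of_mem (hB a ha b hb))
  rw [Nat.card_congr (AddSubgroup.addSubgroupOfEquivOfLe (show A ≤ Y.toAddSubgroup from hA)).toEquiv,
    show Nat.card Y.toAddSubgroup = _ from Module.natCard_eq_pow_finrank (K := F) (V := Y), hσ.card, ← pow_mul, mul_comm,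
    pow_mul] at l
  exact (Nat.pow_le_pow_iff_left two_ne_zero).1 l

/-- `iso_le` for `A = aeG ⊓ Y`, `Z = {c | Rt H z c}` (`Ae.comm`). -/
theorem ae_le (h : IsHerm σ B) (hσ : IsBar q σ) {z : V} (hz : B z z = 0) {c : F} (hc : c + σ c = 0)
    (hn : ¬ Rt H z c) {Y : Submodule F V} (hY : Disjoint Y (perp B Y)) :
    {w ∈ Y | Ae H z w}.ncard ≤ q ^ finrank F Y :=
  iso_le h hσ hY (Y.toAddSubgroup ⊓ aeG h H hz) (fun _ ha => ha.1)
    { carrier := {c | Rt H z c}, zero_mem' := Rt.zero z, add_mem' := Rt.add hz, neg_mem' := Rt.neg hz } hc hn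
    fun _ ha _ ha' => Ae.comm h hz ha'.2 ha.2

/-- The same without transvections (`exists_skew`). -/
theorem NoTv.ae_le (h : IsHerm σ B) (hσ : IsBar q σ) (hH : NoTv H) {z : V} (hz : Pt B z)
    {Y : Submodule F V} (hY : Disjoint Y (perp B Y)) : {w ∈ Y | Ae H z w}.ncard ≤ q ^ finrank F Y :=
  let ⟨δ, h0, h1⟩ := hσ.exists_skew
  R3U.ae_le h hσ hz.2 (c := δ) (by rw [h1, add_neg_cancel]) (fun e => h0 (hH.rt hz e)) hY

/-- Additive groups in characteristic `p` have prime power order (`IsPGroup.iff_card` / `ZMod p`-module). -/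
theorem card_pow {M : Type*} [AddCommGroup M] [Module F M] (A : AddSubgroup M) [Finite A] (p : ℕ)
    [Fact p.Prime] [CharP F p] : ∃ k, Nat.card A = p ^ k := by
  let _ := AddCommGroup.zmodModule (iso_tor (F := F) A p)
  exact ⟨_, by rw [Module.natCard_eq_pow_finrank (K := ZMod p) (V := A), Nat.card_zmod]⟩

/-- Chevalley–Warning.  `q = p^e`.  Take a `ZMod p`-basis `a_j` of `A` (`k > 2e` elements), and `e`
`ZMod p`-linear functionals `λ_i : F → ZMod p` whose common kernel meets the fixed field `K` of `σ` trivially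
(coordinates of a `ZMod p`-linear retraction `F → K`).  The `e` polynomials `∑ C (λ_i (β a_j a_l)) X_j X_l` have
degree `≤ 2` and vanish at `0`; `char_dvd_card_solutions_of_fintype_sum_lt` (see `Lib/OMax/ExtB`) gives a
second common zero. -/
theorem cw (hσ : IsBar q σ) {M : Type*} [AddCommGroup M] [Module F M] (A : AddSubgroup M) [Finite A]
    (β : M →+ M →+ F) (hβ : ∀ a ∈ A, σ (β a a) = β a a) (hA : q ^ 2 < Nat.card A) :
    ∃ a ∈ A, a ≠ 0 ∧ β a a = 0 := by
  have hp : Fact (ringChar F).Prime := ⟨CharP.char_is_prime F _⟩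
  let K := (fixedField σ).toAddSubgroup
  obtain ⟨θ, hθ⟩ := hσ.exists_trace_eq (map_one σ)
  let ω : A →+ A →+ K := AddMonoidHom.mk'
    (fun a => AddMonoidHom.mk' (fun b => ⟨θ * β a b + σ (θ * β a b), by
      exact mem_fixedField.2 (by rw [map_add, hσ.invol, add_comm])⟩) fun b b' => Subtype.ext (by simp; ring))
    fun a a' => AddMonoidHom.ext fun b => Subtype.ext (by simp; ring)
  obtain ⟨w, h0, h1⟩ := @cw_abs _ hp _ _ _ _ (AddCommGroup.zmodModule (iso_tor (F := F) A _)) _ _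
    (AddCommGroup.zmodModule (iso_tor (F := F) K _)) ω (by rwa [← hσ.card_fixedField] at hA)
  refine ⟨w, w.2, fun e => h0 (Subtype.ext e), ?_⟩
  have h2 : θ * β w w + σ (θ * β w w) = 0 := congrArg Subtype.val h1
  rw [map_mul, hβ w w.2] at h2
  linear_combination h2 - β w w * hθ

theorem iso_sqrt {K : Type*} [Field K] [Finite K] (h2 : (2 : K) = 0) (a : K) : ∃ x, a = x ^ 2 := by
  obtain ⟨x, hx⟩ := Finite.surjective_of_injective (f := fun x : K => x ^ 2) (fun x y e => by
    have : (x - y) ^ 2 = 0 := by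
      have e' : x ^ 2 = y ^ 2 := e
      linear_combination e' + (y ^ 2 - x * y) * h2
    exact sub_eq_zero.1 (pow_eq_zero_iff two_ne_zero |>.1 this)) a
  exact ⟨x, hx.symm⟩

open Polynomial in
theorem iso_sum {K : Type*} [Field K] [Finite K] (a : K) : ∃ x y, a = x ^ 2 + y ^ 2 := by
  have := Fintype.ofFinite K
  by_cases h2 : ringChar K = 2
  · obtain ⟨x, hx⟩ := iso_sqrt (by simpa [h2] using ringChar.Nat.cast_ringChar (R := K)) a
    exact ⟨x, 0, by simpa using hx⟩
  obtain ⟨x, y, e⟩ := FiniteField.exists_root_sum_quadratic (f := (X ^ 2 : K[X])) (g := X ^ 2 - C a) (degree_X_pow 2)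
    (degree_X_pow_sub_C (by decide) _) (FiniteField.odd_card_of_char_ne_two h2)
  refine ⟨x, y, ?_⟩
  simp only [eval_C, eval_X, eval_pow, eval_sub] at e
  linear_combination -e

/-- Every real element is a sum of two squares of real elements (finite field `fixedField σ`:
`FiniteField.exists_root_sum_quadratic` / `sq_add_sq`, or characteristic two). -/
theorem sum_sq (hσ : IsBar q σ) {a : F} (ha : σ a = a) : ∃ x y : F, σ x = x ∧ σ y = y ∧ a = x ^ 2 + y ^ 2 :=
  let ⟨x, y, e⟩ := iso_sum (⟨a, ha⟩ : fixedField σ)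
  ⟨x, y, x.2, y.2, congrArg Subtype.val e⟩

/-- In characteristic two every real element is the square of a real element (squaring is injective). -/
theorem ex_sqrt (hσ : IsBar q σ) (h2 : (2 : F) = 0) {a : F} (ha : σ a = a) : ∃ x : F, σ x = x ∧ a = x ^ 2 :=
  let ⟨x, e⟩ := iso_sqrt (K := fixedField σ) (Subtype.ext h2) ⟨a, ha⟩
  ⟨x, x.2, congrArg Subtype.val e⟩

end Cfsg.Lib.R3U
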