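import Cfsg.Agent.Lib.R3U.Dvd
import Cfsg.Agent.Lib.R3U.Cnt

/-! S2196, case II: `H ∩ Q_z = 1`; divisibility by `q^(n-1)`. -/

set_option autoImplicit false

namespace Cfsg.Lib.R3U

open Cfsg.Lib.Unitary Cfsg.Lib.R3S Module Submodule MulAction

variable {F V : Type*} [Field F] [AddCommGroup V] [Module F V] {σ : F →+* F}
  {B : V →ₛₗ[σ] V →ₗ[F] F} {q n : ℕ} [Finite F] [Finite V] {H : Subgroup (SUG B)}

/-- `g = Ei z f γ` has `g x - x ∈ ⟨z, f⟩`; it is `C2` unless `g = 1`, and then `f ∈ F z` (`Ei.uniq` with `Ei 1 z 0 0`). -/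
theorem NoC.ae (h : IsHerm σ B) (a : NoC H) {z f : V} (hz : Pt B z) (hf : Ae H z f) (h0 : B f f = 0) :
    f ∈ span F {z} := by
  obtain ⟨h1, g, hg, γ, e⟩ := hf
  by_cases c : g = 1
  · exact sub_zero f ▸ e.uniq h hz.1 (c ▸ ei_tv.2 (tv_one z))
  · exact (a g hg ⟨c, z, f, hz.2, h0, h1, fun x => mem_span_pair.2 ⟨γ * B z x - B f x, B z x, by rw [e x]; module⟩⟩).elim

/-- `k = Ei z f γ ∈ H` fixes `z'`, so `Ae H z'` is `k`-invariant (`Ae.app`, `Ae.sub`).  With `α = B z f'`: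
`d₁ = k f' - f' = α f + (γ α - B f f') z`, `k d₁ - d₁ = -(α B f f) z` lie in `Ae H z'`.  An isotropic `c • z` in `Ae H z'`
lies in `F z'` (`NoC.ae`), which forces `c = 0` as `z' ∉ F z`.  So `α = 0`, then `B f f' = 0`. -/
theorem NoC.j (h : IsHerm σ B) (a : NoC H) {z f z' f' : V} (hz : Pt B z) (hf : Ae H z f) (h0 : B f f ≠ 0)
    (hz' : Pt B z') (h1 : B z z' = 0) (h2 : B f z' = 0) (hi : z' ∉ span F {z}) (hf' : Ae H z' f') :
    B z f' = 0 ∧ B f f' = 0 := by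
  obtain ⟨h3, k, hk, γ, e⟩ := hf
  have kz : k.1 z' = z' := by simp [e z', h1, h2]
  have key : ∀ c : F, Ae H z' (c • z) → c = 0 := fun c m => by_contra fun c0 => by
    obtain ⟨d, hd⟩ := mem_span_singleton.1 (a.ae h hz' m (by simp [hz.2]))
    have d0 : d ≠ 0 := fun e => by simp [e, eq_comm, c0, hz.1] at hd
    exact hi (mem_span_singleton.2 ⟨d⁻¹ * c, by rw [← smul_smul, ← hd, smul_smul, inv_mul_cancel₀ d0, one_smul]⟩)
  have st : ∀ {v}, Ae H z' v → Ae H z' (B z v • f + (γ * B z v - B f v) • z) := fun {v} m => by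
    convert (m.app h hk kz).sub h hz'.2 m using 1
    rw [e v]; module
  have m2 := st (st hf')
  simp only [map_add, map_smul, h3, hz.2, h.eq_zero_comm.1 h3, smul_eq_mul, mul_zero, add_zero, zero_smul, zero_add] at m2
  have a0 : B z f' = 0 := by simpa [h0] using key _ m2
  have m1 := st hf'
  rw [a0, zero_smul, zero_add] at m1
  exact ⟨a0, by simpa using key _ m1⟩

/-- If `1 ≠ g ∈ H ∩ Q_z`, `g = Ei z f γ`, then `f ∉ F z` (`ei_add`, `ei_tv`, `NoC.noTv`), `B f f ≠ 0` (`NoC.ae`);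
transport with `Ae.conj`. -/
theorem NoC.ex_ae (h : IsHerm σ B) (a : NoC H) (t : Tr H) (n1 : ¬ Q1 H) {z : V} (hz : Pt B z) :
    ∃ f, Ae H z f ∧ B f f ≠ 0 := by
  simp only [Q1, not_forall] at n1
  obtain ⟨g, hg, y, hy, k, g1⟩ := n1
  obtain ⟨w, γ, h1, e⟩ := k.ei h hy
  have m : Ae H y w := ⟨h1, g, hg, γ, e⟩
  have w0 : B w w ≠ 0 := fun c => by
    obtain ⟨d, rfl⟩ := mem_span_singleton.1 (a.ae h hy m c)
    rw [← zero_add (d • y), ei_add, ei_tv] at e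
    exact g1 (e.eq ((a.noTv h).rt hy ⟨g, hg, e⟩ ▸ tv_one y))
  obtain ⟨u, hu, c, e'⟩ := t y z hy hz
  have c0 : c ≠ 0 := fun c0 => app_ne u hy.1 (by simp [e', c0])
  exact ⟨_, m.conj h hu e', by simp [b_app, c0, w0]⟩

namespace Un

variable (s : Un σ B q n)
include s

/-- `ex_hyp_perp` for `U = ⟨z, e, f⟩` gives isotropic `a, b ⊥ U` with `B a b = 1`; one of them is not in `F z`
(`B a b ≠ 0`, `B z z = 0`). -/
theorem ex_out {z e f : V} (hz : B z z = 0) (hr : ∀ w ∈ span F {z, e, f}, B z w = 0 → B e w = 0 → B f w = 0 →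
    w ∈ span F {z}) : ∃ z', Pt B z' ∧ B z z' = 0 ∧ B e z' = 0 ∧ B f z' = 0 ∧ z' ∉ span F {z} := by
  classical
  obtain ⟨a, ha, b, hb, h1, -, h2⟩ := s.ex_hyp_perp (U := span F {z, e, f}) (z := z)
    ((finrank_span_le_card _).trans (by simpa using Finset.card_le_three)) fun w m p =>
      have p := mem_perp_span.1 p
      hr w m (p z (by simp)) (p e (by simp)) (p f (by simp))
  rw [mem_perp_span] at ha hb
  refine ⟨a, ⟨fun c => by simp [c] at h2, h1⟩, ha z (by simp), ha e (by simp), ha f (by simp), fun m => ?_⟩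
  obtain ⟨c, rfl⟩ := mem_span_singleton.1 m
  simp [hb z (by simp)] at h2

/-- Otherwise choose `f_z` as in `NoC.ex_ae`.  Take `z₁, f₁`, a point `z₂ ⊥ z₁, f₁` outside `F z₁` (`ex_out` with
`e = f = f₁`); `f₂ ⊥ z₁, f₁` (`NoC.j`).  `z' = f₁ + λ f₂` is isotropic for `N λ = - B f₁ f₁ / B f₂ f₂`, `B f₁ z' ≠ 0`.
For `w = z₁ + a z₂`, `a ≠ 0`: `w ⊥ zᵢ, fᵢ`, `w ∉ F zᵢ`, so `f_w ⊥ fᵢ`, `z' ⊥ w, f_w`, `z' ∉ F w` (`f₁ ⊥ w`), hence
`f_{z'} ⊥ w`.  Two values of `a` give `f_{z'} ⊥ z₁`; so `z₁ ⊥ z', f_{z'}`, `z₁ ∉ F z'`, and `NoC.j` gives `f₁ ⊥ z'`. -/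
theorem q1 (a : NoC H) (t : Tr H) : Q1 H := by
  by_contra n1
  have h := s.herm
  have n6 := s.n6
  have sy : ∀ {x y : V}, B x y = 0 → B y x = 0 := h.eq_zero_comm.1
  obtain ⟨z₁, z0, hz⟩ := h.exists_isotropic (by rw [s.dim]; omega)
  obtain ⟨f₁, a1, b1⟩ := a.ex_ae h t n1 ⟨z0, hz⟩
  obtain ⟨z₂, p2, c1, c2, -, c3⟩ := s.ex_out (e := f₁) (f := f₁) hz fun w m _ k _ => by
    rw [Set.pair_eq_singleton] at m
    obtain ⟨c, d, rfl⟩ := mem_span_pair.1 m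
    have : d = 0 := by simpa [sy a1.1, b1] using k
    exact mem_span_singleton.2 ⟨c, by simp [this]⟩
  obtain ⟨f₂, a2, b2⟩ := a.ex_ae h t n1 p2
  obtain ⟨d1, d2⟩ := a.j h ⟨z0, hz⟩ a1 b1 p2 c1 c2 c3 a2
  obtain ⟨l, hl⟩ := s.bar.exists_norm_eq (μ := -B f₁ f₁ / B f₂ f₂) (by rw [map_div₀, map_neg, h.symm, h.symm])
  have e1 : B f₁ (f₁ + l • f₂) ≠ 0 := by simpa [d2] using b1
  have p' : Pt B (f₁ + l • f₂) := ⟨fun c => e1 (by simp [c]), by
    simp only [map_add, map_smulₛₗ, LinearMap.add_apply, LinearMap.smul_apply, d2, sy d2, smul_eq_mul, RingHom.id_apply]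
    rw [zero_add, ← mul_assoc, hl, div_mul_cancel₀ _ b2]; ring⟩
  obtain ⟨f', a', b'⟩ := a.ex_ae h t n1 p'
  have k : ∀ c : F, c ≠ 0 → B z₁ f' + σ c * B z₂ f' = 0 := fun c c0 => by
    have n1' : z₁ + c • z₂ ∉ span F {z₁} := fun m => c3 (by
      simpa [c0] using smul_mem _ c⁻¹ (sub_mem m (mem_span_singleton_self z₁)))
    have n2 : z₁ + c • z₂ ∉ span F {z₂} := fun m => by
      obtain ⟨d, hd⟩ := mem_span_singleton.1 (sub_mem m (smul_mem _ c (mem_span_singleton_self z₂)))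
      rw [add_sub_cancel_right] at hd
      have d0 : d ≠ 0 := fun e => z0 (by simp [← hd, e])
      exact c3 (mem_span_singleton.2 ⟨d⁻¹, by simp [← hd, d0]⟩)
    have pw : Pt B (z₁ + c • z₂) := ⟨fun e => n1' (e ▸ zero_mem _), by simp [hz, p2.2, c1, sy c1]⟩
    obtain ⟨g, ag, bg⟩ := a.ex_ae h t n1 pw
    have w1 : B f₁ (z₁ + c • z₂) = 0 := by simp [sy a1.1, c2]
    have w2 : B f₂ (z₁ + c • z₂) = 0 := by simp [sy a2.1, sy d1]
    have g1 := (a.j h ⟨z0, hz⟩ a1 b1 pw (by simp [hz, c1]) w1 n1' ag).2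
    have g2 := (a.j h p2 a2 b2 pw (by simp [p2.2, sy c1]) w2 n2 ag).2
    simpa using (a.j h pw ag bg p' (by rw [map_add, map_smul, sy w1, sy w2]; simp) (by simp [sy g1, sy g2]) (fun m => by
      obtain ⟨d, hd⟩ := mem_span_singleton.1 m
      exact e1 (by rw [← hd, map_smul, w1, smul_zero])) a').1
  obtain ⟨m, m1, m2⟩ := s.bar.exists_norm_one_ne_one
  have k1 := k 1 one_ne_zero
  have k2 := k (σ m) fun e => by simp [e] at m1
  rw [h.invol] at k2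
  have k3 : B z₂ f' = 0 := (mul_eq_zero.1 (by linear_combination k2 - k1 + B z₂ f' * map_one σ : (m - 1) * B z₂ f' = 0)).resolve_left
    (sub_ne_zero.2 m2)
  refine e1 (sy (a.j h p' a' b' ⟨z0, hz⟩ (sy (by simp [a1.1, d1])) (sy (by simpa [k3] using k1)) (fun m => ?_) a1).1)
  obtain ⟨d, hd⟩ := mem_span_singleton.1 m
  have := sy a1.1
  rw [← hd, map_smul, smul_eq_zero, or_iff_left e1] at this
  exact z0 (by simp [← hd, this])

/-- As `card_inf_lt`, with fibres of size one (`NoTv.ae_le`). -/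
theorem card_inf_le (a : NoTv H) {z : V} (hz : Pt B z) : Nat.card ↥(H ⊓ qG hz.2) ≤ q ^ (n - 2) := by
  have h := s.herm
  obtain ⟨f, hf, hzf⟩ := h.exists_hyperbolic hz.1 hz.2
  have k1 := a.ae_le h s.bar hz (h.disjoint_perp_perp (h.disjoint_hypPerp hz.2 hzf))
  have k2 := h.finrank_hypPerp hz.2 hzf
  rw [s.dim] at k2
  rw [show n - 2 = finrank F (hypPerp B z f) by omega]
  choose! w γ h1 h2 h3 using fun g (hg : g ∈ H ⊓ qG hz.2) => Qz.ei' h hz.2 hf hzf hg.2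
  refine le_trans (Set.ncard_le_ncard_of_injOn (s := (H ⊓ qG hz.2 : Subgroup (SUG B))) (t := {w ∈ hypPerp B z f | Ae H z w}) w (fun g hg =>
    ⟨mem_perp_span.2 (by simp [h1 g hg, h2 g hg]), h1 g hg, g, hg.1, _, h3 g hg⟩) fun g hg g' hg' e => ?_) k1
  have := (h3 g hg).mul h hz.2 (h1 g hg) (by simp [h1 g' hg']) ((h3 g' hg').inv h hz.2 (h1 g' hg'))
  rw [e, add_neg_cancel, ei_tv] at this
  exact mul_inv_eq_one.1 (this.eq (a.rt hz ⟨_, H.mul_mem hg.1 (H.inv_mem hg'.1), this⟩ ▸ tv_one z))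

/-- As `sq_dvd`: orbits of `Q_z` have `p`-power size `≥ q^(n-1)`. -/
theorem dvd_of_noTv {X : Type*} [MulAction (SUG B) X] [Finite X]
    (hX : ∀ y : X, NoTv (stabilizer (SUG B) y)) : q ^ (n - 1) ∣ Nat.card X := by
  have n6 := s.n6
  have := Fintype.ofFinite F
  obtain ⟨z, z0, hz⟩ := s.herm.exists_isotropic (by rw [s.dim]; omega)
  obtain ⟨p, f, hp, -, -, hq⟩ := exists_prime_pow_of_card (Nat.card_eq_fintype_card.symm.trans s.bar.card)
  refine dvd_card_of_index (Q := qG hz) fun y => ?_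
  have k1 := s.card_inf_le (hX y) ⟨z0, hz⟩
  have k2 := card_stab_mul (qG hz) y
  rw [s.card_qG ⟨z0, hz⟩] at k2
  obtain ⟨k, -, hk⟩ := (Nat.dvd_prime_pow hp).1 (show (stabilizer (qG hz) y).index ∣ p ^ (f * (2 * n - 3)) by
    rw [pow_mul, ← hq, ← k2]; exact dvd_mul_left _ _)
  have k3 : q ^ (n - 1) ≤ (stabilizer (qG hz) y).index := by
    by_contra! e
    have := Nat.mul_lt_mul_of_le_of_lt k1 e (pow_pos (s.bar.two_le.trans_lt' two_pos) _)
    rw [k2, ← pow_add, show n - 2 + (n - 1) = 2 * n - 3 by omega] at this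
    exact this.false
  rw [hk, hq, ← pow_mul] at k3 ⊢
  exact pow_dvd_pow _ ((Nat.pow_le_pow_iff_right hp.one_lt).1 k3)

end Un

end Cfsg.Lib.R3U
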