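import Cfsg.Agent.Lib.R3U.TA
import Cfsg.Agent.Lib.R3U.Dvd

/-! S2196, case II: the index of `H` is at least `q^(2n)`. -/

set_option autoImplicit false

namespace Cfsg.Lib.R3U

open Cfsg.Lib.Unitary Cfsg.Lib.R3S Module Submodule MulAction

variable {F V : Type*} [Field F] [AddCommGroup V] [Module F V] {σ : F →+* F}
  {B : V →ₛₗ[σ] V →ₗ[F] F} {q n : ℕ} [Finite F] [Finite V] {H : Subgroup (SUG B)}

/-- `g` fixes `z` and acts on `z^⊥ / z` like `Ei · e w γ`. -/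
def Yd (g : SUG B) (z e w : V) (γ : F) : Prop :=
  g.1 z = z ∧ ∀ x, B z x = 0 → ∃ a : F, g.1 x = x + B e x • w - B w x • e + (γ * B e x) • e + a • z

omit [Finite F] [Finite V] in
theorem Yd.mul (h : IsHerm σ B) {g g' : SUG B} {z e w w' : V} {γ γ' : F} (hz : B z z = 0) (he : B e e = 0)
    (hze : B z e = 0) (hw : B z w = 0 ∧ B e w = 0) (hw' : B z w' = 0 ∧ B e w' = 0) (a : Yd g z e w γ)
    (b : Yd g' z e w' γ') : Yd (g * g') z e (w + w') (γ + γ' - B w w') := by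
  refine ⟨by rw [mul_app, b.1, a.1], fun x hx => ?_⟩
  obtain ⟨c, hc⟩ := b.2 x hx
  obtain ⟨d, hd⟩ := a.2 (g'.1 x) (by rw [hc]; simp [hx, hz, hze, hw'.1])
  refine ⟨c + d, ?_⟩
  rw [mul_app, hd, hc]
  simp only [map_add, map_sub, map_smul, LinearMap.add_apply, he, hw'.2, h.eq_zero_comm.1 hze, h.eq_zero_comm.1 hw.1,
    h.eq_zero_comm.1 hw.2, smul_eq_mul]
  module

omit [Finite F] [Finite V] in
theorem Yd.inv (h : IsHerm σ B) {g : SUG B} {z e w : V} {γ : F} (he : B e e = 0) (hze : B z e = 0)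
    (hw : B z w = 0 ∧ B e w = 0) (a : Yd g z e w γ) : Yd g⁻¹ z e (-w) (-γ - B w w) := by
  refine ⟨by rw [← a.1, inv_app, a.1], fun x hx => ?_⟩
  obtain ⟨y, rfl⟩ := g.1.surjective x
  obtain ⟨c, hc⟩ := a.2 y (by rw [← b_app g, a.1, hx])
  refine ⟨-c, ?_⟩
  rw [inv_app, hc]
  simp only [map_add, map_sub, map_smul, map_neg, LinearMap.neg_apply, he, hw.2, h.eq_zero_comm.1 hze,
    h.eq_zero_comm.1 hw.1, h.eq_zero_comm.1 hw.2, smul_eq_mul]
  module

/-- Elements fixing `z` which act on `z^⊥ / z` like `Ei · e w γ` with `w ∈ Y`. -/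
def yG (h : IsHerm σ B) {z e : V} (hz : B z z = 0) (he : B e e = 0) (hze : B z e = 0) (Y : Submodule F V)
    (hY : ∀ w ∈ Y, B z w = 0 ∧ B e w = 0) : Subgroup (SUG B) where
  carrier := {g | g.1 z = z ∧ ∃ w ∈ Y, ∃ γ : F, ∀ x, B z x = 0 →
    ∃ a : F, g.1 x = x + B e x • w - B w x • e + (γ * B e x) • e + a • z}
  one_mem' := ⟨rfl, 0, zero_mem _, 0, fun _ _ => ⟨0, by simp⟩⟩
  mul_mem' := fun ⟨a, w, hw, _, a'⟩ ⟨b, w', hw', _, b'⟩ =>
    have k := Yd.mul h hz he hze (hY w hw) (hY w' hw') ⟨a, a'⟩ ⟨b, b'⟩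
    ⟨k.1, _, add_mem hw hw', _, k.2⟩
  inv_mem' := fun ⟨a, w, hw, _, a'⟩ =>
    have k := Yd.inv h he hze (hY w hw) ⟨a, a'⟩
    ⟨k.1, _, neg_mem hw, _, k.2⟩

omit [Finite F] [Finite V] in
theorem ir_one' (h : IsHerm σ B) {e f : V} (k : B e f = 1) : B f e = 1 := by rw [← h.symm, k, map_one]

namespace Un

variable (s : Un σ B q n)
include s

/-- `(y, w, γ) ↦ y · Ei e w γ` (`y ∈ Q_z`, `w ∈ Y`, `γ + σ γ + B w w = 0`) is injective: evaluate at `f` (`B z f = 0`,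
`B e f = 1`) modulo `z`; `Y ⊓ ⟨z, e⟩ = 0`.  `card_qG`, `card_sub`, `card_trace_eq`. -/
theorem card_yG {z e f : V} (hz : Pt B z) (he : B e e = 0) (hze : B z e = 0) (hzf : B z f = 0) (hef : B e f = 1)
    {Y : Submodule F V} (hd : Disjoint Y (perp B Y)) (hY : ∀ w ∈ Y, B z w = 0 ∧ B e w = 0) :
    q ^ (2 * n - 3) * (q ^ (2 * finrank F Y) * q) ≤ Nat.card (yG s.herm hz.2 he hze Y hY) := by
  have h := s.herm
  have sy : ∀ {x y : V}, B x y = 0 → B y x = 0 := h.eq_zero_comm.1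
  haveI := finite_sug (B := B)
  choose γ hγ using fun w : V => s.bar.exists_trace_eq (s := -B w w) (by rw [map_neg, h.symm])
  choose E hE using fun (w : Y) (c : {x : F // x + σ x = 0}) => ex_ei h (γ := γ w + c) he (hY w w.2).2 (by
    rw [map_add]; linear_combination hγ w + c.2)
  rw [← s.card_qG hz, ← card_sub s.bar Y, ← Nat.card_coe_set_eq]
  conv_lhs => rw [← s.bar.card_trace_zero]
  rw [← Nat.card_prod, ← Nat.card_prod]
  refine Nat.card_le_card_of_injective (fun p => ⟨p.1.1 * E p.2.1 p.2.2, mul_mem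
    ⟨p.1.2.1, 0, zero_mem _, 0, fun x hx => by simpa using p.1.2.2 x hx⟩
    ⟨by rw [hE]; simp [sy hze, sy (hY _ p.2.1.2).1], _, p.2.1.2,
      γ p.2.1 + p.2.2, fun x _ => ⟨0, by rw [hE]; simp⟩⟩⟩) ?_
  rintro ⟨y, w, c⟩ ⟨y', w', c'⟩ e1
  have e2 : y.1 * E w c = y'.1 * E w' c' := congrArg Subtype.val e1
  have e3 : y.1.1 ((E w c).1 f) = y'.1.1 ((E w' c').1 f) := by rw [← mul_app, e2, mul_app]
  obtain ⟨a, ha⟩ := y.2.2 ((E w c).1 f) (by rw [hE]; simp [hzf, hze, (hY _ w.2).1])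
  obtain ⟨a', ha'⟩ := y'.2.2 ((E w' c').1 f) (by rw [hE]; simp [hzf, hze, (hY _ w'.2).1])
  rw [ha, ha', hE, hE, hef] at e3
  obtain rfl : w = w' := Subtype.ext (sub_eq_zero.1 (disjoint_def.1 hd _ (sub_mem w.2 w'.2) fun u hu => by
    rw [show (w : V) - w' = (B w f - B w' f + (γ w' + c') - (γ w + c)) • e + (a' - a) • z by
      linear_combination (norm := module) e3]
    simp [sy (hY u hu).1, sy (hY u hu).2]))
  obtain rfl : c = c' := Subtype.ext (by simpa [sy hzf, ir_one' h hef] using congrArg (B f) e3)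
  rw [Subtype.ext (mul_right_cancel e2)]

/-- `g ↦ w` is well defined and injective on `H ⊓ yG` (the kernel consists of `Q_z`- and `Ee`-elements); the image
is an additive group `A ≤ Y`, and the commutator acts as `t_e(B w' w - B w w')` on `z^⊥ / z`, so `iso_le` applies with
`Z = ⊥`. -/
theorem card_inf_yG (q1 : Q1 H) {z e f : V} (hz : Pt B z) (he : B e e = 0) (hze : B z e = 0) (hzf : B z f = 0)
    (hef : B e f = 1) {Y : Submodule F V} (hd : Disjoint Y (perp B Y)) (hY : ∀ w ∈ Y, B z w = 0 ∧ B e w = 0)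
    (ne : ∀ g ∈ H, ∀ b, ¬ Ee g z e b) : Nat.card ↥(H ⊓ yG s.herm hz.2 he hze Y hY) ≤ q ^ finrank F Y := by
  have h := s.herm
  have ker : ∀ g ∈ H, ∀ γ, Yd g z e 0 γ → γ = 0 ∧ g = 1 := fun g hg γ a => by
    have : γ = 0 := by_contra fun g0 => ne g hg γ ⟨hze, he, fun m => by
      obtain ⟨c, rfl⟩ := mem_span_singleton.1 m
      simp [hzf] at hef, g0, a.1, fun x hx => by simpa using a.2 x hx⟩
    exact ⟨this, q1 g hg z hz ⟨a.1, fun x hx => by simpa [this] using a.2 x hx⟩⟩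
  let A : AddSubgroup V :=
    { carrier := {w | w ∈ Y ∧ ∃ g ∈ H, ∃ γ, Yd g z e w γ}
      zero_mem' := ⟨zero_mem _, 1, one_mem _, 0, rfl, fun _ _ => ⟨0, by simp⟩⟩
      add_mem' := fun ⟨hw, g, hg, _, a⟩ ⟨hw', g', hg', _, a'⟩ =>
        ⟨add_mem hw hw', _, mul_mem hg hg', _, a.mul h hz.2 he hze (hY _ hw) (hY _ hw') a'⟩
      neg_mem' := fun ⟨hw, g, hg, _, a⟩ => ⟨neg_mem hw, _, inv_mem hg, _, a.inv h he hze (hY _ hw)⟩ }
  obtain ⟨δ, d0, hδ⟩ := h.exists_skew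
  refine le_trans ?_ (iso_le h s.bar hd A (fun a ha => ha.1) ⊥ (c := δ) (by rw [hδ, add_neg_cancel]) (by simpa)
    fun w ⟨hw, g, hg, γ, a⟩ w' ⟨hw', g', hg', γ', a'⟩ => ?_)
  · choose w hw γ hγ using fun g : ↥(H ⊓ yG h hz.2 he hze Y hY) => g.2.2.2
    refine Nat.card_le_card_of_injective (fun g => ⟨w g, hw g, g, g.2.1, γ g, g.2.2.1, hγ g⟩) fun g g' e1 => ?_
    have k := Yd.mul h hz.2 he hze (hY _ (hw g)) (hY _ (neg_mem (hw g'))) ⟨g.2.2.1, hγ g⟩
      (Yd.inv h he hze (hY _ (hw g')) ⟨g'.2.2.1, hγ g'⟩)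
    rw [show w g = w g' from congrArg Subtype.val e1, add_neg_cancel] at k
    exact Subtype.ext (mul_inv_eq_one.1 (ker _ (mul_mem g.2.1 (inv_mem g'.2.1)) _ k).2)
  · have k := (a.mul h hz.2 he hze (hY _ hw) (hY _ hw') a').mul h hz.2 he hze (hY _ (add_mem hw hw'))
      (hY _ (neg_mem (add_mem hw' hw))) ((a'.mul h hz.2 he hze (hY _ hw') (hY _ hw) a).inv h he hze
        (hY _ (add_mem hw' hw)))
    rw [add_comm w' w, add_neg_cancel] at k
    have := (ker _ (mul_mem (mul_mem hg hg') (inv_mem (mul_mem hg' hg))) _ k).1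
    rw [map_neg] at this
    rw [AddSubgroup.mem_bot]
    linear_combination -this

/-- Take hyperbolic pairs `(z, s') ⊥ (e, f)` (`ex_hyp_perp`); by `NoW.l1` one of `e`, `f` is not an `Ee`-centre at `z`.
`Y = ⟨z, s', e, f⟩^⊥` has dimension `n - 4 ≥ 2`.  `|yG| = |H ⊓ yG| · relIndex ≤ |H ⊓ yG| · H.index`. -/
theorem lbe (l : Loc H) : q ^ (2 * n) ≤ H.index := by
  have h := s.herm
  have n6 := s.n6
  have sy : ∀ {x y : V}, B x y = 0 → B y x = 0 := h.eq_zero_comm.1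
  haveI := finite_sug (B := B)
  obtain ⟨z, z0, hz⟩ := h.exists_isotropic (by rw [s.dim]; omega)
  obtain ⟨r, hr, hzr⟩ := h.exists_hyperbolic z0 hz
  have key : ∀ e f, e ∈ hypPerp B z r → f ∈ hypPerp B z r → B e e = 0 → B f f = 0 → B e f = 1 →
      (∀ g ∈ H, ∀ b, ¬ Ee g z e b) → q ^ (2 * n) ≤ H.index := fun e f he hf ee ff ef ne => by
    rw [mem_hypPerp] at he hf
    have hX : Disjoint (span F {z, r} ⊔ span F {e, f}) (perp B (span F {z, r} ⊔ span F {e, f})) :=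
      disjoint_def.2 fun x hx hx' => by
        obtain ⟨_, m, _, m', rfl⟩ := mem_sup.1 hx
        obtain ⟨a, b, rfl⟩ := mem_span_pair.1 m
        obtain ⟨c, d, rfl⟩ := mem_span_pair.1 m'
        rw [perp_sup, mem_inf, mem_hypPerp, mem_hypPerp] at hx'
        simp [hz, hr, hzr, ir_one' h hzr, he, hf, sy he.1, sy he.2, sy hf.1, sy hf.2, ee, ff, ef, ir_one' h ef] at hx'
        simp [hx']
    have hY : ∀ w ∈ perp B (span F {z, r} ⊔ span F {e, f}), B z w = 0 ∧ B e w = 0 := fun w hw =>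
      ⟨hw z (mem_sup_left (subset_span (by simp))), hw e (mem_sup_right (subset_span (by simp)))⟩
    have k1 := s.card_yG ⟨z0, hz⟩ ee he.1 hf.1 ef (h.disjoint_perp_perp hX) hY
    have k2 := s.card_inf_yG l.q1 ⟨z0, hz⟩ ee he.1 hf.1 ef (h.disjoint_perp_perp hX) hY ne
    have k3 := h.finrank_add_finrank_perp (span F {z, r} ⊔ span F {e, f})
    have k4 := finrank_add_le_finrank_add_finrank (span F {z, r}) (span F {e, f})
    have k5 : ∀ a b : V, finrank F (span F {a, b}) ≤ 2 := fun a b => by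
      classical exact (finrank_span_le_card _).trans (by simpa using Finset.card_le_two)
    have k6 := k5 z r
    have k7 := k5 e f
    rw [s.dim] at k3
    generalize yG h hz ee he.1 _ hY = K at k1 k2
    obtain ⟨d, hd⟩ := Nat.exists_eq_add_of_le' (show 2 ≤ finrank F (perp B (span F {z, r} ⊔ span F {e, f})) by omega)
    rw [hd] at k1 k2
    rw [← (H.subgroupOf K).card_mul_index, ← Subgroup.inf_subgroupOf_right,
      Nat.card_congr (Subgroup.subgroupOfEquivOfLe inf_le_right).toEquiv, Subgroup.inf_subgroupOf_right] at k1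
    have k8 : (H.subgroupOf K).index ≤ H.index := by
      rw [← H.relIndex_top_right]
      exact Subgroup.relIndex_le_of_le_right le_top (by rw [H.relIndex_top_right]; exact H.index_ne_zero_of_finite)
    have q0 : 0 < q := s.bar.two_le.trans_lt' two_pos
    refine Nat.le_of_mul_le_mul_left (le_trans ?_ (k1.trans (Nat.mul_le_mul k2 k8))) (pow_pos q0 _)
    rw [← pow_succ, ← pow_add, ← pow_add]
    exact Nat.pow_le_pow_right q0 (by omega)
  obtain ⟨e, he, f, hf, ee, ff, ef⟩ := s.ex_hyp (h.disjoint_perp_perp (h.disjoint_hypPerp hz hzr)) (by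
    have := h.finrank_hypPerp hz hzr
    rw [s.dim] at this
    exact le_of_add_le_add_right (this ▸ (by omega : 2 + 2 ≤ n)))
  by_cases c : ∀ g ∈ H, ∀ b, ¬ Ee g z e b
  · exact key e f he hf ee ff ef c
  push Not at c
  obtain ⟨g, hg, b, a⟩ := c
  exact key f e hf he ff ee (ir_one' h ef) fun g' hg' b' a' => by
    simpa [ef] using l.nw.l1 h hg hg' ⟨z0, hz⟩ a a'

end Un

end Cfsg.Lib.R3U
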