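import Cfsg.Agent.Lib.R3U.NumP

/-! S2196: complete adjacency for `n = 6` (`u = -q³`).  Notation: `Φ = q⁴ + q² + 1`, `ψ = q² - q + 1`,
`P = (q - 1)(q⁵ + 1)`; for `Fa`: `T = P Φ = ψ (q³ - 1)(q⁵ + 1)`, `ω = P (q² + 1)`, `f = q² Φ ψ`.
With `Kn`: `c = c₂`, `δ = c₁ - c₂ ≥ 1`, `δ r = ω + c`, `δ k = K := T - c (N - 1)`, `s = r + S`. -/

set_option autoImplicit false

namespace Cfsg.Lib.R3U

theorem core_6 {f k r S n T ω y : ℝ} (hr : 0 < r) (hS : 0 < S) (hk : r * S < k) (h1 : f * r ≤ S * n)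
    (h2 : f * r ≤ k * S * (k + S)) (h3 : k * ω ≤ r * (T - n)) (h4 : T ≤ (y ^ 2 + 1) * ω) (hn : 0 ≤ n) (hω : 0 < ω)
    (hy : 3 ≤ y) (hT : T ≤ y ^ 10) (hf : 2 * y ^ 9 ≤ 3 * f) : False := by
  obtain ⟨a, rfl⟩ : ∃ a, k = r * a := ⟨k / r, by field_simp⟩
  have sa : S ≤ a := (lt_of_mul_lt_mul_left hk hr.le).le
  have a0 : 0 < a := hS.trans_le sa
  have y0 : 0 < y := by linarith
  have hx : 9 ≤ y ^ 2 := by nlinarith
  have y9 : 0 < y ^ 9 := by positivity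
  have f0 : 0 < f := by linarith
  have b : f ≤ a * S * (r * a + S) := le_of_mul_le_mul_left (by linarith) hr
  have c : a * ω ≤ T - n := le_of_mul_le_mul_left (by linarith) hr
  have t0 : 0 < T := by nlinarith [mul_pos a0 hω]
  have d : a * T ≤ (y ^ 2 + 1) * (T - n) := by
    nlinarith [mul_le_mul_of_nonneg_left h4 a0.le, mul_le_mul_of_nonneg_left c (by linarith : 0 ≤ y ^ 2 + 1)]
  have ay : a ≤ y ^ 2 + 1 := le_of_mul_le_mul_right (by nlinarith) t0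
  have an : 4 * (a * n) ≤ (y ^ 2 + 1) * T := le_of_mul_le_mul_right (by
    nlinarith [mul_le_mul_of_nonneg_right d hn, mul_nonneg (by linarith : 0 ≤ y ^ 2 + 1) (sq_nonneg (T - 2 * n))]) t0
  have s2 : S ^ 2 ≤ a ^ 2 := pow_le_pow_left₀ hS.le sa 2
  have a3 : a ^ 3 ≤ (10 / 9 * y ^ 2) ^ 3 := pow_le_pow_left₀ a0.le (by linarith) 3
  have e : f * f ≤ a ^ 3 * (a * n + f) := by
    have e1 : f * f ≤ f * (a * S * (r * a + S)) := mul_le_mul_of_nonneg_left b f0.le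
    have e2 : a ^ 2 * S * (f * r) ≤ a ^ 2 * S * (S * n) := mul_le_mul_of_nonneg_left h1 (by positivity)
    have e3 : S ^ 2 * (a ^ 2 * n + a * f) ≤ a ^ 2 * (a ^ 2 * n + a * f) :=
      mul_le_mul_of_nonneg_right s2 (by positivity)
    linarith
  have g : 4 * (a * n) ≤ 10 / 9 * y ^ 2 * y ^ 10 :=
    an.trans (mul_le_mul (by linarith) hT t0.le (by positivity))
  have i : f * f ≤ (10 / 9 * y ^ 2) ^ 3 * (10 / 9 * y ^ 2 * y ^ 10 / 4 + f) :=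
    e.trans (mul_le_mul a3 (by linarith) (by positivity) (by positivity))
  have l : (2 * y ^ 9) ^ 2 ≤ (3 * f) ^ 2 := pow_le_pow_left₀ (by positivity) hf 2
  have m : 18 * y ^ 6 ≤ f := by
    have m0 : (3 : ℝ) ^ 3 ≤ y ^ 3 := pow_le_pow_left₀ (by norm_num) hy 3
    have m1 : 3 ^ 3 * y ^ 6 ≤ y ^ 3 * y ^ 6 := mul_le_mul_of_nonneg_right m0 (by positivity)
    linarith
  have o : 18 * y ^ 6 * f ≤ f * f := mul_le_mul_of_nonneg_right m f0.le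
  have := mul_pos f0 f0
  linarith

theorem n6_pq {q : ℤ} (hq : 3 ≤ q) : ∃ t : ℤ, 0 ≤ t ∧ q = t + 3 := ⟨q - 3, by omega, by ring⟩

theorem n6_t {q T : ℤ} (hq : 3 ≤ q) (hT : (q + 1) * T = (q ^ 3 * -q ^ 3 + 1) * (q ^ 2 * -q ^ 3 - 1)) :
    T = (q - 1) * (q ^ 5 + 1) * (q ^ 4 + q ^ 2 + 1) :=
  mul_left_cancel₀ (a := q + 1) (by omega) (by linear_combination hT)

/-- As `num_c` / `core_c` (copy that proof): `f² < ρ⁴ T / 4 + ρ³ f` with `ρ < q² + 1`; here `3 f ≥ 2 q⁹`, `T < q¹⁰`. -/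
theorem num_6b {q N f T ω c₂ : ℤ} (hq : 3 ≤ q) (hT : (q + 1) * T = (q ^ 3 * -q ^ 3 + 1) * (q ^ 2 * -q ^ 3 - 1))
    (h : Fb q (-q ^ 3) f ω ∨ Fc q (-q ^ 3) f ω) (k : Kn N f T ω c₂) (h1 : 1 ≤ c₂) : False := by
  obtain ⟨b1, b2, -, -, b5⟩ := bnd hq (.inl le_rfl) hT (.inr h)
  have p : 0 < q + 1 := by omega
  have x1 : 0 < q ^ 2 - 1 := by nlinarith
  have b4 : 2 * q ^ 9 ≤ 3 * f := by
    rcases h with ⟨a, -⟩ | ⟨a, -⟩
    · refine le_of_mul_le_mul_right (a := (q + 1) * (q ^ 2 - 1)) ?_ (mul_pos p x1)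
      rw [mul_assoc 3 f, a, ← sub_nonneg]
      obtain ⟨t, ht, rfl⟩ := n6_pq hq
      ring_nf; positivity
    · refine le_of_mul_le_mul_right (a := q ^ 2 - 1) ?_ x1
      rw [mul_assoc 3 f, a, ← sub_nonneg]
      obtain ⟨t, ht, rfl⟩ := n6_pq hq
      ring_nf; positivity
  have le := k.le h1
  obtain ⟨k, r, S, μ, c, s, -, c0, e1, e2⟩ := k
  have k0 := s.k0
  have kN := s.kN
  have hs := s.s0
  have hr := s.r0
  have hm := s.m0
  have f0 : 0 ≤ f := by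
    have : 0 < q ^ 9 := by positivity
    linarith
  have fs := mul_nonneg f0 hs.le
  have a1 : f * r ≤ S * (N - 1) := by linarith [s.ef]
  have a2 : f * r ≤ k * S * (k + S) := by
    have := mul_nonneg (mul_nonneg f0 (by linarith : 0 ≤ r + S)) (by omega : 0 ≤ μ - 1)
    have := mul_nonneg k0.le (by linarith : 0 ≤ k + S)
    linarith [s.key]
  have a3 : k * ω ≤ r * (T - (N - 1)) := by
    refine le_of_mul_le_mul_left (a := c - c₂) ?_ (by omega)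
    have i := mul_nonneg (mul_nonneg (by omega : 0 ≤ c₂ - 1) (by omega : 0 ≤ N - 1)) b1.le
    have j := mul_nonneg (by omega : 0 ≤ c₂) (by omega : 0 ≤ T - (N - 1))
    linear_combination i + j + ω * e1.le - (T - (N - 1)) * e2
  refine core_6 (f := f) (k := k) (r := r) (S := S) (n := N - 1) (T := T) (ω := ω) (y := q)
    (by exact_mod_cast hr) (by exact_mod_cast hs) ?_ (by exact_mod_cast a1) (by exact_mod_cast a2)
    (by exact_mod_cast a3) (by exact_mod_cast b2.le) ?_ (by exact_mod_cast b1) (by exact_mod_cast hq) ?_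
    (by exact_mod_cast b4)
  · exact_mod_cast (by linarith [s.ek] : r * S < k)
  · exact_mod_cast (by omega : 0 ≤ N - 1)
  · exact_mod_cast (by linarith : T ≤ q ^ 10)

/-- `g = N - 1 - f` has `g S = f r + k > f` (`ef`), `0 < K ≤ ψ (Δ - g)` with `Δ = (q³ - 1)(q⁵ + 1) - f`;
`ω S < δ r S < K ≤ ψ Δ ≤ ω (q + 1)` gives `S ≤ q`, so `f < g S ≤ Δ q ≤ f`. -/
theorem n6_big {q N f k r S μ c δ : ℤ} (hq : 3 ≤ q) (hf : f = q ^ 2 * ((q ^ 4 + q ^ 2 + 1) * (q ^ 2 - q + 1)))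
    (h : Srg N f k r S μ) (hδ : 0 < δ) (e1 : δ * r = (q - 1) * (q ^ 5 + 1) * (q ^ 2 + 1) + c)
    (e2 : δ * k = (q - 1) * (q ^ 5 + 1) * (q ^ 4 + q ^ 2 + 1) - c * (N - 1)) (hc : q ^ 2 - q + 1 ≤ c) : False := by
  have k0 := h.k0
  have kN := h.kN
  have hs := h.s0
  have hr := h.r0
  have hm := h.m0
  obtain ⟨w0, ψ0, f0, i1, i2⟩ : 0 < (q - 1) * (q ^ 5 + 1) * (q ^ 2 + 1) ∧ 0 < q ^ 2 - q + 1 ∧ 0 < f ∧
      0 ≤ (q - 1) * (q ^ 5 + 1) * (q ^ 2 + 1) * (q + 1) - (q ^ 2 - q + 1) * ((q ^ 3 - 1) * (q ^ 5 + 1) - f) ∧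
      0 ≤ f - ((q ^ 3 - 1) * (q ^ 5 + 1) - f) * q := by
    obtain ⟨t, ht, rfl⟩ := n6_pq hq
    subst hf
    refine ⟨?_, ?_, ?_, ?_, ?_⟩ <;> ring_nf <;> positivity
  have eT : (q - 1) * (q ^ 5 + 1) * (q ^ 4 + q ^ 2 + 1) = (q ^ 2 - q + 1) * ((q ^ 3 - 1) * (q ^ 5 + 1)) := by ring
  rw [eT] at e2
  generalize (q - 1) * (q ^ 5 + 1) * (q ^ 2 + 1) = ω at *
  generalize q ^ 2 - q + 1 = ψ at *
  generalize (q ^ 3 - 1) * (q ^ 5 + 1) = X at *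
  have g1 : (N - 1 - f) * S = f * r + k := by linear_combination -h.ef
  have g2 : f < (N - 1 - f) * S := by
    have := mul_nonneg f0.le (by omega : 0 ≤ r - 1)
    linarith
  have g0 : 0 < N - 1 - f := pos_of_mul_pos_left' hs (by rw [mul_comm]; linarith)
  have K : δ * k ≤ ψ * (X - f - (N - 1 - f)) := by
    have := mul_nonneg (by omega : 0 ≤ c - ψ) (by omega : 0 ≤ N - 1)
    linarith
  have K0 := mul_pos hδ k0
  have g3 : 0 < X - f - (N - 1 - f) := pos_of_mul_pos_left' ψ0 (by linarith)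
  have K1 : ω * S < δ * k := by
    have a := mul_pos hδ hm
    have b := mul_pos (by omega : 0 < c) hs
    have : δ * k = δ * μ + (ω + c) * S := by rw [← e1, h.ek]; ring
    linarith
  have S1 : S < q + 1 := lt_of_mul_lt_mul_left (a := ω) (by
    have := mul_pos ψ0 g0
    linarith) w0.le
  have := mul_le_mul (by linarith : N - 1 - f ≤ X - f) (by omega : S ≤ q) hs.le (by linarith)
  linarith

/-- `f s < S (N - 1)`, `S ω < K`, `4 c (N - 1) K ≤ T² ≤ q⁴ f ω`; `S ω < K ≤ T` gives `S (q² + 1) < Φ`. -/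
theorem n6_bd {q N f k r S μ c δ : ℤ} (hq : 3 ≤ q) (hf : f = q ^ 2 * ((q ^ 4 + q ^ 2 + 1) * (q ^ 2 - q + 1)))
    (h : Srg N f k r S μ) (hδ : 0 < δ) (e1 : δ * r = (q - 1) * (q ^ 5 + 1) * (q ^ 2 + 1) + c)
    (e2 : δ * k = (q - 1) * (q ^ 5 + 1) * (q ^ 4 + q ^ 2 + 1) - c * (N - 1)) (hc : 1 ≤ c) :
    4 * c * (r + S) < q ^ 4 ∧ S ≤ q ^ 2 := by
  have k0 := h.k0
  have kN := h.kN
  have hs := h.s0
  have hr := h.r0
  have hm := h.m0
  obtain ⟨P0, f0, i1⟩ : 0 < (q - 1) * (q ^ 5 + 1) ∧ 0 < f ∧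
      0 ≤ q ^ 4 * (f * ((q - 1) * (q ^ 5 + 1) * (q ^ 2 + 1))) - ((q - 1) * (q ^ 5 + 1) * (q ^ 4 + q ^ 2 + 1)) ^ 2 := by
    refine ⟨?_, ?_, ?_⟩
    · exact mul_pos (by omega) (by positivity)
    · rw [hf]
      exact mul_pos (by positivity) (mul_pos (by positivity) (by nlinarith))
    · have : 0 ≤ (q - 1) * (q ^ 5 + 1) * (q ^ 4 + q ^ 2 + 1) * (q ^ 2 - q + 1) *
          (q ^ 6 * (q ^ 2 + 1) - (q ^ 3 - 1) * (q ^ 5 + 1)) := by
        refine mul_nonneg (mul_nonneg (mul_nonneg (mul_nonneg (by omega) (by positivity)) (by positivity))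
          (by nlinarith)) ?_
        obtain ⟨t, ht, rfl⟩ := n6_pq hq
        ring_nf; positivity
      rw [hf]
      linarith
  generalize (q - 1) * (q ^ 5 + 1) = P at *
  have w0 : 0 < P * (q ^ 2 + 1) := by positivity
  have K1 : P * (q ^ 2 + 1) * S < δ * k := by
    have a := mul_pos hδ hm
    have b := mul_pos (by omega : 0 < c) hs
    have : δ * k = δ * μ + (P * (q ^ 2 + 1) + c) * S := by rw [← e1, h.ek]; ring
    linarith
  have cN : 0 < c * (N - 1) := mul_pos (by omega) (by omega)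
  constructor
  · refine lt_of_mul_lt_mul_right (a := f * (P * (q ^ 2 + 1))) ?_ (mul_pos f0 w0).le
    have a : f * (r + S) < S * (N - 1) := by linarith [h.ef]
    have b := mul_lt_mul_of_pos_left a (mul_pos (by omega : 0 < c) w0)
    have d := mul_lt_mul_of_pos_left K1 cN
    have e : 4 * (c * (N - 1) * (δ * k)) ≤ (P * (q ^ 4 + q ^ 2 + 1)) ^ 2 := by
      rw [e2]
      linarith [sq_nonneg (P * (q ^ 4 + q ^ 2 + 1) - 2 * (c * (N - 1)))]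
    linarith
  · have a : (q ^ 2 + 1) * S < q ^ 4 + q ^ 2 + 1 := lt_of_mul_lt_mul_left (a := P) (by linarith) P0.le
    by_contra n
    have := mul_le_mul_of_nonneg_left (by omega : q ^ 2 + 1 ≤ S) (by positivity : 0 ≤ q ^ 2 + 1)
    nlinarith [sq_nonneg q]

/-- With `a = q⁷ - q⁶ + q⁵ - q⁴ + q² - q + 1`.  The right side is positive, so it is `< q³ j S P ≤ q² a j S`, and
`z ≤ j`.  Modulo `q³` cancel `S`: `q³ ∣ (1 - q)(S + q z) + j`, multiply by `1 + q + q²`: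
`q³ ∣ S + q z + (1 + q + q²) j`, a number in `(0, q³)`. -/
theorem n6_core {q j S z : ℤ} (hq : 3 ≤ q) (hS : 0 < S) (hS' : S ≤ q ^ 2) (hj : 0 < j) (hj' : 4 * j < q) (hz : 0 < z)
    (c : IsCoprime S q) (e : (q ^ 3 * j - S) * (S * ((q - 1) * (q ^ 5 + 1)) - q * z -
      q * ((q ^ 4 + q ^ 2 + 1) * (q ^ 2 - q + 1)) * j) =
      S * (q ^ 7 - q ^ 6 + q ^ 5 - q ^ 4 + q ^ 2 - q + 1) * (q ^ 2 * z - j)) : False := by
  have q0 : 0 < q := by omega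
  have q2 : q < q ^ 2 := by nlinarith
  have q3 : 3 * q ^ 2 ≤ q ^ 3 := by nlinarith
  obtain ⟨a0, P0, Φ0, i⟩ : 0 < q ^ 7 - q ^ 6 + q ^ 5 - q ^ 4 + q ^ 2 - q + 1 ∧ 0 < (q - 1) * (q ^ 5 + 1) ∧
      0 < (q ^ 4 + q ^ 2 + 1) * (q ^ 2 - q + 1) ∧
      0 ≤ q ^ 7 - q ^ 6 + q ^ 5 - q ^ 4 + q ^ 2 - q + 1 - q * ((q - 1) * (q ^ 5 + 1)) := by
    obtain ⟨t, ht, rfl⟩ := n6_pq hq
    refine ⟨?_, ?_, ?_, ?_⟩ <;> ring_nf <;> positivity
  have zj : z ≤ j := by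
    generalize q ^ 7 - q ^ 6 + q ^ 5 - q ^ 4 + q ^ 2 - q + 1 = a at *
    generalize (q - 1) * (q ^ 5 + 1) = P at *
    generalize (q ^ 4 + q ^ 2 + 1) * (q ^ 2 - q + 1) = Φ at *
    by_contra n
    have j1 : q ^ 3 ≤ q ^ 3 * j := le_mul_of_one_le_right (by positivity) (by omega)
    have l0 : 0 < q ^ 3 * j - S := by linarith
    have b : (q ^ 3 * j - S) * (S * P - q * z - q * Φ * j) ≤ (q ^ 3 * j - S) * (S * P) :=
      mul_le_mul_of_nonneg_left (by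
        have := mul_pos q0 hz
        have := mul_pos (mul_pos q0 Φ0) hj
        linarith) l0.le
    have d : 0 < S * (S * P) := by positivity
    have g := mul_nonneg (by positivity : 0 ≤ q ^ 2 * j * S) i
    have l : S * a * (q ^ 2 * z - j) < S * a * (q ^ 2 * j) := by linarith
    have m := lt_of_mul_lt_mul_left l (by positivity)
    have := mul_le_mul_of_nonneg_left (by omega : j + 1 ≤ z) (by positivity : 0 ≤ q ^ 2)
    linarith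
  have d1 : q ^ 3 ∣ S * ((1 - q) * (S + q * z) + j) := by
    refine ⟨S * (q ^ 4 - q ^ 3 + q ^ 2 - q) * (q ^ 2 * z - j) + S * (q - 1) * z -
      j * (S * ((q - 1) * (q ^ 5 + 1)) - q * z - q * ((q ^ 4 + q ^ 2 + 1) * (q ^ 2 - q + 1)) * j) +
      S * (S * (q - 1) * q ^ 2 - (q ^ 4 - q ^ 3 + 2 * q ^ 2 - q + 2) * j), ?_⟩
    linear_combination e
  have d2 : q ^ 3 ∣ (1 - q) * (S + q * z) + j := (c.symm.pow_left (m := 3)).dvd_of_dvd_mul_left d1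
  have d3 : q ^ 3 ∣ S + q * z + (1 + q + q ^ 2) * j := by
    obtain ⟨w, hw⟩ := d2
    exact ⟨(1 + q + q ^ 2) * w + (S + q * z), by linear_combination (1 + q + q ^ 2) * hw⟩
  have := Int.le_of_dvd (by positivity) d3
  have a := mul_le_mul_of_nonneg_left zj q0.le
  have b := mul_le_mul_of_nonneg_left hj'.le (by positivity : 0 ≤ 1 + 2 * q + q ^ 2)
  linarith

/-- `c = 1`, `N = q⁵ ν`, `δ = D δ'`, `q = D E`, `δ'` coprime to `q`.  `ω + 1 = q a`, so `δ' r = E a`, `r = E r'`,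
`δ' r' = a`, `r'` is coprime to `q`.  `y = k - r`: `δ y = q⁴ (P - q ν)`, so `y = E q³ y'`, `δ' y' = P - q ν`.
`s (1 + f) = S N - y`, so `δ' s (1 + f) = E q³ (δ S q ν - P + q ν)` and `s = E q³ j`; `S = E S'`, `r' = q³ j - S'`.
`k + S = y + s = S N - f s` gives `y' + j = q² z` with `z = S' ν - Φ ψ j > 0`.  `r' (P - q ν) = a y'`; multiply by `S'`:
`n6_core` for `j, S', z` (`4 E j < q`, `E S' ≤ q²` by `n6_bd`). -/
theorem n6_one {q ν f k r S μ D E δ' : ℤ} (hq : 3 ≤ q) (hf : f = q ^ 2 * ((q ^ 4 + q ^ 2 + 1) * (q ^ 2 - q + 1)))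
    (h : Srg (q ^ 5 * ν) f k r S μ) (hD : 0 < D) (hδ : 0 < δ') (hE : q = D * E) (c : IsCoprime δ' q)
    (e1 : D * δ' * r = (q - 1) * (q ^ 5 + 1) * (q ^ 2 + 1) + 1)
    (e2 : D * δ' * k = (q - 1) * (q ^ 5 + 1) * (q ^ 4 + q ^ 2 + 1) - (q ^ 5 * ν - 1)) : False := by
  have q0 : 0 < q := by omega
  have hs := h.s0
  have hr := h.r0
  have k0 := h.k0
  have E0 : 0 < E := pos_of_mul_pos_left' hD (hE ▸ q0)
  obtain ⟨b1, b2⟩ := n6_bd (c := 1) hq hf h (mul_pos hD hδ) e1 (by rw [e2, one_mul]) le_rfl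
  have cE : IsCoprime E δ' := (hE ▸ c).symm.of_mul_left_right
  have cQ : IsCoprime (E * q ^ 3) δ' := cE.mul_left c.symm.pow_left
  have a1 : δ' * r = E * (q ^ 7 - q ^ 6 + q ^ 5 - q ^ 4 + q ^ 2 - q + 1) :=
    mul_left_cancel₀ hD.ne' (by
      linear_combination e1 + (q ^ 7 - q ^ 6 + q ^ 5 - q ^ 4 + q ^ 2 - q + 1) * hE)
  obtain ⟨r', rfl⟩ : E ∣ r := cE.dvd_of_dvd_mul_left ⟨_, a1⟩
  have a2 : δ' * r' = q ^ 7 - q ^ 6 + q ^ 5 - q ^ 4 + q ^ 2 - q + 1 :=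
    mul_left_cancel₀ E0.ne' (by linear_combination a1)
  have a3 : δ' * (k - E * r') = E * q ^ 3 * ((q - 1) * (q ^ 5 + 1) - q * ν) :=
    mul_left_cancel₀ hD.ne' (by
      linear_combination e2 - e1 + q ^ 3 * ((q - 1) * (q ^ 5 + 1) - q * ν) * hE)
  obtain ⟨y, hy⟩ : E * q ^ 3 ∣ k - E * r' := cQ.dvd_of_dvd_mul_left ⟨_, a3⟩
  have Eq : 0 < E * q ^ 3 := by positivity
  have a4 : δ' * y = (q - 1) * (q ^ 5 + 1) - q * ν :=
    mul_left_cancel₀ Eq.ne' (by linear_combination a3 - δ' * hy)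
  have a5 : (1 + f) * (E * r' + S) = E * q ^ 3 * (S * D * q * ν - y) := by
    linear_combination h.ef - hy + S * q ^ 4 * ν * hE
  have cq : IsCoprime q (1 + f) := ⟨-(q * ((q ^ 4 + q ^ 2 + 1) * (q ^ 2 - q + 1))), 1, by rw [hf]; ring⟩
  have cf : IsCoprime (E * q ^ 3) (1 + f) := ((hE ▸ cq).of_mul_left_right).mul_left cq.pow_left
  obtain ⟨j, hj⟩ : E * q ^ 3 ∣ E * r' + S := cf.dvd_of_dvd_mul_left ⟨_, a5⟩
  have a6 : (1 + f) * j = S * D * q * ν - y := mul_left_cancel₀ Eq.ne' (by linear_combination a5 - (1 + f) * hj)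
  obtain ⟨S', rfl⟩ : ∃ S', S = E * S' := ⟨q ^ 3 * j - r', by linear_combination hj⟩
  have a7 : r' = q ^ 3 * j - S' := mul_left_cancel₀ E0.ne' (by linear_combination hj)
  have a8 : y + j = q ^ 2 * (S' * ν - (q ^ 4 + q ^ 2 + 1) * (q ^ 2 - q + 1) * j) := by
    linear_combination a6 - j * hf - S' * q * ν * hE
  have S0 : 0 < S' := pos_of_mul_pos_left' E0 hs
  have j0 : 0 < j := pos_of_mul_pos_left' Eq (by rw [← hj]; linarith)
  have z0 : 0 < S' * ν - (q ^ 4 + q ^ 2 + 1) * (q ^ 2 - q + 1) * j :=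
    pos_of_mul_pos_left' (a := q ^ 2) (by positivity) (by
      rw [← a8]
      exact pos_of_mul_pos_left' Eq (by linarith))
  have j4 : 4 * j < q := by
    have : q ^ 3 * (4 * (E * j)) < q ^ 3 * q := by linarith
    have := lt_of_mul_lt_mul_left this (by positivity)
    have := le_mul_of_one_le_left j0.le (by omega : 1 ≤ E)
    linarith
  refine n6_core hq S0 ((le_mul_of_one_le_left S0.le (by omega : 1 ≤ E)).trans b2) j0 j4 z0
    ⟨-δ', δ' * q ^ 2 * j - (q ^ 6 - q ^ 5 + q ^ 4 - q ^ 3 + q - 1), by linear_combination a2 - δ' * a7⟩ ?_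
  linear_combination (S' * ((q - 1) * (q ^ 5 + 1) - q * ν)) * (-a7) - S' * r' * a4 + S' * y * a2 +
    S' * (q ^ 7 - q ^ 6 + q ^ 5 - q ^ 4 + q ^ 2 - q + 1) * a8

/-- `N = q⁵ ν`, `δ = D δ'` with `D = p^a`, `p ∤ δ'` (`Nat.exists_eq_pow_mul_and_not_dvd`).
`δ (k - r) = q⁴ (P - c q ν)` with `P - c q ν ≡ -1 mod p`, so `D ∣ q⁴ = D Q`.
`δ s (1 + f) = q⁴ (δ S q ν - P + c q ν)`, so `Q ∣ s`, `Q ≤ s` and `4 c < D` (`n6_bd`).
`D ∣ ω + c ≡ q³ - q² + q - 1 + c mod q⁴`.  If `D ∣ q`: `D ∣ c - 1`, `c = 1`, `n6_one`.  Otherwise `p q ∣ D`, so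
`p q ∣ q - 1 + c` (`p q ∣ q²`) and `c > q`; if `D ∣ q²` then `D ≤ q - 1 + c < 2 c`; else `q² ∣ q - 1 + c`, `n6_big`. -/
theorem num_6a {p e : ℕ} {q N f T ω c₂ : ℤ} (hp : p.Prime) (he : q = p ^ e) (hq : 3 ≤ q)
    (hT : (q + 1) * T = (q ^ 3 * -q ^ 3 + 1) * (q ^ 2 * -q ^ 3 - 1)) (h : Fa q (-q ^ 3) f ω) (k : Kn N f T ω c₂)
    (h1 : 1 ≤ c₂) (hd : q ^ 5 ∣ N) : False := by
  have q0 : 0 < q := by omega
  have p1 : 0 < q + 1 := by omega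
  have x1 : 0 < q ^ 2 - 1 := by nlinarith
  obtain rfl := n6_t hq hT
  have hf : f = q ^ 2 * ((q ^ 4 + q ^ 2 + 1) * (q ^ 2 - q + 1)) :=
    mul_right_cancel₀ (mul_pos p1 x1).ne' (by linear_combination h.1)
  have hω : ω = (q - 1) * (q ^ 5 + 1) * (q ^ 2 + 1) := mul_left_cancel₀ p1.ne' (by linear_combination h.2)
  subst hω
  obtain ⟨ν, rfl⟩ := hd
  obtain ⟨k, r, S, μ, c₁, s, -, c0, e2, e1⟩ := k
  obtain ⟨d, hd⟩ : ∃ d : ℕ, c₁ - c₂ = d := ⟨(c₁ - c₂).toNat, (Int.toNat_of_nonneg (by omega)).symm⟩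
  obtain ⟨a, n, hn, rfl⟩ := Nat.exists_eq_pow_mul_and_not_dvd (n := d) (by omega) p hp.ne_one
  have n0 : (0 : ℤ) < n := Int.natCast_pos.2 (Nat.pos_of_ne_zero fun z => hn (z ▸ dvd_zero p))
  have p2 : (2 : ℤ) ≤ p := by exact_mod_cast hp.two_le
  push_cast at hd
  have D0 : (0 : ℤ) < (p : ℤ) ^ a := by positivity
  replace e1 : (p : ℤ) ^ a * n * r = (q - 1) * (q ^ 5 + 1) * (q ^ 2 + 1) + c₂ := by linear_combination e1 - r * hd
  replace e2 : (p : ℤ) ^ a * n * k = (q - 1) * (q ^ 5 + 1) * (q ^ 4 + q ^ 2 + 1) - c₂ * (q ^ 5 * ν - 1) := by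
    linear_combination e2 - k * hd
  have e0 : e ≠ 0 := by rintro rfl; rw [pow_zero] at he; omega
  have pq' : (p : ℤ) ∣ q := he ▸ dvd_pow_self _ e0
  have cn : IsCoprime (n : ℤ) q := he ▸ (Nat.isCoprime_iff_coprime.2 ((hp.coprime_iff_not_dvd.2 hn).symm)).pow_right
  have a1 : (p : ℤ) ^ a * (n * (k - r)) = q ^ 4 * ((q - 1) * (q ^ 5 + 1) - c₂ * q * ν) := by linear_combination e2 - e1
  have cP : IsCoprime q ((q - 1) * (q ^ 5 + 1) - c₂ * q * ν) := ⟨q ^ 5 - q ^ 4 + 1 - c₂ * ν, -1, by ring⟩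
  obtain ⟨Q, hQ⟩ : (p : ℤ) ^ a ∣ q ^ 4 := ((cP.of_isCoprime_of_dvd_left pq').pow_left).dvd_of_dvd_mul_right ⟨_, a1.symm⟩
  have Q0 : 0 < Q := pos_of_mul_pos_left' D0 (hQ ▸ by positivity)
  have a2 : n * (1 + f) * (r + S) = Q * ((p : ℤ) ^ a * n * S * q * ν - (q - 1) * (q ^ 5 + 1) + c₂ * q * ν) :=
    mul_left_cancel₀ D0.ne' (by
      linear_combination (p : ℤ) ^ a * n * s.ef - a1 +
        ((p : ℤ) ^ a * n * S * q * ν - (q - 1) * (q ^ 5 + 1) + c₂ * q * ν) * hQ)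
  have cq : IsCoprime q (1 + f) := ⟨-(q * ((q ^ 4 + q ^ 2 + 1) * (q ^ 2 - q + 1))), 1, by rw [hf]; ring⟩
  have a3 : Q ∣ r + S := (((cn.symm.mul_right cq).pow_left (m := 4)).of_isCoprime_of_dvd_left
    ⟨(p : ℤ) ^ a, by rw [hQ, mul_comm]⟩).dvd_of_dvd_mul_left ⟨_, a2⟩
  have a4 := Int.le_of_dvd (add_pos s.r0 s.s0) a3
  obtain ⟨b1, -⟩ := n6_bd hq hf s (mul_pos D0 n0) e1 e2 h1
  have a5 : 4 * c₂ < (p : ℤ) ^ a := lt_of_mul_lt_mul_right (a := Q) (by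
    have := mul_le_mul_of_nonneg_left a4 (by omega : 0 ≤ 4 * c₂)
    linarith) Q0.le
  have a6 : (p : ℤ) ^ a ∣ q ^ 2 * (q - 1) + (q - 1 + c₂) :=
    ⟨n * r - Q * (q ^ 4 - q ^ 3 + q ^ 2 - q), by linear_combination -e1 - (q ^ 4 - q ^ 3 + q ^ 2 - q) * hQ⟩
  have dv : ∀ x : ℤ, x ∣ (p : ℤ) ^ a → x ∣ q ^ 2 → x ≤ q - 1 + c₂ := fun x u v =>
    Int.le_of_dvd (by omega) ((dvd_add_right (v.mul_right _)).1 (u.trans a6))
  have q2 : q ^ 2 = (p : ℤ) ^ (2 * e) := by rw [he, ← pow_mul, mul_comm]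
  rcases le_or_gt a e with l | l
  · obtain ⟨E, hE⟩ : (p : ℤ) ^ a ∣ q := he ▸ pow_dvd_pow _ l
    have : (p : ℤ) ^ a ∣ c₂ - 1 := by
      obtain ⟨w, hw⟩ := a6
      exact ⟨w - E * (q * (q - 1) + 1), by linear_combination hw - (q * (q - 1) + 1) * hE⟩
    obtain rfl : c₂ = 1 := by
      by_contra m
      have := Int.le_of_dvd (by omega) this
      omega
    exact n6_one hq hf s D0 n0 hE cn e1 (by rw [e2, one_mul])
  · have b2 := dv ((p : ℤ) ^ (e + 1)) (pow_dvd_pow _ l) (q2 ▸ pow_dvd_pow _ (by omega))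
    rw [pow_succ, ← he] at b2
    have b3 := mul_le_mul_of_nonneg_left p2 q0.le
    rcases le_or_gt a (2 * e) with m | m
    · have := dv _ dvd_rfl (q2 ▸ pow_dvd_pow _ m)
      omega
    · have := dv _ (q2 ▸ pow_dvd_pow _ m.le) dvd_rfl
      exact n6_big hq hf s (mul_pos D0 n0) e1 e2 (by linarith)

end Cfsg.Lib.R3U
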