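import Cfsg.Agent.Lib.R3U.Ed
import Cfsg.Agent.Lib.R3U.J3

/-! S2196, case II: no elements of Jordan type `J₄` (type B: `Ed g z e f b γ` with `B f e ≠ 0`). -/

set_option autoImplicit false

namespace Cfsg.Lib.R3U

open Cfsg.Lib.Unitary Cfsg.Lib.R3S Module Submodule MulAction

variable {F V : Type*} [Field F] [AddCommGroup V] [Module F V] {σ : F →+* F}
  {B : V →ₛₗ[σ] V →ₗ[F] F} {q n : ℕ} [Finite F] [Finite V] {H : Subgroup (SUG B)}

/-- Type B data at the point `z`. -/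
def Bd (H : Subgroup (SUG B)) (z e f : V) : Prop := B f e ≠ 0 ∧ ∃ g ∈ H, ∃ b γ, Ed g z e f b γ

omit [Finite F] [Finite V] in
theorem Ed.pair {g : SUG B} {z e f : V} {b γ : F} (a : Ed g z e f b γ) (y x : V) :
    B y (g.1 x) = B y x + B z x * B y f + b * (B e x + B z x * B e f) * B y e + (γ * B z x - B f x) * B y z := by
  rw [a.app]
  simp only [map_add, map_smul, smul_eq_mul]

omit [Finite F] [Finite V] in
theorem tb_eq (q1 : Q1 H) {g g' : SUG B} (hg : g ∈ H) (hg' : g' ∈ H) {z : V} (hz : Pt B z) (e : g.1 z = z) (e' : g'.1 z = z)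
    (k : ∀ x, B z x = 0 → ∃ c : F, g'.1 x = g.1 x + c • z) : g' = g := by
  refine mul_inv_eq_one.1 (q1 _ (mul_mem hg' (inv_mem hg)) z hz ⟨by rw [mul_app, ← e, inv_app, e', e], fun x hx => ?_⟩)
  obtain ⟨c, hc⟩ := k ((g⁻¹).1 x) (by rw [b_inv, e, hx])
  exact ⟨c, by rw [mul_app, hc, app_inv]⟩

omit [Finite F] [Finite V] in
theorem tb_zero {z z' : V} (hz : z ≠ 0) (hi : z' ∉ span F {z}) {a c : F} (e : a • z = c • z') : a = 0 := by
  by_cases hc : c = 0
  · exact (smul_eq_zero.1 (by rw [e, hc, zero_smul])).resolve_right hz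
  · exact (hi (mem_span_singleton.2 ⟨c⁻¹ * a, by rw [mul_smul, e, inv_smul_smul₀ hc]⟩)).elim

/-- If `2 = 0` then `g² ∈ H ∩ Q_z = 1`, but `g (g e) = e - 2 B f e z = e` is no contradiction yet: apply `g² = 1` to `s`
with `B z s = 1`; `(g - 1)² s = (b B e f) e + c z` must vanish (`(g - 1)² = g² - 1`). -/
theorem Bd.two (h : IsHerm σ B) (q1 : Q1 H) {z e f : V} (hz : Pt B z) (a : Bd H z e f) : (2 : F) ≠ 0 := by
  intro h2
  obtain ⟨p, g, hg, b, γ, a⟩ := a
  have gz := (a.toEe h hz.2).2.2.2.2.1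
  have ez := h.eq_zero_comm.1 a.ze
  have fz := h.eq_zero_comm.1 a.zf
  have E := tb_eq q1 (one_mem H) (mul_mem hg hg) hz rfl (by rw [mul_app, gz, gz]) fun x hx =>
    ⟨-(B f x + B f x + b * B e x * B f e), by
      rw [mul_app, a.app (g.1 x), a.pair z, a.pair e, a.pair f, a.app x, one_app]
      simp only [hx, a.ze, a.zf, a.ee, hz.2, ez, fz]
      linear_combination (norm := module) congrArg (fun c : F => c • (b * B e x) • e) h2⟩
  obtain ⟨s, hs⟩ := h.exists_eq_one hz.1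
  have E' : B f (g.1 (g.1 s)) = B f s := by rw [← mul_app, E, one_app]
  simp only [a.pair, hs, a.ze, a.zf, a.ee, hz.2, ez, fz] at E'
  exact mul_ne_zero (mul_ne_zero a.b0 (mt h.eq_zero_comm.1 p)) p
    (by linear_combination E' - (B f f + b * (B e s + B e f) * B f e) * h2)

/-- `Ed.conj`, `Ee.smul`, `Ee.ed`, `Ed.app_e` (type B means `g e ≠ e`). -/
theorem Bd.move (h : IsHerm σ B) (t : Tr H) {z e f z' : V} (hz : Pt B z) (a : Bd H z e f) (hz' : Pt B z') :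
    ∃ e' f', Bd H z' e' f' := by
  obtain ⟨p, g, hg, b, γ, a⟩ := a
  obtain ⟨k, hk, c, e1⟩ := t z z' hz hz'
  have hc : c ≠ 0 := fun x => app_ne k hz.1 (by rw [e1, x, zero_smul])
  have a1 := a.conj k
  have a2 := (a1.toEe h (hz.app k).2).smul (inv_ne_zero hc)
  rw [e1, inv_smul_smul₀ hc] at a2
  obtain ⟨f', γ', a3⟩ := a2.ed h hz'
  refine ⟨_, f', fun x => ?_, _, mul_mem (mul_mem hk hg) (inv_mem hk), _, _, a3⟩
  have := a3.app_e.symm.trans a1.app_e
  rw [x, zero_smul, sub_right_inj, b_app, eq_comm, smul_eq_zero] at this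
  exact this.elim p (app_ne k hz.1)

theorem Bd.app {z e f : V} (a : Bd H z e f) {k : SUG B} (hk : k ∈ H) (hz : k.1 z = z) : Bd H z (k.1 e) (k.1 f) := by
  obtain ⟨p, g, hg, b, γ, a⟩ := a
  exact ⟨by rwa [b_app], _, mul_mem (mul_mem hk hg) (inv_mem hk), b, γ, hz ▸ a.conj k⟩

/-- Otherwise take `j` from `neg_of_ee`.  `j g j⁻¹ g⁻¹ ∈ Q_z` (every `x ⊥ z` is `x₀ + α e + β e'` with `x₀ ⊥ z, e, e'`;
compare `j g x` and `g j x` modulo `z`), so `j g = g j`.  Applied to `e`: `-e + c z - β z = -e + β z + c z` with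
`β = B f e`, so `2 β = 0`. -/
theorem Bd.perp (h : IsHerm σ B) (q1 : Q1 H) {z e f e' : V} (hz : Pt B z) (a : Bd H z e f) {g' : SUG B}
    (hg' : g' ∈ H) {b' : F} (a' : Ee g' z e' b') : B e e' = 0 := by
  refine by_contra fun p' => ?_
  have h2 := a.two h q1 hz
  obtain ⟨p, g, hg, b, γ, a⟩ := a
  have gz := (a.toEe h hz.2).2.2.2.2.1
  obtain ⟨j, hj, jz, ⟨c, je⟩, -⟩ := neg_of_ee h h2 hg hg' hz.2 (a.toEe h hz.2) a' p'
  have a1 := a.conj j
  rw [jz, je] at a1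
  have E := tb_eq q1 hg (mul_mem (mul_mem hj hg) (inv_mem hj)) hz gz (a1.toEe h hz.2).2.2.2.2.1 fun x hx =>
    ⟨B f x - B (j.1 f) x - b * B e x * c, by
      rw [a1.app, a.app]
      simp only [map_add, map_neg, map_smulₛₗ, LinearMap.add_apply, LinearMap.neg_apply, LinearMap.smul_apply, hx, smul_eq_mul]
      module⟩
  have E' : j.1 (g.1 e) = g.1 (j.1 e) := by rw [← mul_app, mul_inv_eq_iff_eq_mul.1 E, mul_app]
  rw [je, a.app_e, map_add, map_neg, a.app_e, map_sub, map_smul, map_smul, je, jz, gz] at E'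
  exact smul_ne_zero (mul_ne_zero h2 p) hz.1 (by linear_combination (norm := module) -E')

theorem Bd.perp' (h : IsHerm σ B) (q1 : Q1 H) {z e f e' f' : V} (hz : Pt B z) (a : Bd H z e f) (a' : Bd H z e' f') :
    B e e' = 0 :=
  let ⟨_, _, hg, _, _, d⟩ := a'
  a.perp h q1 hz hg (d.toEe h hz.2)

/-- `g` (data `z, e, f, b, γ`, `φ = B e f ≠ 0`) fixes `z'`.  All `gⁱ e'` are type B centres at `z'` (`Bd.app`), hence
`⊥ e'` (`Bd.perp`), so `(g - 1)ⁱ e' ⊥ e'`.  With `α = B z e'`, `c = B e e'`, `d = B f e'`: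
`(g - 1) e' = α f + b (c + α φ) e + (γ α - d) z`, `(g - 1)³ e' = -(α b φ σ φ) z`, so `α σ α = 0`;
then `(g - 1) e' = b c e - d z` gives `c = 0`. -/
theorem Bd.ub1 (h : IsHerm σ B) (q1 : Q1 H) {z e f z' e' f' : V} (hz : Pt B z) (a : Bd H z e f) (hz' : Pt B z')
    (a' : Bd H z' e' f') (h1 : B z z' = 0) (h2 : B e z' = 0) (h3 : B f z' = 0) : B z e' = 0 ∧ B e e' = 0 := by
  obtain ⟨p, g, hg, b, γ, a⟩ := a
  have gz : g.1 z' = z' := by rw [a.app]; simp [h1, h2, h3]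
  have ez := h.eq_zero_comm.1 a.ze
  have fz := h.eq_zero_comm.1 a.zf
  have p0 := a'.perp' h q1 hz' a'
  have p1 := a'.perp' h q1 hz' (a'.app hg gz)
  have p2 := a'.perp' h q1 hz' ((a'.app hg gz).app hg gz)
  have p3 := a'.perp' h q1 hz' (((a'.app hg gz).app hg gz).app hg gz)
  simp only [a.pair, a.ze, a.zf, a.ee, hz.2, ez, fz, p0] at p1 p2 p3
  have α : B z e' = 0 := by
    have : b * B e f * B f e * (B z e' * B e' z) = 0 := by linear_combination -p3 + 3 * p2 - 3 * p1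
    exact (mul_eq_zero.1 ((mul_eq_zero.1 this).resolve_left
      (mul_ne_zero (mul_ne_zero a.b0 (mt h.eq_zero_comm.1 p)) p))).elim id h.eq_zero_comm.1
  rw [α, h.eq_zero_comm.1 α] at p1
  have : b * (B e e' * B e' e) = 0 := by linear_combination p1
  exact ⟨α, (mul_eq_zero.1 ((mul_eq_zero.1 this).resolve_left a.b0)).elim id h.eq_zero_comm.1⟩

/-- By `Bd.ub1`, `gⁱ e' = e' - i d z` with `d = B f e'`.  Let `d ≠ 0`.  `z ∉ ⟨z', e'⟩` (apply `B f`: `z = λ e' + μ z'`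
gives `λ d = 0`, `z ∈ F z'`).  `g'` and `gⁱ g' g⁻ⁱ` commute (`Q1.comm`), and `Ed.com` gives `B (gⁱ e') f' = 0` for
`i = 1, 2` (`2 d ≠ 0` by `Bd.two`): `B e' f' = σ d B z f' = 2 σ d B z f'`, so `B e' f' = 0`. -/
theorem Bd.ub2 (h : IsHerm σ B) (q1 : Q1 H) {z e f z' e' f' : V} (hz : Pt B z) (a : Bd H z e f) (hz' : Pt B z')
    (a' : Bd H z' e' f') (h1 : B z z' = 0) (h2 : B e z' = 0) (h3 : B f z' = 0) (hi : z' ∉ span F {z}) :
    B f e' = 0 := by
  refine by_contra fun d => ?_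
  obtain ⟨α, c⟩ := a.ub1 h q1 hz hz' a' h1 h2 h3
  have t := a.two h q1 hz
  obtain ⟨p, g, hg, b, γ, a⟩ := a
  obtain ⟨p', g', hg', b', γ', a'⟩ := a'
  have gz : g.1 z' = z' := by rw [a.app]; simp [h1, h2, h3]
  have ge : g.1 e' = e' - B f e' • z := by rw [a.app]; simp [α, c, sub_eq_add_neg]
  have key : ∀ k ∈ H, k.1 z' = z' → ∀ m : F, m ≠ 0 → k.1 e' = e' - m • z → B e' f' = σ m * B z f' := fun k hk kz m hm ke => by
    have a1 := a'.conj k
    rw [kz, ke] at a1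
    have pp : B e' (e' - m • z) = 0 := by simp [a'.ee, h.eq_zero_comm.1 α]
    obtain ⟨μ, e1⟩ := mem_span_singleton.1 (a'.com h hz' a1 pp
      (q1.comm h hg' (mul_mem (mul_mem hk hg') (inv_mem hk)) hz' (a'.toEe h hz'.2) (a1.toEe h hz'.2) pp))
    have e2 := congrArg (B f) e1
    have hx : B (e' - m • z) f' = B e' f' - σ m * B z f' := by simp
    generalize B (e' - m • z) f' = x at e1 e2 hx
    simp only [map_sub, map_smul, smul_eq_mul, h3, h.eq_zero_comm.1 a.zf, mul_zero, sub_zero] at e2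
    rw [← sub_mul, eq_comm, mul_eq_zero, sub_eq_zero] at e2
    rw [← e2.resolve_right d] at e1
    have := tb_zero hz.1 hi (a := -(b' * x * m)) (c := μ) (by linear_combination (norm := module) -e1)
    simpa [a'.b0, hm, hx, sub_eq_zero] using this
  have k1 := key g hg gz _ d ge
  have k2 := key _ (mul_mem hg hg) (by rw [mul_app, gz, gz]) _ (mul_ne_zero t d) (by
    rw [mul_app, ge, map_sub, map_smul, ge, (a.toEe h hz.2).2.2.2.2.1]; module)
  rw [map_mul, map_ofNat] at k2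
  exact p' (h.eq_zero_comm.1 (by linear_combination 2 * k1 - k2))

/-- `g` fixes `z', e'`, so `g g' g⁻¹ g'⁻¹ ∈ H ∩ Q_{z'} = 1`; comparing `Ed g' z' e' f'` with `Ed g' z' e' (g f')`
(`B e' (g f') = B e' f'`) at `s'` with `B z' s' = 1` gives `g f' - f' ∈ F z'`.  It also lies in `⟨z, e, f⟩`, and is
`⊥ z, e, f`, so it is in `F z ∩ F z' = 0`.  `g f' = f'` and the independence of `z, e, f` give the claim. -/
theorem Bd.ub (h : IsHerm σ B) (q1 : Q1 H) {z e f z' e' f' : V} (hz : Pt B z) (a : Bd H z e f) (hz' : Pt B z')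
    (a' : Bd H z' e' f') (h1 : B z z' = 0) (h2 : B e z' = 0) (h3 : B f z' = 0) (hi : z' ∉ span F {z}) :
    (B z e' = 0 ∧ B e e' = 0 ∧ B f e' = 0) ∧ B z f' = 0 ∧ B e f' = 0 ∧ B f f' = 0 := by
  obtain ⟨α, c⟩ := a.ub1 h q1 hz hz' a' h1 h2 h3
  have d := a.ub2 h q1 hz hz' a' h1 h2 h3 hi
  refine ⟨⟨α, c, d⟩, ?_⟩
  obtain ⟨p, g, hg, b, γ, a⟩ := a
  obtain ⟨p', g', hg', b', γ', a'⟩ := a'
  have gz : g.1 z' = z' := by rw [a.app]; simp [h1, h2, h3]
  have ge : g.1 e' = e' := by rw [a.app]; simp [α, c, d]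
  have a1 := a'.conj g
  rw [gz, ge] at a1
  rw [tb_eq q1 hg' (mul_mem (mul_mem hg hg') (inv_mem hg)) hz' (a'.toEe h hz'.2).2.2.2.2.1 (a1.toEe h hz'.2).2.2.2.2.1
    fun x hx => ⟨B f' x - B (g.1 f') x, by rw [a1.app, a'.app, hx]; module⟩] at a1
  obtain ⟨s, hs⟩ := h.exists_eq_one hz'.1
  have E := (a1.app s).symm.trans (a'.app s)
  rw [hs, show B e' (g.1 f') = B e' f' by rw [← b_app g e' f', ge]] at E
  generalize B (g.1 f') s = μ at E
  rw [a.app] at E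
  have E' : B z f' • f + (b * (B e f' + B z f' * B e f)) • e + (γ * B z f' - B f f') • z = (μ - B f' s) • z' := by
    linear_combination (norm := module) E
  have u := congrArg (B e) E'
  simp only [map_add, map_smul, smul_eq_mul, a.ee, h.eq_zero_comm.1 a.ze, h2, mul_zero, add_zero] at u
  replace u := (mul_eq_zero.1 u).resolve_right (mt h.eq_zero_comm.1 p)
  have v := congrArg (B f) E'
  simp only [map_add, map_smul, smul_eq_mul, u, h.eq_zero_comm.1 a.zf, h3, mul_zero, add_zero, zero_mul, zero_add] at v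
  replace v := (mul_eq_zero.1 ((mul_eq_zero.1 v).resolve_right p)).resolve_left a.b0
  rw [u, v] at E'
  exact ⟨u, v, neg_eq_zero.1 (tb_zero hz.1 hi (c := μ - B f' s) (by linear_combination (norm := module) E'))⟩

/-- Otherwise there are data `U₁ = (z₁, e₁, f₁)`; take `z₂ ⊥ U₁` outside `F z₁` (`ex_out`), data `U'' = (e₁, e'', f'')`
at the point `e₁`, and data `U_w` at `w = z₂` and `w = z₂ + z₁`.  `U_w ⊥ U₁` (`Bd.ub`), so `e₁ ⊥ U_w`, `e₁ ∉ F w`
(`f₁ ⊥ w`), `U'' ⊥ w`.  Hence `z₁ ⊥ U''`, `z₁ ∉ F e₁`, and `Bd.ub` gives `B e₁ f₁ = 0`. -/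
theorem Un.noB (s : Un σ B q n) (q1 : Q1 H) (t : Tr H) : NoB H := by
  intro g hg z e b hz a
  have h := s.herm
  obtain ⟨f, γ, a⟩ := a.ed h hz
  refine by_contra fun ne => ?_
  have p : B f e ≠ 0 := fun x => ne (by rw [a.app_e, x, zero_smul, sub_zero])
  have p' := mt h.eq_zero_comm.1 p
  have U : Bd H z e f := ⟨p, g, hg, b, γ, a⟩
  have ez := h.eq_zero_comm.1 a.ze
  have fz := h.eq_zero_comm.1 a.zf
  obtain ⟨w, w0, w1, w2, w3, w4⟩ := s.ex_out (e := e) (f := f) hz.2 fun w hw _ h2 h3 => by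
    obtain ⟨x, y, u, rfl⟩ := mem_span_triple.1 hw
    obtain rfl : u = 0 := by simpa [ez, a.ee, p'] using h2
    obtain rfl : y = 0 := by simpa [fz, p] using h3
    simpa using smul_mem _ x (mem_span_singleton_self z)
  have he : Pt B e := ⟨fun x => a.ne (by rw [x]; exact zero_mem _), a.ee⟩
  obtain ⟨e', f', U'⟩ := U.move h t hz he
  have key : ∀ w, Pt B w → B z w = 0 → B e w = 0 → B f w = 0 → w ∉ span F {z} → B w e' = 0 ∧ B w f' = 0 :=
    fun w w0 w1 w2 w3 w4 => by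
      obtain ⟨_, _, W⟩ := U.move h t hz w0
      have k := U.ub h q1 hz w0 W w1 w2 w3 w4
      have k' := W.ub h q1 w0 he U' (h.eq_zero_comm.1 w2) (h.eq_zero_comm.1 k.1.2.1) (h.eq_zero_comm.1 k.2.2.1) fun x => by
        obtain ⟨c, rfl⟩ := mem_span_singleton.1 x
        exact p (by simp [w3])
      exact ⟨k'.1.1, k'.2.1⟩
  have w5 : w + z ∉ span F {z} := fun x => w4 (by simpa using sub_mem x (mem_span_singleton_self z))
  obtain ⟨k1, k2⟩ := key w w0 w1 w2 w3 w4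
  obtain ⟨k3, k4⟩ := key (w + z) ⟨fun x => w5 (by rw [x]; exact zero_mem _), by simp [w0.2, w1, h.eq_zero_comm.1 w1, hz.2]⟩
    (by simp [w1, hz.2]) (by simp [w2, ez]) (by simp [w3, fz]) w5
  exact p' (U'.ub h q1 he hz U ez (h.eq_zero_comm.1 (by simpa [k1] using k3)) (h.eq_zero_comm.1 (by simpa [k2] using k4))
    fun x => by
      obtain ⟨c, rfl⟩ := mem_span_singleton.1 x
      obtain rfl : c = 0 := by simpa [p] using fz
      exact hz.1 (zero_smul _ _)).2.1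

end Cfsg.Lib.R3U
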