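import Cfsg.Agent.Lib.R3U.C2d
import Cfsg.Agent.Lib.R3U.Fin
import Cfsg.Agent.Lib.R3U.TB
import Cfsg.Agent.Lib.R3U.Num6
import Cfsg.Agent.Lib.R3U.IQ
import Cfsg.Agent.Lib.R3U.IRed
import Cfsg.Agent.Lib.R3U.Km

/-! S2196: assembly. -/

set_option autoImplicit false

namespace Cfsg.Lib.R3U

open Cfsg.Lib.Unitary Cfsg.Lib.R3S Module Submodule MulAction

variable {F V : Type*} [Field F] [AddCommGroup V] [Module F V] {σ : F →+* F}
  {B : V →ₛₗ[σ] V →ₗ[F] F} {q n : ℕ} [Finite F] [Finite V] {H : Subgroup (SUG B)}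

namespace Un

variable (s : Un σ B q n)
include s

theorem ex_j : ∃ j : SUG B, j * j = 1 ∧ j ∉ Subgroup.center (SUG B) := by
  have h := s.herm
  have n6 := s.n6
  obtain ⟨e, e0, he⟩ := h.exists_isotropic (by rw [s.dim]; omega)
  simp only [h.mem_center_SUG (by rw [s.dim]; omega)]
  by_cases h2 : (2 : F) = 0
  · obtain ⟨c, c0, hc⟩ := h.exists_skew
    obtain ⟨t, ht⟩ := ex_tv h he (c := c) (by rw [hc, add_neg_cancel])
    refine ⟨t, (ht.mul he ht).eq (by rw [← two_mul, h2, zero_mul]; exact tv_one e), fun ⟨a, ha⟩ => ?_⟩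
    have a1 : a = 1 := smul_left_injective F e0 (by simpa [ht.fix he] using (ha e).symm)
    exact ht.ne_one h e0 c0 (ext' fun x => by rw [ha, a1, one_smul, one_app])
  · obtain ⟨f, hf, hef⟩ := h.exists_hyperbolic e0 he
    obtain ⟨g, g1, g2, g3, g4, g5⟩ := ex_diag2 h he hf (by rw [hef]; exact one_ne_zero) (l := -1) (by simp)
    refine ⟨⟨g, mem_SUG'.2 ⟨g1, by simpa using g2⟩⟩, ext' fun x => ?_, fun ⟨a, ha⟩ => ?_⟩
    · obtain ⟨w, w1, w2, e⟩ := h.hyp_decomp he hf hef x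
      rw [mul_app, one_app, e]
      simp [g3, g4, g5 w w1 w2]
    · have a1 : a = -1 := smul_left_injective F e0 ((ha e).symm.trans g3)
      have k := h.finrank_hypPerp he hef
      have : Nontrivial (hypPerp B e f) := Module.nontrivial_of_finrank_pos (R := F) (by rw [s.dim] at k; omega)
      obtain ⟨⟨y, hy⟩, y0⟩ := exists_ne (0 : hypPerp B e f)
      have k1 : y = a • y := (g5 y (mem_hypPerp.1 hy).1 (mem_hypPerp.1 hy).2).symm.trans (ha y)
      rw [a1, neg_one_smul, eq_neg_iff_add_eq_zero, ← two_smul F] at k1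
      exact y0 (Subtype.ext ((smul_eq_zero.1 k1).resolve_left h2))

theorem ex_inv (ne : H ≠ ⊤) : ∃ g : SUG B, g ∉ H ∧ g * g = 1 := by
  obtain ⟨j, j1, j2⟩ := s.ex_j
  have n6 := s.n6
  by_contra! k
  have le : Subgroup.normalClosure {j} ≤ H := (Subgroup.closure_le _).2 fun g hg => by
    obtain ⟨j', hj, hc⟩ := Group.mem_conjugatesOfSet_iff.1 hg
    obtain ⟨c, rfl⟩ := isConj_iff.1 hc
    by_contra m
    exact k _ m (by rw [conj_mul, hj, j1, mul_one, mul_inv_cancel])
  rcases s.herm.normal_SUG s.bar (by rw [s.dim]; omega) (by rw [s.dim]; omega) (Subgroup.normalClosure {j}) with e | e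
  · exact j2 (e (Subgroup.subset_normalClosure rfl))
  · exact ne (top_le_iff.1 (e ▸ le))

variable {X : Type*} [MulAction (SUG B) X] [Finite X] {E : X → X → Prop}

theorem case1 (hE : R3G (SUG B) X E) (x : X) (h2 : N2 (stabilizer (SUG B) x)) (h3 : R3 (stabilizer (SUG B) x))
    (ne : stabilizer (SUG B) x ≠ ⊤) : NoTv (stabilizer (SUG B) x) := by
  rintro g hg ⟨r, c, hr, hc, t⟩
  have cr : Cen (stabilizer (SUG B) x) r := ⟨hr, c, hc, g, hg, t⟩
  by_cases a : ∀ v, Pt B v → Cen (stabilizer (SUG B) x) v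
  · exact ne (s.top_of_cen a)
  push Not at a
  obtain ⟨z, hz, hz'⟩ := a
  exact s.ci_false ⟨s.full hE x h2 cr hz hz', ⟨r, cr⟩, ne, (h2.two cr hz hz').1,
    fun r' c' => s.span_off h2 c' hz hz' (s.span_cen h2 h3 cr hz hz')⟩ h3

theorem stepA [Fintype X] (hE : R3G (SUG B) X E) (c : Cn E) (c' : Cn (Co E)) (nt : ∀ y : X, NoTv (stabilizer (SUG B) y))
    {U : Matrix X X ℂ} {f ω : ℤ} (hU : Idm (SUG B) U f) (e : mT B X * U = (ω : ℂ) • U)
    (h : Fa q (uu q n) f ω ∨ Fb q (uu q n) f ω ∨ Fc q (uu q n) f ω) : False := by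
  classical
  have q3 : (3 : ℤ) ≤ q := by exact_mod_cast s.q3
  have hu := uu_cases (s.bar.two_le.trans' one_le_two) s.n6
  have hT : ((q : ℤ) + 1) * nT B = (q ^ 3 * uu q n + 1) * (q ^ 2 * uu q n - 1) := by
    rw [← s.nI_eq, ← s.nT_eq]; push_cast; rfl
  have q35 : -(q : ℤ) ^ 5 ≤ -q ^ 3 := neg_le_neg (pow_le_pow_right₀ (by omega) (by omega))
  obtain ⟨c₂, k⟩ := km hE c c' hU (fun x y => {t : SUG B | IsT t ∧ t • x = y}.ncard) (T := nT B) (fun g x y => by
      symm
      refine Set.ncard_congr (fun t _ => g * t * g⁻¹) (fun t a => ⟨a.1.conj g, ?_⟩)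
        (fun _ _ _ _ e => by simpa using e) fun t a => ⟨g⁻¹ * t * g⁻¹⁻¹, ⟨a.1.conj g⁻¹, ?_⟩, by group⟩
      · rw [mul_smul, mul_smul, inv_smul_smul, a.2]
      · rw [mul_smul, mul_smul, inv_inv, a.2, inv_smul_smul])
    (fun x => (Set.ncard_eq_zero (by have := finite_sug (B := B); exact Set.toFinite _)).2
      (Set.eq_empty_of_forall_notMem fun t ⟨a, b⟩ => nt x t b a))
    (fun x => mT_row x) (omega_pos q3 (by omega) h) e
  have k0 : 0 ≤ c₂ := by obtain ⟨_, _, _, _, _, _, k, _⟩ := k; exact k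
  rcases k0.eq_or_lt with rfl | k1
  · exact num_p q3 (by omega) hT h k
  rcases hu with ⟨rfl, hu⟩ | ⟨-, hu⟩
  · rw [hu] at h hT
    have := Fintype.ofFinite F
    obtain ⟨p, f, hp, -, -, hq⟩ := exists_prime_pow_of_card (Nat.card_eq_fintype_card.symm.trans s.bar.card)
    rcases h with h | h
    · refine num_6a hp (by exact_mod_cast hq) q3 hT h k k1 ?_
      rw [← Nat.card_eq_fintype_card]
      exact_mod_cast s.dvd_of_noTv nt
    · exact num_6b q3 hT h k k1
  · exact num_c q3 hu hT h k k1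

theorem main [IsPreprimitive (SUG B) X] (x : X)
    (h3 : Nat.card (orbitRel.Quotient (stabilizer (SUG B) x) X) = 3) :
    ((q : ℤ) ^ 2 - 1) * Nat.card X = (q ^ 3 * uu q n + 1) * (q ^ 2 * uu q n - 1) := by
  classical
  have := finite_sug (B := B)
  have := Fintype.ofFinite X
  have tr : ∀ x y : X, ∃ g : SUG B, g • x = y := fun x y => exists_smul_eq _ x y
  by_cases h2 : N2 (stabilizer (SUG B) x)
  · exfalso
    have ne : stabilizer (SUG B) x ≠ ⊤ := fun ht => by
      have : Subsingleton X := ⟨fun y z => by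
        obtain ⟨g, rfl⟩ := tr x y
        obtain ⟨g', rfl⟩ := tr x z
        rw [show g • x = x from ht.ge (Subgroup.mem_top g), show g' • x = x from ht.ge (Subgroup.mem_top g')]⟩
      have := h3.ge.trans ((Nat.card_le_card_of_surjective _ Quotient.mk_surjective).trans
        (Finite.card_le_one_iff_subsingleton.2 this))
      omega
    obtain ⟨j, j1, j2⟩ := s.ex_inv ne
    obtain ⟨E, hE⟩ := ex_r3g x tr h3 j1 (by rw [← mul_smul, j2, one_smul])
    have nt := s.case1 hE x h2 (r3_of_card x h3) ne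
    have A := fun {U f ω} => s.stepA (U := U) (f := f) (ω := ω) hE (cn_of_prim hE) (cn_of_prim (co_r3g hE))
      fun y => by obtain ⟨g, rfl⟩ := tr x y; exact nt.stab g
    have t : Tr (stabilizer (SUG B) x) := by
      by_contra t
      obtain ⟨φ, f, ω, -, a, b, c⟩ := s.two_pt x tr h2 t
      exact A a b (c.imp_right Or.inl)
    have c := s.noC nt t fun _ v hv => by
      by_contra e
      obtain ⟨χ, φ, a1, a2, a3⟩ := ex_sys s.bar x hv.1 e
      obtain ⟨f, ω, a, b, c⟩ := s.th a1 a2 hv a3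
      exact A a b (Or.inr (Or.inr c))
    have q1 := s.q1 c t
    have nb := s.noB q1 t
    exact s.fin x tr h3 ⟨c, q1, nb, noW c q1 nb s t⟩ t
  · simp only [N2, not_forall, not_or] at h2
    obtain ⟨u, v, w, hu, hv, hw, a, b, c⟩ := h2
    have key : ∀ {u v : V} (hu : Pt B u) (hv : Pt B v), ¬ Rl (stabilizer (SUG B) x) u v →
        ∀ g ∈ stabilizer (SUG B) x, g • pt hu ≠ pt hv :=
      fun hu hv n g hg e => n ⟨g, hg, (pt_eq _ _).1 ((smul_pt g hu).symm.trans e)⟩
    have := finite_isoP (B := B)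
    rw [card_eq_of_three x (tr x) h3 s.r3g_pts (key hu hv a) (key hu hw b) (key hv hw c), s.card_pts]

end Un

end Cfsg.Lib.R3U
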