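import Cfsg.Agent.Lib.R3U.Cnt
import Cfsg.Agent.Lib.R3U.Idm

/-! S2196: the isotropic points. -/

set_option autoImplicit false
set_option linter.unusedSectionVars false

namespace Cfsg.Lib.R3U

open Cfsg.Lib.Unitary Cfsg.Lib.R3S Module Submodule MulAction

variable {F V : Type*} [Field F] [AddCommGroup V] [Module F V] {σ : F →+* F}
  {B : V →ₛₗ[σ] V →ₗ[F] F} {q n : ℕ} [Finite F] [Finite V] {H : Subgroup (SUG B)}

open scoped LinearAlgebra.Projectivization

omit [Finite F] [Finite V] in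
theorem mem_isoP {v : V} (hv : v ≠ 0) : Projectivization.mk F v hv ∈ isoP B ↔ B v v = 0 := by
  obtain ⟨a, ha⟩ := Projectivization.exists_smul_eq_mk_rep F v hv
  change B (Projectivization.mk F v hv).rep (Projectivization.mk F v hv).rep = 0 ↔ _
  simp [← ha, Units.smul_def]

/-- The point of an isotropic vector. -/
def pt {v : V} (hv : Pt B v) : isoP B := ⟨Projectivization.mk F v hv.1, (mem_isoP hv.1).2 hv.2⟩

omit [Finite F] [Finite V] in
theorem pt_rep (p : isoP B) : ∃ hv : Pt B p.1.rep, pt hv = p := ⟨⟨p.1.rep_nonzero, p.2⟩, Subtype.ext p.1.mk_rep⟩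

omit [Finite F] [Finite V] in
theorem smul_pt (g : SUG B) {v : V} (hv : Pt B v) : g • pt hv = pt (hv.app g) := Subtype.ext (Projectivization.smul_mk g.1 hv.1)

omit [Finite F] [Finite V] in
theorem pt_eq {v w : V} (hv : Pt B v) (hw : Pt B w) : pt hv = pt hw ↔ ∃ a : F, v = a • w := by
  rw [Subtype.ext_iff]
  exact (Projectivization.mk_eq_mk_iff' F v w hv.1 hw.1).trans (exists_congr fun _ => eq_comm)

omit [Finite F] [Finite V] in
theorem np_pt {v w : V} (hv : Pt B v) (hw : Pt B w) : NP B (pt hv) (pt hw) ↔ B v w ≠ 0 := by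
  obtain ⟨a, ha⟩ := Projectivization.exists_smul_eq_mk_rep F v hv.1
  obtain ⟨b, hb⟩ := Projectivization.exists_smul_eq_mk_rep F w hw.1
  change B (Projectivization.mk F v hv.1).rep (Projectivization.mk F w hw.1).rep ≠ 0 ↔ _
  simp [← ha, ← hb, Units.smul_def]

theorem finite_isoP : Finite (isoP B) := inferInstance

omit [Finite F] [Finite V] in
theorem pt_ind {P : isoP B → Prop} (h : ∀ v (hv : Pt B v), P (pt hv)) (p : isoP B) : P p := by
  obtain ⟨hv, e⟩ := pt_rep p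
  exact e ▸ h _ hv

omit [Finite F] [Finite V] in
theorem pt_smul {v : V} (hv : Pt B v) {a : F} (h : Pt B (a • v)) : pt h = pt hv := (pt_eq _ _).2 ⟨a, rfl⟩

/-- Each point has `q² - 1` non-zero vectors. -/
theorem card_pt (hσ : IsBar q σ) (P : isoP B → Prop) :
    (q ^ 2 - 1) * {p | P p}.ncard = {v | ∃ hv : Pt B v, P (pt hv)}.ncard := by
  have := @finite_isoP _ _ _ _ _ σ B _ _
  rw [mul_comm, ← mul_one (Set.ncard {v | ∃ hv : Pt B v, P (pt hv)})]
  refine dbl_eq _ _ (fun p v => ∃ hv : Pt B v, pt hv = p) (fun p hp => ?_) fun v ⟨hv, p⟩ =>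
    Set.ncard_eq_one.2 ⟨pt hv, Set.ext fun p' => ⟨fun ⟨_, _, e⟩ => e.symm, fun e => e ▸ ⟨p, hv, rfl⟩⟩⟩
  induction p using pt_ind with | _ w hw =>
  rw [← hσ.card, ← Set.ncard_univ, ← Set.ncard_sdiff_singleton_of_mem (Set.mem_univ (0 : F))]
  refine (Set.ncard_congr (fun a _ => a • w) (fun a ha => ?_) (fun a b _ _ e => smul_left_injective F hw.1 e)
    fun v hv => ?_).symm
  · exact ⟨⟨hw.smul ha.2, by rwa [pt_smul hw]⟩, hw.smul ha.2, pt_smul hw _⟩
  obtain ⟨-, hv, e⟩ := hv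
  obtain ⟨a, rfl⟩ := (pt_eq _ _).1 e
  exact ⟨a, ⟨trivial, fun e => hv.1 (by rw [show a = 0 from e, zero_smul])⟩, rfl⟩

theorem one_le_sq (hσ : IsBar q σ) : 1 ≤ q ^ 2 := hσ.card ▸ Nat.card_pos

/-- The same for sums. -/
theorem sum_pt (hσ : IsBar q σ) [Fintype (isoP B)] (f : V → ℂ) (hf : ∀ (a : F) v, a ≠ 0 → f (a • v) = f v) :
    ∑ v ∈ (Set.toFinite {v | Pt B v}).toFinset, f v = ((q : ℂ) ^ 2 - 1) * ∑ p : isoP B, f p.1.rep := by
  classical
  have k : ∀ v ∈ (Set.toFinite {v | Pt B v}).toFinset,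
      f v = ∑ p : isoP B, if ∃ hv : Pt B v, pt hv = p then f p.1.rep else 0 := fun v hv => by
    have hv : Pt B v := by simpa using hv
    obtain ⟨h, e⟩ := pt_rep (pt hv)
    obtain ⟨a, e⟩ := (pt_eq _ _).1 e
    simp only [hv, exists_true_left, Finset.sum_ite_eq, Finset.mem_univ, if_true]
    rw [e, hf a v fun a0 => h.1 (by rw [e, a0, zero_smul])]
  rw [Finset.sum_congr rfl k, Finset.sum_comm, Finset.mul_sum]
  refine Finset.sum_congr rfl fun p _ => ?_
  have := card_pt hσ (· = p)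
  rw [Set.ofPred_eq_eq_singleton, Set.ncard_singleton, mul_one] at this
  rw [← Finset.sum_filter, Finset.sum_const, nsmul_eq_mul, ← Set.ncard_coe_finset, ← Nat.cast_pow, ← Nat.cast_one,
    ← Nat.cast_sub (one_le_sq hσ), this]
  congr 3
  ext v
  simp

/-- Counting points by counting vectors. -/
theorem cnt_c (hσ : IsBar q σ) (hq : 3 ≤ q) [Fintype (isoP B)] (P : isoP B → Prop) [DecidablePred P] {Q : V → Prop}
    (hQ : ∀ v (hv : Pt B v), P (pt hv) ↔ Q v) {m : ℤ} (e : ({v | Pt B v ∧ Q v}.ncard : ℤ) = (q ^ 2 - 1) * m) :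
    ∑ p, (if P p then 1 else 0 : ℂ) = m := by
  have h := card_pt hσ P
  rw [show {v | ∃ hv : Pt B v, P (pt hv)} = {v | Pt B v ∧ Q v} from Set.ext fun v =>
    ⟨fun ⟨a, b⟩ => ⟨a, (hQ v a).1 b⟩, fun ⟨a, b⟩ => ⟨a, (hQ v a).2 b⟩⟩] at h
  rw [← h, Nat.cast_mul, Nat.cast_sub (one_le_sq hσ), Nat.cast_pow, Nat.cast_one] at e
  rw [← mul_left_cancel₀ (by nlinarith) e, Finset.sum_boole, Int.cast_natCast, ← Set.ncard_coe_finset]
  simp

omit [Finite F] [Finite V] in
theorem li_of_ne {v w : V} (hv : B v v = 0) (h : B v w ≠ 0) : LinearIndependent F ![v, w] :=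
  (LinearIndependent.pair_iff' (by rintro rfl; simp at h)).2 fun a e => h (by simp [← e, hv])

omit [Finite F] [Finite V] in
theorem li_of_pt {v w : V} (hv : Pt B v) (hw : Pt B w) (h : pt hw ≠ pt hv) : LinearIndependent F ![v, w] :=
  (LinearIndependent.pair_iff' hv.1).2 fun a e => h ((pt_eq _ _).2 ⟨a, e.symm⟩)

omit [Finite F] [Finite V] in
/-- A transvection mapping `x` into `x^⊥` has its centre in `x^⊥`. -/
theorem Tv.perp (h : IsHerm σ B) {t : SUG B} {u x : V} {c : F} (a : Tv t u c) (hc : c ≠ 0) (hx : B x x = 0)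
    (e : B x (t.1 x) = 0) : B u x = 0 := by
  rw [a x] at e
  simpa [hx, hc, h.eq_zero_comm (u := x) (v := u)] using e

namespace Un

variable (s : Un σ B q n)
include s

/-- Witt (`witt_family_SUG'`; `⟨w, w'⟩^⊥ ⊄ ⟨w, w'⟩` by dimension). -/
theorem pair {v v' w w' : V} (hv : LinearIndependent F ![v, v']) (hw : LinearIndependent F ![w, w'])
    (h1 : B v v = B w w) (h2 : B v' v' = B w' w') (h3 : B v v' = B w w') :
    ∃ g : SUG B, g.1 v = w ∧ g.1 v' = w' := by
  obtain ⟨g, hg, e⟩ := s.herm.witt_family_SUG' hv hw (by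
    intro i j
    fin_cases i <;> fin_cases j <;> simp [h1, h2, h3]
    rw [← s.herm.symm, h3, s.herm.symm]) fun h => by
      have a := finrank_mono h
      rw [s.herm.finrank_perp, finrank_span_eq_card hw, s.dim, Fintype.card_fin] at a
      have := s.n6
      omega
  exact ⟨⟨g, hg⟩, e 0, e 1⟩

/-- Independent scaling of two perpendicular points. -/
theorem sc1 {v w : V} (hv : Pt B v) (hw : B w w = 0) (h : B v w = 0) (hi : w ∉ span F {v}) {a b : F}
    (ha : a ≠ 0) (hb : b ≠ 0) : ∃ g : SUG B, g.1 v = a • v ∧ g.1 w = b • w := by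
  refine s.pair ((LinearIndependent.pair_iff' hv.1).2 fun c e => hi (mem_span_singleton.2 ⟨c, e⟩))
    ((LinearIndependent.pair_iff' (hv.smul ha).1).2 fun c e => hi (mem_span_singleton.2 ⟨b⁻¹ * (c * a), ?_⟩))
    (by simp [hv.2]) (by simp [hw]) (by simp [h])
  rw [mul_smul, mul_smul, e, inv_smul_smul₀ hb]

/-- Scaling of a hyperbolic pair. -/
theorem sc2 {v w : V} (hv : B v v = 0) (hw : B w w = 0) (h : B v w ≠ 0) {a : F} (ha : a ≠ 0) :
    ∃ g : SUG B, g.1 v = a • v ∧ g.1 w = (σ a)⁻¹ • w := s.pair (li_of_ne hv h) (li_of_ne (B := B) (by simp [hv]) (by simp [h, ha])) (by simp [hv]) (by simp [hw])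
    (by simp [ha])

theorem r3g_pts : R3G (SUG B) (isoP B) (NP B) := by
  obtain ⟨e, -, f, -, e0, f0, ef⟩ := s.ex_hyp_perp (U := ⊥) (z := 0) (by simp) (by simp)
  have he : Pt B e := ⟨by rintro rfl; simp at ef, e0⟩
  obtain ⟨e', a, f', b, e1, -, ef'⟩ := s.ex_hyp_perp (U := span F {e}) (z := e)
    (by rw [finrank_span_singleton he.1]; omega) fun _ h _ => h
  rw [mem_perp_singleton] at a b
  refine ⟨fun g => pt_ind fun x hx => pt_ind fun y hy => ?_, fun x y a b => a (s.herm.eq_zero_comm.1 b),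
    fun x a => a x.2, pt_ind fun x hx => pt_ind fun y hy => ?_,
    pt_ind fun x hx => pt_ind fun y hy => pt_ind fun z hz a b => ?_,
    pt_ind fun x hx => pt_ind fun y hy => pt_ind fun z hz a b c d => ?_,
    ⟨pt he, pt (v := f) ⟨by rintro rfl; simp at ef, f0⟩, (np_pt _ _).2 (by simp [ef])⟩,
    pt (v := e') ⟨by rintro rfl; simp at ef', e1⟩, pt he, fun h => ?_,
    fun h => (np_pt _ _).1 h (s.herm.eq_zero_comm.1 a)⟩
  · rw [smul_pt, smul_pt, np_pt, np_pt, b_app]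
    exact id
  · obtain ⟨g, rfl⟩ := s.ex_move hx hy
    exact ⟨g, smul_pt _ _⟩
  · rw [np_pt] at a b
    obtain ⟨g, g1, g2⟩ := s.pair (w := x) (w' := (B x y / B x z) • z) (li_of_ne hx.2 a)
      (li_of_ne (B := B) hx.2 (by simp [a, b])) rfl (by simp [hy.2, hz.2]) (by simp [b])
    exact ⟨g, (smul_pt _ _).trans ((pt_eq _ _).2 ⟨1, by simpa⟩), (smul_pt _ _).trans ((pt_eq _ _).2 ⟨_, g2⟩)⟩
  · rw [np_pt, not_not] at c d
    obtain ⟨g, g1, g2⟩ := s.pair (li_of_pt hx hy a) (li_of_pt hx hz b) rfl (hy.2.trans hz.2.symm) (c.trans d.symm)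
    exact ⟨g, (smul_pt _ _).trans ((pt_eq _ _).2 ⟨1, by simpa⟩), (smul_pt _ _).trans ((pt_eq _ _).2 ⟨1, by simpa⟩)⟩
  · obtain ⟨c, rfl⟩ := (pt_eq _ _).1 h
    simp [b] at ef'

theorem card_pts : ((q : ℤ) ^ 2 - 1) * Nat.card (isoP B) = (q ^ 3 * uu q n + 1) * (q ^ 2 * uu q n - 1) := by
  have h := card_pt (B := B) s.bar fun _ => True
  rw [← s.nI_eq, nI, show {v | Pt B v} = {v | ∃ _ : Pt B v, True} by simp, ← h, Set.ofPred_true, Set.ncard_univ,
    Nat.cast_mul, Nat.cast_sub (one_le_sq s.bar), Nat.cast_pow, Nat.cast_one]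

open Classical in
theorem np_sum [Fintype (isoP B)] (x : isoP B) :
    ∑ p, (if NP B x p then 1 else 0 : ℂ) = ((q ^ 3 * uu q n ^ 2 : ℤ) : ℂ) := by
  induction x using pt_ind with | _ x hx =>
  exact cnt_c s.bar s.q3 _ (fun _ => np_pt hx) (s.cnt_off hx)

theorem k_ne : ((q ^ 3 * uu q n ^ 2 : ℤ) : ℂ) ≠ 0 := by
  have : q ≠ 0 := by have := s.q3; omega
  simp [uu, this]

/-- Isotropic vectors not perpendicular to either of two distinct perpendicular points. -/
theorem cnt_off2 {x y : V} (hx : Pt B x) (hy : Pt B y) (h : B x y = 0) (hi : LinearIndependent F ![x, y]) :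
    ({v | Pt B v ∧ B x v ≠ 0 ∧ B v y ≠ 0}.ncard : ℤ) = (q ^ 2 - 1) * (q * uu q n ^ 2 * (q ^ 2 - 1)) := by
  have h1 := cnt_perp s.herm s.bar (E := span F (Set.range ![x, y])) (span_le.2 fun w hw => mem_perp_span.2 fun w' hw' => by
    obtain ⟨i, rfl⟩ := hw
    obtain ⟨j, rfl⟩ := hw'
    fin_cases i <;> fin_cases j <;> simp [h, hx.2, hy.2, s.herm.eq_zero_comm.1 h])
  have h0 := s.n6
  have h2 := uu_sq (q := q) (n := n) (by omega)
  have h3 : (q : ℤ) ≠ 0 := by have := s.q3; omega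
  have h4 : (q : ℤ) ^ (2 * n) = q ^ 4 * q ^ (2 * (n - 2)) := by rw [← pow_add]; congr 1; omega
  have h5 := Set.ncard_inter_add_ncard_sdiff_eq_ncard {v | Pt B v ∧ B x v ≠ 0} {v | B y v = 0}
  have h6 := Set.ncard_inter_add_ncard_sdiff_eq_ncard {v | Pt B v ∧ B y v = 0} {v | B x v ≠ 0}
  rw [← pt_add_one, finrank_span_eq_card hi, Fintype.card_fin, s.dim, h2.2, show {v | Pt B v ∧ v ∈ perp B
    (span F (Set.range ![x, y]))} = {v | Pt B v ∧ B y v = 0} \ {v | B x v ≠ 0} from Set.ext fun v => by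
      rw [Set.mem_ofPred_eq, mem_perp_span]; simp; tauto] at h1
  rw [show {v | Pt B v ∧ B x v ≠ 0} ∩ {v | B y v = 0} = {v | Pt B v ∧ B y v = 0} ∩ {v | B x v ≠ 0} from
    Set.ext fun v => and_right_comm, show {v | Pt B v ∧ B x v ≠ 0} \ {v | B y v = 0} =
      {v | Pt B v ∧ B x v ≠ 0 ∧ B v y ≠ 0} from Set.ext fun v => by
        simp [and_assoc, s.herm.eq_zero_comm (u := y)]] at h5
  have h7 := s.cnt_off hx
  have h8 := s.cnt_perp1 hy
  rw [← h5] at h7
  rw [← h6] at h8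
  refine mul_left_cancel₀ (pow_ne_zero 5 h3) ?_
  push_cast at h1 h7 h8
  linear_combination q ^ 5 * h7 - q ^ 5 * h8 + q ^ 4 * h1 - h4 - h2.1

/-- `cnt_off`, `card_pt`. -/
theorem np_row [Fintype (isoP B)] :
    rc (NP B) * jc (isoP B) (isoP B) = ((q ^ 3 * uu q n ^ 2 : ℤ) : ℂ) • jc (isoP B) (isoP B) := by
  ext x y
  simpa [rc, jc, Matrix.mul_apply, -Finset.sum_boole] using s.np_sum x

/-- `A² = a + b A + c J` (`span_c`).  `c` = the number of points non-perpendicular to both of two distinct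
perpendicular points `r, r'` `= q³u² - q u²` (`cnt_perp` for `⟨r⟩`, `⟨r'⟩`, `⟨r, r'⟩`: inclusion–exclusion);
`a + c = q³u²` (diagonal); `b` from the row sums `q⁶u⁴ = a + b q³u² + c |P|` (`card_pts`). -/
theorem np_sq [Fintype (isoP B)] [DecidableEq (isoP B)] :
    rc (NP B) * rc (NP B) = ((q * uu q n + -uu q n : ℤ) : ℂ) • rc (NP B) -
      ((q * uu q n * -uu q n : ℤ) : ℂ) • (1 : Matrix (isoP B) (isoP B) ℂ) +
      ((q * uu q n ^ 2 * (q ^ 2 - 1) : ℤ) : ℂ) • jc (isoP B) (isoP B) := by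
  classical
  have r := s.r3g_pts
  have i : ∀ (g : SUG B) x y, NP B (g • x) (g • y) ↔ NP B x y := fun g x y =>
    ⟨fun h => by simpa using r.inv g⁻¹ _ _ h, r.inv g x y⟩
  obtain ⟨a, b, c, e⟩ := span_c r (rc (NP B) * rc (NP B)) fun g x y => by
    simp only [Matrix.mul_apply, rc, Matrix.of_apply]
    exact (Fintype.sum_equiv (MulAction.toPerm g) _ _ fun z => by simp only [MulAction.toPerm_apply, i]).symm
  obtain ⟨x, y, n1, n2⟩ := r.ex2
  have e1 := congrFun (congrFun e x) x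
  have e2 := congrFun (congrFun e x) y
  have e3 := congrArg (fun M => (M * jc (isoP B) (isoP B)) x x) e
  have e4 := congrArg (Int.cast : ℤ → ℂ) s.card_pts
  have e5 := s.k_ne
  simp only [Matrix.mul_assoc, Matrix.add_mul, Matrix.smul_mul, Matrix.mul_smul, s.np_row, Matrix.one_mul] at e3
  simp only [Matrix.mul_apply, rc, jc, Matrix.of_apply, Matrix.add_apply, Matrix.smul_apply, Matrix.one_apply, n1, n2,
    r.irr, ite_zero_mul_ite_zero, smul_eq_mul, mul_one, mul_zero, if_true, if_false, Finset.sum_const, nsmul_eq_mul,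
    Finset.card_univ, ← Nat.card_eq_fintype_card, add_zero, zero_add,
    show ∀ z, NP B x z ∧ NP B z x ↔ NP B x z from fun z => and_iff_left_of_imp (r.symm _ _)] at e1 e2 e3
  rw [s.np_sum] at e1
  induction x using pt_ind with | _ x hx =>
  induction y using pt_ind with | _ y hy =>
  rw [cnt_c s.bar s.q3 _ (fun v hv => by rw [np_pt, np_pt])
    (s.cnt_off2 hx hy (by rwa [np_pt, not_not] at n2) (li_of_pt hx hy n1.symm))] at e2
  rw [e]
  push_cast at *
  rw [show a = -(q * uu q n * -uu q n) by linear_combination e2 - e1, show b = q * uu q n + -uu q n from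
    mul_right_cancel₀ e5 (by linear_combination e1 - e2 - e3 - q * uu q n ^ 2 * e4 + Nat.card (isoP B) * e2), ← e2]
  module

/-- The class sum on points: `span_c`; a transvection does not map a point to a different perpendicular
point, so `c = 0`; it fixes `r` iff its centre is `⊥ r` (`cardT`, `cnt_perp1`); `b` from the row sums (`nT_eq`). -/
theorem mT_pts [Fintype (isoP B)] [DecidableEq (isoP B)] : ∃ a : ℤ,
    (q + 1) * a = q ^ 3 * uu q n ^ 2 - q ^ 3 * uu q n + q ^ 2 * uu q n - 1 ∧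
      mT B (isoP B) = (a : ℂ) • (1 : Matrix (isoP B) (isoP B) ℂ) + ((q : ℂ) - 1) • rc (NP B) := by
  classical
  have r := s.r3g_pts
  have := @finite_sug _ _ _ _ _ σ B _ _
  have := Fintype.ofFinite (SUG B)
  obtain ⟨a, b, c, e⟩ := span_c r (mT B (isoP B)) fun g x y => congrArg Nat.cast
    (Set.ncard_congr (fun t _ => g⁻¹ * t * g⁻¹⁻¹) (fun t h => ⟨h.1.conj _, by simp [mul_smul, h.2]⟩)
      (fun _ _ _ _ e => by simpa using e) fun t h => ⟨g * t * g⁻¹, ⟨h.1.conj _, by simp [mul_smul, h.2]⟩, by group⟩)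
  obtain ⟨x, y, n1, n2⟩ := r.ex2
  have e1 := congrFun (congrFun e x) x
  have e2 := congrFun (congrFun e x) y
  have e3 := congrArg (fun M => (M * jc (isoP B) (isoP B)) x x) e
  have e4 := Finset.card_eq_sum_card_fiberwise (f := fun t : SUG B => t • x) (s := Finset.univ.filter IsT)
    (t := Finset.univ) fun _ _ => Finset.mem_univ _
  have e5 := s.k_ne
  have e6 := congrArg (Nat.cast : ℕ → ℂ) s.nT_eq
  have e7 := congrArg (Int.cast : ℤ → ℂ) s.nI_eq
  simp only [Matrix.add_mul, Matrix.smul_mul, s.np_row, Matrix.one_mul] at e3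
  simp only [Finset.filter_filter, ← Set.ncard_coe_finset, Finset.coe_filter, Finset.mem_univ, true_and] at e4
  simp only [Matrix.mul_apply, mT, rc, jc, Matrix.of_apply, Matrix.add_apply, Matrix.smul_apply, Matrix.one_apply, n1,
    n2, r.irr, smul_eq_mul, mul_one, mul_zero, if_true, if_false, add_zero, zero_add, ← Nat.cast_sum, ← e4] at e1 e2 e3
  induction x using pt_ind with | _ x hx =>
  induction y using pt_ind with | _ y hy =>
  have k : ∀ (t : SUG B) {z} (hz : Pt B z), B x z = 0 → (IsT t ∧ t • pt hx = pt hz ↔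
      (∃ u c, Pt B u ∧ c ≠ 0 ∧ Tv t u c ∧ B x u = 0) ∧ pt hx = pt hz) := fun t z hz h => by
    refine ⟨fun ⟨⟨u, c, u1, u2, u3⟩, e⟩ => ?_, fun ⟨⟨u, c, u1, u2, u3, u4⟩, e⟩ => ⟨⟨u, c, u1, u2, u3⟩, ?_⟩⟩
    · obtain ⟨k, e'⟩ := (pt_eq _ _).1 ((smul_pt _ _).symm.trans e)
      have := u3.perp s.herm u2 hx.2 (by simp [e', h])
      exact ⟨⟨u, c, u1, u2, u3, s.herm.eq_zero_comm.1 this⟩, (pt_eq _ _).2 ⟨k, (u3.fix this).symm.trans e'⟩⟩
    · rw [← e, smul_pt, pt_eq]
      exact ⟨1, by rw [u3.fix (s.herm.eq_zero_comm.1 u4), one_smul]⟩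
  simp only [k _ hy (by rwa [np_pt, not_not] at n2), n1, and_false, Set.ofPred_false, Set.ncard_empty,
    Nat.cast_zero] at e2
  subst e2
  simp only [k _ hx hx.2, and_true, add_zero] at e1
  have e8 := congrArg (Nat.cast : ℕ → ℤ) (cardT s.herm s.bar (B x · = 0) fun a v _ h => by simp [h])
  rw [s.cnt_perp1 hx, Nat.cast_mul, Nat.cast_succ] at e8
  refine ⟨_, e8, ?_⟩
  have e9 := congrArg (Int.cast : ℤ → ℂ) e8
  have q1 : (q : ℂ) + 1 ≠ 0 := by exact_mod_cast Nat.succ_ne_zero q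
  rw [nT] at e6
  push_cast at *
  rw [e, e1, show b = q - 1 from mul_right_cancel₀ (mul_ne_zero q1 e5) (by
    linear_combination (q + 1) * (e1 - e3) + e6 + e7 - e9), zero_smul, add_zero]

end Un

end Cfsg.Lib.R3U
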