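import Cfsg.Agent.Lib.R3U.HU

/-! S2196, case II: products of three transvections in `H`. -/

set_option autoImplicit false
set_option linter.unusedSectionVars false

namespace Cfsg.Lib.R3U

open Cfsg.Lib.Unitary Cfsg.Lib.R3S Module Submodule MulAction

variable {F V : Type*} [Field F] [AddCommGroup V] [Module F V] {σ : F →+* F}
  {B : V →ₛₗ[σ] V →ₗ[F] F} {q n : ℕ} [Finite F] [Finite V] {H : Subgroup (SUG B)}

/-- All the local exclusions. -/
structure Loc (H : Subgroup (SUG B)) : Prop where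
  c : NoC H
  q1 : Q1 H
  nb : NoB H
  nw : NoW H

theorem ta_app {t t' : SUG B} {v w : V} {a b : F} (hwv : B w v = 0) (tt : Tv t v a) (tt' : Tv t' w b) (x : V) :
    (t' * t).1 x = x + (a * B v x) • v + (b * B w x) • w := by
  simp only [mul_app, tt' _, tt x, map_add, map_smul, hwv, smul_zero, add_zero]

theorem Tv.lnG {t : SUG B} {v : V} {a : F} (tt : Tv t v a) {U : Submodule F V} (h : v ∈ U) : t ∈ lnG B U := by
  rintro _ ⟨x, rfl⟩
  rw [dev_apply, tt, add_sub_cancel_left]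
  exact smul_mem _ _ h

theorem Loc.ta_aux (h : IsHerm σ B) (l : Loc H) {s r : SUG B} {u z e : V} {c : F} (hu : Pt B u) (hc : c ≠ 0)
    (hz : Pt B z) (he : B e e = 0) (hez : B e z = 0) (huz : B u z = 0) (p : B u e ≠ 0) (ts : Tv s u c)
    (hr : r ∈ lnG B (span F {z, e})) (re : r.1 e = e) (m : s⁻¹ * r ∈ H) : False := by
  have p' : B e u ≠ 0 := fun k => p (h.eq_zero_comm.1 k)
  have g : B u u * B e e - B u e * B e u ≠ 0 := by simp [hu.2, p, p']
  obtain ⟨k1, k2⟩ := hu_sq h l.c l.q1 l.nb l.nw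
    (finrank_span_pair_of_linearIndependent (linearIndependent_pair_of_gram g)) (disjoint_perp_pair_of_gram g) hz
    (mem_perp_span.2 (by simp [huz, hez])) m ((lnG B _).mul_mem (inv_mem (ts.lnG (mem_sup_left (subset_span (by simp)))))
      (le_trans hr (span_le.2 (Set.pair_subset (mem_sup_right (mem_span_singleton_self z))
        (mem_sup_left (subset_span (by simp)))))))
  obtain ⟨κ, β, ru⟩ := mem_span_pair.1 (hr ⟨u, rfl⟩)
  have i := ts.inv hu.2
  have ae : (s⁻¹ * r).1 e = e + (-c * B u e) • u := by rw [mul_app, re, i]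
  have k := congrArg (fun d : SUG B => d.1 e) k1
  simp only [sq, mul_app (s⁻¹ * r), ae, map_add, map_smul] at k
  rw [mul_app, (sub_eq_iff_eq_add.1 ru.symm : r.1 u = _), i] at k
  have e1 := congrArg (B u) k
  have e2 := congrArg (B e) k
  simp only [map_add, map_smul, smul_eq_mul, hu.2, he, hez, huz, one_app] at e1 e2
  rw [k2 ((mul_eq_zero_iff_left (mul_ne_zero (mul_ne_zero hc p) p')).1 (by
    linear_combination -e2 - c * B e u * e1)), one_app] at ae
  simp [hc, p, hu.1] at ae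

/-- `u` is not perpendicular to `ℓ = ⟨v, w⟩`.  Write `ℓ = ⟨z, e⟩` with `z ⊥ u`, `B u e ≠ 0`; `W = ⟨u, e⟩` is hyperbolic,
`z ⊥ W`, `ln a ≤ W + F z` for `a = s⁻¹ t' t`.  `hu_sq`: `a² = 1`.  `t' t` fixes `e` and `t' t u = u + β e + κ z`.
`a e = e - c φ u` (`φ = B u e`), `a² e = e - 2 c φ u - c φ β (e - c φ u) - c φ κ z`, so `β = 0`, `2 = 0`, hence `a = 1`,
but `a e ≠ e`. -/
theorem Loc.ta_perp (h : IsHerm σ B) (l : Loc H) {s t t' : SUG B} {u v w : V} {c a b : F} (hu : Pt B u) (hc : c ≠ 0)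
    (hv : Pt B v) (hw : B w w = 0) (hvw : B v w = 0) (hi : w ∉ span F {v}) (ts : Tv s u c) (tt : Tv t v a)
    (tt' : Tv t' w b) (m : s⁻¹ * (t' * t) ∈ H) : B u v = 0 ∧ B u w = 0 := by
  have hwv := h.eq_zero_comm.1 hvw
  have r : ∀ {U}, v ∈ U → w ∈ U → t' * t ∈ lnG B U := fun a b => mul_mem (tt'.lnG b) (tt.lnG a)
  have p : B u v = 0 := by_contra fun p => l.ta_aux h (z := w - (B u w / B u v) • v) hu hc
    ⟨fun e => hi (mem_span_singleton.2 ⟨_, (sub_eq_zero.1 e).symm⟩), by simp [hw, hvw, hwv, hv.2]⟩ hv.2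
    (by simp [hvw, hv.2]) (by simp [p]) p ts (r (subset_span (by simp)) (mem_span_pair.2 ⟨1, B u w / B u v, by simp⟩))
    (by simp only [ta_app hwv tt tt', hv.2, hwv, mul_zero, zero_smul, add_zero]) m
  exact ⟨p, by_contra fun p' => l.ta_aux h hu hc hv hw hwv p p' ts (r (subset_span (by simp)) (subset_span (by simp)))
    (by simp only [ta_app hwv tt tt', hw, hvw, mul_zero, zero_smul, add_zero]) m⟩

/-- If `u ∈ ⟨v, w⟩` then `s⁻¹ t' t` is `C2` or `1`; `s = t' t` is impossible: take `x ⊥ v`, `x ⊥̸ w` and `x' ⊥ w`,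
`x' ⊥̸ v` (`exists_apply_eq`), then `w, v ∈ F u`. -/
theorem Loc.ta_out (h : IsHerm σ B) (l : Loc H) {s t t' : SUG B} {u v w : V} {c a b : F} (ha : a ≠ 0) (hb : b ≠ 0)
    (hv : Pt B v) (hw : B w w = 0) (hvw : B v w = 0) (hi : w ∉ span F {v}) (ts : Tv s u c) (tt : Tv t v a)
    (tt' : Tv t' w b) (m : s⁻¹ * (t' * t) ∈ H) : u ∉ span F {v, w} := fun hu => by
  have e : s = t' * t := inv_mul_eq_one.1 (by_contra fun n => l.c _ m ⟨n, v, w, hv.2, hw, hvw, fun x =>
    (lnG B _).mul_mem (inv_mem (ts.lnG hu)) (mul_mem (tt'.lnG (subset_span (by simp))) (tt.lnG (subset_span (by simp))))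
      ⟨x, rfl⟩⟩)
  have i : LinearIndependent F ![v, w] := (LinearIndependent.pair_iff' hv.1).2 fun c e => hi (mem_span_singleton.2 ⟨c, e⟩)
  obtain ⟨x, hx⟩ := h.exists_apply_eq i ![0, 1]
  obtain ⟨y, hy⟩ := h.exists_apply_eq i ![1, 0]
  have k := fun x => (ts x).symm.trans (e ▸ ta_app (h.eq_zero_comm.1 hvw) tt tt' x)
  have e1 := k x
  have e2 := k y
  rw [show B v x = 0 from hx 0, show B w x = 1 from hx 1] at e1
  rw [show B v y = 1 from hy 0, show B w y = 0 from hy 1] at e2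
  have := (LinearIndependent.pair_iff.1 i (c * B u x * a) (-(c * B u y * b))
    (by linear_combination (norm := module) (c * B u y) • e1 - (c * B u x) • e2)).1
  rw [(mul_eq_zero_iff_right ha).1 this] at e1
  exact hb (LinearIndependent.pair_iff.1 i 0 b (by linear_combination (norm := module) -e1)).2

/-- `g₀ = t_u(-c) t_w(b)` lies in `Q_y` for `y = α u + β w` with `c β σ β = b α σ α`, `α ≠ 0`: for `x ⊥ y`,
`σ α B u x = - σ β B w x`, and `-c B u x • u + b B w x • w ∈ F y`. -/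
theorem qz_of_tv (h : IsHerm σ B) {s t' : SUG B} {u w : V} {c b α β : F} (hu : B u u = 0) (hw : B w w = 0)
    (huw : B u w = 0) (ts : Tv s u c) (tt' : Tv t' w b) (h0 : α ≠ 0) (e : c * (β * σ β) = b * (α * σ α)) :
    Qz (s⁻¹ * t') (α • u + β • w) := by
  have k : ∀ x, (s⁻¹ * t').1 x = x + (b * B w x) • w + (-c * B u x) • u := fun x => by
    simp only [mul_app, ts.inv hu _, tt' x, map_add, map_smul, huw, smul_zero, add_zero]
  refine ⟨by rw [k]; simp [hu, hw, huw, h.eq_zero_comm.1 huw], fun x hx => ⟨-c * B u x / α, ?_⟩⟩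
  simp only [map_add, map_smulₛₗ, LinearMap.add_apply, LinearMap.smul_apply, smul_eq_mul] at hx
  rw [k, smul_add, smul_smul, smul_smul, div_mul_cancel₀ _ h0, show -c * B u x / α * β = b * B w x from ?_]
  · module
  rw [div_mul_eq_mul_div, div_eq_iff h0]
  exact mul_left_cancel₀ ((map_ne_zero σ).2 h0) (by linear_combination B w x * e - c * β * hx)

/-- `z = u + β w` with `N β = b / c` (real, `exists_norm_eq`); `qz_of_tv`. -/
theorem Loc.ta_ex (h : IsHerm σ B) (l : Loc H) {s t t' : SUG B} {u v w : V} {c a b : F} (hu : Pt B u) (hc : c ≠ 0)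
    (ha : a ≠ 0) (hb : b ≠ 0) (hv : Pt B v) (hw : B w w = 0) (hvw : B v w = 0) (hi : w ∉ span F {v})
    (ts : Tv s u c) (tt : Tv t v a) (tt' : Tv t' w b) (m : s⁻¹ * (t' * t) ∈ H) :
    ∃ z, Pt B z ∧ Ee (s⁻¹ * (t' * t)) z v a := by
  obtain ⟨p1, p2⟩ := l.ta_perp h hu hc hv hw hvw hi ts tt tt' m
  have o := l.ta_out h ha hb hv hw hvw hi ts tt tt' m
  obtain ⟨β, e⟩ := h.exists_norm_eq (μ := b / c) (by
    rw [map_div₀, eq_neg_of_add_eq_zero_right (ts.skew h hu),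
      eq_neg_of_add_eq_zero_right (tt'.skew h ⟨fun e : w = 0 => hi (e ▸ zero_mem _), hw⟩), neg_div_neg_eq])
  obtain ⟨k1, k2⟩ := qz_of_tv h hu.2 hw p2 ts tt' one_ne_zero (β := β) (by simp [e, mul_div_cancel₀ _ hc])
  have zv : B ((1 : F) • u + β • w) v = 0 := by simp [p1, h.eq_zero_comm.1 hvw]
  refine ⟨(1 : F) • u + β • w, ⟨fun e => o (mem_span_pair.2 ⟨0, -β, by linear_combination (norm := module) -e⟩),
    by simp [hu.2, hw, p2, h.eq_zero_comm.1 p2]⟩, zv, hv.2, fun k => ?_, ha, ?_, fun x hx => ?_⟩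
  · obtain ⟨d, k⟩ := mem_span_singleton.1 k
    have d0 : d ≠ 0 := by rintro rfl; exact hv.1 (by rw [← k, zero_smul])
    exact o ((smul_mem_iff _ d0).1 (mem_span_pair.2 ⟨1, -(d * β), by linear_combination (norm := module) -k⟩))
  · rw [← mul_assoc, mul_app, tt.fix (h.eq_zero_comm.1 zv), k1]
  · rw [← mul_assoc, mul_app, ← tt x]
    exact k2 _ (by rw [tt, map_add, map_smul, hx, zv, smul_zero, add_zero])

/-- `k = s⁻¹ t' t` fixes `v`; `k e' = e' + y`, `y = α u + β w`, `α = -c B u e'`, `β = b B w e'`.  Let `β ≠ 0`.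
`k g k⁻¹` is `Ee` at `v` with centre `e' + y`, so `B e' y = 0` (`NoW.l1`), which is the relation of `qz_of_tv` (`σ c = -c`,
`σ b = -b`), `α ≠ 0`.  `y ∉ ⟨v, e'⟩` (`u, v, w` are independent, `B w e' ≠ 0`).  `Ed g v e' f'` has `B f' e' = 0` (`NoB`);
`Q1.comm`, `Ed.com` give `B (e' + y) f' = 0`, so `g y = y`.  `t` commutes with `g` and `g₀ = s⁻¹ t'`, so
`k g k⁻¹ g⁻¹ = g₀ (g g₀⁻¹ g⁻¹) ∈ H ∩ Q_y = 1`, and `Ee.uniq` gives `e' + y ∈ ⟨v, e'⟩`. -/
theorem Loc.ta_all (h : IsHerm σ B) (l : Loc H) {s t t' : SUG B} {u v w : V} {c a b : F} (hu : Pt B u) (hc : c ≠ 0)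
    (ha : a ≠ 0) (hb : b ≠ 0) (hv : Pt B v) (hw : B w w = 0) (hvw : B v w = 0) (hi : w ∉ span F {v})
    (ts : Tv s u c) (tt : Tv t v a) (tt' : Tv t' w b) (m : s⁻¹ * (t' * t) ∈ H) {g : SUG B} (hg : g ∈ H) {e' : V}
    {b' : F} (x : Ee g v e' b') : B w e' = 0 := by_contra fun p => by
  obtain ⟨p1, p2⟩ := l.ta_perp h hu hc hv hw hvw hi ts tt tt' m
  have o := l.ta_out h ha hb hv hw hvw hi ts tt tt' m
  have hwv := h.eq_zero_comm.1 hvw
  have kv : (s⁻¹ * (t' * t)).1 v = v := by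
    rw [mul_app, mul_app, tt.fix hv.2, tt'.fix hwv, (ts.inv hu.2).fix p1]
  have ke : (s⁻¹ * (t' * t)).1 e' = e' + ((-c * B u e') • u + (b * B w e') • w) := by
    simp only [mul_app s⁻¹, ta_app hwv tt tt', ts.inv hu.2 _, x.1, map_add, map_smul, p2, smul_zero, mul_zero, zero_smul,
      add_zero]
    module
  have m' := mul_mem (mul_mem m hg) (inv_mem m)
  have x' := x.conj (s⁻¹ * (t' * t))
  rw [kv, ke] at x'
  have r := l.nw.l1 h hg m' hv x x'
  have r' := r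
  simp only [map_add, map_smul, x.2.1, zero_add, smul_eq_mul, ← h.symm u e', ← h.symm w e'] at r'
  have a0 : -c * B u e' ≠ 0 := fun e => mul_ne_zero (mul_ne_zero hb p) ((map_ne_zero σ).2 p) (by
    linear_combination r' - σ (B u e') * e)
  have qz := qz_of_tv h hu.2 hw p2 ts tt' a0 (β := b * B w e') (by
    rw [map_mul, map_mul, map_neg, eq_neg_of_add_eq_zero_right (ts.skew h hu),
      eq_neg_of_add_eq_zero_right (tt'.skew h ⟨fun e : w = 0 => hi (e ▸ zero_mem _), hw⟩)]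
    linear_combination -b * c * r')
  have y1 : B v ((-c * B u e') • u + (b * B w e') • w) = 0 := by simp [hvw, h.eq_zero_comm.1 p1]
  have y2 : e' + ((-c * B u e') • u + (b * B w e') • w) ∉ span F {v, e'} := fun k => by
    obtain ⟨i, j, k⟩ := mem_span_pair.1 k
    have := congrArg (B w) k
    simp only [map_add, map_smul, hwv, hw, h.eq_zero_comm.1 p2, smul_eq_mul, mul_zero, zero_add, add_zero] at this
    rw [(mul_eq_right₀ p).1 this] at k
    exact o ((smul_mem_iff _ a0).1 (mem_span_pair.2 ⟨i, -(b * B w e'), by linear_combination (norm := module) k⟩))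
  have y3 : Pt B ((-c * B u e') • u + (b * B w e') • w) :=
    ⟨fun e => y2 (by rw [e, add_zero]; exact subset_span (by simp)), by simp [hu.2, hw, p2, h.eq_zero_comm.1 p2]⟩
  generalize (-c * B u e') • u + (b * B w e') • w = y at *
  obtain ⟨f, γ, d⟩ := x.ed h hv
  have d' := d.conj (s⁻¹ * (t' * t))
  rw [kv, ke] at d'
  have fe : B f e' = 0 := by simpa [d.app_e, hv.1] using l.nb g hg v e' b' hv x
  obtain ⟨i, k⟩ := mem_span_singleton.1 (d.com h hv d' r (l.q1.comm h hg m' hv x x' r))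
  have yf : B (e' + y) f = 0 := by_contra fun n => y2 ((smul_mem_iff _ (mul_ne_zero d.b0 n)).1
    (mem_span_pair.2 ⟨i, _, by rw [k, sub_add_cancel]⟩))
  rw [map_add, x.2.1, zero_add] at r
  rw [map_add, LinearMap.add_apply, h.eq_zero_comm.1 fe, zero_add] at yf
  have gy : g.1 y = y := by simp [d.app, y1, r, h.eq_zero_comm.1 yf]
  have tg : g * t * g⁻¹ = t := (tt.conj g).eq (x.2.2.2.2.1.symm ▸ tt)
  have := qz.mul y3.2 (gy ▸ qz.inv.conj g)
  rw [show s⁻¹ * t' * (g * (s⁻¹ * t')⁻¹ * g⁻¹) = s⁻¹ * (t' * t) * g * (s⁻¹ * (t' * t))⁻¹ * g⁻¹ by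
    nth_rw 1 [← tg]; group] at this
  exact y2 (x.uniq h hv (mul_inv_eq_one.1 (l.q1 _ (mul_mem m' (inv_mem hg)) y y3 this) ▸ x'))

end Cfsg.Lib.R3U
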